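import Cfsg.Agent.Lib.DG.Count

/-!
# The anisotropic kernels (row DG-Aniso, see notes/DG.md)
-/

set_option autoImplicit false

open scoped ComplexConjugate Matrix
open Module Cfsg

namespace Cfsg.Agent.DG

variable {F : Type} [Field F] [Finite F]

/-- the zero space -/
def zeroFm (sy : Bool) (F : Type) [Field F] : Fm sy F (Fin 0 → F) where
  B := 0
  Q _ := 0
  add := by simp
  smul := by simp
  symm := by simp
  self := by simp
  qz := by simp
  nd x _ := Subsingleton.elim _ _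

/-- the line `x ^ 2` -/
def lineFm (h : (2 : F) ≠ 0) : Fm false F F where
  B := (2 : F) • LinearMap.mul F F
  Q x := x ^ 2
  add x y := by simp [kap]; ring
  smul c x := by simp; ring
  symm x y := by simp [eps, mul_comm]
  self x := by simp [pow_two]
  qz := by simp
  nd x hx := by simpa [h] using hx 1

/-- the binary form `x ^ 2 + a x y + b y ^ 2` is anisotropic -/
def AnB (a b : F) : Prop := ∀ z₁ z₂ : F, z₁ ^ 2 + a * z₁ * z₂ + b * z₂ ^ 2 = 0 → z₁ = 0 ∧ z₂ = 0

theorem AnB.disc {a b : F} (h : AnB a b) : a ^ 2 - 4 * b ≠ 0 := fun e => by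
  obtain ⟨h1, h2⟩ := h (-a) 2 (by linear_combination -e)
  obtain ⟨s, hs⟩ := FiniteField.isSquare_of_char_two
    (CharP.ringChar_of_prime_eq_zero Nat.prime_two h2) b
  exact one_ne_zero (h s 1 (by linear_combination b * h2 - s * h1 - hs)).2

/-- the anisotropic plane -/
def planeFm {a b : F} (h : AnB a b) : Fm false F (F × F) where
  B := LinearMap.mk₂ F (fun x y => 2 * x.1 * y.1 + a * (x.1 * y.2 + x.2 * y.1) + 2 * b * x.2 * y.2)
    (fun x x' y => by simp; ring) (fun c x y => by simp; ring) (fun x y y' => by simp; ring)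
    (fun c x y => by simp; ring)
  Q x := x.1 ^ 2 + a * x.1 * x.2 + b * x.2 ^ 2
  add x y := by simp [kap]; ring
  smul c x := by simp; ring
  symm x y := by simp [eps]; ring
  self x := by simp; ring
  qz := by simp
  nd x hx := by
    have h1 := hx (1, 0)
    have h2 := hx (0, 1)
    simp only [LinearMap.mk₂_apply] at h1 h2
    have e1 : (a ^ 2 - 4 * b) * x.1 = 0 := by linear_combination a * h2 - 2 * b * h1
    have e2 : (a ^ 2 - 4 * b) * x.2 = 0 := by linear_combination a * h1 - 2 * h2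
    exact Prod.ext ((mul_eq_zero.mp e1).resolve_left h.disc)
      ((mul_eq_zero.mp e2).resolve_left h.disc)

theorem zero_aniso (sy : Bool) : (zeroFm sy F).Aniso := fun _ _ => Subsingleton.elim _ _

theorem zero_tp_true : (zeroFm true F).tp = Nat.card F := by simp [Fm.tp]

theorem zero_tp_false : (zeroFm false F).tp = 1 := by simp [Fm.tp]

theorem zero_card (sy : Bool) : Nat.card (zeroFm sy F).O = 1 :=
  Nat.card_eq_one_iff_unique.2 ⟨⟨fun _ _ => Fm.O_ext fun _ => Subsingleton.elim _ _⟩, ⟨1⟩⟩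

theorem zero_NQ {c : F} (hc : c ≠ 0) : (zeroFm false F).NQ c = 0 :=
  Nat.card_eq_zero.2 (.inl ⟨fun v => hc v.2.symm⟩)

theorem line_aniso (h : (2 : F) ≠ 0) : (lineFm h).Aniso := fun _ hv => pow_eq_zero_iff two_ne_zero |>.1 hv

theorem line_tp (h : (2 : F) ≠ 0) : (lineFm h).tp = Nat.card F := by simp [Fm.tp]

theorem card_dvd_two {X : Type*} [Nonempty X] (p : X → Prop) (hp : Function.Injective p) :
    Nat.card X ∣ 2 := by
  have := Finite.of_injective p hp
  have h1 : Nat.card X ≤ 2 := (Nat.card_le_card_of_injective p hp).trans (by simp)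
  have h2 := Nat.card_pos (α := X)
  interval_cases Nat.card X <;> norm_num

theorem line_card (h : (2 : F) ≠ 0) : Nat.card (lineFm h).O ∣ 2 :=
  card_dvd_two (fun g => g.1 1 = 1) fun g g' e => by
    have k : ∀ g : (lineFm h).O, g.1 1 = 1 ∨ g.1 1 = -1 := fun g =>
      sq_eq_sq_iff_eq_or_eq_neg.1 (g.2.1 1)
    have : g.1 1 = g'.1 1 := by
      rcases k g with h1 | h1
      · exact h1.trans (e.mp h1).symm
      · exact (k g').elim (fun h2 => (e.mpr h2).trans h2.symm) fun h2 => h1.trans h2.symm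
    exact Fm.O_ext fun z => by rw [← mul_one z, ← smul_eq_mul, map_smul, map_smul, this]

variable {a b : F} (h : AnB a b)

theorem plane_aniso : (planeFm h).Aniso := fun v hv => Prod.ext (h _ _ hv).1 (h _ _ hv).2

theorem plane_tp : (planeFm h).tp = Nat.card F ^ 2 := by simp [Fm.tp, pow_two]

theorem plane_univ : (planeFm h).Univ := fun c _ => by
  let _ := Fintype.ofFinite F
  by_cases h2 : (2 : F) = 0
  · obtain ⟨s, hs⟩ := FiniteField.isSquare_of_char_two
      (CharP.ringChar_of_prime_eq_zero Nat.prime_two h2) c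
    exact ⟨(s, 0), by simp [planeFm, hs, pow_two]⟩
  obtain ⟨u, y, e⟩ := FiniteField.exists_root_sum_quadratic (f := Polynomial.X ^ 2)
    (g := Polynomial.C (-(a ^ 2 - 4 * b)) * Polynomial.X ^ 2 - Polynomial.C (4 * c))
    (Polynomial.degree_X_pow 2) (by
      rw [Polynomial.degree_sub_C] <;> rw [Polynomial.degree_C_mul_X_pow _ (neg_ne_zero.2 h.disc)]
      exacts [rfl, by norm_num])
    (FiniteField.odd_card_of_char_ne_two fun e => h2 (by
      have := ringChar.Nat.cast_ringChar (R := F)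
      rwa [e] at this))
  simp only [Polynomial.eval_sub, Polynomial.eval_mul, Polynomial.eval_pow, Polynomial.eval_X,
    Polynomial.eval_C] at e
  refine ⟨((u - a * y) / 2, y), ?_⟩
  simp only [planeFm]
  field_simp
  linear_combination e

theorem plane_sim (c : Fˣ) : ∃ s : (F × F) ≃ₗ[F] (F × F),
    (∀ x, (planeFm h).Q (s x) = c * (planeFm h).Q x) ∧
      ∀ x y, (planeFm h).B (s x) (s y) = c * (planeFm h).B x y := by
  obtain ⟨v, hv⟩ := plane_univ h c c.ne_zero
  let m : (F × F) →ₗ[F] (F × F) :=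
    { toFun x := (v.1 * x.1 - b * v.2 * x.2, v.1 * x.2 + v.2 * x.1 + a * v.2 * x.2)
      map_add' x y := by ext <;> simp <;> ring
      map_smul' c x := by ext <;> simp <;> ring }
  have hQ : ∀ x, (planeFm h).Q (m x) = c * (planeFm h).Q x := fun x => by
    rw [← hv]; simp only [planeFm, m, LinearMap.coe_mk, AddHom.coe_mk]; ring
  refine ⟨LinearEquiv.ofInjectiveEndo m ((injective_iff_map_eq_zero m).2 fun x hx => plane_aniso h x
    ((mul_eq_zero.1 ((hQ x).symm.trans (by rw [hx, Fm.Q_zero]))).resolve_left c.ne_zero)), hQ,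
    fun x y => ?_⟩
  change (planeFm h).B (m x) (m y) = _
  rw [← hv]
  simp only [planeFm, m, LinearMap.coe_mk, AddHom.coe_mk, LinearMap.mk₂_apply]
  ring

theorem plane_NQ {c : F} (hc : c ≠ 0) : (planeFm h).NQ c = Nat.card F + 1 := by
  classical
  let _ := Fintype.ofFinite F
  have k : ∀ d : F, d ≠ 0 → (planeFm h).NQ d = (planeFm h).NQ 1 := fun d hd => by
    obtain ⟨s, hs, -⟩ := plane_sim h (Units.mk0 d hd)
    exact (Nat.card_congr (s.toEquiv.subtypeEquiv fun x => by
      simp [hs, mul_eq_left₀ hd])).symm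
  have k0 : (planeFm h).NQ 0 = 1 := Nat.card_eq_one_iff_unique.2
    ⟨⟨fun x y => Subtype.ext ((plane_aniso h _ x.2).trans (plane_aniso h _ y.2).symm)⟩,
      ⟨⟨0, Fm.Q_zero _⟩⟩⟩
  have e := Nat.card_congr (Equiv.sigmaFiberEquiv (planeFm h).Q)
  rw [Nat.card_sigma, Nat.card_prod] at e
  change ∑ d, (planeFm h).NQ d = _ at e
  rw [← Finset.add_sum_erase _ _ (Finset.mem_univ 0),
    Finset.sum_congr rfl fun d hd => k d (Finset.ne_of_mem_erase hd), Finset.sum_const,
    Finset.card_erase_of_mem (Finset.mem_univ _), Finset.card_univ, ← Nat.card_eq_fintype_card,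
    smul_eq_mul] at e
  obtain ⟨n, hn⟩ := Nat.exists_eq_add_of_lt (Finite.one_lt_card (α := F))
  rw [k c hc]
  rw [k0, hn] at e
  rw [hn]
  exact Nat.eq_of_mul_eq_mul_left (show 0 < 1 + n by omega) (by
    rw [Nat.add_sub_cancel] at e; nlinarith)

theorem plane_card : Nat.card (planeFm h).O ∣ 2 * (Nat.card F + 1) := by
  have h1 : (planeFm h).Q (1, 0) = 1 := by simp [planeFm]
  have h2 : MulAction.orbit (planeFm h).O ((1, 0) : F × F) = {v | (planeFm h).Q v = 1} :=
    Set.ext fun v => ⟨fun ⟨g, hg⟩ => hg ▸ (g.2.1 _).trans h1, fun hv =>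
      Fm.trans_Q (h1.trans_ne one_ne_zero) (h1.trans hv.symm)⟩
  rw [← (MulAction.stabilizer (planeFm h).O ((1, 0) : F × F)).card_mul_index,
    MulAction.index_stabilizer, h2, ← plane_NQ h one_ne_zero]
  refine Nat.mul_dvd_mul_right (card_dvd_two (fun g => g.1.1 (0, 1) = (0, 1)) fun g g' e => ?_) _
  have k : ∀ g : MulAction.stabilizer (planeFm h).O ((1, 0) : F × F),
      g.1.1 (0, 1) = (0, 1) ∨ g.1.1 (0, 1) = (a, -1) := fun g => by
    have h3 := g.1.2.1 (0, 1)
    have h4 := g.1.2.2 (1, 0) (0, 1)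
    rw [show g.1.1 (1, 0) = (1, 0) from g.2] at h4
    generalize g.1.1 (0, 1) = y at *
    obtain ⟨u, w⟩ := y
    simp only [planeFm, LinearMap.mk₂_apply] at h3 h4
    have h5 : (u ^ 2 + a * u * (w - 1) + b * (w - 1) ^ 2) *
        ((u - a) ^ 2 + a * (u - a) * (w + 1) + b * (w + 1) ^ 2) = 0 := by
      have e1 : u * (u - a) - b * (w - 1) * (w + 1) = 0 := by linear_combination u * h4 - h3
      have e2 : u * (w + 1) + (w - 1) * (u - a) + a * (w - 1) * (w + 1) = 0 := by
        linear_combination w * h4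
      linear_combination (u * (u - a) - b * (w - 1) * (w + 1) + a * (u * (w + 1) +
        (w - 1) * (u - a) + a * (w - 1) * (w + 1))) * e1 + b * (u * (w + 1) + (w - 1) * (u - a) +
        a * (w - 1) * (w + 1)) * e2
    refine (mul_eq_zero.1 h5).imp (fun e => ?_) fun e => ?_
    · exact Prod.ext (h _ _ e).1 (sub_eq_zero.1 (h _ _ e).2)
    · exact Prod.ext (sub_eq_zero.1 (h _ _ e).1) (eq_neg_of_add_eq_zero_left (h _ _ e).2)
  have : g.1.1 (0, 1) = g'.1.1 (0, 1) := by
    rcases k g with h1 | h1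
    · exact h1.trans (e.mp h1).symm
    · exact (k g').elim (fun h2 => (e.mpr h2).trans h2.symm) fun h2 => h1.trans h2.symm
  refine Subtype.ext (Fm.O_ext fun z => ?_)
  rw [show z = z.1 • (1, 0) + z.2 • (0, 1) by simp, map_add, map_add, map_smul, map_smul, map_smul,
    map_smul, this, show g.1.1 (1, 0) = (1, 0) from g.2, show g'.1.1 (1, 0) = (1, 0) from g'.2]

/-- the vectors of length `c` -/
def Fm.QS {sy : Bool} {V : Type} [AddCommGroup V] [Module F V] (f : Fm sy F V) (c : F) :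
    SubMulAction f.O V where
  carrier := {v | f.Q v = c}
  smul_mem' g _ hv := (g.2.1 _).trans hv

/-- the character of degree two of `O₂⁻(2)` -/
theorem plane_two (hq : Nat.card F = 2) : ∃ ρ : (planeFm h).O → ℂ, IsIrrCharacter _ ρ ∧
    charDegree ρ = 2 ∧ RatF ρ ∧ ∀ r, (planeFm h).IsRefl r → ρ r = 0 := by
  have h01 : ∀ x : F, x = 0 ∨ x = 1 := fun x => by
    obtain ⟨y, -, hy⟩ := (Nat.card_eq_two_iff' (0 : F)).1 hq
    exact or_iff_not_imp_left.2 fun e => (hy x e).trans (hy 1 one_ne_zero).symm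
  have h11 : (1 : F) + 1 = 0 := (h01 _).resolve_right (by simp)
  have hQ : ∀ v, v ≠ 0 → (planeFm h).Q v = 1 := fun v hv =>
    (h01 _).resolve_left fun e => hv (plane_aniso h v e)
  have h0 : ∀ v : (planeFm h).QS 1, v.1 ≠ 0 := fun v e =>
    one_ne_zero (v.2.symm.trans (by rw [e, Fm.Q_zero]))
  have k1 : ∀ z c d : F × F, c ≠ 0 → z ≠ 0 → d ≠ 0 → z ≠ c → d ≠ c → z ≠ d → z + c = d := by
    rintro ⟨z1, z2⟩ ⟨c1, c2⟩ ⟨d1, d2⟩
    rcases h01 z1 with rfl | rfl <;> rcases h01 z2 with rfl | rfl <;> rcases h01 c1 with rfl | rfl <;>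
      rcases h01 c2 with rfl | rfl <;> rcases h01 d1 with rfl | rfl <;>
      rcases h01 d2 with rfl | rfl <;> simp [h11]
  have k2 : ∀ (r : (planeFm h).O) c, c ≠ 0 → (planeFm h).IsTv r c (-((planeFm h).Q c)⁻¹) →
      r.1 c = c ∧ ∀ z, z ≠ 0 → z ≠ c → r.1 z = z + c := fun r c hc hr => by
    refine ⟨by rw [hr, (planeFm h).self, ← one_add_one_eq_two, h11]; simp, fun z hz hzc => ?_⟩
    have := (planeFm h).add z c
    rw [hQ z hz, hQ c hc, h11, hQ _ fun e => hzc (by
      rw [eq_neg_of_add_eq_zero_left e, ← neg_one_smul F c, neg_eq_of_add_eq_zero_left h11,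
        one_smul])] at this
    simp only [kap, zero_add, Bool.false_eq_true, if_false, one_mul] at this
    rw [hr, hQ c hc, ← this, inv_one, neg_eq_of_add_eq_zero_left h11, one_mul, one_smul]
  have hc : Nat.card ((planeFm h).QS 1) = 3 := (plane_NQ h one_ne_zero).trans (by rw [hq])
  have : Nontrivial ((planeFm h).QS 1) := Finite.one_lt_card_iff_nontrivial.1 (by omega)
  have tr : MulAction.IsPretransitive (planeFm h).O ((planeFm h).QS 1) := ⟨fun x y => by
    obtain ⟨g, hg⟩ := Fm.trans_Q (f := planeFm h) (a := x.1) (b := y.1)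
      (fun e => one_ne_zero (x.2.symm.trans e)) (x.2.trans y.2.symm)
    exact ⟨g, Subtype.ext hg⟩⟩
  refine ⟨_, (H3.permChar_sub_one_irr_iff ((planeFm h).QS 1)).2
    (MulAction.is_two_pretransitive_iff.2 fun {x y z w} hxy hzw => ?_), ?_, fun g γ => ?_,
    fun r ⟨c, hc0, hr⟩ => ?_⟩
  · obtain ⟨g, rfl⟩ := tr.exists_smul_eq x z
    by_cases e : g • y = w
    · exact ⟨g, rfl, e⟩
    obtain ⟨r, hr⟩ := Fm.exists_refl (f := planeFm h) (a := (g • x).1)
      fun e => one_ne_zero ((g • x).2.symm.trans e)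
    obtain ⟨h1, h2⟩ := k2 r _ (h0 _) hr
    have h3 : (g • y).1 ≠ (g • x).1 := fun e => hxy (smul_left_cancel g (Subtype.ext e)).symm
    refine ⟨r * g, Subtype.ext (by rw [mul_smul]; exact h1), Subtype.ext ?_⟩
    rw [mul_smul]
    exact (h2 _ (h0 _) h3).trans (k1 _ _ _ (h0 _) (h0 _) (h0 _) h3
      (fun e => hzw (Subtype.ext e).symm) fun e' => e (Subtype.ext e'))
  · simp only [charDegree, H3.permChar, MulAction.fixedBy_one_eq_univ, Nat.card_univ, hc]
    norm_num
  · simp [H3.permChar]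
  · have c0 : c ≠ 0 := fun e => hc0 (by rw [e, Fm.Q_zero])
    obtain ⟨h1, h2⟩ := k2 r c c0 hr
    have k : ∀ x : MulAction.fixedBy ((planeFm h).QS 1) r, x.1.1 = c := fun x => by
      by_contra e
      exact c0 (add_eq_left.1 ((h2 _ (h0 _) e).symm.trans (congrArg Subtype.val x.2)))
    rw [H3.permChar, Nat.card_eq_one_iff_unique.2 ⟨⟨fun x y => Subtype.ext (Subtype.ext
      ((k x).trans (k y).symm))⟩, ⟨⟨⟨c, hQ c c0⟩, Subtype.ext h1⟩⟩⟩]
    simp

/-- similarities extend to hyperbolic extensions -/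
theorem sim_hyp {sy : Bool} {V : Type} [AddCommGroup V] [Module F V] {f : Fm sy F V} {c : Fˣ}
    (hs : ∃ s : V ≃ₗ[F] V, (∀ x, f.Q (s x) = c * f.Q x) ∧
      ∀ x y, f.B (s x) (s y) = c * f.B x y) (ι : Type) [Fintype ι] [DecidableEq ι] :
    ∃ s : ((ι → F) × (ι → F) × V) ≃ₗ[F] ((ι → F) × (ι → F) × V),
      (∀ x, (f.hyp ι).Q (s x) = c * (f.hyp ι).Q x) ∧
      ∀ x y, (f.hyp ι).B (s x) (s y) = c * (f.hyp ι).B x y := by
  obtain ⟨s, h1, h2⟩ := hs
  refine ⟨(LinearEquiv.smulOfUnit c).prodCongr ((LinearEquiv.refl F _).prodCongr s), fun x => ?_,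
    fun x y => ?_⟩
  · change kap F sy * (((c : F) • x.1) ⬝ᵥ x.2.1) + f.Q (s x.2.2) = _
    rw [h1, Fm.hyp_Q, smul_dotProduct, smul_eq_mul]
    ring
  · change ((c : F) • x.1) ⬝ᵥ y.2.1 + eps F sy * (x.2.1 ⬝ᵥ ((c : F) • y.1)) +
      f.B (s x.2.2) (s y.2.2) = _
    rw [h2, Fm.hyp_B, smul_dotProduct, dotProduct_smul, smul_eq_mul, smul_eq_mul]
    ring

end Cfsg.Agent.DG
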