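import Cfsg.Agent.Lib.DG.Aniso
import Cfsg.Prelude.Def_Classical

/-!
# The matrix groups of the definitions are the isometry groups of the models
(row DG-Bridge, see notes/DG.md)
-/

set_option autoImplicit false

open scoped ComplexConjugate Matrix
open Module Cfsg

namespace Cfsg.Agent.DG

variable {F : Type} [Field F] [Finite F]

section Gen

variable {ι : Type} [Fintype ι] [DecidableEq ι] {V : Type} [AddCommGroup V] [Module F V]

omit [Finite F] in
theorem exists_glEquiv (e : (ι → F) ≃ₗ[F] V) : ∃ φ : GL ι F ≃* (V ≃ₗ[F] V),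
    ∀ (g : GL ι F) (x : ι → F), φ g (e x) = e ((g : Matrix ι ι F) *ᵥ x) := by
  let c : ((ι → F) ≃ₗ[F] (ι → F)) ≃* (V ≃ₗ[F] V) :=
    { toFun := fun g => (e.symm.trans g).trans e
      invFun := fun g => (e.trans g).trans e.symm
      left_inv := fun g => by ext x; simp
      right_inv := fun g => by ext x; simp
      map_mul' := fun g h => by ext x; simp }
  refine ⟨(Matrix.GeneralLinearGroup.toLin.trans
    (LinearMap.GeneralLinearGroup.generalLinearEquiv F (ι → F))).trans c, fun g x => ?_⟩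
  simp [c]

omit [Finite F] in
theorem bridge_gen {sy : Bool} (f : Fm sy F V) (e : (ι → F) ≃ₗ[F] V) (S : Subgroup (GL ι F))
    (hS : ∀ g : GL ι F, g ∈ S ↔ (∀ x, f.Q (e ((g : Matrix ι ι F) *ᵥ x)) = f.Q (e x)) ∧
      ∀ x y, f.B (e ((g : Matrix ι ι F) *ᵥ x)) (e ((g : Matrix ι ι F) *ᵥ y)) = f.B (e x) (e y)) :
    Nonempty (S ≃* f.O) := by
  obtain ⟨φ, hφ⟩ := exists_glEquiv e
  have h : S.map φ.toMonoidHom = f.O := by
    ext g
    obtain ⟨g, rfl⟩ := φ.surjective g
    have : φ g ∈ S.map φ.toMonoidHom ↔ g ∈ S :=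
      Subgroup.mem_map_iff_mem (f := φ.toMonoidHom) φ.injective
    rw [this, hS, Fm.mem_O]
    constructor
    · rintro ⟨h1, h2⟩
      refine ⟨fun x => ?_, fun x y => ?_⟩
      · obtain ⟨x, rfl⟩ := e.surjective x
        rw [hφ, h1]
      · obtain ⟨x, rfl⟩ := e.surjective x
        obtain ⟨y, rfl⟩ := e.surjective y
        rw [hφ, hφ, h2]
    · rintro ⟨h1, h2⟩
      exact ⟨fun x => by rw [← hφ, h1], fun x y => by rw [← hφ, ← hφ, h2]⟩
  exact ⟨(φ.subgroupMap S).trans (MulEquiv.subgroupCongr h)⟩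

omit [Finite F] in
theorem bridge_orth (f : Fm false F V) (e : (ι → F) ≃ₗ[F] V) (Q : (ι → F) → F)
    (hQ : ∀ x, f.Q (e x) = Q x) : Nonempty (isometryGroup F Q ≃* f.O) := by
  refine bridge_gen f e _ fun g => ?_
  have hB : ∀ x y, f.B (e x) (e y) = Q (x + y) - Q x - Q y := fun x y => by
    rw [← hQ, ← hQ, ← hQ, map_add, f.add]
    simp [kap]
    ring
  change (∀ u _ : ι → F, Q ((g : Matrix ι ι F) *ᵥ u) = Q u) ↔ _
  constructor
  · intro h
    refine ⟨fun x => by rw [hQ, hQ, h x x], fun x y => ?_⟩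
    rw [hB, hB, ← Matrix.mulVec_add, h _ x, h _ x, h _ x]
  · intro h u _
    rw [← hQ, ← hQ, h.1]

end Gen

/-- coordinates of the split space -/
def brE (F : Type) [Field F] (m : ℕ) :
    (Fin m ⊕ Fin m → F) ≃ₗ[F] (Fin m → F) × (Fin m → F) × (Fin 0 → F) where
  toFun v := (fun i => v (.inl i), fun i => v (.inr i), 0)
  invFun a := Sum.elim a.1 a.2.1
  map_add' v w := Prod.ext rfl (Prod.ext rfl (Subsingleton.elim _ _))
  map_smul' c v := Prod.ext rfl (Prod.ext rfl (Subsingleton.elim _ _))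
  left_inv v := by ext (i | i) <;> simp
  right_inv a := Prod.ext rfl (Prod.ext rfl (Subsingleton.elim _ _))

theorem bridge_sp (m : ℕ) :
    Nonempty (Matrix.symplecticGroup (Fin m) F ≃* ((zeroFm true F).hyp (Fin m)).O) := by
  let t : Matrix.symplecticGroup (Fin m) F →* GL (Fin m ⊕ Fin m) F :=
    (Matrix.symplecticGroup (Fin m) F).subtype.toHomUnits
  have ht : Function.Injective t := fun a b h => Subtype.ext (congrArg Units.val h)
  have hB : ∀ x y, ((zeroFm true F).hyp (Fin m)).B (brE F m x) (brE F m y) =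
      -(x ⬝ᵥ (Matrix.J (Fin m) F *ᵥ y)) := fun x y => by
    rw [Fm.hyp_B]
    simp [brE, zeroFm, eps, Matrix.J, dotProduct, Matrix.mulVec, Matrix.one_apply]
    ring
  obtain ⟨φ⟩ := bridge_gen ((zeroFm true F).hyp (Fin m)) (brE F m) t.range fun g => by
    have hq : ∀ x, ((zeroFm true F).hyp (Fin m)).Q x = 0 := Fm.qz _ rfl
    simp only [hq, hB, implies_true, true_and, neg_inj]
    have key : (g : Matrix _ _ F) ∈ Matrix.symplecticGroup (Fin m) F ↔ ∀ x y,
        ((g : Matrix _ _ F) *ᵥ x) ⬝ᵥ (Matrix.J (Fin m) F *ᵥ ((g : Matrix _ _ F) *ᵥ y)) =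
          x ⬝ᵥ (Matrix.J (Fin m) F *ᵥ y) := by
      rw [SymplecticGroup.mem_iff']
      have e : ∀ x y, ((g : Matrix _ _ F) *ᵥ x) ⬝ᵥ (Matrix.J (Fin m) F *ᵥ
          ((g : Matrix _ _ F) *ᵥ y)) = x ⬝ᵥ (((g : Matrix _ _ F)ᵀ * Matrix.J (Fin m) F *
            (g : Matrix _ _ F)) *ᵥ y) := fun x y => by
        rw [← Matrix.mulVec_mulVec, ← Matrix.mulVec_mulVec, Matrix.dotProduct_mulVec x,
          Matrix.vecMul_transpose]
      constructor
      · intro h x y
        rw [e, h]
      · intro h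
        ext i j
        have := h (Pi.single i 1) (Pi.single j 1)
        rw [e] at this
        simpa using this
    rw [← key]
    constructor
    · rintro ⟨a, rfl⟩
      exact a.2
    · intro h
      exact ⟨⟨_, h⟩, Units.ext rfl⟩
  exact ⟨(MonoidHom.ofInjective ht).trans φ⟩

theorem bridge_plus (m : ℕ) :
    Nonempty (isometryGroup F (quadFormPlus m F) ≃* ((zeroFm false F).hyp (Fin m)).O) := by
  refine bridge_orth _ (brE F m) _ fun x => ?_
  rw [Fm.hyp_Q]
  simp [brE, zeroFm, kap, quadFormPlus, dotProduct]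

theorem bridge_odd (h : (2 : F) ≠ 0) (m : ℕ) :
    Nonempty (isometryGroup F (quadFormOdd m F) ≃* ((lineFm h).hyp (Fin m)).O) := by
  let e : (Unit ⊕ (Fin m ⊕ Fin m) → F) ≃ₗ[F] (Fin m → F) × (Fin m → F) × F :=
    { toFun v := (fun i => v (.inr (.inl i)), fun i => v (.inr (.inr i)), v (.inl ()))
      invFun a := Sum.elim (fun _ => a.2.2) (Sum.elim a.1 a.2.1)
      map_add' v w := by ext <;> simp
      map_smul' c v := by ext <;> simp
      left_inv v := by ext (i | i | i) <;> simp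
      right_inv a := rfl }
  refine bridge_orth _ e _ fun x => ?_
  change kap F false * ((fun i => x (.inr (.inl i))) ⬝ᵥ (fun i => x (.inr (.inr i)))) +
    x (.inl ()) ^ 2 = _
  simp [kap, quadFormOdd, dotProduct]
  ring

theorem bridge_minus {a b : F} (h : AnB a b) (m : ℕ) :
    Nonempty (isometryGroup F (quadFormMinus m F a b) ≃* ((planeFm h).hyp (Fin m)).O) := by
  let e : ((Fin m ⊕ Fin m) ⊕ Fin 2 → F) ≃ₗ[F] (Fin m → F) × (Fin m → F) × (F × F) :=
    { toFun v := (fun i => v (.inl (.inl i)), fun i => v (.inl (.inr i)), v (.inr 0), v (.inr 1))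
      invFun a := Sum.elim (Sum.elim a.1 a.2.1) ![a.2.2.1, a.2.2.2]
      map_add' v w := by ext <;> simp
      map_smul' c v := by ext <;> simp
      left_inv v := by
        ext ((i | i) | i)
        · simp
        · simp
        · fin_cases i <;> simp
      right_inv a := rfl }
  refine bridge_orth _ e _ fun x => ?_
  change kap F false * ((fun i => x (.inl (.inl i))) ⬝ᵥ (fun i => x (.inl (.inr i)))) +
    (x (.inr 0) ^ 2 + a * x (.inr 0) * x (.inr 1) + b * x (.inr 1) ^ 2) = _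
  simp [kap, quadFormMinus, dotProduct]

end Cfsg.Agent.DG
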