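import Cfsg.Agent.Lib.DG.Defs
import Cfsg.Prelude.Def_DegreeGraph

/-!
# General character lemmas (row DG-Ch, see notes/DG.md)
-/

set_option autoImplicit false

open scoped ComplexConjugate
open Cfsg

namespace Cfsg.Agent.DG

variable {G : Type*} [Group G] [Finite G]

/-- the Mackey summand of `g` -/
noncomputable def mI (P : Subgroup G) (σ σ' : P → ℂ) (g : G) : ℂ :=
  ∑ᶠ h : P, σ h * conj (extendByZero P σ' (g * h * g⁻¹))

omit [Finite G] in
theorem ext_conj {P : Subgroup G} {σ : P → ℂ} (hσ : IsClassFunction P σ) {p : G} (hp : p ∈ P)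
    (g : G) : extendByZero P σ (p * g * p⁻¹) = extendByZero P σ g := by
  have := H4.extendByZero_conj_mem P hσ (inv_mem hp) g
  rwa [inv_inv] at this

theorem ip_ind_eq_sum {P : Subgroup G} [Fintype G] (σ σ' : P → ℂ) :
    ip (ind P σ) (ind P σ') = (Nat.card P : ℂ)⁻¹ * (Nat.card P : ℂ)⁻¹ * ∑ g, mI P σ σ' g := by
  have := Fintype.ofFinite P
  rw [ip_eq, ind_eq, ind_eq, H4.frobenius_reciprocity P σ (H4.indFun_isClassFunction P σ'),
    classInner]
  simp only [mI, finsum_eq_sum_of_fintype, H4.indFun_apply', map_mul, map_sum, map_inv₀,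
    map_natCast]
  rw [mul_assoc]
  congr 1
  rw [Finset.sum_comm, Finset.mul_sum]
  refine Finset.sum_congr rfl (fun h _ => ?_)
  rw [← Finset.mul_sum]
  ring

theorem card_doubleCoset (P : Subgroup G) (s : G) :
    Nat.card {g : G // ∃ p ∈ P, ∃ p' ∈ P, g = p * s * p'} * Nat.card {h : P // s * h * s⁻¹ ∈ P} =
      Nat.card P * Nat.card P := by
  classical
  have key : ∀ g : {g : G // ∃ p ∈ P, ∃ p' ∈ P, g = p * s * p'},
      ∃ x : P × P, g.1 = x.1 * s * x.2 := fun ⟨g, p, hp, p', hp', e⟩ => ⟨(⟨p, hp⟩, ⟨p', hp'⟩), e⟩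
  choose c hc using key
  rw [← Nat.card_prod, ← Nat.card_prod]
  refine Nat.card_eq_of_bijective (fun x => ((c x.1).1 * ⟨_, x.2.2⟩, x.2.1⁻¹ * (c x.1).2)) ⟨?_, ?_⟩
  · rintro ⟨g, h⟩ ⟨g', h'⟩ e
    simp only [Prod.mk.injEq] at e
    have e1 := congrArg Subtype.val e.1
    have e2 := congrArg Subtype.val e.2
    simp only [Subgroup.coe_mul, Subgroup.coe_inv] at e1 e2
    have e3 : g = g' := Subtype.ext (by
      rw [hc g, hc g']
      calc ((c g).1 : G) * s * (c g).2 = (c g).1 * (s * h * s⁻¹) * s * ((h : G)⁻¹ * (c g).2) := by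
            group
        _ = _ := by rw [e1, e2]; group)
    subst e3
    have e4 : ((h : P) : G) = (h' : P) := by simpa using e2
    rw [Subtype.ext (Subtype.ext e4)]
  · rintro ⟨p, p'⟩
    let g : {g : G // ∃ p ∈ P, ∃ p' ∈ P, g = p * s * p'} := ⟨p * s * p', p, p.2, p', p'.2, rfl⟩
    have e : (p : G) * s * p' = (c g).1 * s * (c g).2 := hc g
    have e1 : s * (((c g).2 * p'⁻¹ : P) : G) * s⁻¹ = ((c g).1 : G)⁻¹ * p := by
      simp only [Subgroup.coe_mul, Subgroup.coe_inv]
      calc s * (((c g).2 : G) * (p' : G)⁻¹) * s⁻¹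
          = ((c g).1 : G)⁻¹ * ((c g).1 * s * (c g).2) * (p' : G)⁻¹ * s⁻¹ := by group
        _ = _ := by rw [← e]; group
    refine ⟨(g, ⟨(c g).2 * p'⁻¹, e1 ▸ mul_mem (inv_mem (c g).1.2) p.2⟩), Prod.ext ?_ ?_⟩
    · refine Subtype.ext ?_
      change ((c g).1 : G) * (s * (((c g).2 * p'⁻¹ : P) : G) * s⁻¹) = p
      rw [e1]; group
    · change ((c g).2 * p'⁻¹)⁻¹ * (c g).2 = p'
      group
theorem mI_mul {P : Subgroup G} {σ σ' : P → ℂ} (hσ : IsClassFunction P σ)
    (hσ' : IsClassFunction P σ') {p p' : G} (hp : p ∈ P) (hp' : p' ∈ P) (g : G) :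
    mI P σ σ' (p * g * p') = mI P σ σ' g := by
  unfold mI
  rw [← finsum_comp_equiv (MulAut.conj (⟨p', hp'⟩ : P)⁻¹).toEquiv]
  refine finsum_congr (fun h => ?_)
  have e : p * g * p' * (((MulAut.conj (⟨p', hp'⟩ : P)⁻¹).toEquiv h : P) : G) * (p * g * p')⁻¹ =
      p * (g * h * g⁻¹) * p⁻¹ := by
    simp [MulAut.conj_apply]
    group
  rw [e, ext_conj hσ' hp]
  congr 1
  exact hσ h _

/-- Mackey's formula with a set of double coset representatives carrying all nonzero terms -/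
theorem mackey {P : Subgroup G} {σ σ' : P → ℂ} (hσ : IsClassFunction P σ)
    (hσ' : IsClassFunction P σ') (S : Finset G)
    (hS : ∀ s ∈ S, ∀ s' ∈ S, ∀ p ∈ P, ∀ p' ∈ P, s' = p * s * p' → s' = s)
    (hv : ∀ g, (∀ s ∈ S, ∀ p ∈ P, ∀ p' ∈ P, g ≠ p * s * p') → mI P σ σ' g = 0) :
    ip (ind P σ) (ind P σ') =
      ∑ s ∈ S, mI P σ σ' s / Nat.card {h : P // s * h * s⁻¹ ∈ P} := by
  classical
  have := Fintype.ofFinite G
  have hP : (Nat.card P : ℂ) ≠ 0 := by exact_mod_cast (Nat.card_pos (α := P)).ne'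
  let D : G → Finset G := fun s => Finset.univ.filter (fun g => ∃ p ∈ P, ∃ p' ∈ P, g = p * s * p')
  have h1 : ∑ g, mI P σ σ' g = ∑ g ∈ S.biUnion D, mI P σ σ' g := by
    refine (Finset.sum_subset (Finset.subset_univ _) (fun g _ hg => hv g ?_)).symm
    intro s hs p hp p' hp' e
    exact hg (Finset.mem_biUnion.mpr ⟨s, hs, by simpa [D] using ⟨p, hp, p', hp', e⟩⟩)
  rw [ip_ind_eq_sum, h1, Finset.sum_biUnion, Finset.mul_sum]
  · refine Finset.sum_congr rfl (fun s _ => ?_)
    rw [Finset.sum_congr rfl (g := fun _ => mI P σ σ' s) (fun g hg => by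
      obtain ⟨p, hp, p', hp', rfl⟩ := (Finset.mem_filter.mp hg).2
      exact mI_mul hσ hσ' hp hp' s), Finset.sum_const, nsmul_eq_mul]
    have h2 := card_doubleCoset P s
    have h3 : Nat.card {g : G // ∃ p ∈ P, ∃ p' ∈ P, g = p * s * p'} = (D s).card := by
      rw [Nat.card_eq_fintype_card, Fintype.card_subtype]
    have : Nonempty {h : P // s * h * s⁻¹ ∈ P} := ⟨⟨1, by simp⟩⟩
    have h4 : (Nat.card {h : P // s * h * s⁻¹ ∈ P} : ℂ) ≠ 0 := by
      exact_mod_cast Nat.card_pos.ne'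
    rw [h3] at h2
    have h5 : ((D s).card : ℂ) * Nat.card {h : P // s * h * s⁻¹ ∈ P} = Nat.card P * Nat.card P := by
      exact_mod_cast h2
    field_simp
    linear_combination mI P σ σ' s * h5
  · intro s hs s' hs' hne
    refine Finset.disjoint_left.mpr (fun g h2 h3 => hne ?_)
    obtain ⟨p, hp, p', hp', e⟩ := (Finset.mem_filter.mp h2).2
    obtain ⟨r, hr, r', hr', e'⟩ := (Finset.mem_filter.mp h3).2
    refine hS s' hs' s hs (p⁻¹ * r) (mul_mem (inv_mem hp) hr) (r' * p'⁻¹)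
      (mul_mem hr' (inv_mem hp')) ?_
    calc s = p⁻¹ * (p * s * p') * p'⁻¹ := by group
      _ = _ := by rw [← e, e']; group

/-- if all Mackey summands vanish so does the inner product -/
theorem mackey_zero {P : Subgroup G} {σ σ' : P → ℂ} (hv : ∀ g, mI P σ σ' g = 0) :
    ip (ind P σ) (ind P σ') = 0 := by
  have := Fintype.ofFinite G
  simp [ip_ind_eq_sum, hv]

/-- a sum over a subgroup `K` of a function times a conjugated induced function -/
theorem sum_mul_ind_eq_zero {P K : Subgroup G} {σ : P → ℂ} {θ : K → ℂ}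
    (hv : ∀ g : G, ∑ᶠ h : K, θ h * conj (extendByZero P σ (g * h * g⁻¹)) = 0) :
    ∑ᶠ h : K, θ h * conj (ind P σ h) = 0 := by
  have := Fintype.ofFinite G
  have := Fintype.ofFinite K
  simp only [finsum_eq_sum_of_fintype] at hv ⊢
  simp only [ind_eq, H4.indFun_apply', map_mul, map_sum, Finset.mul_sum]
  rw [Finset.sum_comm]
  refine Finset.sum_eq_zero (fun g _ => ?_)
  simp only [mul_left_comm (θ _)]
  rw [← Finset.mul_sum, hv, mul_zero]

/-- vanishing by averaging over a family of permutations -/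
theorem sum_eq_zero_of_avg {X K : Type*} [Finite X] [Finite K] [Nonempty K] (f : X → ℂ)
    (t : K → X ≃ X) (h : ∀ x, ∑ᶠ k, f (t k x) = 0) : ∑ᶠ x, f x = 0 := by
  have := Fintype.ofFinite X
  have := Fintype.ofFinite K
  simp only [finsum_eq_sum_of_fintype] at h ⊢
  have h1 : ∑ k : K, ∑ x, f (t k x) = 0 := by
    rw [Finset.sum_comm]
    exact Finset.sum_eq_zero (fun x _ => h x)
  simp only [Equiv.sum_comp, Finset.sum_const, Finset.card_univ, nsmul_eq_mul] at h1
  exact (mul_eq_zero.mp h1).resolve_left (by exact_mod_cast Fintype.card_ne_zero)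

/-- if a character has no invariants under the image of `K` then all translated sums vanish -/
theorem sum_hom_mul {K : Type*} [Group K] [Finite K] {η : G → ℂ} (hη : IsCharacter G η)
    (a : K →* G) (h : ∑ᶠ k, η (a k) = 0) (c : G) : ∑ᶠ k, η (a k * c) = 0 := by
  have := Fintype.ofFinite K
  obtain ⟨n, ρ, rfl⟩ := hη
  simp only [finsum_eq_sum_of_fintype] at h ⊢
  have h1 := H4.sum_rep_eq_zero_of_sum_char (ρ.comp a) h
  simp only [Representation.character, map_mul, ← map_sum, ← Finset.sum_mul]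
  change LinearMap.trace ℂ _ ((∑ k, (ρ.comp a) k) * ρ c) = 0
  rw [h1, zero_mul, map_zero]

/-- the same for an outer product of a character and a conjugate character -/
theorem sum_hom_mul2 {K H : Type*} [Group K] [Finite K] [Group H] [Finite H] {η : G → ℂ}
    {ξ : H → ℂ} (hη : IsCharacter G η) (hξ : IsCharacter H ξ) (a : K →* G) (b : K →* H)
    (h : ∑ᶠ k, η (a k) * conj (ξ (b k)) = 0) (c : G) (d : H) :
    ∑ᶠ k, η (a k * c) * conj (ξ (b k * d)) = 0 := by
  exact sum_hom_mul (H4.isCharacter_prod hη (H3.IsCharacter_conj hξ)) (a.prod b) h (c, d)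

theorem isChar_ind (P : Subgroup G) {σ : P → ℂ} (hσ : IsCharacter P σ) :
    IsCharacter G (ind P σ) := by
  have := Fintype.ofFinite G
  rw [ind_eq]
  exact H4.isCharacter_indFun P hσ

theorem ind_one (P : Subgroup G) (σ : P → ℂ) : ind P σ 1 = P.index * σ 1 := by
  have := Fintype.ofFinite G
  rw [ind_eq, H4.indFun_one]

theorem ip_ind (P : Subgroup G) (σ : P → ℂ) {χ : G → ℂ} (hχ : IsClassFunction G χ) :
    ip (ind P σ) χ = ip σ (fun h : P => χ h) := by
  have := Fintype.ofFinite G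
  have := Fintype.ofFinite P
  rw [ind_eq, ip_eq, ip_eq, H4.frobenius_reciprocity P σ hχ]

theorem ip_irr {a b : G → ℂ} (ha : IsIrrCharacter G a) (hb : IsIrrCharacter G b) (h : a ≠ b) :
    ip a b = 0 := by
  have := Fintype.ofFinite G
  rw [ip_eq, H3.IsIrrCharacter_classInner_of_ne ha hb h]

theorem ip_self {a : G → ℂ} (ha : IsIrrCharacter G a) : ip a a = 1 := by
  have := Fintype.ofFinite G
  rw [ip_eq, H3.IsIrrCharacter_classInner_self ha]

theorem irr_of_norm_one {χ : G → ℂ} (hχ : IsCharacter G χ) (h : ip χ χ = 1) :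
    IsIrrCharacter G χ := by
  have := Fintype.ofFinite G
  exact H4.isIrr_of_norm_one hχ (by rwa [← ip_eq])

theorem norm_sub_const [Fintype G] {χ c : G → ℂ} (hχ : IsCharacter G χ) (hc : IsIrrCharacter G c)
    (h1 : classInner χ c ≠ 0) {n : ℕ} (h : classInner χ χ = n) (hn : n ≤ 3) :
    classInner χ c = 1 ∧ classInner (χ - c) (χ - c) = n - 1 := by
  have hc' := H3.IsIrrCharacter_isCharacter hc
  obtain ⟨m, hm⟩ := H3.IsCharacter_classInner hχ hc'
  have h2 := H4.isCharacter_sub_nsmul hχ hc (m := m) (H4.mult_eq_of_classInner hm).ge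
  obtain ⟨l, hl⟩ := H3.IsCharacter_classInner h2 h2
  have h3 := H3.IsCharacter_classInner_comm hc' hχ
  have h4 := H3.IsIrrCharacter_classInner_self hc
  simp only [H3.classInner_sub_left, H3.classInner_sub_right, H3.classInner_smul_left,
    H3.classInner_smul_right, h, h3, hm, h4, map_natCast] at hl ⊢
  have h5 : n = l + m * m := by
    have : (n : ℂ) = l + m * m := by linear_combination hl
    exact_mod_cast this
  have h6 : m ≠ 0 := by
    rintro rfl
    exact h1 (by simpa using hm)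
  obtain rfl : m = 1 := by
    by_contra h7
    have : 2 ≤ m := by omega
    nlinarith
  constructor <;> ring
theorem two_of_norm {χ : G → ℂ} (hχ : IsCharacter G χ) (h : ip χ χ = 2) :
    ∃ a b, IsIrrCharacter G a ∧ IsIrrCharacter G b ∧ a ≠ b ∧ χ = a + b := by
  have := Fintype.ofFinite G
  rw [ip_eq] at h
  obtain ⟨a, ha⟩ := H4.exists_irr_const (H3.IsCharacter_isClassFunction hχ) (by
    rintro rfl
    simp [H3.classInner_zero_left] at h)
  obtain ⟨h1, h2⟩ := norm_sub_const hχ a.2 ha (n := 2) (by simpa using h) (by norm_num)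
  refine ⟨a, χ - a, a.2, H4.isIrr_of_norm_one (H4.isCharacter_sub_const hχ a.2 ha)
    (by rw [h2]; norm_num), fun h3 => ?_, by simp⟩
  have h4 := H3.IsIrrCharacter_classInner_self a.2
  nth_rewrite 1 [h3] at h4
  rw [H3.classInner_sub_left, h1, H3.IsIrrCharacter_classInner_self a.2] at h4
  norm_num at h4

theorem three_of_norm {χ c : G → ℂ} (hχ : IsCharacter G χ) (h : ip χ χ = 3)
    (hc : IsIrrCharacter G c) (h1 : ip χ c ≠ 0) :
    ∃ a b, IsIrrCharacter G a ∧ IsIrrCharacter G b ∧ a ≠ b ∧ a ≠ c ∧ b ≠ c ∧ χ = c + a + b := by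
  have := Fintype.ofFinite G
  rw [ip_eq] at h h1
  obtain ⟨h2, h3⟩ := norm_sub_const hχ hc h1 (n := 3) (by simpa using h) le_rfl
  obtain ⟨a, b, ha, hb, hab, e⟩ := two_of_norm (H4.isCharacter_sub_const hχ hc h1)
    (by rw [ip_eq, h3]; norm_num)
  have h4 : classInner (a + b) c = 0 := by
    rw [← e, H3.classInner_sub_left, h2, H3.IsIrrCharacter_classInner_self hc, sub_self]
  rw [H3.classInner_add_left] at h4
  refine ⟨a, b, ha, hb, hab, ?_, ?_, by rw [add_assoc, ← e]; simp⟩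
  · rintro rfl
    rw [H3.IsIrrCharacter_classInner_self hc,
      H3.IsIrrCharacter_classInner_of_ne hb hc hab.symm] at h4
    norm_num at h4
  · rintro rfl
    rw [H3.IsIrrCharacter_classInner_self hc, H3.IsIrrCharacter_classInner_of_ne ha hc hab] at h4
    norm_num at h4

/-- vanishing multiplicities pass to summands -/
theorem part_zero {K : Type*} [Group K] [Finite K] (a : K →* G) {θ : K → ℂ}
    (hθ : IsCharacter K θ) {χ ψ : G → ℂ} (hχ : IsCharacter G χ) (hψ : IsCharacter G ψ)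
    (h : ∑ᶠ k, θ k * conj ((χ + ψ) (a k)) = 0) : ∑ᶠ k, θ k * conj (χ (a k)) = 0 := by
  have := Fintype.ofFinite K
  obtain ⟨m, hm⟩ := H3.IsCharacter_classInner hθ (H3.IsCharacter_comp a hχ)
  obtain ⟨n, hn⟩ := H3.IsCharacter_classInner hθ (H3.IsCharacter_comp a hψ)
  have hK := H3.card_ne_zero_complex K
  simp only [finsum_eq_sum_of_fintype, Pi.add_apply, map_add, mul_add,
    Finset.sum_add_distrib] at h ⊢
  simp only [classInner] at hm hn
  have h1 : ((m + n : ℕ) : ℂ) = 0 := by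
    rw [Nat.cast_add, ← hm, ← hn, ← mul_add, h, mul_zero]
  have h2 : m = 0 := by
    have : m + n = 0 := by exact_mod_cast h1
    omega
  rw [h2] at hm
  simpa [hK] using hm

theorem twist_part_zero (μ : G →* ℂˣ) {χ ψ : G → ℂ} (hχ : IsCharacter G χ)
    (hψ : IsCharacter G ψ) (h : ip (fun g => (χ + ψ) g * μ g) (χ + ψ) = 0) :
    ip (fun g => χ g * μ g) χ = 0 := by
  have := Fintype.ofFinite G
  have hμ := H4.isCharacter_linear μ
  obtain ⟨a, ha⟩ := H3.IsCharacter_classInner (H3.IsCharacter_mul hχ hμ) hχ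
  obtain ⟨b, hb⟩ := H3.IsCharacter_classInner (H3.IsCharacter_mul hχ hμ) hψ
  obtain ⟨c, hc⟩ := H3.IsCharacter_classInner (H3.IsCharacter_mul hψ hμ) (H3.IsCharacter_add hχ hψ)
  have e : (fun g => (χ + ψ) g * μ g) = (χ * fun g => (μ g : ℂ)) + ψ * fun g => (μ g : ℂ) := by
    funext g; simp [add_mul]
  rw [ip_eq, e, H3.classInner_add_left, H3.classInner_add_right, ha, hb, hc] at h
  have h2 : a = 0 := by
    have : a + b + c = 0 := by exact_mod_cast h
    omega
  rw [ip_eq]
  exact ha.trans (by simp [h2])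

/-- a central involution acting as a sign on a sum acts as the same sign on the summands -/
theorem sign_part {z : G} {s : ℂ} (hs : s = 1 ∨ s = -1) {χ ψ : G → ℂ} (hχ : IsCharacter G χ)
    (hψ : IsCharacter G ψ) (h : (χ + ψ) z = s * (χ + ψ) 1) : χ z = s * χ 1 := by
  obtain ⟨m, hm⟩ := H3.IsCharacter_apply_one hχ
  obtain ⟨n, hn⟩ := H3.IsCharacter_apply_one hψ
  have h1 := H3.IsCharacter_norm_le hχ z
  have h2 := H3.IsCharacter_norm_le hψ z
  simp only [Pi.add_apply, hm, hn, Complex.norm_natCast] at h h1 h2 ⊢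
  have h3 := congrArg Complex.re h
  have h4 := Complex.abs_re_le_norm (ψ z)
  have h5 := Complex.sq_norm (χ z)
  rw [Complex.normSq_apply] at h5
  have h6 := Complex.abs_re_le_norm (χ z)
  have h7 := norm_nonneg (χ z)
  rw [abs_le] at h4 h6
  rcases hs with rfl | rfl
  · simp at h3
    have h8 : (χ z).re = m := by linarith
    have h9 : (χ z).im = 0 := by nlinarith
    exact Complex.ext (by simpa using h8) (by simpa using h9)
  · simp at h3
    have h8 : (χ z).re = -m := by linarith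
    have h9 : (χ z).im = 0 := by nlinarith
    exact Complex.ext (by simpa using h8) (by simpa using h9)

/-- the value of an induced character at a central element -/
theorem ind_central (P : Subgroup G) (σ : P → ℂ) (z : P) (hz : ∀ g : G, g * z = z * g) :
    ind P σ z = P.index * σ z := by
  have := Fintype.ofFinite G
  have hP := H3.card_ne_zero_complex P
  rw [ind_eq, H4.indFun_apply']
  simp only [hz, mul_inv_cancel_right, H4.extendByZero_coe, Finset.sum_const, Finset.card_univ,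
    nsmul_eq_mul, ← Nat.card_eq_fintype_card, ← P.index_mul_card, Nat.cast_mul]
  field_simp

/-- an element acting as a sign multiplies all values by the sign -/
theorem mul_of_sign {χ : G → ℂ} (hχ : IsCharacter G χ) {z : G} {s : ℂ} (hs : s = 1 ∨ s = -1)
    (h : χ z = s * χ 1) (g : G) : χ (z * g) = s * χ g := by
  by_cases h0 : χ 1 = 0
  · simp [H3.IsCharacter_eq_zero_of_apply_one hχ h0]
  obtain ⟨ω, -, hω⟩ := H3.IsCharacter_mul_of_norm_eq hχ (z := z) (by
    rcases hs with rfl | rfl <;> simp [h])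
  have h1 := hω 1
  rw [mul_one, h] at h1
  rw [hω, ← mul_right_cancel₀ h0 h1]

/-- a character of odd degree is not fixed by a twist that is `-1` on an involution -/
theorem twist_zero_of_odd {χ : G → ℂ} (hχ : IsIrrCharacter G χ) (hodd : Odd (charDegree χ))
    (μ : G →* ℂˣ) {r : G} (hr : r * r = 1) (hμ : μ r ≠ 1) : ip (fun g => χ g * μ g) χ = 0 := by
  refine ip_irr (H4.isIrr_mul_linear hχ μ) hχ (fun h => ?_)
  have h1 : χ r = 0 := by
    have h2 : χ r * (μ r - 1) = 0 := by linear_combination congrFun h r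
    exact (mul_eq_zero.mp h2).resolve_right (fun h3 => hμ (Units.ext (sub_eq_zero.mp h3)))
  obtain ⟨n, ζ, e1, e2, e3⟩ := H3.IsCharacter_exists_roots (H3.IsIrrCharacter_isCharacter hχ) r
  have h2 : ∀ i, ∃ ε : ℤ, ζ i = 1 - 2 * ε := fun i => by
    have h3 : ζ i ^ 2 = 1 := by
      obtain ⟨c, hc⟩ := orderOf_dvd_of_pow_eq_one (x := r) (n := 2) (by rw [sq, hr])
      rw [hc, pow_mul, e2, one_pow]
    rcases sq_eq_one_iff.mp h3 with h4 | h4
    · exact ⟨0, by simp [h4]⟩
    · exact ⟨1, by rw [h4]; norm_num⟩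
  choose ε hε using h2
  have h3 := e3 1
  simp only [pow_one, h1, hε, Finset.sum_sub_distrib, Finset.sum_const, Finset.card_univ,
    Fintype.card_fin, nsmul_eq_mul, mul_one, ← Finset.mul_sum] at h3
  rw [H4.charDegree_eq_of_apply_one e1] at hodd
  have h4 : (n : ℤ) = 2 * ∑ i, ε i := by
    have : ((n : ℤ) : ℂ) = ((2 * ∑ i, ε i : ℤ) : ℂ) := by
      push_cast
      linear_combination -h3
    exact_mod_cast this
  obtain ⟨x, hx⟩ := hodd
  omega

/-- an element fixed in a constituent of a restriction does not act as `-1` -/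
theorem ne_neg_of_const {P : Subgroup G} {σ : P → ℂ} (hσ : IsIrrCharacter P σ) {χ : G → ℂ}
    (hχ : IsIrrCharacter G χ) (h : ip (ind P σ) χ ≠ 0) (u : P) (hu : σ u = σ 1) :
    χ u ≠ -χ 1 := by
  intro h1
  have := Fintype.ofFinite P
  have hχ' := H3.IsIrrCharacter_isCharacter hχ
  have hσ' := H3.IsIrrCharacter_isCharacter hσ
  have hr := H3.IsCharacter_restrict P hχ'
  rw [ip_ind P σ (H3.IsCharacter_isClassFunction hχ'), ip_eq,
    H3.IsCharacter_classInner_comm hσ' hr] at h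
  have h2 := sign_part (z := u) (s := -1) (Or.inr rfl) hσ' (H4.isCharacter_sub_const hr hσ h)
    (by simpa using h1)
  rw [hu] at h2
  exact H3.IsIrrCharacter_apply_one_ne_zero hσ (by linear_combination h2 / 2)

/-- a rational character value is an integer -/
theorem int_of_ratC {χ : G → ℂ} (hχ : IsCharacter G χ) {g : G} (h : RatC (χ g)) :
    ∃ z : ℤ, χ g = z := by
  have h1 := H3.IsCharacter_isIntegral hχ g
  obtain ⟨q, hq⟩ := H3.exists_rat_of_forall_ringEquiv h1.tower_top h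
  obtain ⟨z, hz⟩ := H3.exists_int_of_isIntegral_rat (q := q) (hq ▸ h1)
  exact ⟨z, by rw [hq, ← hz]; simp⟩

theorem irr_sign {z : G} (hz2 : z * z = 1) (hc : ∀ g, g * z = z * g) {χ : G → ℂ}
    (hχ : IsIrrCharacter G χ) : χ z = 1 * χ 1 ∨ χ z = -1 * χ 1 := by
  obtain ⟨ω, -, hω⟩ := H3.IsCharacter_mul_of_norm_eq (H3.IsIrrCharacter_isCharacter hχ)
    (H3.IsIrrCharacter_norm_eq_of_mem_center hχ (Subgroup.mem_center_iff.mpr hc))
  have h1 := hω 1
  have h2 := hω z
  rw [mul_one] at h1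
  rw [hz2, h1] at h2
  have h3 : ω ^ 2 = 1 := mul_right_cancel₀ (H3.IsIrrCharacter_apply_one_ne_zero hχ)
    (by linear_combination -h2)
  rcases sq_eq_one_iff.mp h3 with rfl | rfl
  · exact Or.inl h1
  · exact Or.inr h1
theorem exists_odd_irr {z : G} (hz : z ≠ 1) (hz2 : z * z = 1) (hc : ∀ g, g * z = z * g) :
    ∃ χ, IsIrrCharacter G χ ∧ χ z = -1 * χ 1 := by
  by_contra h
  push Not at h
  exact hz (H3.eq_one_of_forall_irr (fun χ => by
    simpa using (irr_sign hz2 hc χ.2).resolve_right (h χ χ.2)))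

theorem isDeg_of_equiv {H : Type*} [Group H] (e : G ≃* H) {d : ℕ} (h : IsDeg G d) :
    IsDeg H d := by
  obtain ⟨χ, h1, h2⟩ := h
  exact ⟨_, H4.isIrr_comp_equiv e.symm h1, by rw [← h2]; simp [charDegree]⟩

theorem cpl_of_equiv {H : Type*} [Group H] (e : G ≃* H) (h : Cpl G) : Cpl H := by
  intro r s hr hs hrs h1 h2
  rw [← Nat.card_congr e.toEquiv] at h1 h2
  obtain ⟨d, h3, h4⟩ := h r s hr hs hrs h1 h2
  exact ⟨d, isDeg_of_equiv e h3, h4⟩

theorem ps_equiv {H : Type*} [Group H] (e : G ≃* H) : Nonempty (PS G ≃* PS H) := by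
  refine ⟨QuotientGroup.congr _ _ e ?_⟩
  ext x
  simp only [Subgroup.mem_map, Subgroup.mem_center_iff, MonoidHom.coe_coe]
  constructor
  · rintro ⟨y, hy, rfl⟩ g
    obtain ⟨g, rfl⟩ := e.surjective g
    rw [← map_mul, hy, map_mul]
  · intro hx
    exact ⟨e.symm x, fun g => e.injective (by simp [hx]), by simp⟩

theorem po_equiv {H : Type*} [Group H] (e : G ≃* H) : Nonempty (PO G ≃* PO H) := by
  have h : (commutator G).map (e : G →* H) = commutator H := by
    rw [map_commutator_eq, MonoidHom.range_eq_top.mpr e.surjective]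
    rfl
  exact ps_equiv ((e.subgroupMap (commutator G)).trans (MulEquiv.subgroupCongr h))

theorem adj_of_cpl (h : Cpl G) {r s : ℕ} (hr : r ∈ degreePrimes G) (hs : s ∈ degreePrimes G)
    (hrs : r ≠ s) : (degreeGraph G).Adj r s := by
  obtain ⟨h1, _, ⟨χ, rfl⟩, h2⟩ := hr
  obtain ⟨h3, _, ⟨ψ, rfl⟩, h4⟩ := hs
  have := Fintype.ofFinite G
  obtain ⟨d, ⟨ξ, h5, rfl⟩, h6, h7⟩ := h r s h1 h3 hrs
    (h2.trans (H3.IsIrrCharacter_charDegree_dvd χ.2))
    (h4.trans (H3.IsIrrCharacter_charDegree_dvd ψ.2))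
  exact ⟨hrs, h1, h3, _, ⟨⟨ξ, h5⟩, rfl⟩,
    ((Nat.coprime_primes h1 h3).mpr hrs).mul_dvd_of_dvd_of_dvd h6 h7⟩

end Cfsg.Agent.DG
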