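import Cfsg.Agent.Lib.DG.Ch

/-!
# Parabolic induction in general linear groups and the Heisenberg relation
(row DG-Heis, see notes/DG.md)
-/

set_option autoImplicit false

open scoped ComplexConjugate Matrix
open Cfsg

namespace Cfsg.Agent.DG

variable {F : Type} [Field F] [Finite F] {α β γ : Type} [Fintype α] [DecidableEq α] [Fintype β]
  [DecidableEq β] [Fintype γ] [DecidableEq γ]

/-- the block upper triangular matrices -/
def PB (α β F : Type) [Field F] [Fintype α] [DecidableEq α] [Fintype β] [DecidableEq β] :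
    Subgroup (GL (α ⊕ β) F) where
  carrier := {g | (∀ i j, (g : Matrix (α ⊕ β) (α ⊕ β) F) (.inr i) (.inl j) = 0) ∧
    ∀ i j, ((g⁻¹ : GL (α ⊕ β) F) : Matrix (α ⊕ β) (α ⊕ β) F) (.inr i) (.inl j) = 0}
  one_mem' := ⟨fun i j => by simp, fun i j => by simp⟩
  mul_mem' := fun {a b} ha hb => ⟨fun i j => by
      simp [Matrix.mul_apply, Fintype.sum_sum_type, ha.1, hb.1], fun i j => by
      rw [mul_inv_rev, Units.val_mul, Matrix.mul_apply, Fintype.sum_sum_type]
      simp only [ha.2, hb.2, zero_mul, mul_zero, Finset.sum_const_zero, add_zero]⟩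
  inv_mem' := fun {a} ha => ⟨ha.2, by simpa using ha.1⟩

theorem mem_PB {g : GL (α ⊕ β) F} : g ∈ PB α β F ↔
    ∀ i j, (g : Matrix (α ⊕ β) (α ⊕ β) F) (.inr i) (.inl j) = 0 := by
  refine ⟨fun h => h.1, fun h => ⟨h, ?_⟩⟩
  have key : ∀ n : ℕ, ∀ i j, ((g ^ n : GL (α ⊕ β) F) : Matrix (α ⊕ β) (α ⊕ β) F) (.inr i) (.inl j) = 0 :=
    fun n => by
      induction n with
      | zero => simp
      | succ n ih =>
        intro i j
        rw [pow_succ, Units.val_mul, Matrix.mul_apply, Fintype.sum_sum_type]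
        simp only [ih, h, zero_mul, mul_zero, Finset.sum_const_zero, add_zero]
  rw [show g⁻¹ = g ^ (orderOf g - 1) from inv_eq_of_mul_eq_one_right (by
    rw [← pow_succ', Nat.sub_add_cancel (orderOf_pos g), pow_orderOf_eq_one])]
  exact key _

omit [Finite F] in
theorem blk_mul {a b : GL (α ⊕ β) F} (ha : a ∈ PB α β F) (hb : b ∈ PB α β F) :
    ((a * b : GL (α ⊕ β) F) : Matrix (α ⊕ β) (α ⊕ β) F).toBlocks₁₁ =
      (a : Matrix (α ⊕ β) (α ⊕ β) F).toBlocks₁₁ * (b : Matrix (α ⊕ β) (α ⊕ β) F).toBlocks₁₁ ∧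
    ((a * b : GL (α ⊕ β) F) : Matrix (α ⊕ β) (α ⊕ β) F).toBlocks₂₂ =
      (a : Matrix (α ⊕ β) (α ⊕ β) F).toBlocks₂₂ * (b : Matrix (α ⊕ β) (α ⊕ β) F).toBlocks₂₂ := by
  constructor <;> ext i j <;>
    simp [Matrix.toBlocks₁₁, Matrix.toBlocks₂₂, Matrix.mul_apply, Fintype.sum_sum_type, ha.1, hb.1]

omit [Finite F] in
theorem blk_one : ((1 : GL (α ⊕ β) F) : Matrix (α ⊕ β) (α ⊕ β) F).toBlocks₁₁ = 1 ∧
    ((1 : GL (α ⊕ β) F) : Matrix (α ⊕ β) (α ⊕ β) F).toBlocks₂₂ = 1 := by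
  constructor <;> ext i j <;> simp [Matrix.toBlocks₁₁, Matrix.toBlocks₂₂, Matrix.one_apply]

theorem exists_bl : ∃ φ : PB α β F →* GL α F × GL β F, ∀ g : PB α β F,
    ((φ g).1 : Matrix α α F) = ((g : GL (α ⊕ β) F) : Matrix (α ⊕ β) (α ⊕ β) F).toBlocks₁₁ ∧
    ((φ g).2 : Matrix β β F) = ((g : GL (α ⊕ β) F) : Matrix (α ⊕ β) (α ⊕ β) F).toBlocks₂₂ :=
  ⟨MonoidHom.mk' (fun g => (⟨((g : GL (α ⊕ β) F) : Matrix (α ⊕ β) (α ⊕ β) F).toBlocks₁₁,
      ((g⁻¹ : GL (α ⊕ β) F) : Matrix (α ⊕ β) (α ⊕ β) F).toBlocks₁₁,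
      by rw [← (blk_mul g.2 (inv_mem g.2)).1, mul_inv_cancel, blk_one.1],
      by rw [← (blk_mul (inv_mem g.2) g.2).1, inv_mul_cancel, blk_one.1]⟩,
    ⟨((g : GL (α ⊕ β) F) : Matrix (α ⊕ β) (α ⊕ β) F).toBlocks₂₂,
      ((g⁻¹ : GL (α ⊕ β) F) : Matrix (α ⊕ β) (α ⊕ β) F).toBlocks₂₂,
      by rw [← (blk_mul g.2 (inv_mem g.2)).2, mul_inv_cancel, blk_one.2],
      by rw [← (blk_mul (inv_mem g.2) g.2).2, inv_mul_cancel, blk_one.2]⟩))
    fun a b => Prod.ext (Units.ext (blk_mul a.2 b.2).1) (Units.ext (blk_mul a.2 b.2).2),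
    fun _ => ⟨rfl, rfl⟩⟩

/-- the diagonal blocks -/
noncomputable def bl : PB α β F →* GL α F × GL β F := exists_bl.choose

theorem bl_fst (g : PB α β F) :
    ((bl g).1 : Matrix α α F) = ((g : GL (α ⊕ β) F) : Matrix (α ⊕ β) (α ⊕ β) F).toBlocks₁₁ :=
  (exists_bl.choose_spec g).1

theorem bl_snd (g : PB α β F) :
    ((bl g).2 : Matrix β β F) = ((g : GL (α ⊕ β) F) : Matrix (α ⊕ β) (α ⊕ β) F).toBlocks₂₂ :=
  (exists_bl.choose_spec g).2

/-- a block triangular matrix -/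
def pb (a : GL α F) (x : Matrix α β F) (c : GL β F) : PB α β F :=
  ⟨⟨Matrix.fromBlocks a x 0 c, Matrix.fromBlocks (a⁻¹ : GL α F)
      (-((a⁻¹).val * x * (c⁻¹).val)) 0 (c⁻¹ : GL β F),
    by rw [Matrix.fromBlocks_multiply]; simp [← Matrix.mul_assoc],
    by rw [Matrix.fromBlocks_multiply]; simp [Matrix.mul_assoc]⟩, fun _ _ => rfl, fun _ _ => rfl⟩

omit [Finite F] in
theorem pb_val (a : GL α F) (x : Matrix α β F) (c : GL β F) :
    ((pb a x c : GL (α ⊕ β) F) : Matrix (α ⊕ β) (α ⊕ β) F) = Matrix.fromBlocks a x 0 c := rfl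

omit [Finite F] in
theorem pb_mul (a a' : GL α F) (x x' : Matrix α β F) (c c' : GL β F) :
    pb a x c * pb a' x' c' = pb (a * a') (a.val * x' + x * c'.val) (c * c') :=
  Subtype.ext (Units.ext (by simp [pb_val, Matrix.fromBlocks_multiply]))

omit [Finite F] in
theorem pb_one : pb 1 0 1 = (1 : PB α β F) := Subtype.ext (Units.ext (by simp [pb_val]))

theorem bl_pb (a : GL α F) (x : Matrix α β F) (c : GL β F) : bl (pb a x c) = (a, c) :=
  Prod.ext (Units.ext (by rw [bl_fst]; rfl)) (Units.ext (by rw [bl_snd]; rfl))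

theorem pb_bl (g : PB α β F) :
    pb (bl g).1 ((g : GL (α ⊕ β) F) : Matrix (α ⊕ β) (α ⊕ β) F).toBlocks₁₂ (bl g).2 = g :=
  Subtype.ext (Units.ext (by
    rw [pb_val, bl_fst, bl_snd]
    ext (i | i) (j | j) <;> first | rfl | exact (g.2.1 i j).symm))

/-- block coordinates -/
noncomputable def pbE : (GL α F × Matrix α β F) × GL β F ≃ PB α β F where
  toFun t := pb t.1.1 t.1.2 t.2
  invFun g := (((bl g).1, ((g : GL (α ⊕ β) F) : Matrix (α ⊕ β) (α ⊕ β) F).toBlocks₁₂), (bl g).2)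
  left_inv t := by simp [bl_pb, pb_val]
  right_inv := pb_bl

theorem bl_surjective : Function.Surjective (bl : PB α β F → GL α F × GL β F) :=
  fun t => ⟨pb t.1 0 t.2, bl_pb _ _ _⟩

/-- parabolic induction -/
noncomputable def hcg (σ : GL α F → ℂ) (ρ : GL β F → ℂ) : GL (α ⊕ β) F → ℂ :=
  ind (PB α β F) (fun g => σ (bl g).1 * ρ (bl g).2)

theorem hcg_char {σ : GL α F → ℂ} {ρ : GL β F → ℂ} (hσ : IsCharacter _ σ)
    (hρ : IsCharacter _ ρ) : IsCharacter _ (hcg σ ρ) :=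
  isChar_ind _ (H3.IsCharacter_comp bl (H4.isCharacter_prod hσ hρ))

theorem hcg_one (σ : GL α F → ℂ) (ρ : GL β F → ℂ) :
    hcg σ ρ 1 = (PB α β F).index * (σ 1 * ρ 1) := by
  rw [hcg, ind_one, map_one]; rfl

theorem card_GL : Nat.card (GL α F) = gl (Nat.card F) (Fintype.card α) *
    Nat.card F ^ (Fintype.card α * (Fintype.card α - 1) / 2) := by
  have := Fintype.ofFinite F
  rw [Nat.card_congr (Units.mapEquiv (Matrix.reindexAlgEquiv F F (Fintype.equivFin α)).toMulEquiv).toEquiv,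
    Matrix.card_GL_field, Nat.card_eq_fintype_card, gl, ← Finset.sum_range_id, ← Finset.prod_pow_eq_pow_sum,
    ← Finset.prod_range_reflect, ← Finset.prod_mul_distrib,
    Fin.prod_univ_eq_prod_range (fun i => Fintype.card F ^ Fintype.card α - Fintype.card F ^ i)]
  refine Finset.prod_congr rfl fun i hi => ?_
  have := Finset.mem_range.1 hi
  rw [Nat.sub_mul, ← pow_add, one_mul]
  congr 2
  omega

theorem card_PB : Nat.card (PB α β F) = Nat.card (GL α F) *
    Nat.card F ^ (Fintype.card α * Fintype.card β) * Nat.card (GL β F) := by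
  rw [← Nat.card_congr pbE, Nat.card_prod, Nat.card_prod, Matrix, Nat.card_fun, Nat.card_fun,
    ← pow_mul, Nat.card_eq_fintype_card (α := α), Nat.card_eq_fintype_card (α := β), mul_comm (Fintype.card β)]

theorem index_PB : (PB α β F).index * (gl (Nat.card F) (Fintype.card α) *
    gl (Nat.card F) (Fintype.card β)) = gl (Nat.card F) (Fintype.card α + Fintype.card β) := by
  have h := (PB α β F).index_mul_card
  rw [card_PB, card_GL, card_GL, card_GL, Fintype.card_sum] at h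
  have e : ∀ a b : ℕ, (a + b) * (a + b - 1) / 2 = a * (a - 1) / 2 + a * b + b * (b - 1) / 2 := fun a b => by
    rw [← Finset.sum_range_id, ← Finset.sum_range_id, ← Finset.sum_range_id, Finset.sum_range_add,
      Finset.sum_add_distrib]
    simp [add_assoc, mul_comm]
  rw [e, pow_add, pow_add] at h
  refine Nat.eq_of_mul_eq_mul_right (Nat.mul_pos (Nat.mul_pos (Nat.pow_pos Nat.card_pos)
    (Nat.pow_pos Nat.card_pos)) (Nat.pow_pos Nat.card_pos)) (Eq.trans ?_ h)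
  ring

/-- a cuspidal character has vanishing translated sums -/
theorem Cusp.sum_mul {π : GL α F → ℂ} (hπ : IsCharacter _ π) (hc : Cusp π)
    {A : Submodule F (α → F)} (h0 : A ≠ ⊥) (h1 : A ≠ ⊤) (a : GL α F) :
    ∑ᶠ u : UA A, π (u * a) = 0 :=
  sum_hom_mul hπ (UA A).subtype (hc A h0 h1) a

omit [Finite F] in
theorem exists_factor {V W U : Type*} [AddCommGroup V] [Module F V] [AddCommGroup W] [Module F W]
    [AddCommGroup U] [Module F U] (f : V →ₗ[F] W) (φ : V →ₗ[F] U) (h : ∀ v, f v = 0 → φ v = 0) :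
    ∃ m : W →ₗ[F] U, ∀ v, m (f v) = φ v := by
  obtain ⟨r, hr⟩ := f.rangeRestrict.exists_rightInverse_of_surjective f.range_rangeRestrict
  obtain ⟨m, hm⟩ := (φ.comp r).exists_extend
  refine ⟨m, fun v => (LinearMap.congr_fun hm (f.rangeRestrict v)).trans ?_⟩
  refine sub_eq_zero.1 ((map_sub φ _ _).symm.trans (h _ ?_))
  rw [map_sub, sub_eq_zero]
  exact congrArg Subtype.val (LinearMap.congr_fun hr (f.rangeRestrict v))

/-- the inflation of `σ ⊗ ρ` -/
noncomputable abbrev inf (σ : GL α F → ℂ) (ρ : GL β F → ℂ) : PB α β F → ℂ :=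
  fun g => σ (bl g).1 * ρ (bl g).2

theorem inf_class {σ : GL α F → ℂ} {ρ : GL β F → ℂ} (hσ : IsClassFunction _ σ)
    (hρ : IsClassFunction _ ρ) : IsClassFunction _ (inf σ ρ) := fun g h => by
  simp only [inf, map_mul, map_inv, Prod.fst_mul, Prod.snd_mul, Prod.fst_inv, Prod.snd_inv, hσ _ _, hρ _ _]

theorem ext_uni (σ : GL α F → ℂ) (ρ : GL β F → ℂ) (y : Matrix α β F) (g : GL (α ⊕ β) F) :
    extendByZero _ (inf σ ρ) (pb 1 y 1 * g) = extendByZero _ (inf σ ρ) g := by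
  by_cases hg : g ∈ PB α β F
  · rw [H4.extendByZero_of_mem _ _ hg, show (pb 1 y 1 : GL (α ⊕ β) F) * g =
      (pb 1 y 1 * ⟨g, hg⟩ : PB α β F) from rfl, H4.extendByZero_coe]
    simp [inf, bl_pb]
  · rw [H4.extendByZero_of_notMem _ _ hg, H4.extendByZero_of_notMem _ _
      fun h => hg ((mul_mem_cancel_left (pb 1 y 1).2).1 h)]

theorem mI_eq_zero {σ σ' : GL α F → ℂ} (hσ : IsCharacter _ σ) (hc : Cusp σ) (ρ ρ' : GL β F → ℂ)
    {g : GL (α ⊕ β) F} (h0 : LinearMap.ker (Matrix.toLin' g.val.toBlocks₂₁) ≠ ⊥)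
    (h1 : g ∉ PB α β F) : mI _ (inf σ ρ) (inf σ' ρ') g = 0 := by
  set B := LinearMap.ker (Matrix.toLin' g.val.toBlocks₂₁) with hB
  have h2 : B ≠ ⊤ := fun e => h1 (mem_PB.2 fun i j => by
    have := LinearMap.ker_eq_top.1 e
    rw [LinearEquiv.map_eq_zero_iff] at this
    exact congrFun (congrFun this i) j)
  have key : ∀ u : UA B, ∃ x y : Matrix α β F, g * (pb u.1 x 1).1 = (pb 1 y 1).1 * g := fun u => by
    obtain ⟨m, hm⟩ := exists_factor (Matrix.toLin' g.val.toBlocks₂₁)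
      ((Matrix.toLin' u.1.val - LinearMap.id).codRestrict B u.2.1) fun v hv =>
        Subtype.ext (sub_eq_zero.2 (u.2.2 v hv))
    obtain ⟨M, hM⟩ := Matrix.toLin'.surjective (B.subtype.comp m)
    have e1 : u.1.val = 1 + M * g.val.toBlocks₂₁ := Matrix.toLin'.injective (LinearMap.ext fun v => by
      rw [map_add, Matrix.toLin'_mul, hM]
      simp only [LinearMap.add_apply, LinearMap.comp_apply, hm, Matrix.toLin'_one]
      exact (add_sub_cancel _ _).symm)
    have e2 : g.val.toBlocks₂₁ * M = 0 := Matrix.toLin'.injective (LinearMap.ext fun v => by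
      rw [Matrix.toLin'_mul, hM, map_zero]
      exact (m v).2)
    refine ⟨M * g.val.toBlocks₂₂, g.val.toBlocks₁₁ * M, Units.ext ?_⟩
    rw [Units.val_mul, Units.val_mul, pb_val, pb_val, ← Matrix.fromBlocks_toBlocks g.val,
      Matrix.fromBlocks_multiply, Matrix.fromBlocks_multiply, e1]
    simp [Matrix.mul_add, ← Matrix.mul_assoc, e2, add_comm]
  choose x y e using key
  refine sum_eq_zero_of_avg _ (fun u : UA B => Equiv.mulLeft (pb u (x u) 1)) fun h => ?_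
  have : ∀ u : UA B, g * ((pb u (x u) 1 * h : PB α β F) : GL (α ⊕ β) F) * g⁻¹ =
      pb 1 (y u) 1 * (g * h * g⁻¹) := fun u => by
    rw [Subgroup.coe_mul, ← mul_assoc, e]; group
  simp only [Equiv.coe_mulLeft, this, ext_uni]
  simp only [inf, map_mul bl, bl_pb, Prod.fst_mul, Prod.snd_mul, one_mul, mul_assoc]
  rw [← finsum_mul, hc.sum_mul hσ h0 h2, zero_mul]

theorem ip_inf (σ σ' : GL α F → ℂ) (ρ ρ' : GL β F → ℂ) :
    ip (inf σ ρ) (inf σ' ρ') = ip σ σ' * ip ρ ρ' := by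
  have := Fintype.ofFinite (GL α F)
  have := Fintype.ofFinite (GL β F)
  have := Fintype.ofFinite (PB α β F)
  rw [ip_eq, ip_eq, ip_eq, ← H4.classInner_prod]
  exact H4.classInner_comp_surjective bl bl_surjective (fun x => σ x.1 * ρ x.2) fun x => σ' x.1 * ρ' x.2

theorem mI_one {G : Type*} [Group G] [Finite G] {P : Subgroup G} (θ θ' : P → ℂ) :
    mI P θ θ' 1 / Nat.card {h : P // (1 : G) * h * 1⁻¹ ∈ P} = ip θ θ' := by
  have := Fintype.ofFinite P
  rw [Nat.card_congr (Equiv.subtypeUnivEquiv fun h => by simp), ip_eq, classInner, mI,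
    finsum_eq_sum_of_fintype, div_eq_inv_mul]
  simp

theorem heis0 [Nonempty α] {σ : GL α F → ℂ} (hσ : IsIrrCharacter _ σ) (hc : Cusp σ)
    (hlt : Fintype.card β < Fintype.card α) {ρ ρ' : GL β F → ℂ} (hρ : IsClassFunction _ ρ)
    (hρ' : IsClassFunction _ ρ') : ip (hcg σ ρ) (hcg σ ρ') = ip ρ ρ' := by
  have h1 := H3.IsIrrCharacter_isClassFunction hσ
  refine (mackey (inf_class h1 hρ) (inf_class h1 hρ') {1} (by simp +contextual) fun g hg =>
    mI_eq_zero (H3.IsIrrCharacter_isCharacter hσ) hc _ _ (fun e => hlt.not_ge ?_)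
      fun h => hg 1 (by simp) g h 1 (one_mem _) (by simp)).trans ?_
  · simpa using LinearMap.finrank_le_finrank_of_injective (LinearMap.ker_eq_bot.1 e)
  · rw [Finset.sum_singleton, mI_one, ip_inf, ip_self hσ, one_mul]

/-- the swap of the first two blocks -/
def swE (α γ : Type) : α ⊕ α ⊕ γ ≃ α ⊕ α ⊕ γ where
  toFun := Sum.elim (fun i => .inr (.inl i)) (Sum.elim .inl fun i => .inr (.inr i))
  invFun := Sum.elim (fun i => .inr (.inl i)) (Sum.elim .inl fun i => .inr (.inr i))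
  left_inv := by rintro (i | i | i) <;> rfl
  right_inv := by rintro (i | i | i) <;> rfl

omit [Finite F] in
theorem sw_sq : ((swE α γ).toPEquiv.toMatrix * (swE α γ).toPEquiv.toMatrix : Matrix _ _ F) = 1 := by
  rw [← PEquiv.toMatrix_trans, ← Equiv.toPEquiv_trans,
    show (swE α γ).trans (swE α γ) = Equiv.refl _ from (swE α γ).self_trans_symm,
    Equiv.toPEquiv_refl, PEquiv.toMatrix_refl]

/-- the permutation matrix of `swE` -/
def sw (α γ F : Type) [Field F] [Fintype α] [DecidableEq α] [Fintype γ] [DecidableEq γ] :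
    GL (α ⊕ α ⊕ γ) F := ⟨(swE α γ).toPEquiv.toMatrix, (swE α γ).toPEquiv.toMatrix, sw_sq, sw_sq⟩

omit [Finite F] in
theorem mul_sw (h : GL (α ⊕ α ⊕ γ) F) (i j) : (h * sw α γ F).val i j = h.val i (swE α γ j) :=
  congrFun (congrFun (PEquiv.mul_toMatrix_toPEquiv h.val (swE α γ)) i) j

omit [Finite F] in
theorem sw_conj (h : GL (α ⊕ α ⊕ γ) F) (i j) :
    (sw α γ F * h * (sw α γ F)⁻¹).val i j = h.val (swE α γ i) (swE α γ j) :=
  (mul_sw (sw α γ F * h) i j).trans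
    (congrFun (congrFun (PEquiv.toMatrix_toPEquiv_mul (swE α γ) h.val) i) _)

omit [Finite F] in
theorem sw_not_mem [Nonempty α] : sw α γ F ∉ PB α (α ⊕ γ) F := fun h => by
  obtain ⟨j⟩ := ‹Nonempty α›
  have := h.1 (.inl j) j
  rw [← one_mul (sw α γ F), mul_sw] at this
  simp [swE] at this

theorem mem_sw {g : GL (α ⊕ α ⊕ γ) F} (h0 : LinearMap.ker (Matrix.toLin' g.val.toBlocks₂₁) = ⊥) :
    ∃ p ∈ PB α (α ⊕ γ) F, ∃ p' ∈ PB α (α ⊕ γ) F, g = p * sw α γ F * p' := by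
  have i1 := LinearMap.ker_eq_bot.1 h0
  have i2 : Function.Injective (Matrix.toLin' (Matrix.fromRows (1 : Matrix α α F) (0 : Matrix γ α F))) :=
    fun v w e => funext fun i => by simpa using congrFun e (.inl i)
  obtain ⟨c, hc⟩ := Submodule.exists_linearEquiv_restrict_eq
    ((LinearEquiv.ofInjective _ i2).symm.trans (LinearEquiv.ofInjective _ i1))
  obtain ⟨C, rfl⟩ := Matrix.GeneralLinearGroup.toLin.surjective
    (LinearMap.GeneralLinearGroup.ofLinearEquiv c) |>.imp fun C (e : _ = _) =>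
      (LinearEquiv.ext fun v => (congrArg (fun u => u.val v) e).symm :
        c = (Matrix.GeneralLinearGroup.toLin C).toLinearEquiv)
  have e : C.val * Matrix.fromRows (1 : Matrix α α F) (0 : Matrix γ α F) = g.val.toBlocks₂₁ :=
    Matrix.toLin'.injective (LinearMap.ext fun v => by
      have := hc (LinearEquiv.ofInjective _ i2 v)
      rw [LinearEquiv.trans_apply, LinearEquiv.symm_apply_apply] at this
      rw [Matrix.toLin'_mul]
      exact this.symm)
  let p := pb 1 (Matrix.fromCols g.val.toBlocks₁₁ 0) C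
  refine ⟨p, p.2, (p * sw α γ F)⁻¹ * g, mem_PB.2 fun i j => ?_, by group⟩
  have k : ∀ l, g.val l (.inl j) = (p * sw α γ F).val l (.inl j) := fun l => by
    rw [mul_sw]
    rcases l with l | l
    · rfl
    · refine (congrFun (congrFun e l) j).symm.trans ?_
      simp [Matrix.mul_apply, Fintype.sum_sum_type, Matrix.one_apply, p, pb_val, swE]
  rw [Units.val_mul, Matrix.mul_apply]
  simp only [k]
  rw [← Matrix.mul_apply, Units.inv_mul]
  rfl

/-- the derivative of `ρ` along `σ` -/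
noncomputable def der (σ : GL α F → ℂ) (ρ : GL (α ⊕ γ) F → ℂ) (c : GL γ F) : ℂ :=
  (Nat.card (GL α F × Matrix α γ F) : ℂ)⁻¹ *
    ∑ᶠ t : GL α F × Matrix α γ F, conj (σ t.1) * ρ (pb t.1 t.2 c)

theorem der_class (σ : GL α F → ℂ) {ρ : GL (α ⊕ γ) F → ℂ} (hρ : IsClassFunction _ ρ) :
    IsClassFunction _ (der σ ρ) := fun c d => by
  unfold der
  let e : Matrix α γ F ≃ Matrix α γ F := ⟨fun y => y * d⁻¹.val, fun y => y * d.val,
    fun y => by simp [Matrix.mul_assoc], fun y => by simp [Matrix.mul_assoc]⟩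
  rw [← finsum_comp_equiv ((Equiv.refl _).prodCongr e)]
  refine congrArg _ (finsum_congr fun t => congrArg _ ?_)
  rw [← hρ (pb t.1 t.2 c) (pb 1 0 d).1, ← Subgroup.coe_inv, ← Subgroup.coe_mul, ← Subgroup.coe_mul,
    show (pb (1 : GL α F) 0 d)⁻¹ = pb 1 0 d⁻¹ from inv_eq_of_mul_eq_one_right (by simp [pb_mul, pb_one])]
  simp [pb_mul, e]

theorem card_PB' : Nat.card (PB α β F) = Nat.card (GL α F × Matrix α β F) * Nat.card (GL β F) := by
  rw [← Nat.card_congr pbE, Nat.card_prod]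

theorem ip_der (σ : GL α F → ℂ) (τ : GL γ F → ℂ) {ρ : GL (α ⊕ γ) F → ℂ} (hρ : IsClassFunction _ ρ) :
    ip (hcg σ τ) ρ = ip τ (der σ ρ) := by
  have := Fintype.ofFinite (GL α F × Matrix α γ F)
  have := Fintype.ofFinite (GL γ F)
  have := Fintype.ofFinite (PB α γ F)
  rw [hcg, ip_ind _ _ hρ, ip_eq, ip_eq, classInner, ← Equiv.sum_comp pbE, card_PB']
  simp only [classInner, der, finsum_eq_sum_of_fintype, Fintype.sum_prod_type_right, pbE,
    Equiv.coe_fn_mk, bl_pb, map_mul, map_sum, map_inv₀, map_natCast, Complex.conj_conj,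
    Finset.mul_sum]
  refine Finset.sum_congr rfl fun c _ => Finset.sum_congr rfl fun t _ => ?_
  push_cast
  ring

theorem ip_symm {G : Type*} [Group G] [Finite G] (a b : G → ℂ) : conj (ip a b) = ip b a :=
  @H3.conj_classInner G _ (Fintype.ofFinite G) a b

/-- the elements of `P ∩ P^s` -/
def ph (t : ((GL α F × Matrix α γ F) × (GL α F × Matrix α γ F)) × GL γ F) : PB α (α ⊕ γ) F :=
  pb t.1.1.1 (Matrix.fromCols 0 t.1.1.2) (pb t.1.2.1 t.1.2.2 t.2)

omit [Finite F] in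
theorem sw_ph (t : ((GL α F × Matrix α γ F) × (GL α F × Matrix α γ F)) × GL γ F) :
    sw α γ F * ph t * (sw α γ F)⁻¹ = ph (t.1.swap, t.2) :=
  Units.ext (Matrix.ext fun i j => by
    rw [sw_conj]
    rcases i with i | i | i <;> rcases j with j | j | j <;> rfl)

theorem ph_inj : Function.Injective (ph : _ × GL γ F → PB α (α ⊕ γ) F) := fun t t' e => by
  obtain ⟨h1, h2⟩ := Prod.ext_iff.1 (pbE.injective (a₁ := ((t.1.1.1, Matrix.fromCols 0 t.1.1.2), _))
    (a₂ := ((t'.1.1.1, Matrix.fromCols 0 t'.1.1.2), _)) e)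
  obtain ⟨h3, h4⟩ := Prod.ext_iff.1 (pbE.injective (a₁ := (t.1.2, t.2)) (a₂ := (t'.1.2, t'.2))
    (Subtype.ext h2))
  obtain ⟨h5, h6⟩ := Prod.ext_iff.1 h1
  exact Prod.ext (Prod.ext (Prod.ext h5 (Matrix.fromCols_inj h6).2) h3) h4

theorem ph_range {h : PB α (α ⊕ γ) F} (e : sw α γ F * h * (sw α γ F)⁻¹ ∈ PB α (α ⊕ γ) F) :
    ∃ t, ph t = h := by
  obtain ⟨⟨⟨a, x⟩, c⟩, rfl⟩ := pbE.surjective h
  have k := fun i j => (sw_conj _ _ _).symm.trans (e.1 i j)
  obtain ⟨⟨t, d⟩, hd⟩ := pbE.surjective ⟨c, mem_PB.2 fun i j => k (.inr i) j⟩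
  refine ⟨(((a, x.toCols₂), t), d), ?_⟩
  have e1 : x = Matrix.fromCols 0 x.toCols₂ := by
    ext i (j | j)
    exacts [k (.inl i) j, rfl]
  rw [show c = (pb t.1 t.2 d).1 from (congrArg Subtype.val hd).symm, e1]
  rfl

theorem mI_sw (σ : GL α F → ℂ) (ρ ρ' : GL (α ⊕ γ) F → ℂ) :
    mI _ (inf σ ρ) (inf σ ρ') (sw α γ F) / Nat.card {h : PB α (α ⊕ γ) F //
      sw α γ F * h * (sw α γ F)⁻¹ ∈ PB α (α ⊕ γ) F} = ip (der σ ρ) (der σ ρ') := by
  have := Fintype.ofFinite (GL α F × Matrix α γ F)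
  have := Fintype.ofFinite (GL γ F)
  have := Fintype.ofFinite (PB α (α ⊕ γ) F)
  have n1 : (Nat.card (GL α F × Matrix α γ F) : ℂ) ≠ 0 := Nat.cast_ne_zero.2 Nat.card_pos.ne'
  rw [← Nat.card_eq_of_bijective (fun t => ⟨ph t, sw_ph t ▸ (ph _).2⟩)
    ⟨fun t t' e => ph_inj (congrArg Subtype.val e), fun h =>
      (ph_range h.2).imp fun t e => Subtype.ext e⟩, mI, finsum_eq_sum_of_fintype,
    ← Fintype.sum_of_injective ph ph_inj (fun t => σ t.1.1.1 * ρ (pb t.1.2.1 t.1.2.2 t.2) *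
      conj (σ t.1.2.1 * ρ' (pb t.1.1.1 t.1.1.2 t.2))) _
      (fun h hh => by rw [H4.extendByZero_of_notMem _ _ fun e => hh (ph_range e)]; simp)
      (fun t => by rw [sw_ph, H4.extendByZero_coe]; simp [inf, ph, bl_pb]),
    ip_eq, classInner, Nat.card_prod, Nat.card_prod, Fintype.sum_prod_type_right, div_eq_inv_mul,
    Finset.mul_sum, Finset.mul_sum]
  refine Finset.sum_congr rfl fun c _ => ?_
  simp only [der, finsum_eq_sum_of_fintype, map_mul, map_sum, map_inv₀, map_natCast, Complex.conj_conj]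
  rw [Fintype.sum_prod_type_right, mul_mul_mul_comm, Finset.sum_mul_sum, ← mul_assoc]
  congr 1
  · push_cast; ring
  · exact Finset.sum_congr rfl fun t _ => Finset.sum_congr rfl fun t' _ => by ring

theorem heis [Nonempty α] {σ : GL α F → ℂ} (hσ : IsIrrCharacter _ σ) (hc : Cusp σ)
    {ρ ρ' : GL (α ⊕ γ) F → ℂ} (hρ : IsClassFunction _ ρ) (hρ' : IsClassFunction _ ρ') :
    ip (hcg σ ρ) (hcg σ ρ') = ip ρ ρ' +
      ∑ᶠ τ : IrrCharacter (GL γ F), ip ρ (hcg σ τ) * ip (hcg σ τ) ρ' := by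
  classical
  have h1 := H3.IsIrrCharacter_isClassFunction hσ
  have n : (1 : GL (α ⊕ α ⊕ γ) F) ≠ sw α γ F := fun e => sw_not_mem (e ▸ one_mem _)
  refine (mackey (inf_class h1 hρ) (inf_class h1 hρ') {1, sw α γ F} ?_ fun g hg =>
    mI_eq_zero (H3.IsIrrCharacter_isCharacter hσ) hc _ _ (fun e => ?_)
      fun h => hg 1 (by simp) g h 1 (one_mem _) (by simp)).trans ?_
  · simp only [Finset.mem_insert, Finset.mem_singleton]
    rintro _ (rfl | rfl) _ (rfl | rfl) p hp p' hp' e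
    · rfl
    · exact absurd (e ▸ mul_mem (mul_mem hp (one_mem _)) hp') sw_not_mem
    · exact absurd ((mul_mem_cancel_left hp).1 ((mul_mem_cancel_right hp').1 (e ▸ one_mem _)))
        sw_not_mem
    · rfl
  · obtain ⟨p, hp, p', hp', e⟩ := mem_sw e
    exact hg _ (by simp) p hp p' hp' e
  · have := Fintype.ofFinite (GL γ F)
    rw [Finset.sum_pair n, mI_one, ip_inf, ip_self hσ, one_mul, mI_sw, finsum_eq_sum_of_fintype,
      ip_eq (der σ ρ), H3.classInner_eq_sum_irr (der_class σ hρ)]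
    refine congrArg _ (Finset.sum_congr rfl fun τ _ => ?_)
    rw [← ip_symm (hcg σ τ.1) ρ, ip_der _ _ hρ, ip_der _ _ hρ', ip_symm, ip_eq, ip_eq]

end Cfsg.Agent.DG
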