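import Cfsg.Agent.Lib.DG.Defs

/-!
# Prime coverage (row DG-NT, see notes/DG.md)
-/

set_option autoImplicit false

namespace Cfsg.Agent.DG

variable {q r m k : ℕ}

theorem pp_add (q t m k l : ℕ) : pp q t m (k + l) = pp q t m k * pp q t (m + k) l := by
  simp only [pp, Finset.prod_range_add, add_assoc]

theorem exists_K {n : ℕ} (hn : 5 ≤ n) : ∃ a m, 2 ≤ a ∧ 1 ≤ m ∧ m ≤ 2 ^ a ∧ m + 2 ^ a = n := by
  have h1 := Nat.pow_log_le_self 2 (show n - 1 ≠ 0 by omega)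
  have h2 := Nat.lt_pow_succ_log_self one_lt_two (n - 1)
  refine ⟨Nat.log 2 (n - 1), n - 2 ^ Nat.log 2 (n - 1), Nat.le_log_of_pow_le one_lt_two (by omega),
    by omega, by rw [pow_succ] at h2; omega, by omega⟩

theorem gl_dvd_prod (hq : 1 ≤ q) (k m : ℕ) :
    gl q k ∣ ∏ i ∈ Finset.range k, (q ^ (m + i + 1) - 1) := by
  induction k generalizing m with
  | zero => simp [gl]
  | succ k ih =>
    induction m with
    | zero => simp [gl]
    | succ m ihm =>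
      have e : q ^ (m + 1 + k + 1) - 1 = q ^ (k + 1) * (q ^ (m + 0 + 1) - 1) + (q ^ (k + 1) - 1) := by
        have h1 := Nat.one_le_pow (k + 1) q hq
        have h2 := Nat.one_le_pow (m + 0 + 1) q hq
        have h3 := Nat.one_le_pow (m + 1 + k + 1) q hq
        zify [h1, h2, h3]
        ring
      rw [Finset.prod_range_succ, e, mul_add]
      refine dvd_add ?_ (by rw [gl, Finset.prod_range_succ]; exact Nat.mul_dvd_mul_right (ih _) _)
      rw [mul_left_comm]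
      refine Dvd.dvd.mul_left (ihm.trans (dvd_of_eq ?_)) _
      rw [Finset.prod_range_succ']
      simp only [add_assoc, add_comm 1]

theorem DD_eq (hq : 2 ≤ q) (t m k : ℕ) : ∃ β, DD q t m (k + 1) =
    β * gl q k * ∏ i ∈ Finset.range (k + 1), (q ^ (m + i) * t + 1) ∧
      pp q t m (k + 1) = DD q t m (k + 1) * (q ^ (k + 1) - 1) := by
  obtain ⟨β, hβ⟩ := gl_dvd_prod (q := q) (by omega) (k + 1) m
  have e : pp q t m (k + 1) = β * gl q k * (∏ i ∈ Finset.range (k + 1), (q ^ (m + i) * t + 1)) *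
      (q ^ (k + 1) - 1) := by
    rw [pp, Finset.prod_mul_distrib, hβ, gl, Finset.prod_range_succ, gl]; ring
  have e' := Nat.mul_div_cancel (β * gl q k * ∏ i ∈ Finset.range (k + 1), (q ^ (m + i) * t + 1))
    (Nat.sub_pos_of_lt (Nat.one_lt_pow (Nat.succ_ne_zero k) hq))
  exact ⟨β, by rw [DD, e, e'], by rw [DD, e, e']⟩

theorem nt_dvd_sub (hq : 2 ≤ q) (j : ℕ) : r ∣ q ^ j - 1 ↔ orderOf (q : ZMod r) ∣ j := by
  rw [orderOf_dvd_iff_pow_eq_one, ← Nat.modEq_iff_dvd' (Nat.one_le_pow _ _ (by omega)),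
    ← ZMod.natCast_eq_natCast_iff, Nat.cast_pow, Nat.cast_one, eq_comm]

theorem nt_dvd_add (j s : ℕ) : r ∣ q ^ j * q ^ s + 1 ↔ (q : ZMod r) ^ (j + s) = -1 := by
  rw [← ZMod.natCast_eq_zero_iff, ← pow_add, eq_neg_iff_add_eq_zero]
  push_cast
  rfl

theorem nt_core (hq : 2 ≤ q) (hr : r.Prime) (hrq : ¬ r ∣ q) (hk : Even k) (hk0 : 0 < k) (s m : ℕ)
    (h : r ∣ pp q (q ^ s) 0 (m + k)) : r ∣ DD q (q ^ s) m k ∨ (k < orderOf (q : ZMod r) ∧
      (orderOf (q : ZMod r) ≤ m ∨ (m + k < orderOf (q : ZMod r) ∧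
        ∃ j < m, orderOf (q : ZMod r) ≤ 2 * (j + s) ∧ r ∣ q ^ j * q ^ s + 1))) := by
  have := Fact.mk hr
  refine or_iff_not_imp_left.2 fun hD => ?_
  obtain ⟨k, rfl⟩ := Nat.exists_eq_succ_of_ne_zero hk0.ne'
  obtain ⟨β, h1, h2⟩ := DD_eq hq (q ^ s) m k
  have e0 : 0 < orderOf (q : ZMod r) := (isOfFinOrder_iff_pow_eq_one.2 ⟨r - 1, Nat.sub_pos_of_lt
    hr.one_lt, ZMod.pow_card_sub_one_eq_one (mt (ZMod.natCast_eq_zero_iff _ _).1 hrq)⟩).orderOf_pos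
  have hb : ∀ i < k + 1, ¬ r ∣ q ^ (m + i) * q ^ s + 1 := fun i hi e => hD (h1 ▸ (e.trans
    (Finset.dvd_prod_of_mem (fun i => q ^ (m + i) * q ^ s + 1) (Finset.mem_range.2 hi))).mul_left _)
  have he := pow_orderOf_eq_one (q : ZMod r)
  have hmin := fun n => @pow_ne_one_of_lt_orderOf _ _ (q : ZMod r) n
  have hd := fun j => nt_dvd_sub (r := r) hq j
  generalize orderOf (q : ZMod r) = e at *
  have hlt : k + 1 < e := by
    rcases lt_trichotomy e (k + 1) with h3 | rfl | h3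
    · refine (hD (h1 ▸ ((((hd _).2 (dvd_of_eq (Nat.sub_add_cancel e0).symm)).trans
        (Finset.dvd_prod_of_mem (fun i => q ^ (i + 1) - 1)
          (Finset.mem_range.2 (show e - 1 < k by omega)))).mul_left _).mul_right _)).elim
    · obtain ⟨c, hc⟩ := hk
      have h4 : (q : ZMod r) ^ c = -1 := (mul_self_eq_one_iff.1 (by
        rw [← pow_add, ← hc, he])).resolve_left (hmin c (by omega) (by omega))
      obtain ⟨i, hi, n, hn⟩ : ∃ i < k + 1, ∃ n, m + i + s + (k + 1) = c + (k + 1) * n :=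
        ⟨(c + k * (m + s)) % (k + 1), Nat.mod_lt _ hk0, m + s + 1 - (c + k * (m + s)) / (k + 1), by
          have h5 := Nat.mod_add_div (c + k * (m + s)) (k + 1)
          have h6 : (c + k * (m + s)) / (k + 1) ≤ m + s + 1 :=
            Nat.div_le_of_le_mul (by nlinarith)
          zify [h6] at h5 ⊢
          linear_combination h5⟩
      refine (hb i hi ((nt_dvd_add _ _).2 ?_)).elim
      rw [← mul_one (_ ^ _), ← he, ← pow_add, hn, pow_add, pow_mul, he, one_pow, mul_one, h4]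
    · exact h3
  refine ⟨hlt, or_iff_not_imp_left.2 fun h3 => ?_⟩
  have h4 : m + (k + 1) < e := by
    by_contra h4
    refine hD (((hr.dvd_mul.1 (h2 ▸ (((hd e).2 dvd_rfl).trans ?_))).resolve_right fun h5 =>
      (Nat.le_of_dvd hk0 ((hd _).1 h5)).not_gt hlt))
    exact (dvd_of_eq (by rw [show m + (e - m - 1) + 1 = e by omega]) |>.mul_right _).trans
      (Finset.dvd_prod_of_mem (fun i => (q ^ (m + i + 1) - 1) * (q ^ (m + i) * q ^ s + 1))
        (Finset.mem_range.2 (show e - m - 1 < k + 1 by omega)))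
  obtain ⟨j, hj, h5⟩ := (hr.prime.dvd_finsetProd_iff _).1 h
  rw [Finset.mem_range] at hj
  rw [zero_add] at h5
  have h6 := (hr.dvd_mul.1 h5).resolve_left fun h6 => by
    have := Nat.le_of_dvd (Nat.succ_pos j) ((hd _).1 h6)
    omega
  have h7 := (nt_dvd_add _ _).1 h6
  refine ⟨h4, j, lt_of_not_ge fun h8 => hb (j - m) (by omega) (by rwa [Nat.add_sub_cancel' h8]),
    le_of_not_gt fun h8 => hmin _ (fun h9 => ?_) h8 (by rw [pow_mul', h7, neg_one_sq]), h6⟩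
  rw [show j + s = 0 by omega, pow_zero, eq_neg_iff_add_eq_zero, one_add_one_eq_two] at h7
  obtain rfl : r = 2 := (Nat.prime_dvd_prime_iff_eq hr Nat.prime_two).1
    ((ZMod.natCast_eq_zero_iff 2 r).1 (by exact_mod_cast h7))
  exact hmin 1 one_ne_zero (by omega) (by
    rw [pow_one]; exact (ZMod.natCast_eq_one_iff_odd).2 (Nat.odd_iff.2 (by omega)))

theorem nt_not_dvd_sq (hq : 2 ≤ q) (h : 2 < orderOf (q : ZMod r)) : ¬ r ∣ (q - 1) * (q + 1) := by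
  rw [mul_comm, ← Nat.sq_sub_sq, one_pow, nt_dvd_sub hq]
  exact fun e => (Nat.le_of_dvd two_pos e).not_gt h

theorem nt1 {t : ℕ} (hq : 2 ≤ q) (hr : r.Prime) (hrq : ¬ r ∣ q) (ht : t = 1 ∨ t = q)
    (hk : Even k) (hk0 : 0 < k) (hm : m ≤ k) (h : r ∣ pp q t 0 (m + k)) : r ∣ DD q t m k := by
  obtain ⟨s, hs, rfl⟩ : ∃ s ≤ 1, t = q ^ s := by
    rcases ht with rfl | rfl
    exacts [⟨0, zero_le_one, rfl⟩, ⟨1, le_rfl, (pow_one _).symm⟩]
  refine (nt_core hq hr hrq hk hk0 s m h).elim id fun ⟨h1, h2⟩ => ?_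
  rcases h2 with h2 | ⟨h2, j, h3, h4, -⟩ <;> omega

theorem nt2 (hq : 2 ≤ q) (hr : r.Prime) (hrq : ¬ r ∣ q) (hk : Even k) (hk0 : 0 < k) {d : ℕ}
    (hd : IsD1 q 1 (k + 1) d) (h : r ∣ pp q 1 0 (k + 1 + k)) : r ∣ DD q 1 (k + 1) k * d := by
  refine (nt_core hq hr hrq hk hk0 0 (k + 1) h).elim (·.mul_right _) fun ⟨h1, h2⟩ => ?_
  obtain ⟨c, hc⟩ := hk
  rcases h2 with h2 | ⟨h2, j, h3, h4, -⟩
  · exact ((hr.dvd_mul.1 (hd ▸ (((nt_dvd_sub hq _).2 (dvd_of_eq (by omega))).mul_left _).mul_right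
      _)).resolve_right (nt_not_dvd_sq hq (by omega))).mul_left _
  · omega

theorem nt3 (hq : 2 ≤ q) (hr : r.Prime) (hrq : ¬ r ∣ q) (hk : Even k) (hm : m + 2 ≤ k)
    (h : r ∣ pp q (q ^ 2) 0 (m + k)) : r ∣ DD q (q ^ 2) m k := by
  refine (nt_core hq hr hrq hk (by omega) 2 m h).elim id fun ⟨h1, h2⟩ => ?_
  rcases h2 with h2 | ⟨h2, j, h3, h4, -⟩ <;> omega

theorem nt4 (hq : 2 ≤ q) (hr : r.Prime) (hrq : ¬ r ∣ q) (hk : Even k) (hm : 2 ≤ m) (hmk : m ≤ k)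
    {d : ℕ} (hd : IsD2 q (q ^ 2) m d) (h : r ∣ pp q (q ^ 2) 0 (m + k)) :
    r ∣ DD q (q ^ 2) m k * d := by
  refine (nt_core hq hr hrq hk (by omega) 2 m h).elim (·.mul_right _) fun ⟨h1, h2⟩ => ?_
  rcases h2 with h2 | ⟨h2, j, h3, h4, h5⟩
  · omega
  obtain rfl : j = m - 1 := by omega
  refine ((hr.dvd_mul.1 (hd ▸ h5.mul_left _)).resolve_right fun e => ?_).mul_left _
  rw [show (q - 1) * (q + q ^ 2) = q * ((q - 1) * (q + 1)) by ring] at e
  exact (hr.dvd_mul.1 e).elim hrq (nt_not_dvd_sq hq (by omega))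

theorem nt8 {t : ℕ} (hq : 2 ≤ q) (hodd : Odd q) (ht : Odd t) (hk : Even k) (hk0 : 0 < k) :
    8 ∣ DD q t m k := by
  obtain ⟨k, rfl⟩ : ∃ l, k = l + 1 + 1 := ⟨k - 2, by obtain ⟨c, hc⟩ := hk; omega⟩
  obtain ⟨β, h, -⟩ := DD_eq hq t m (k + 1)
  have k1 : ∀ j, 2 ∣ q ^ j * t + 1 := fun j => (hodd.pow.mul ht).add_one.two_dvd
  rw [h, Finset.prod_range_succ, Finset.prod_range_succ, gl, Finset.prod_range_succ]
  exact Nat.mul_dvd_mul (a := 2) (c := 4)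
    (((Nat.Odd.sub_odd hodd.pow odd_one).two_dvd.mul_left _).mul_left _)
    (Nat.mul_dvd_mul (a := 2) (c := 2) ((k1 _).mul_left _) (k1 _))

theorem cop_q (hq : 2 ≤ q) : q.Coprime ((q - 1) * (q + 1)) :=
  Nat.Coprime.mul_right ((Nat.coprime_self_sub_right (by omega)).2 (by simp)) (by simp)

/-- the part of the characteristic in the rank three degrees -/
theorem d1_one {n d : ℕ} (hq : 2 ≤ q) (hd : IsD1 q 1 n d) : q ∣ d :=
  (cop_q hq).dvd_of_dvd_mul_right (hd ▸ ((dvd_mul_right q 1).mul_right _).mul_right _)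

theorem d2_one {n d : ℕ} (hq : 2 ≤ q) (hd : IsD2 q 1 n d) : q ^ 2 ∣ d :=
  ((cop_q hq).pow_left 2).dvd_of_dvd_mul_right (hd ▸ (dvd_mul_right _ _).mul_right _)

theorem d1_sq {n d : ℕ} (hq : 2 ≤ q) (hd : IsD1 q (q ^ 2) n d) : q ^ 2 ∣ d :=
  ((cop_q hq).pow_left 2).dvd_of_dvd_mul_right ⟨(q ^ n - 1) * (q ^ (n - 2) * q ^ 2 + 1),
    Nat.eq_of_mul_eq_mul_left (show 0 < q by omega) (by unfold IsD1 at hd; linear_combination hd)⟩

theorem d2_sq {n d : ℕ} (hq : 2 ≤ q) (hd : IsD2 q (q ^ 2) n d) : q ∣ d :=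
  (cop_q hq).dvd_of_dvd_mul_right ⟨(q ^ (n - 1) - 1) * (q ^ (n - 1) * q ^ 2 + 1),
    Nat.eq_of_mul_eq_mul_left (show 0 < q by omega) (by unfold IsD2 at hd; linear_combination hd)⟩

theorem d1_self {n d : ℕ} (hq : 2 ≤ q) (hd : IsD1 q q n d) : q ∣ 2 * d :=
  ((cop_q hq).coprime_mul_right_right).dvd_of_dvd_mul_right ⟨(q ^ n - 1) * (q ^ (n - 2) * q + 1),
    Nat.eq_of_mul_eq_mul_left (show 0 < q by omega) (by unfold IsD1 at hd; linear_combination hd)⟩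

theorem prime_dvd_of_two_mul {d : ℕ} (hq : 3 ≤ q) (hpp : IsPrimePow q) (hr : r.Prime)
    (hrq : r ∣ q) (h : q ∣ 2 * d) : r ∣ d := by
  refine (hr.dvd_mul.1 (hrq.trans h)).elim (fun e => ?_) id
  obtain rfl := (Nat.prime_dvd_prime_iff_eq hr Nat.prime_two).1 e
  obtain ⟨p, n, hp, -, rfl⟩ := (isPrimePow_nat_iff _).1 hpp
  obtain rfl := (Nat.prime_dvd_prime_iff_eq hr hp).1 (hr.dvd_of_dvd_pow hrq)
  have : 2 ^ 2 ∣ 2 * d := (pow_dvd_pow 2 (by
    by_contra h1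
    have : n ≤ 1 := by omega
    interval_cases n <;> omega)).trans h
  omega

/-- removing a divisor of four -/
theorem dvd_crude {D c d : ℕ} (hr : r.Prime) (h : D = c * d) (hc : c ∣ 4)
    (hD : r ∣ D) (h2 : r = 2 → 8 ∣ D ∨ (c ∣ 2 ∧ 4 ∣ D) ∨ c = 1) : r ∣ d := by
  subst h
  refine (hr.dvd_mul.1 hD).elim (fun e => ?_) id
  obtain rfl := (Nat.prime_dvd_prime_iff_eq hr Nat.prime_two).1
    (hr.dvd_of_dvd_pow (n := 2) (e.trans hc))
  have := h2 rfl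
  have := Nat.le_of_dvd (by norm_num) hc
  interval_cases c <;> omega

end Cfsg.Agent.DG
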