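import Cfsg.Agent.Lib.DG.Par
import Cfsg.Agent.Lib.DG.Heis
import Cfsg.Agent.Lib.DG.NT

/-!
# Orders and indices (row DG-Count, see notes/DG.md)
-/

set_option autoImplicit false

open scoped ComplexConjugate Matrix
open Module Cfsg

namespace Cfsg.Agent.DG.Fm

variable {sy : Bool} {F V V' : Type} [Field F] [Finite F] [AddCommGroup V] [Module F V]
  [Finite V] [AddCommGroup V'] [Module F V'] [Finite V'] {f : Fm sy F V} {a : Fm sy F V'}

/-- the number of vectors of length `c` -/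
noncomputable def NQ (f : Fm sy F V) (c : F) : ℕ := Nat.card {v : V // f.Q v = c}

theorem NQ_iso {f' : Fm sy F V'} (i : Iso f f') (c : F) : f.NQ c = f'.NQ c :=
  Nat.card_congr (i.e.toEquiv.subtypeEquiv fun x => by rw [← i.hQ]; rfl)

theorem NQ_hyp {V : Type} [AddCommGroup V] [Module F V] [Finite V] (f : Fm false F V) (c : F) :
    (f.hyp (Fin 1)).NQ c = Nat.card F * f.NQ c + Nat.card V * (Nat.card F - 1) := by
  rw [← Nat.card_units, NQ, NQ, ← Nat.card_prod, ← Nat.card_prod, ← Nat.card_sum]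
  refine (Nat.card_eq_of_bijective (Sum.elim
    (fun p : F × {v // f.Q v = c} => ⟨(fun _ => p.1, 0, p.2.1), by simp [hyp_Q, p.2.2]⟩)
    fun p : V × Fˣ => (⟨(fun _ => (c - f.Q p.1) / p.2, fun _ => p.2, p.1), by
      simp [hyp_Q, kap, dotProduct]⟩ : {v // (f.hyp (Fin 1)).Q v = c})) ⟨?_, ?_⟩).symm
  · rintro (p | p) (p' | p') e <;>
      simp only [Sum.elim_inl, Sum.elim_inr, Subtype.mk.injEq, Prod.mk.injEq] at e
    · exact congrArg _ (Prod.ext (congrFun e.1 0) (Subtype.ext e.2.2))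
    · exact (p'.2.ne_zero (congrFun e.2.1 0).symm).elim
    · exact (p.2.ne_zero (congrFun e.2.1 0)).elim
    · exact congrArg _ (Prod.ext e.2.2 (Units.ext (congrFun e.2.1 0)))
  · rintro ⟨⟨x, y, z⟩, h⟩
    have h' : x 0 * y 0 + f.Q z = c := by simpa [hyp_Q, kap, dotProduct] using h
    by_cases hy : y 0 = 0
    · exact ⟨.inl (x 0, ⟨z, by simpa [hy] using h'⟩), Subtype.ext (Prod.ext
        (funext fun i => by rw [Subsingleton.elim i 0]; rfl)
        (Prod.ext (funext fun i => by rw [Subsingleton.elim i 0]; exact hy.symm) rfl))⟩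
    · exact ⟨.inr (z, Units.mk0 _ hy), Subtype.ext (Prod.ext
        (funext fun i => by
          rw [Subsingleton.elim i 0]; exact (div_eq_iff hy).2 (by linear_combination -h'))
        (Prod.ext (funext fun i => by rw [Subsingleton.elim i 0]; rfl) rfl))⟩

theorem card_sing (ha : a.Aniso) {n : ℕ} (h : St f n a) :
    f.NQ 0 = 1 + (Nat.card F ^ n - 1) * (Nat.card F ^ (n - 1) * a.tp + 1) := by
  have h0 : a.NQ 0 = 1 := Nat.card_eq_one_iff_unique.2
    ⟨⟨fun x y => Subtype.ext ((ha _ x.2).trans (ha _ y.2).symm)⟩, ⟨⟨0, Q_zero _⟩⟩⟩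
  have hq : ∀ n, 1 ≤ Nat.card F ^ n := fun n => Nat.one_le_pow _ _ Nat.card_pos
  obtain ⟨i⟩ := h
  obtain ⟨i0⟩ := St.zero a
  rw [NQ_iso i]
  clear i
  rcases n with _ | n
  · rw [← NQ_iso i0, h0]; simp
  rw [Nat.add_sub_cancel]
  cases sy
  · simp only [tp, Bool.false_eq_true, if_false, mul_one]
    induction n with
    | zero =>
      obtain ⟨i⟩ := (St.refl a (0 + 1)).split
      rw [NQ_iso i, NQ_hyp, (St.refl a 0).card, ← NQ_iso i0, h0]
      zify [hq, Nat.card_pos (α := F)]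
      ring
    | succ n ih =>
      obtain ⟨i⟩ := (St.refl a (n + 1 + 1)).split
      rw [NQ_iso i, NQ_hyp, (St.refl a (n + 1)).card, ih]
      zify [hq, Nat.card_pos (α := F)]
      ring
  · have : Nat.card V' = 1 := Nat.card_eq_one_iff_unique.2
      ⟨⟨fun x y => (ha _ (a.qz rfl x)).trans (ha _ (a.qz rfl y)).symm⟩, ⟨0⟩⟩
    rw [NQ, Nat.card_congr (Equiv.subtypeUnivEquiv ((a.hyp _).qz rfl)), (St.refl a _).card, tp, this,
      if_pos rfl]
    zify [hq]
    ring

theorem card_UU_eq {m : ℕ} (h : St f m a) (k : ℕ) :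
    Nat.card (f.UU (Fin k)) = uu (Nat.card F) a.tp m k := by
  rw [card_UU, h.card, Fintype.card_fin, mul_assoc]
  rfl

theorem card_O_hyp (f : Fm sy F V) : Nat.card (f.hyp (Fin 1)).O =
    Nat.card f.O * Nat.card (f.UU (Fin 1)) * ((f.hyp (Fin 1)).NQ 0 - 1) := by
  let e : (Fin 1 → F) × (Fin 1 → F) × V := (fun _ => 1, 0, 0)
  have e0 : e ≠ 0 := fun h => one_ne_zero (congrFun (congrArg Prod.fst h) 0)
  have eQ : (f.hyp (Fin 1)).Q e = 0 := by simp [e, hyp_Q, Q_zero]
  have h2 : MulAction.orbit (f.hyp (Fin 1)).O e = {v | (f.hyp (Fin 1)).Q v = 0} \ {0} :=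
    Set.ext fun v => ⟨fun ⟨g, hg⟩ => hg ▸ ⟨(g.2.1 _).trans eQ, fun h =>
      e0 (g.1.map_eq_zero_iff.1 h)⟩, fun hv => trans_sing e0 hv.2 eQ hv.1⟩
  have h3 : ∀ g ∈ MulAction.stabilizer (f.hyp (Fin 1)).O e, ∀ x, g.1 (x, 0, 0) = (x, 0, 0) :=
    fun g hg x => by
      have : ((x, 0, 0) : (Fin 1 → F) × (Fin 1 → F) × V) = x 0 • e :=
        Prod.ext (funext fun i => by simp [e, Subsingleton.elim i 0]) (by simp [e])
      rw [this, map_smul, show g.1 e = e from hg]
  have h4 : MulAction.stabilizer (f.hyp (Fin 1)).O e ≤ f.P (Fin 1) := fun g hg =>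
    ⟨1, fun x => by simp [h3 g hg]⟩
  have h5 : (MulAction.stabilizer (f.hyp (Fin 1)).O e).subgroupOf (f.P (Fin 1)) =
      ((MonoidHom.fst _ _).comp (f.pr (Fin 1))).ker := Subgroup.ext fun g =>
    ⟨fun hg => gl_ext fun x => by
      simpa using congrArg Prod.fst ((pr_fst g x).symm.trans (h3 _ hg x)), fun hg => by
      have := pr_fst g fun _ => 1
      rwa [show (f.pr (Fin 1) g).1 = 1 from hg, Units.val_one, Matrix.one_mulVec] at this⟩
  have h6 := ((MonoidHom.fst _ _).comp (f.pr (Fin 1))).ker.index_mul_card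
  rw [Subgroup.index_ker, MonoidHom.range_eq_top.2 (Prod.fst_surjective.comp pr_surjective),
    Subgroup.card_top, card_P, mul_assoc, ← h5,
    Nat.card_congr (Subgroup.subgroupOfEquivOfLe h4).toEquiv] at h6
  rw [← (MulAction.stabilizer (f.hyp (Fin 1)).O e).card_mul_index, MulAction.index_stabilizer, h2,
    Nat.eq_of_mul_eq_mul_left Nat.card_pos h6, Set.ncard_diff_singleton_of_mem (by exact Q_zero _)]
  rfl

theorem card_O (ha : a.Aniso) {n : ℕ} (h : St f n a) : Nat.card f.O =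
    Nat.card a.O * pp (Nat.card F) a.tp 0 n *
      ∏ i ∈ Finset.range n, (Nat.card F ^ (2 * i) * a.tp) := by
  obtain ⟨i⟩ := h.grp (St.refl a n)
  rw [Nat.card_congr i.toEquiv]
  clear i h
  induction n with
  | zero =>
    obtain ⟨i⟩ := (St.zero a).grp (St.refl a 0)
    simp [pp, Nat.card_congr i.toEquiv]
  | succ n ih =>
    obtain ⟨i⟩ := (St.refl a (n + 1)).split
    have h1 := card_O_hyp (a.hyp (Fin n))
    rw [card_sing ha ((St.refl a n).hyp 1), card_UU_eq (St.refl a n), ih] at h1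
    rw [Nat.card_congr i.grp.toEquiv, h1, pp, pp, Finset.prod_range_succ, Finset.prod_range_succ, uu]
    simp only [Nat.add_sub_cancel_left, Nat.add_sub_cancel, zero_add]
    ring

theorem index_P (ha : a.Aniso) {m : ℕ} (h : St f m a) (k : ℕ) :
    (f.P (Fin k)).index * gl (Nat.card F) k = pp (Nat.card F) a.tp m k := by
  have h1 := (f.P (Fin k)).index_mul_card
  have h2 := card_O ha h
  have h3 : ∏ i ∈ Finset.range k, (Nat.card F ^ (2 * (m + i)) * a.tp) =
      uu (Nat.card F) a.tp m k * Nat.card F ^ (k * (k - 1) / 2) := by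
    rw [uu, ← Finset.sum_range_id, ← Finset.prod_pow_eq_pow_sum, ← Finset.card_range k,
      ← Finset.prod_const, Finset.card_range, ← Finset.prod_mul_distrib, ← Finset.prod_mul_distrib]
    exact Finset.prod_congr rfl fun i _ => by ring
  rw [card_O ha (h.hyp k), pp_add, Finset.prod_range_add, h3, zero_add, ← card_UU_eq h, card_P,
    card_GL, Fintype.card_fin] at h1
  refine Nat.eq_of_mul_eq_mul_right (Nat.mul_pos (Nat.mul_pos (Nat.pow_pos Nat.card_pos)
    Nat.card_pos) Nat.card_pos : 0 < Nat.card F ^ (k * (k - 1) / 2) * Nat.card f.O *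
      Nat.card (f.UU (Fin k))) ?_
  rw [mul_assoc, ← mul_assoc (gl _ _), ← mul_assoc (gl _ _), h1, h2]
  ring

theorem prime_dvd_card_O (ha : a.Aniso) {n : ℕ} (h : St f n a) {r : ℕ} (hr : r.Prime)
    (hd : r ∣ Nat.card f.O) :
    r ∣ Nat.card a.O ∨ r ∣ Nat.card F ∨ r ∣ pp (Nat.card F) a.tp 0 n := by
  rw [card_O ha h] at hd
  rcases hr.dvd_mul.1 hd with h1 | h1
  · exact (hr.dvd_mul.1 h1).imp_right .inr
  obtain ⟨i, -, h2⟩ := (hr.prime.dvd_finsetProd_iff _).1 h1
  have : Module.Finite F V' := Module.Finite.of_finite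
  rw [tp, Module.natCard_eq_pow_finrank (K := F) (V := V'), ← mul_assoc, ← pow_add] at h2
  refine .inr (.inl ((hr.dvd_mul.1 h2).elim hr.dvd_of_dvd_pow fun h3 => ?_))
  split_ifs at h3
  exacts [h3, (hr.one_lt.ne' (Nat.dvd_one.1 h3)).elim]

end Cfsg.Agent.DG.Fm
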