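import Cfsg.Agent.Lib.DG.Ch

/-!
# Exceptional characters of the Singer cycle (row DG-Singer, see notes/DG.md)
-/

set_option autoImplicit false

open scoped ComplexConjugate Matrix
open Cfsg

namespace Cfsg.Agent.DG

open H4 Subgroup

theorem indFun_central {G : Type*} [Group G] [Fintype G] {H : Subgroup G} {θ : H → ℂ} {z : G}
    (hz : z ∈ H) (hc : ∀ g, g * z = z * g) {s : ℂ} (h : ∀ x : H, θ (⟨z, hz⟩ * x) = s * θ x) (g : G) :
    indFun H θ (z * g) = s * indFun H θ g := by
  rw [indFun_apply, indFun_apply, mul_left_comm, Finset.mul_sum _ _ s]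
  refine congrArg _ (Finset.sum_congr rfl fun x _ => ?_)
  rw [← mul_assoc, hc, mul_assoc z, mul_assoc z]
  by_cases hx : x⁻¹ * g * x ∈ H
  · rw [extendByZero_of_mem _ _ hx, extendByZero_of_mem _ _ (mul_mem hz hx), ← h]; rfl
  · rw [extendByZero_of_notMem _ _ hx, extendByZero_of_notMem _ _ (by rwa [mul_mem_cancel_left hz]),
      mul_zero]

theorem inner_irr {G : Type*} [Group G] [Fintype G] {a b : G → ℂ} (ha : IsIrrCharacter G a)
    (hb : IsIrrCharacter G b) : classInner a b = 0 ∨ classInner a b = 1 := by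
  by_cases h : a = b
  · exact .inr (h ▸ H3.IsIrrCharacter_classInner_self ha)
  · exact .inl (H3.IsIrrCharacter_classInner_of_ne ha hb h)

theorem exc_family {G ι : Type*} [Group G] [Finite G] [Nontrivial ι] (T : Subgroup G) (S : Set G)
    (φ : ι → T →* ℂˣ) (hTI : ∀ g, ∀ s ∈ S, g * s * g⁻¹ ∈ S → g ∈ normalizer (T : Set G))
    (hS : ∀ n ∈ normalizer (T : Set G), ∀ s ∈ T, n * s * n⁻¹ ∈ S → s ∈ S) (hST : S ⊆ T)
    (hag : ∀ i j (t : T), (t : G) ∉ S → φ i t = φ j t)
    (hreg : ∀ i j, ∀ n ∈ normalizer (T : Set G),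
      (∀ t t' : T, (t' : G) = n * t * n⁻¹ → φ i t' = φ j t) → i = j ∧ n ∈ T)
    (hnr : ∀ i, ∀ n ∈ normalizer (T : Set G),
      ¬ ∀ t t' : T, (t' : G) = n * t * n⁻¹ → φ i t' = (φ i t)⁻¹)
    (α : G →* G) (hα : ∀ g, α (α g) = g) (hαT : ∀ t ∈ T, IsConj t⁻¹ (α t)) :
    ∃ χ : ι → G → ℂ, (∀ i, IsIrrCharacter _ (χ i)) ∧ Function.Injective χ ∧
      (∀ i j g, (∀ x, x⁻¹ * g * x ∉ S) → χ i g = χ j g) ∧ (∀ i, (fun g => χ i (α g)) ≠ χ i) ∧
      ∀ z : T, (∀ g : G, g * z = z * g) → (z : G) * z = 1 → (z : G) ∉ S →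
        ∀ i, χ i z = φ i z * χ i 1 := by
  classical
  have := Fintype.ofFinite G
  obtain ⟨N, hN⟩ : ∃ N, N = normalizer (T : Set G) := ⟨_, rfl⟩
  have hTN : T ≤ N := hN ▸ le_normalizer
  have : (T.subgroupOf N).Normal := hN ▸ normal_in_normalizer
  let e := (subgroupOfEquivOfLe hTN).toMonoidHom
  let θ : ι → T.subgroupOf N → ℂ := fun i t => ((φ i).comp e t : ℂ)
  have hθ : ∀ i, IsIrrCharacter _ (θ i) := fun i => H3.isIrrCharacter_linear _
  have hc : ∀ i t, conj (θ i t) = (((φ i).comp e t)⁻¹ : ℂˣ) := fun i t => by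
    rw [← H3.IsCharacter_apply_inv (H3.IsIrrCharacter_isCharacter (hθ i)), ← map_inv]
  have key : ∀ i (n : N) (f : T → ℂˣ), (cj n (θ i) = fun t => (f (e t) : ℂ)) →
      ∀ t t' : T, (t' : G) = n * t * n⁻¹ → φ i t' = f t := fun i n f h t t' ht => by
    have := congrFun h ⟨⟨t, hTN t.2⟩, t.2⟩
    rw [show t' = ⟨_, ht ▸ t'.2⟩ from Subtype.ext ht]
    exact Units.ext this
  let ψ : ι → N → ℂ := fun i => indFun _ (θ i)
  have hψ : ∀ i, IsIrrCharacter _ (ψ i) := fun i => isIrr_indFun_of_inertia_le (hθ i) fun n hn =>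
    (hreg i i n (hN ▸ n.2) (key i n (φ i) hn)).2
  have hvan : ∀ i j, ∀ x : N, (x : G) ∉ S → ψ i x = ψ j x := fun i j x hx => by
    refine sub_eq_zero.1 ((congrFun (indFun_sub _ _ _) x).symm.trans
      (indFun_eq_zero_of_forall _ _ fun y hy => sub_eq_zero.2
        (congrArg Units.val (hag i j (e ⟨_, hy⟩) fun h => hx ?_))))
    have h1 : (x : G) ∈ T := by
      simpa [mul_assoc] using mem_subgroupOf.1 (this.conj_mem _ hy y)
    exact hS y⁻¹ (hN ▸ inv_mem y.2) x h1 (by rw [inv_inv]; exact h)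
  have hTI' : ∀ g, g ∉ N → ∀ s ∈ S, g * s * g⁻¹ ∈ S → s = 1 := fun g hg s hs h =>
    absurd (hN ▸ hTI g s hs h) hg
  have hdeg : ∀ i j, ψ i 1 = ψ j 1 := fun i j => by simp [ψ, θ, indFun_one]
  obtain ⟨ε, hε, χ, h1, h2, h3⟩ := exceptional_characters N S hTI' ψ hψ (fun i j h => by
    by_contra hij
    have := classInner_ind_irr_eq_zero (hθ j) (hθ i) fun n hn =>
      hij (hreg i j n (hN ▸ n.2) (key i n (φ j) hn)).1
    rw [show indFun _ (θ i) = ψ j from h, H3.IsIrrCharacter_classInner_self (hψ j)] at this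
    exact one_ne_zero this) hvan hdeg
  have ε0 : ε ≠ 0 := by rcases hε with rfl | rfl <;> simp
  have h4 : ∀ i j g, (∀ x, x⁻¹ * g * x ∉ S) → χ i g = χ j g := fun i j g hg => by
    have := congrFun (h3 i j) g
    rw [← indFun_sub, indFun_eq_zero_of_forall _ _ fun x hx => sub_eq_zero.2 (hvan i j _ (hg x))]
      at this
    exact sub_eq_zero.1 ((mul_eq_zero.1 this.symm).resolve_left ε0)
  have cf := fun i => H3.IsCharacter_isClassFunction (H3.IsIrrCharacter_isCharacter (h1 i))
  refine ⟨χ, h1, h2, h4, fun i hi => ?_, fun z z1 z2 z3 i => ?_⟩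
  · obtain ⟨j, hj⟩ := exists_ne i
    have hD : ∀ g, χ i (α g) - χ j (α g) = conj (χ i g) - conj (χ j g) := fun g => by
      rw [← H3.IsCharacter_apply_inv (H3.IsIrrCharacter_isCharacter (h1 i)),
        ← H3.IsCharacter_apply_inv (H3.IsIrrCharacter_isCharacter (h1 j))]
      by_cases hg : ∃ x, x⁻¹ * g * x ∈ T
      · obtain ⟨x, hx⟩ := hg
        have : IsConj g⁻¹ (α g) := ((isConj_iff.2 ⟨x⁻¹, by group⟩ : IsConj g⁻¹ _).trans
          (hαT _ hx)).trans (isConj_iff.2 ⟨α x, by simp [mul_assoc]⟩)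
        rw [H3.IsClassFunction_of_isConj (cf i) this, H3.IsClassFunction_of_isConj (cf j) this]
      · rw [h4 i j (α g) fun x hx => hg ?_, h4 i j g⁻¹ fun x hx => hg ⟨x, by
          simpa [mul_assoc] using inv_mem (hST hx)⟩, sub_self, sub_self]
        obtain ⟨y, hy⟩ := isConj_iff.1 (hαT _ (hST hx))
        refine ⟨α x * y, ?_⟩
        rw [map_mul, map_mul, hα, map_inv] at hy
        have := inv_mem (hST hx)
        rwa [show (x⁻¹ * α g * x)⁻¹ = (α x * y)⁻¹ * g * (α x * y) by
          rw [show (α x * y)⁻¹ * g * (α x * y) = y⁻¹ * ((α x)⁻¹ * g * α x) * y by group, ← hy]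
          group] at this
    have hs : Function.Surjective α := fun g => ⟨_, hα g⟩
    have h5 := isIrr_comp_surjective α hs (h1 j)
    have h6 : ∀ i, classInner (ψ i) (fun x => conj (ψ i x)) = 0 := fun i => by
      rw [← indFun_conj, classInner_eq_zero_comm]
      exact classInner_ind_irr_eq_zero (isIrr_conj (hθ i)) (hθ i) fun n hn =>
        hnr i n (hN ▸ n.2) (key i n (fun t => (φ i t)⁻¹) (hn.trans (funext (hc i))))
    have h7 := classInner_indFun_TI N S hTI' (ψ := ψ i - ψ j)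
      (θ := (fun x => conj (ψ i x)) - fun x => conj (ψ j x))
      (isGen_isClassFunction (isGen_sub
        (isGen_of_isCharacter (H3.IsIrrCharacter_isCharacter (isIrr_conj (hψ i))))
        (isGen_of_isCharacter (H3.IsIrrCharacter_isCharacter (isIrr_conj (hψ j))))))
      (fun x hx => sub_eq_zero.2 (hvan i j x hx))
      (fun x hx => sub_eq_zero.2 (congrArg conj (hvan i j x hx))) (sub_eq_zero.2 (hdeg i j))
    have h8 : indFun N ((fun x => conj (ψ i x)) - fun x => conj (ψ j x)) =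
        ε • (χ i - fun g => χ j (α g)) := by
      rw [indFun_sub, indFun_conj, indFun_conj]
      funext g
      have := congrArg conj (congrFun (h3 i j) g)
      simp only [Pi.sub_apply, map_sub, Pi.smul_apply, smul_eq_mul, map_mul] at this ⊢
      rw [this, ← hD, congrFun hi g]
      rcases hε with rfl | rfl <;> simp
    rw [h8, indFun_sub, h3] at h7
    simp only [classInner_smul_left, classInner_smul_right, classInner_sub_left,
      classInner_sub_right, h6, H3.IsIrrCharacter_classInner_self (h1 i),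
      H3.IsIrrCharacter_classInner_of_ne (h1 j) (h1 i) (h2.ne hj),
      H3.IsIrrCharacter_classInner_of_ne (h1 i) h5 fun e => hj (h2 (funext fun g => by
        rw [← congrFun hi g, e]; simp only [hα]))] at h7
    rcases hε with rfl | rfl <;> rcases inner_irr (h1 j) h5 with a | a <;>
      rcases inner_irr (hψ i) (isIrr_conj (hψ j)) with b | b <;>
      rcases inner_irr (hψ j) (isIrr_conj (hψ i)) with c | c <;> rw [a, b, c] at h7 <;>
      norm_num at h7
  · obtain ⟨j, hj⟩ := exists_ne i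
    have h5 : ∀ l g, indFun N (ψ l) (z * g) = φ i z * indFun N (ψ l) g := fun l =>
      indFun_central (hTN z.2) z1 (indFun_central (z := (⟨z, hTN z.2⟩ : N)) z.2
        (fun g => Subtype.ext (z1 g)) fun x => by
          rw [hag i l z z3]
          exact (congrArg Units.val (map_mul ((φ l).comp e) _ _)).trans rfl)
    obtain ⟨s, hs, e1⟩ : ∃ s : ℂ, (s = 1 ∨ s = -1) ∧ χ i z = s * χ i 1 :=
      (irr_sign z2 z1 (h1 i)).elim (fun h => ⟨_, .inl rfl, h⟩) fun h => ⟨_, .inr rfl, h⟩
    obtain ⟨s', hs', e2⟩ : ∃ s : ℂ, (s = 1 ∨ s = -1) ∧ χ j z = s * χ j 1 :=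
      (irr_sign z2 z1 (h1 j)).elim (fun h => ⟨_, .inl rfl, h⟩) fun h => ⟨_, .inr rfl, h⟩
    have h6 : s • χ i - s' • χ j = (φ i z : ℂ) • (χ i - χ j) := funext fun g => by
      have a1 := congrFun (h3 i j) (z * g)
      have a2 := congrFun (h3 i j) g
      simp only [Pi.sub_apply, Pi.smul_apply, smul_eq_mul, h5,
        mul_of_sign (H3.IsIrrCharacter_isCharacter (h1 i)) hs e1,
        mul_of_sign (H3.IsIrrCharacter_isCharacter (h1 j)) hs' e2] at a1 a2 ⊢
      exact mul_left_cancel₀ ε0 (by linear_combination (φ i z : ℂ) * a2 - a1)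
    have h7 := congrArg (classInner · (χ i)) h6
    simp only [classInner_smul_left, classInner_sub_left, H3.IsIrrCharacter_classInner_self (h1 i),
      H3.IsIrrCharacter_classInner_of_ne (h1 j) (h1 i) (h2.ne hj)] at h7
    rw [e1]
    congr 1
    simpa using h7

variable {F : Type} [Field F] [Finite F]

theorem subalg_eq_top {K : Type} [Field K] [Finite K] [Algebra F K] {b : ℕ}
    (hd : ∀ d, d ∣ Module.finrank F K → d < Module.finrank F K → d ∣ b) {A : Subalgebra F K} {s : K}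
    (hs : s ∈ A) (h : s ^ Nat.card F ^ b ≠ s) (y : K) : y ∈ A := by
  let E : IntermediateField F K := A.toIntermediateField fun x hx =>
    A.inv_mem_of_algebraic (x := ⟨x, hx⟩) (Algebra.IsAlgebraic.isAlgebraic _)
  have h1 : Module.finrank F E ∣ Module.finrank F K := Dvd.intro _ (Module.finrank_mul_finrank F E K)
  rcases (Nat.le_of_dvd Module.finrank_pos h1).lt_or_eq with h2 | h2
  · obtain ⟨c, rfl⟩ := hd _ h1 h2
    let _ := Fintype.ofFinite E
    have := FiniteField.pow_card_pow c (⟨s, hs⟩ : E)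
    rw [← Nat.card_eq_fintype_card, Module.natCard_eq_pow_finrank (K := F), ← pow_mul] at this
    exact absurd (congrArg Subtype.val this) h
  · exact (IntermediateField.eq_of_le_of_finrank_eq (le_top (a := E))
      (h2.trans IntermediateField.finrank_top'.symm)).ge trivial

/-- `b` is the largest proper divisor of `k` and every proper divisor divides it; the exponents
`x i` agree modulo `q^b - 1`, lie in distinct regular Frobenius orbits modulo `q^k - 1`, and no
orbit is closed under negation -/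
theorem singer {k b m : ℕ} (hb : 0 < b) (hbk : b ∣ k) (hlt : b < k)
    (hd : ∀ d, d ∣ k → d < k → d ∣ b) (hm : 2 ≤ m) (x : Fin m → ℕ)
    (hag : ∀ i j, x i ≡ x j [MOD Nat.card F ^ b - 1])
    (hreg : ∀ i j l, l < k → Nat.card F ^ l * x i ≡ x j [MOD Nat.card F ^ k - 1] → i = j ∧ l = 0)
    (hnr : ∀ i l, l < k → ¬ (Nat.card F ^ k - 1 ∣ Nat.card F ^ l * x i + x i)) :
    ∃ χ : Fin m → GL (Fin k) F → ℂ, (∀ i, IsIrrCharacter _ (χ i)) ∧ Function.Injective χ ∧
      (∀ i j g, Red g → χ i g = χ j g) ∧ (∀ i, (fun g => χ i (itr g)) ≠ χ i) ∧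
      (Odd (Nat.card F) → ∀ i, χ i (scal (Fin k) (-1)) = (-1) ^ x i * χ i 1) := by
  classical
  have : Nontrivial (Fin m) := Fin.nontrivial_iff_two_le.2 hm
  have : NeZero k := ⟨by omega⟩
  obtain ⟨p, hp⟩ := CharP.exists F
  have : Fact p.Prime := ⟨CharP.char_is_prime F p⟩
  obtain ⟨K, _, _, _, hk⟩ : ∃ (K : Type) (_ : Field K) (_ : Finite K) (_ : Algebra F K),
      Module.finrank F K = k := ⟨_, _, inferInstance, _, FiniteField.finrank_extension F p k⟩
  have hK : Nat.card Kˣ = Nat.card F ^ k - 1 := by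
    rw [Nat.card_units, Module.natCard_eq_pow_finrank (K := F), hk]
  let _ := Fintype.ofFinite F
  let β := Module.finBasisOfFinrankEq F K hk
  let ι := Algebra.leftMulMatrix β
  have hι : Function.Injective ι := Algebra.leftMulMatrix_injective β
  have hv : ∀ y z, ι y *ᵥ β.repr z = β.repr (y * z) := Algebra.leftMulMatrix_mulVec_repr β
  have hs : ∀ v : Fin k → F, ∃ z, ⇑(β.repr z) = v := fun v => ⟨β.equivFun.symm v,
    β.equivFun.apply_symm_apply v⟩
  let τ : Kˣ →* GL (Fin k) F := Units.map ι.toMonoidHom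
  have hτ : Function.Injective τ := Units.map_injective hι
  let e := (MonoidHom.ofInjective hτ).symm
  have he : ∀ t, τ (e t) = t := fun t => MonoidHom.apply_ofInjective_symm hτ t
  have he' : ∀ t, e ⟨τ t, t, rfl⟩ = t := fun t => hτ (he _)
  have : NeZero (Nat.card Kˣ) := ⟨Nat.card_pos.ne'⟩
  let φ : Kˣ →* ℂˣ := (rootsOfUnity (Nat.card Kˣ) ℂ).subtype.comp
    (mulEquivOfCyclicCardEq (Complex.card_rootsOfUnity _).symm).toMonoidHom
  have hφ : Function.Injective φ := Subtype.val_injective.comp (MulEquiv.injective _)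
  obtain ⟨γ, hγ⟩ := IsCyclic.exists_ofOrder_eq_natCard (α := Kˣ)
  rw [hK] at hγ
  have nrm : ∀ n ∈ normalizer (τ.range : Set (GL (Fin k) F)), ∃ l < k,
      ∀ t, τ (t ^ Nat.card F ^ l) = n * τ t * n⁻¹ := fun n hn => by
    have : ∀ y : K, ∃ z, ι z = n.1 * ι y * (n⁻¹).1 := fun y => by
      by_cases hy : y = 0
      · exact ⟨0, by simp [hy]⟩
      · obtain ⟨z, hz⟩ := (mem_normalizer_iff.1 hn _).1 ⟨Units.mk0 y hy, rfl⟩
        exact ⟨z, congrArg Units.val hz⟩
    choose σ hσ using this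
    obtain ⟨l, hl⟩ := (FiniteField.bijective_frobeniusAlgHom_pow F K).2
      { toFun := σ
        map_one' := hι (by simp [hσ])
        map_mul' := fun a b => hι (by simp [hσ, mul_assoc])
        map_zero' := hι (by simp [hσ])
        map_add' := fun a b => hι (by simp [hσ, mul_add, add_mul])
        commutes' := fun c => hι (by
          rw [hσ, AlgHom.commutes, ← Algebra.commutes, mul_assoc, Units.mul_inv, mul_one]) }
    refine ⟨l, hk ▸ l.2, fun t => Units.ext (Eq.trans (congrArg ι ?_) (hσ t))⟩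
    have := DFunLike.congr_fun hl (t : K)
    rw [AlgHom.coe_pow, FiniteField.coe_frobeniusAlgHom, pow_iterate,
      ← Nat.card_eq_fintype_card] at this
    exact this
  have q0 : ∀ l, Nat.card F ^ l = Nat.card F ^ l - 1 + 1 := fun l =>
    (Nat.sub_add_cancel (Nat.one_le_pow _ _ Nat.card_pos)).symm
  obtain ⟨χ, h1, h2, h3, h4, h5⟩ := exc_family τ.range {g | ∃ t, t ^ Nat.card F ^ b ≠ t ∧ τ t = g}
    (fun i => (φ.comp (powMonoidHom (x i))).comp e.toMonoidHom) (by
      rintro g _ ⟨s, h0, rfl⟩ ⟨s', -, h⟩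
      refine mem_normalizer_fintype ?_
      rintro _ ⟨t, rfl⟩
      obtain ⟨z, hz⟩ := subalg_eq_top (hk ▸ hd) (s := s) (A := ι.range.comap
        ((MulSemiringAction.toAlgHom F _ (ConjAct.toConjAct g)).comp ι)) ⟨s', congrArg Units.val h⟩
        (fun e => h0 (Units.ext e)) t
      have z0 : z ≠ 0 := fun e => (g * τ t * g⁻¹).ne_zero (hz.symm.trans (by simp [e]))
      exact ⟨Units.mk0 z z0, Units.ext hz⟩) (by
      rintro n hn _ ⟨s, rfl⟩ ⟨s', h0, h⟩
      obtain ⟨l, -, hl⟩ := nrm n hn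
      exact ⟨s, fun e => h0 (by rw [hτ (h.trans (hl s).symm), pow_right_comm, e]), rfl⟩)
    (fun _ ⟨t, _, h⟩ => ⟨t, h⟩) (fun i j t ht => congrArg φ (pow_eq_pow_of_modEq (hag i j) (by
      have : e t ^ Nat.card F ^ b = e t := by_contra fun h => ht ⟨_, h, he t⟩
      rwa [q0, pow_succ, mul_eq_right] at this))) (fun i j n hn h => by
      obtain ⟨l, hl, hl'⟩ := nrm n hn
      have := hφ (h ⟨τ γ, γ, rfl⟩ ⟨_, _, rfl⟩ (hl' γ))
      simp only [MulEquiv.toMonoidHom_eq_coe, MonoidHom.coe_coe, he', powMonoidHom_apply, ← pow_mul,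
        pow_eq_pow_iff_modEq, hγ] at this
      obtain ⟨h3, rfl⟩ := hreg i j l hl this
      obtain ⟨z, hz⟩ := hs (n.1 *ᵥ β.repr 1)
      have h4 : ι z = n.1 := Matrix.ext_of_mulVec_single fun i => by
        obtain ⟨y, hy⟩ := hs (Pi.single i 1)
        have y0 : y ≠ 0 := fun e => by simpa [e] using congrFun hy i
        have := congrArg (fun g : GL (Fin k) F => (g * n).1 *ᵥ β.repr 1) (hl' (Units.mk0 y y0))
        simp only [pow_zero, pow_one, inv_mul_cancel_right, Units.val_mul, ← Matrix.mulVec_mulVec,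
          ← hz] at this
        rw [← hy, hv, mul_comm, ← hv, ← mul_one y, ← hv, mul_one]
        exact this
      exact ⟨h3, Units.mk0 z fun e => n.ne_zero (h4.symm.trans (by simp [e])), Units.ext h4⟩)
    (fun i n hn h => by
      obtain ⟨l, hl, hl'⟩ := nrm n hn
      have := h ⟨τ γ, γ, rfl⟩ ⟨_, _, rfl⟩ (hl' γ)
      simp only [MonoidHom.comp_apply, MulEquiv.toMonoidHom_eq_coe, MonoidHom.coe_coe, he',
        powMonoidHom_apply, ← pow_mul, eq_inv_iff_mul_eq_one, ← map_mul, ← pow_add,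
        map_eq_one_iff φ hφ, ← orderOf_dvd_iff_pow_eq_one, hγ] at this
      exact hnr i l hl this) itr itr_itr (by
      rintro _ ⟨t, rfl⟩
      refine isConj_iff.2 ⟨Matrix.GeneralLinearGroup.mkOfDetNeZero _
        ((LinearMap.BilinForm.nondegenerate_iff_det_ne_zero β).1 (traceForm_nondegenerate F K)), ?_⟩
      rw [mul_inv_eq_iff_eq_mul, ← map_inv]
      refine Units.ext ?_
      rw [Units.val_mul, Units.val_mul, itr_val, ← map_inv]
      refine (LinearMap.BilinForm.toMatrix_compRight β _ _).symm.trans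
        (Eq.trans (congrArg _ ?_) (LinearMap.BilinForm.toMatrix_compLeft β _ _))
      ext y z
      simp [mul_assoc, mul_left_comm])
  refine ⟨χ, h1, h2, fun i j g ⟨A, a1, a2, a3⟩ => h3 i j g ?_, h4, fun ho i => ?_⟩
  · rintro y ⟨s, h0, h⟩
    obtain ⟨v, hvA, v0⟩ := (Submodule.ne_bot_iff A).1 a1
    obtain ⟨z, hz⟩ := hs ((y⁻¹).1 *ᵥ v)
    have z0 : z ≠ 0 := fun e => v0 (by
      simpa [e] using (congrArg (y.1 *ᵥ ·) hz).symm)
    let B : Subalgebra F K :=
      { carrier := {w | ∀ u ∈ A, y.1 *ᵥ ι w *ᵥ (y⁻¹).1 *ᵥ u ∈ A}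
        mul_mem' := fun {a b} ha hb u hu => by simpa [mul_assoc] using ha _ (hb u hu)
        add_mem' := fun {a b} ha hb u hu => by
          rw [map_add, Matrix.add_mulVec, Matrix.mulVec_add]; exact add_mem (ha u hu) (hb u hu)
        algebraMap_mem' := fun c u hu => by
          simpa [Algebra.algebraMap_eq_smul_one, Matrix.smul_mulVec, Matrix.mulVec_smul] using
            A.smul_mem c hu }
    refine a2 (eq_top_iff.2 fun u _ => ?_)
    obtain ⟨w, hw⟩ := hs ((y⁻¹).1 *ᵥ u)
    have := subalg_eq_top (hk ▸ hd) (A := B) (s := s) (fun u hu => by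
      rw [show ι s = (y⁻¹ * g * y).1 from congrArg Units.val h]
      simpa [mul_assoc] using a3 u hu) (fun e => h0 (Units.ext e)) (w / z) v hvA
    rw [← hz, hv, div_mul_cancel₀ _ z0, hw] at this
    simpa using this
  · have h6 : τ (-1) = scal (Fin k) (-1) := Units.ext (by simp [τ, scal])
    have h7 : (-1 : Kˣ) ≠ 1 := fun e => by
      have h8 : (2 : F) = 0 := (algebraMap F K).injective (by
        have := congrArg Units.val e
        simp only [Units.val_neg, Units.val_one] at this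
        rw [map_ofNat, map_zero]; linear_combination -this)
      rw [Nat.card_eq_fintype_card, Nat.odd_iff] at ho
      have := (FiniteField.even_card_iff_char_two (F := F)).1 (CharP.ringChar_of_prime_eq_zero
        Nat.prime_two h8)
      omega
    have h8 : (φ (-1) : ℂ) = -1 := (mul_self_eq_one_iff.1 (by
      rw [← Units.val_mul, ← map_mul]; simp)).resolve_left fun e =>
        h7 (hφ ((Units.ext e).trans (map_one φ).symm))
    have := h5 ⟨_, -1, rfl⟩ (fun g => Units.ext (by simp [τ])) (by rw [← map_mul]; simp)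
      (fun ⟨t, h0, h⟩ => h0 (by rw [hτ h, (ho.pow).neg_one_pow])) i
    simp only [MonoidHom.comp_apply, MulEquiv.toMonoidHom_eq_coe, MonoidHom.coe_coe, he',
      powMonoidHom_apply, map_pow, Units.val_pow_eq_pow_val, h8] at this
    rw [← h6, this]

end Cfsg.Agent.DG
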