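import Cfsg.Agent.Lib.DG.Min
import Cfsg.Agent.Lib.DG.Singer

/-!
# Existence of good cuspidal characters (row DG-CuspEx, see notes/DG.md)
-/

set_option autoImplicit false

open scoped ComplexConjugate Matrix
open Cfsg

namespace Cfsg.Agent.DG

variable {F : Type} [Field F] [Finite F]

theorem two_eq_zero_iff : (2 : F) = 0 ↔ Even (Nat.card F) := by
  let _ := Fintype.ofFinite F
  rw [Nat.card_eq_fintype_card, Nat.even_iff, ← FiniteField.even_card_iff_char_two]
  exact ⟨CharP.ringChar_of_prime_eq_zero Nat.prime_two, fun h => by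
    have := ringChar.Nat.cast_ringChar (R := F)
    rwa [h] at this⟩

theorem scal_neg_one_of_even {ι : Type} [Fintype ι] [DecidableEq ι] (h : Even (Nat.card F)) :
    (scal ι (-1) : GL ι F) = 1 := by
  rw [show (-1 : Fˣ) = 1 from Units.ext (by
    simp only [Units.val_neg, Units.val_one]; linear_combination -two_eq_zero_iff.2 h), map_one]

theorem gc_core {k b m : ℕ} (hb : 0 < b) (hbk : b ∣ k) (hlt : b < k)
    (hd : ∀ d, d ∣ k → d < k → d ∣ b) (h2 : 2 ≤ m) (x : Fin m → ℕ)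
    (hag : ∀ i j, x i ≡ x j [MOD Nat.card F ^ b - 1])
    (hreg : ∀ i j l, l < k → Nat.card F ^ l * x i ≡ x j [MOD Nat.card F ^ k - 1] → i = j ∧ l = 0)
    (hnr : ∀ i l, l < k → ¬ (Nat.card F ^ k - 1 ∣ Nat.card F ^ l * x i + x i))
    (hm : k < m ∨ (k = m ∧ ¬ IsSquare (k - 1)) ∨ (2 ≤ m ∧ (k = 2 ∨ (Nat.card F = 2 ∧ k ≤ 4))))
    (i : Fin m) {s : ℂ} (ho : Odd (Nat.card F) → (-1) ^ x i = s) (he : Even (Nat.card F) → s = 1) :
    ∃ π : GL (Fin k) F → ℂ, GC π s := by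
  obtain ⟨χ, h1, h3, h4, h5, h6⟩ := singer hb hbk hlt hd h2 x hag hreg hnr
  refine ⟨χ i, h1 i, cusp_of_family χ h1 h3 h4 hm i, h5 i, ?_⟩
  rcases Nat.even_or_odd (Nat.card F) with h | h
  · rw [scal_neg_one_of_even h, he h, one_mul]
  · rw [h6 h, ho h]

theorem pow_mod_aux {q b l : ℕ} (hq : 1 ≤ q) (hl : l < 2 * b) :
    ∃ r < b, (l = r ∨ l = b + r) ∧ q ^ l ≡ q ^ r [MOD q ^ b - 1] := by
  by_cases h : l < b
  · exact ⟨l, h, .inl rfl, rfl⟩
  · obtain ⟨r, rfl⟩ := Nat.exists_eq_add_of_le (not_lt.1 h)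
    refine ⟨r, by omega, .inr rfl, ?_⟩
    rw [pow_add]
    simpa using (Nat.modEq_sub (Nat.one_le_pow _ _ hq)).mul_right (q ^ r)

theorem gc_pow {a : ℕ} (ha : 1 ≤ a) (h : a = 1 → 4 ≤ Nat.card F) :
    ∃ π : GL (Fin (2 ^ a)) F → ℂ, GC π 1 := by
  obtain ⟨a, rfl⟩ := Nat.exists_eq_add_of_le' ha
  obtain ⟨q, hq⟩ : ∃ q, q = Nat.card F := ⟨_, rfl⟩
  have q2 : 2 ≤ q := hq ▸ Finite.one_lt_card
  obtain ⟨b, hb⟩ : ∃ b, b = 2 ^ a := ⟨_, rfl⟩
  have b0 : 0 < b := hb ▸ Nat.two_pow_pos a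
  have hk : 2 ^ (a + 1) = 2 * b := by rw [hb, pow_succ']
  obtain ⟨c, hc, hc'⟩ : ∃ c, (c = 1 ∧ Even q ∨ c = 2 ∧ Odd q) ∧ (Odd q → c = 2) := by
    rcases Nat.even_or_odd q with e | e
    exacts [⟨1, .inl ⟨rfl, e⟩, fun o => absurd e (Nat.not_even_iff_odd.2 o)⟩,
      ⟨2, .inr ⟨rfl, e⟩, fun _ => rfl⟩]
  have q3 : c = 2 → 3 ≤ q := fun e => by
    rcases hc with ⟨h1, -⟩ | ⟨-, r, h1⟩ <;> omega
  have c1 : 1 ≤ c ∧ c ≤ 2 := by omega
  have hab : (b = 1 ∧ 4 ≤ q) ∨ b = 2 ∨ b = 4 ∨ 8 ≤ b := by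
    rcases a with _ | _ | _ | a
    exacts [.inl ⟨hb, hq ▸ h rfl⟩, .inr (.inl hb), .inr (.inr (.inl hb)), .inr (.inr (.inr (by
      have := Nat.two_pow_pos a
      rw [hb, pow_succ, pow_succ, pow_succ]; omega)))]
  obtain ⟨P, hP⟩ : ∃ P, q ^ b = P + 1 := ⟨_, (Nat.succ_pred_eq_of_pos (by positivity)).symm⟩
  have hr : ∀ r < b, q ^ r * q ≤ P + 1 := fun r hr =>
    hP ▸ pow_succ q r ▸ Nat.pow_le_pow_right (by omega) hr
  have e1 : q ^ b - 1 = P := by omega
  have e2 : q ^ (2 * b) - 1 = P * (P + 2) := by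
    rw [pow_mul', hP]; exact Nat.sub_eq_of_eq_add (by ring)
  have hx : ∀ i, c + P * i ≡ c [MOD P] := fun i => by simp [Nat.ModEq]
  have big : 2 ^ b ≤ P + 1 := hP ▸ Nat.pow_le_pow_left q2 b
  have P3 : 3 ≤ P := by
    rcases hab with ⟨h1, h2⟩ | h1
    · rw [h1, pow_one] at hP; omega
    · have := Nat.pow_le_pow_right (show 0 < 2 by norm_num) (show 2 ≤ b by omega)
      omega
  refine gc_core b0 (hk ▸ Dvd.intro_left 2 rfl) (by omega) (fun d h1 h2 => ?_) (m := (P + 1) / 2)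
    (by omega) (fun i => c + P * (c + i)) (fun i j => ?_) (fun i j l hl e => ?_) (fun i l hl e => ?_)
    ?_ ⟨0, by omega⟩ (fun o => ?_) fun _ => rfl
  · obtain ⟨i, hi, rfl⟩ := (Nat.dvd_prime_pow Nat.prime_two).1 h1
    exact hb ▸ pow_dvd_pow 2 (Nat.lt_succ_iff.1 ((Nat.pow_lt_pow_iff_right one_lt_two).1 h2))
  · rw [← hq, e1]; exact (hx _).trans (hx _).symm
  · rw [← hq, hk, e2] at e
    obtain ⟨r, h1, h2, h3⟩ := pow_mod_aux (q := q) (by omega) (hk ▸ hl)
    rw [e1] at h3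
    have h4 : q ^ r * c ≡ c [MOD P] :=
      (h3.symm.mul (hx _).symm).trans ((e.of_mul_right _).trans (hx _))
    obtain rfl : r = 0 := by
      by_contra r0
      have h5 := hr r h1
      have h6 : q ≤ q ^ r := Nat.le_self_pow r0 q
      have h7 := Nat.le_of_dvd (by
        rw [Nat.sub_pos_iff_lt]; nlinarith) ((Nat.modEq_iff_dvd' (by nlinarith)).1 h4.symm)
      generalize q ^ r = R at *
      rcases hc with ⟨rfl, -⟩ | ⟨rfl, -⟩
      · have : R * 2 ≤ R * q := Nat.mul_le_mul_left R q2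
        omega
      · have : R * 3 ≤ R * q := Nat.mul_le_mul_left R (q3 rfl)
        omega
    have hi := i.2
    have hj := j.2
    rcases h2 with rfl | h2
    · rw [pow_zero, one_mul] at e
      have := Nat.ModEq.mul_left_cancel' (by omega) (Nat.ModEq.add_left_cancel' c e)
      exact ⟨Fin.ext (by have := this.eq_of_lt_of_lt (by omega) (by omega); omega), rfl⟩
    · exfalso
      rw [h2, add_zero, hP] at e
      have h5 : P * (c + (P + 1) * (c + i)) ≡ P * (c + j) [MOD P * (P + 2)] :=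
        Nat.ModEq.add_left_cancel' c (by convert e using 1; ring)
      have h6 := (Nat.ModEq.mul_left_cancel' (by omega) h5).add_right (c + i)
      rw [show c + (P + 1) * (c + i) + (c + i) = c + (P + 2) * (c + i) by ring] at h6
      have := ((show c + (P + 2) * (c + i) ≡ c [MOD P + 2] by simp [Nat.ModEq]).symm.trans h6)
      have := Nat.le_of_dvd (by omega) ((Nat.modEq_iff_dvd' (by omega)).1 this)
      omega
  · rw [← hq, hk, e2] at e
    obtain ⟨r, h1, h2, h3⟩ := pow_mod_aux (q := q) (by omega) (hk ▸ hl)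
    rw [e1] at h3
    have h4 := Nat.le_of_dvd (by omega) ((Nat.modEq_zero_iff_dvd).1 (((h3.mul (hx _)).add
      (hx _)).symm.trans ((Nat.modEq_zero_iff_dvd).2 ((Dvd.intro _ rfl).trans e))))
    have h5 := hr r h1
    have hi := i.2
    have h6 : (q = 2 ∧ b = 2 ∧ c = 1) ∨ (q = 3 ∧ b = 2 ∧ c = 2) ∨ (q = 5 ∧ b = 1 ∧ c = 2) := by
      have h7 : 1 ≤ q ^ r := Nat.one_le_pow _ _ (by omega)
      have h8 : b = 1 → q ^ r = 1 ∧ P + 1 = q := fun e => by
        rw [show r = 0 by omega, ← hP, e]; simp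
      have h9 : b = 2 → P + 1 = q * q := fun e => by rw [← hP, e, pow_two]
      have h10 : 4 ≤ b → 16 ≤ P + 1 := fun e =>
        (Nat.pow_le_pow_right (show 0 < 2 by norm_num) e).trans big
      generalize q ^ r = R at *
      rcases hc with ⟨rfl, t, ht⟩ | ⟨rfl, t, ht⟩
      · have : R * 2 ≤ R * q := Nat.mul_le_mul_left R q2
        rcases hab with ⟨h1, h2⟩ | h1 | h1
        · omega
        · have := h9 h1
          exact .inl ⟨by nlinarith, h1, rfl⟩
        · omega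
      · have : R * 3 ≤ R * q := Nat.mul_le_mul_left R (q3 rfl)
        rcases hab with ⟨h1, h2⟩ | h1 | h1
        · omega
        · have := h9 h1
          have := q3 rfl
          exact .inr (.inl ⟨by nlinarith, h1, rfl⟩)
        · omega
    rw [hk] at hl
    generalize (i : ℕ) = i at *
    clear hab h hc h2 h3 hx e1 e2 hr hc' hq hk hb
    rcases h6 with ⟨rfl, rfl, rfl⟩ | ⟨rfl, rfl, rfl⟩ | ⟨rfl, rfl, rfl⟩
    · obtain rfl : P = 3 := by omega
      interval_cases l <;> omega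
    · obtain rfl : P = 8 := by omega
      interval_cases l <;> omega
    · obtain rfl : P = 4 := by omega
      interval_cases l <;> omega
  · rw [hk, ← hq]
    rcases hab with ⟨h1, h2⟩ | h1 | h1 | h1
    · omega
    · rw [h1, pow_two] at hP
      rcases q2.eq_or_lt with rfl | h2
      · omega
      rcases (show 3 ≤ q from h2).eq_or_lt with rfl | h2
      · exact .inr (.inl ⟨by omega, by rw [h1]; decide +kernel⟩)
      · exact .inl (by have : 4 * 4 ≤ q * q := Nat.mul_le_mul h2 h2; omega)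
    · rcases q2.eq_or_lt with rfl | h2
      · exact .inr (.inl ⟨by rw [h1] at hP; omega, by rw [h1]; decide +kernel⟩)
      · exact .inl (by have : 3 ^ 4 ≤ q ^ 4 := Nat.pow_le_pow_left h2 4; rw [h1] at hP; omega)
    · obtain ⟨d, rfl⟩ := Nat.exists_eq_add_of_le h1
      have := Nat.lt_two_pow_self (n := d)
      rw [pow_add] at big
      omega
  · rw [← hq] at o
    obtain ⟨t, ht⟩ := o.pow (n := b)
    refine Even.neg_one_pow ?_
    show Even (c + P * (c + 0))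
    exact ⟨1 + t * 2, by rw [hc' o, show P = 2 * t by omega]; ring⟩

theorem gc_three (h : Nat.card F ≤ 3) : ∃ π : GL (Fin 3) F → ℂ, GC π 1 := by
  have hd : ∀ d, d ∣ 3 → d < 3 → d ∣ 1 := fun d h1 h2 => by interval_cases d <;> omega
  rcases (show 2 ≤ Nat.card F from Finite.one_lt_card).eq_or_lt with e | e
  · exact gc_core one_pos (one_dvd _) (by norm_num) hd le_rfl ![1, 3] (e ▸ by decide) (e ▸ by decide)
      (e ▸ by decide) (.inr (.inr ⟨le_rfl, .inr ⟨e.symm, by norm_num⟩⟩)) 0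
      (fun o => absurd (e ▸ o) (by decide)) fun _ => rfl
  · have e' : 3 = Nat.card F := by omega
    exact gc_core one_pos (one_dvd _) (by norm_num) hd (by norm_num) ![2, 4, 8, 14] (e' ▸ by decide)
      (e' ▸ by decide) (e' ▸ by decide) (.inl (by norm_num)) 0 (fun _ => by simp) fun _ => rfl

theorem gc_two_odd (h : Nat.card F = 3) : ∃ π : GL (Fin 2) F → ℂ, GC π (-1) :=
  gc_core one_pos (one_dvd _) (by norm_num) (fun d h1 h2 => by interval_cases d <;> omega) le_rfl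
    ![1, 5] (h ▸ by decide) (h ▸ by decide) (h ▸ by decide) (.inr (.inr ⟨le_rfl, .inl rfl⟩)) 0
    (fun _ => by simp) fun o => absurd (h ▸ o) (by decide)

/-- every function on `GL₁` is cuspidal -/
theorem cusp_one (π : GL (Fin 1) F → ℂ) : Cusp π := fun A h1 h2 => by
  obtain ⟨v, hv, v0⟩ := (Submodule.ne_bot_iff A).1 h1
  have : v 0 ≠ 0 := fun e => v0 (funext fun i => by rw [Subsingleton.elim i 0, e]; rfl)
  refine absurd (eq_top_iff.2 fun w _ => ?_) h2
  convert A.smul_mem (w 0 / v 0) hv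
  funext i
  rw [Subsingleton.elim i 0, Pi.smul_apply, smul_eq_mul, div_mul_cancel₀ _ this]

theorem exists_lin_one : ∃ (lam : GL (Fin 1) F →* ℂˣ) (φ : Fˣ →* ℂˣ), Function.Injective φ ∧
    (∀ c, lam (scal (Fin 1) c) = φ c) ∧ ∀ g, ∃ c, lam g = φ c ∧ lam (itr g) = φ c⁻¹ := by
  have : NeZero (Nat.card Fˣ) := ⟨Nat.card_pos.ne'⟩
  let φ : Fˣ →* ℂˣ := (rootsOfUnity (Nat.card Fˣ) ℂ).subtype.comp
    (mulEquivOfCyclicCardEq (Complex.card_rootsOfUnity _).symm).toMonoidHom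
  refine ⟨φ.comp Matrix.GeneralLinearGroup.det, φ, Subtype.val_injective.comp (MulEquiv.injective _),
    fun c => congrArg φ (Units.ext (by simp [scal])), fun g => ⟨_, rfl, congrArg φ ?_⟩⟩
  rw [← map_inv]
  exact Units.ext (Matrix.det_transpose _)

theorem gc_one (h : 4 ≤ Nat.card F) :
    ∃ (π : GL (Fin 1) F → ℂ) (s : ℂ), (s = 1 ∨ s = -1) ∧ GC π s := by
  obtain ⟨lam, φ, h1, h2, h3⟩ := exists_lin_one (F := F)
  refine ⟨fun g => lam g, φ (-1), mul_self_eq_one_iff.1 (by rw [← Units.val_mul, ← map_mul]; simp),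
    H3.isIrrCharacter_linear _, cusp_one _, fun e => ?_, by simp [h2]⟩
  obtain ⟨γ, hγ⟩ := IsCyclic.exists_ofOrder_eq_natCard (α := Fˣ)
  obtain ⟨c, h4, h5⟩ := h3 (scal _ γ)
  obtain rfl : γ = c := h1 ((h2 γ).symm.trans h4)
  have := Nat.le_of_dvd two_pos (orderOf_dvd_of_pow_eq_one (x := γ) (by
    rw [pow_two, ← eq_inv_iff_mul_eq_one]
    exact h1 (h4.symm.trans ((Units.ext (congrFun e _)).symm.trans h5))))
  rw [hγ, Nat.card_units] at this
  omega

theorem sgn_aux : ∀ M N : Matrix (Fin 2) (Fin 2) (ZMod 2), M.det ≠ 0 → N.det ≠ 0 →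
    ((M * N * (M * N) = 1 ∧ M * N ≠ 1) ↔ ¬((M * M = 1 ∧ M ≠ 1) ↔ (N * N = 1 ∧ N ≠ 1))) := by
  simp only [Matrix.det_fin_two]
  decide +kernel

/-- the sign character of `GL₂(2)` -/
theorem exists_sgn (h : Nat.card F = 2) : ∃ lam : GL (Fin 2) F →* ℂˣ,
    Cusp (fun g => (lam g : ℂ)) ∧ (∀ g, lam (itr g) = lam g) ∧ (∀ g, lam g = 1 ∨ lam g = -1) ∧
      lam ≠ 1 := by
  classical
  let _ := Fintype.ofFinite F
  let e : F ≃+* ZMod 2 := FiniteField.ringEquivOfCardEq (by rw [← Nat.card_eq_fintype_card, h]; rfl)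
  let f := e.mapMatrix (m := Fin 2)
  have k : ∀ g : GL (Fin 2) F, (g * g = 1 ∧ g ≠ 1) ↔ (f g * f g = 1 ∧ f g ≠ 1) := fun g => by
    rw [← map_mul, map_eq_one_iff f f.injective, Ne, Ne, map_eq_one_iff f f.injective,
      ← Units.val_mul, Units.val_eq_one, Units.val_eq_one]
  have k2 : ∀ g : GL (Fin 2) F, (f g).det ≠ 0 := fun g =>
    ((Matrix.isUnit_iff_isUnit_det _).1 (g.isUnit.map f)).ne_zero
  let lam : GL (Fin 2) F →* ℂˣ := MonoidHom.mk' (fun g => if g * g = 1 ∧ g ≠ 1 then -1 else 1)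
    fun a b => by
      have := sgn_aux _ _ (k2 a) (k2 b)
      rw [← map_mul, ← Units.val_mul, ← k, ← k, ← k] at this
      by_cases ha : a * a = 1 ∧ a ≠ 1 <;> by_cases hb : b * b = 1 ∧ b ≠ 1
      · rw [if_pos ha, if_pos hb, if_neg fun e => this.1 e (iff_of_true ha hb), neg_mul_neg, one_mul]
      · rw [if_pos ha, if_neg hb, if_pos (this.2 fun e => hb (e.1 ha)), mul_one]
      · rw [if_neg ha, if_pos hb, if_pos (this.2 fun e => ha (e.2 hb)), one_mul]
      · rw [if_neg ha, if_neg hb, if_neg fun e => this.1 e (iff_of_false ha hb), one_mul]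
  have h2 : (2 : F) = 0 := two_eq_zero_iff.2 (h ▸ even_two)
  have n1 : (-1 : ℂˣ) ≠ 1 := fun e => by have := congrArg Units.val e; norm_num at this
  have hc : ∀ A : Submodule F (Fin 2 → F), A ≠ ⊥ → A ≠ ⊤ → ∃ u ∈ UA A, lam u ≠ 1 := fun A h1 h3 => by
    obtain ⟨v, hv, v0⟩ := (Submodule.ne_bot_iff A).1 h1
    obtain ⟨φ, φ0, hφ⟩ := A.exists_le_ker_of_lt_top (lt_top_iff_ne_top.2 h3)
    obtain ⟨M, hM⟩ : ∃ M : Matrix (Fin 2) (Fin 2) F, ∀ x, M *ᵥ x = x + φ x • v :=
      ⟨LinearMap.toMatrix' (LinearMap.id + φ.smulRight v), fun x => by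
        rw [LinearMap.toMatrix'_mulVec]; rfl⟩
    have h4 : M * M = 1 := Matrix.ext_of_mulVec_single fun i => by
      rw [← Matrix.mulVec_mulVec, hM, hM, map_add, map_smul, show φ v = 0 from hφ hv, smul_zero,
        add_zero, add_assoc, ← add_smul, ← two_mul, h2, zero_mul, zero_smul, add_zero,
        Matrix.one_mulVec]
    refine ⟨⟨M, M, h4, h4⟩, ⟨fun x => by simpa [hM] using A.smul_mem _ hv,
      fun x hx => by simp [hM, show φ x = 0 from hφ hx]⟩, ?_⟩
    rw [show lam _ = -1 from if_pos ⟨Units.ext h4, fun e => φ0 (LinearMap.ext fun x => by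
      simpa [show M = 1 from congrArg Units.val e, v0] using hM x)⟩]
    exact n1
  refine ⟨lam, fun A h1 h3 => ?_, fun g => if_congr ?_ rfl rfl, fun g => ?_, fun e => ?_⟩
  · obtain ⟨u, hu, h4⟩ := hc A h1 h3
    let _ := Fintype.ofFinite (UA A)
    rw [finsum_eq_sum_of_fintype]
    exact sum_hom_units_eq_zero ((Units.coeHom ℂ).comp (lam.comp (UA A).subtype)) fun e =>
      h4 (Units.ext (DFunLike.congr_fun e (⟨u, hu⟩ : UA A)))
  · have := Function.LeftInverse.injective (itr_itr (F := F) (ι := Fin 2))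
    rw [← map_mul, map_eq_one_iff _ this, map_ne_one_iff _ this]
  · show ite _ _ _ = _ ∨ ite _ _ _ = _
    split_ifs <;> simp
  · obtain ⟨u, -, h4⟩ := hc (LinearMap.ker (LinearMap.proj 0))
      (fun e => by simpa using congrFun ((Submodule.eq_bot_iff _).1 e (Pi.single 1 1) (by simp)) 1)
      fun e => by simpa using e.ge (Submodule.mem_top (x := Pi.single 0 1))
    exact h4 (by rw [e]; rfl)

/-- the sign character of `GL₁(3)` -/
theorem exists_eta (h : Nat.card F = 3) : ∃ lam : GL (Fin 1) F →* ℂˣ,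
    (∀ g, lam (itr g) = lam g) ∧ lam (scal (Fin 1) (-1)) = -1 ∧
      ∀ c : Fˣ, c = 1 ∨ c = -1 := by
  obtain ⟨lam, φ, h1, h2, h3⟩ := exists_lin_one (F := F)
  have k : ∀ c : Fˣ, c * c = 1 := fun c => by
    rw [← pow_two, ← pow_card_eq_one' (x := c), Nat.card_units, h]
  refine ⟨lam, fun g => ?_, ?_, fun c => (mul_self_eq_one_iff.1 (congrArg Units.val (k c))).imp
    Units.ext Units.ext⟩
  · obtain ⟨c, h4, h5⟩ := h3 g
    rw [h4, h5, inv_eq_of_mul_eq_one_right (k c)]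
  · refine (h2 _).trans (Units.ext ((mul_self_eq_one_iff.1 (by
      rw [← Units.val_mul, ← map_mul, k, map_one, Units.val_one])).resolve_left fun e => ?_))
    have := congrArg Units.val (h1 ((Units.ext e).trans (map_one φ).symm))
    simp only [Units.val_neg, Units.val_one] at this
    exact absurd (h ▸ two_eq_zero_iff.1 (by linear_combination -this)) (by decide)

end Cfsg.Agent.DG
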