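import Mathlib

/-!
# Graded Heisenberg relations `D U = U D + 1` (row DG-DP, see notes/DG.md)
-/

set_option autoImplicit false
set_option linter.unusedSectionVars false

open Matrix

namespace Cfsg.Agent.DG

/-- levels `I j` with multiplicities `u j x y` (of `y` in `U x`) satisfying the Heisenberg
relations -/
structure DP (I : ℕ → Type) [∀ j, Fintype (I j)] [∀ j, DecidableEq (I j)]
    (u : ∀ j, I j → I (j + 1) → ℕ) : Prop where
  zero : ∀ x x' : I 0, ∑ y, u 0 x y * u 0 x' y = if x = x' then 1 else 0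
  succ : ∀ j (x x' : I (j + 1)), ∑ y, u (j + 1) x y * u (j + 1) x' y =
    (if x = x' then 1 else 0) + ∑ z, u j z x * u j z x'

variable {I : ℕ → Type} [∀ j, Fintype (I j)] [∀ j, DecidableEq (I j)]
  {u : ∀ j, I j → I (j + 1) → ℕ}

/-- the multiplicity matrix -/
def dpA (u : ∀ j, I j → I (j + 1) → ℕ) (j : ℕ) : Matrix (I j) (I (j + 1)) ℤ :=
  Matrix.of fun x y => (u j x y : ℤ)

theorem dpA_apply (j : ℕ) (x : I j) (y : I (j + 1)) : dpA u j x y = u j x y := rfl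

theorem dp_adj {j : ℕ} (v : I j → ℤ) (w : I (j + 1) → ℤ) :
    (v ᵥ* dpA u j) ⬝ᵥ w = v ⬝ᵥ (dpA u j *ᵥ w) := (dotProduct_mulVec v _ w).symm

theorem dp_nonneg {α : Type} [Fintype α] (v : α → ℤ) : 0 ≤ v ⬝ᵥ v :=
  Finset.sum_nonneg fun x _ => mul_self_nonneg (v x)

theorem dp_le {α : Type} [Fintype α] (v : α → ℤ) (x : α) : v x * v x ≤ v ⬝ᵥ v :=
  Finset.single_le_sum (f := fun x => v x * v x) (fun x _ => mul_self_nonneg (v x))
    (Finset.mem_univ x)

theorem dp_eq_single {α : Type} [Fintype α] [DecidableEq α] {v : α → ℤ} {x : α}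
    (h : v ⬝ᵥ v ≤ v x * v x) {y : α} (hy : y ≠ x) : v y = 0 := by
  have := Finset.sum_le_sum_of_subset_of_nonneg (f := fun x => v x * v x)
    (Finset.subset_univ {y, x}) fun x _ _ => mul_self_nonneg (v x)
  rw [Finset.sum_pair hy] at this
  exact mul_self_eq_zero.1 (le_antisymm (by unfold dotProduct at h; linarith) (mul_self_nonneg _))

theorem DP.du0 (h : DP I u) (v : I 0 → ℤ) : dpA u 0 *ᵥ (v ᵥ* dpA u 0) = v := by
  have : dpA u 0 * (dpA u 0)ᵀ = 1 := by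
    ext x x'
    simpa [mul_apply, dpA_apply, one_apply] using congrArg (Nat.cast : ℕ → ℤ) (h.zero x x')
  rw [← mulVec_transpose, mulVec_mulVec, this, one_mulVec]

theorem DP.du (h : DP I u) {j : ℕ} (v : I (j + 1) → ℤ) :
    dpA u (j + 1) *ᵥ (v ᵥ* dpA u (j + 1)) = v + (dpA u j *ᵥ v) ᵥ* dpA u j := by
  have : dpA u (j + 1) * (dpA u (j + 1))ᵀ = 1 + (dpA u j)ᵀ * dpA u j := by
    ext x x'
    simpa [mul_apply, dpA_apply, one_apply] using congrArg (Nat.cast : ℕ → ℤ) (h.succ j x x')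
  rw [← mulVec_transpose, mulVec_mulVec, this, add_mulVec, one_mulVec, ← mulVec_mulVec,
    mulVec_transpose]

theorem DP.nrm (h : DP I u) {j : ℕ} (v w : I (j + 1) → ℤ) :
    (v ᵥ* dpA u (j + 1)) ⬝ᵥ (w ᵥ* dpA u (j + 1)) = v ⬝ᵥ w + (dpA u j *ᵥ v) ⬝ᵥ (dpA u j *ᵥ w) := by
  rw [dp_adj, h.du, dotProduct_add, dotProduct_comm v (_ ᵥ* _), dp_adj, dotProduct_comm (_ *ᵥ w)]

theorem dp_key {j : ℕ} (w : I (j + 1) → ℤ) (c : ℤ) :
    (c • w - (dpA u j *ᵥ w) ᵥ* dpA u j) ⬝ᵥ (c • w - (dpA u j *ᵥ w) ᵥ* dpA u j) =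
      c * c * (w ⬝ᵥ w) - 2 * c * ((dpA u j *ᵥ w) ⬝ᵥ (dpA u j *ᵥ w)) +
        ((dpA u j *ᵥ w) ᵥ* dpA u j) ⬝ᵥ ((dpA u j *ᵥ w) ᵥ* dpA u j) := by
  simp only [sub_dotProduct, dotProduct_sub, smul_dotProduct, dotProduct_smul, smul_eq_mul]
  rw [dotProduct_comm w (_ ᵥ* _), dp_adj _ w]
  ring

theorem dp_nD {j : ℕ} (h : ∀ v : I j → ℤ, (v ᵥ* dpA u j) ⬝ᵥ (v ᵥ* dpA u j) ≤ (j + 1) * (v ⬝ᵥ v))
    (w : I (j + 1) → ℤ) : (dpA u j *ᵥ w) ⬝ᵥ (dpA u j *ᵥ w) ≤ (j + 1) * (w ⬝ᵥ w) := by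
  have h1 := dp_nonneg (((j : ℤ) + 1) • w - (dpA u j *ᵥ w) ᵥ* dpA u j)
  rw [dp_key] at h1
  have h2 := h (dpA u j *ᵥ w)
  exact le_of_mul_le_mul_left (a := (j : ℤ) + 1) (by linarith) (by positivity)

theorem DP.nU (h : DP I u) : ∀ (j : ℕ) (v : I j → ℤ),
    (v ᵥ* dpA u j) ⬝ᵥ (v ᵥ* dpA u j) ≤ (j + 1) * (v ⬝ᵥ v)
  | 0, v => by rw [dp_adj, h.du0]; simp
  | j + 1, v => by
    have := dp_nD (h.nU j) v
    rw [h.nrm]; push_cast; linarith

theorem DP.nD (h : DP I u) {j : ℕ} (w : I (j + 1) → ℤ) :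
    (dpA u j *ᵥ w) ⬝ᵥ (dpA u j *ᵥ w) ≤ (j + 1) * (w ⬝ᵥ w) := dp_nD (h.nU j) w

theorem DP.eqD (h : DP I u) {j : ℕ} {w : I (j + 1) → ℤ}
    (e : (j + 1) * (w ⬝ᵥ w) ≤ (dpA u j *ᵥ w) ⬝ᵥ (dpA u j *ᵥ w)) :
    (dpA u j *ᵥ w) ᵥ* dpA u j = ((j : ℤ) + 1) • w := by
  have h1 := dp_nonneg (((j : ℤ) + 1) • w - (dpA u j *ᵥ w) ᵥ* dpA u j)
  have h2 := h.nU j (dpA u j *ᵥ w)
  have h3 := dp_key (u := u) w ((j : ℤ) + 1)
  have h4 := mul_le_mul_of_nonneg_left e (show (0 : ℤ) ≤ j + 1 by positivity)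
  exact (sub_eq_zero.1 (dotProduct_self_eq_zero.1 (le_antisymm (by linarith) h1))).symm

theorem DP.inj (h : DP I u) : ∀ {j : ℕ} {v : I j → ℤ}, v ᵥ* dpA u j = 0 → v = 0
  | 0, v, e => by rw [← h.du0 v, e, mulVec_zero]
  | j + 1, v, e => by
    have h1 := h.nrm v v
    have h2 := dp_nonneg (dpA u j *ᵥ v)
    rw [e, zero_dotProduct] at h1
    exact dotProduct_self_eq_zero.1 (le_antisymm (by linarith) (dp_nonneg v))

/-- a vanishing coordinate of `U v`, `v ≥ 0` -/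
theorem dp_zero {j : ℕ} {v : I j → ℤ} (hv : ∀ x, 0 ≤ v x) {y : I (j + 1)}
    (e : (v ᵥ* dpA u j) y = 0) {x : I j} (hx : v x ≠ 0) : u j x y = 0 := by
  have := (Finset.sum_eq_zero_iff_of_nonneg (f := fun x => v x * dpA u j x y) fun x _ =>
    mul_nonneg (hv x) (Int.natCast_nonneg _)).1 e x (Finset.mem_univ x)
  simpa [hx, dpA_apply] using this

theorem dp_D (j : ℕ) (y : I (j + 1)) : dpA u j *ᵥ Pi.single y 1 = fun x => (u j x y : ℤ) := by
  ext x; simp [dpA_apply]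

theorem dp_U (j : ℕ) (x : I j) : Pi.single x 1 ᵥ* dpA u j = fun y => (u j x y : ℤ) := by
  ext y; simp [dpA_apply]

theorem DP.top (h : DP I u) {j : ℕ} (x : I (j + 1))
    (e : (j : ℤ) + 1 ≤ (fun z => (u j z x : ℤ)) ⬝ᵥ fun z => (u j z x : ℤ)) : IsSquare (j + 1) := by
  have h0 := h.nD (Pi.single x 1)
  have h1 := h.eqD (w := Pi.single x 1) (by rw [dp_D]; simpa using e)
  rw [dp_D] at h0 h1
  have h2 : ∀ z, u j z x ≠ 0 → ∀ y, y ≠ x → u j z y = 0 := fun z hz y hy =>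
    dp_zero (v := fun z => (u j z x : ℤ)) (fun _ => Int.natCast_nonneg _) (by rw [h1]; simp [hy])
      (by simpa using hz)
  obtain ⟨z, hz⟩ : ∃ z, u j z x ≠ 0 := by
    by_contra! hc
    simp [hc, dotProduct] at e
    omega
  have h3 : ∀ z', z' ≠ z → u j z' x = 0 := fun z' hz' => by
    by_contra hc
    have := h.inj (v := (u j z' x : ℤ) • (Pi.single z 1 : I j → ℤ) - (u j z x : ℤ) • Pi.single z' 1) (by
      rw [sub_vecMul, smul_vecMul, smul_vecMul, dp_U, dp_U]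
      ext y
      by_cases hy : y = x
      · simp [hy, mul_comm]
      · simp [h2 z hz y hy, h2 z' hc y hy])
    simpa [hc, hz'.symm] using congrFun this z
  refine ⟨u j z x, ?_⟩
  rw [dotProduct, Finset.sum_eq_single z (fun z' _ hz' => by simp [h3 z' hz']) (by simp)] at e h0
  simp only [single_dotProduct, Pi.single_eq_same, mul_one] at h0
  exact_mod_cast le_antisymm e h0

theorem dp_lower {j : ℕ} (S : Finset (I (j + 1))) (r : I j → ℤ)
    (hS : ∀ y ∈ S, ∀ x, (u j x y : ℤ) = r x) :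
    S.card * (r ⬝ᵥ r * r ⬝ᵥ r) ≤ (r ᵥ* dpA u j) ⬝ᵥ (r ᵥ* dpA u j) := by
  rw [← nsmul_eq_mul, ← Finset.sum_const]
  refine (Finset.sum_congr rfl fun y hy => ?_).le.trans (Finset.sum_le_sum_of_subset_of_nonneg
    (f := fun y => (r ᵥ* dpA u j) y * (r ᵥ* dpA u j) y) (Finset.subset_univ S)
    fun x _ _ => mul_self_nonneg _)
  simp only [vecMul, dotProduct, dpA_apply, hS y hy]

theorem dp_pos {α : Type} [Fintype α] {r : α → ℤ} (hr : r ≠ 0) : 1 ≤ r ⬝ᵥ r :=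
  (dp_nonneg r).lt_of_ne fun e => hr (dotProduct_self_eq_zero.1 e.symm)

theorem DP.boundZ (h : DP I u) {j : ℕ} (S : Finset (I (j + 1))) (r : I j → ℤ)
    (hS : ∀ y ∈ S, ∀ x, (u j x y : ℤ) = r x) (hr : r ≠ 0) : S.card * (r ⬝ᵥ r) ≤ j + 1 :=
  le_of_mul_le_mul_right (a := r ⬝ᵥ r) (by
    have := (dp_lower S r hS).trans (h.nU j r); linarith) (dp_pos hr)

/-- elements with a common image `r` under `D` -/
theorem DP.bound (h : DP I u) {j : ℕ} (S : Finset (I (j + 1))) (r : I j → ℕ)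
    (hS : ∀ y ∈ S, ∀ x, u j x y = r x) (hr : r ≠ 0) : S.card * ∑ x, r x ^ 2 ≤ j + 1 := by
  have := h.boundZ S (fun x => r x) (fun y hy x => by rw [hS y hy])
    fun e => hr (funext fun x => by simpa using congrFun e x)
  simp only [dotProduct, ← pow_two] at this
  exact_mod_cast this

theorem dp_one {α : Type} [Fintype α] [DecidableEq α] {r : α → ℤ} (h0 : ∀ x, 0 ≤ r x)
    (h : r ⬝ᵥ r = 1) : ∃ x, r = Pi.single x 1 := by
  obtain ⟨x, hx⟩ : ∃ x, r x ≠ 0 := by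
    by_contra! hc
    simp [hc, dotProduct] at h
  have h1 := dp_le r x
  have h2 : r x = 1 := by have := h0 x; nlinarith [(h0 x).lt_of_ne' hx]
  refine ⟨x, funext fun y => ?_⟩
  by_cases hy : y = x
  · simp [hy, h2]
  · simp [hy, dp_eq_single (v := r) (x := x) (by simp [h, h2]) hy]

theorem DP.sq (h : DP I u) {j : ℕ} (S : Finset (I (j + 1))) (r : I j → ℕ)
    (hS : ∀ y ∈ S, ∀ x, u j x y = r x) (hr : r ≠ 0) (hc : S.card = j + 1) : IsSquare j := by
  rcases j with _ | j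
  · exact ⟨0, rfl⟩
  have hr' : (fun x => (r x : ℤ)) ≠ 0 := fun e => hr (funext fun x => by simpa using congrFun e x)
  have h1 := h.boundZ S (fun x => r x) (fun y hy x => by rw [hS y hy]) hr'
  have h2 := dp_lower (u := u) S (fun x => r x) fun y hy x => by rw [hS y hy]
  have h3 := dp_pos hr'
  rw [hc] at h1 h2
  obtain ⟨x, hx⟩ := dp_one (r := fun x => (r x : ℤ)) (fun _ => Int.natCast_nonneg _)
    (le_antisymm (by push_cast at h1; nlinarith) h3)
  rw [hx, h.nrm, dp_D] at h2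
  refine h.top x ?_
  simp only [single_dotProduct, Pi.single_eq_same, mul_one] at h2
  push_cast at h2
  linarith

theorem dp_sum {α : Type} [Fintype α] {r : α → ℤ} (h0 : ∀ x, 0 ≤ r x) (h : r ⬝ᵥ r ≤ 3) (x : α) :
    r x = 0 ∨ r x = 1 := by
  have h1 := dp_le r x
  have h2 := h0 x
  have : r x ≤ 1 := by nlinarith
  omega

theorem DP.two (h : DP I u) {z : I 2} (hz : (fun a => (u 1 a z : ℤ)) ≠ 0) :
    ((fun y => (u 2 z y : ℤ)) ⬝ᵥ fun y => (u 2 z y : ℤ)) = 2 := by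
  have h1 := h.nrm (Pi.single z 1) (Pi.single z 1)
  have h2 := h.nD (Pi.single z 1)
  have h3 := mt (h.top z) Nat.prime_two.prime.not_isSquare
  have h4 := dp_pos hz
  rw [dp_U, dp_D] at h1
  rw [dp_D] at h2
  simp only [single_dotProduct, Pi.single_eq_same, mul_one] at h1 h2
  push_cast at h2 h3
  omega

theorem dp_mulVec_nonneg {j : ℕ} {v : I (j + 1) → ℤ} (hv : ∀ x, 0 ≤ v x) (x : I j) :
    0 ≤ (dpA u j *ᵥ v) x :=
  Finset.sum_nonneg fun y _ => mul_nonneg (Int.natCast_nonneg _) (hv y)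

theorem DP.not_two (h : DP I u) {r : I 3 → ℤ} (h0 : ∀ x, 0 ≤ r x) (h2 : r ⬝ᵥ r = 2)
    (h8 : 8 ≤ (r ᵥ* dpA u 3) ⬝ᵥ (r ᵥ* dpA u 3)) : False := by
  rw [h.nrm] at h8
  have h1 := h.nD r
  have h3 := h.eqD (w := r) (by push_cast; linarith)
  obtain ⟨w, hw⟩ : ∃ w, w = dpA u 2 *ᵥ r := ⟨_, rfl⟩
  have hw0 : ∀ z, 0 ≤ w z := hw ▸ dp_mulVec_nonneg h0
  rw [← hw] at h8 h1 h3
  have h4 := h.du w
  rw [h3, mulVec_smul, ← hw] at h4
  have h5 : (4 : ℤ) ∣ w ⬝ᵥ w := Finset.dvd_sum fun z _ => by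
    by_cases hz : w z = 0
    · simp [hz]
    have k1 := h.two (z := z) fun e => by
      have := congrFun h4 z
      have e' : ∀ a, dpA u 1 a z = 0 := congrFun e
      simp [vecMul, dotProduct, e'] at this
      omega
    have k2 : w z = 2 := by
      rw [← k1, hw]
      refine Finset.sum_congr rfl fun y _ => ?_
      rcases dp_sum h0 (by omega) y with e | e
      · simp [e, dp_zero hw0 (y := y) (by rw [h3]; simp [e]) hz]
      · rcases dp_sum (r := fun y => (u 2 z y : ℤ)) (fun _ => Int.natCast_nonneg _) (by omega) y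
          with e' | e' <;> simp [e, dpA_apply, e']
    simp [k2]
  push_cast at h1
  omega

theorem DP.not_three (h : DP I u) {x : I 3} {y : I 4} (hx : u 3 x y = 1)
    (h2 : ((fun z => (u 2 z x : ℤ)) ⬝ᵥ fun z => (u 2 z x : ℤ)) = 2)
    (e : (fun z => (u 2 z x : ℤ)) ᵥ* dpA u 2 = Pi.single x 1 + fun x' => (u 3 x' y : ℤ)) :
    False := by
  obtain ⟨w, hw⟩ : ∃ w : I 2 → ℤ, w = fun z => (u 2 z x : ℤ) := ⟨_, rfl⟩
  obtain ⟨s, hs⟩ : ∃ s : I 3 → ℤ, s = (fun x' => (u 3 x' y : ℤ)) - Pi.single x 1 := ⟨_, rfl⟩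
  have hsx : s x = 0 := by simp [hs, hx]
  have hs1 : ∀ x', x' ≠ x → s x' = u 3 x' y := fun x' h => by simp [hs, h]
  have hs0 : ∀ x', 0 ≤ s x' := fun x' => by
    by_cases h : x' = x
    · rw [h, hsx]
    · rw [hs1 x' h]; positivity
  have hw0 : ∀ z, 0 ≤ w z := fun z => by rw [hw]; positivity
  have e1 : w ᵥ* dpA u 2 = (2 : ℤ) • Pi.single x 1 + s := by rw [hw, e, hs, two_smul]; abel
  rw [← hw] at h2
  have k1 : ∀ z, w z * ∑ x', dpA u 2 z x' = 2 * (w z * w z) := fun z => by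
    rcases dp_sum hw0 (by omega) z with e | e
    · simp [e]
    have k := h.two (z := z) fun e' => by
      have l := h.nrm (Pi.single z 1) w
      rw [dp_U, dp_D, e', e1] at l
      have l1 : 0 ≤ (fun y => (u 2 z y : ℤ)) ⬝ᵥ s :=
        Finset.sum_nonneg fun a _ => mul_nonneg (Int.natCast_nonneg _) (hs0 a)
      have l2 : (u 2 z x : ℤ) = 1 := by rw [← e, hw]
      rw [dotProduct_add, dotProduct_smul, dotProduct_single, l2] at l
      simp [e] at l
      linarith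
    rw [e, one_mul, mul_one, mul_one, ← k]
    refine Finset.sum_congr rfl fun a _ => ?_
    rcases dp_sum (r := fun y => (u 2 z y : ℤ)) (fun _ => Int.natCast_nonneg _) (by omega) a
      with e' | e' <;> simp [dpA_apply, e']
  have k2 : 2 ≤ s ⬝ᵥ s := by
    have l1 : ∑ a, (w ᵥ* dpA u 2) a = 4 := by
      simp only [vecMul, dotProduct]
      rw [Finset.sum_comm]
      simp only [← Finset.mul_sum, k1]
      exact (congrArg (2 * ·) h2).trans rfl
    have l2 : ∑ a, s a ≤ s ⬝ᵥ s := Finset.sum_le_sum fun a _ => Int.le_self_sq (s a) |>.trans_eq (pow_two _)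
    rw [e1] at l1
    simp [Finset.sum_add_distrib, ← Finset.mul_sum] at l1
    omega
  have k3 : dpA u 2 *ᵥ s = (dpA u 1 *ᵥ w) ᵥ* dpA u 1 - w := by
    have := h.du w
    rw [e1, mulVec_add, mulVec_smul, dp_D, ← hw, two_smul] at this
    linear_combination this
  have k4 : (dpA u 2 *ᵥ s) ⬝ᵥ (dpA u 2 *ᵥ s) ≤ 2 := by
    have l1 := dp_key (u := u) w 1
    have l2 := h.nU 1 (dpA u 1 *ᵥ w)
    rw [one_smul, ← neg_sub, neg_dotProduct_neg, ← k3] at l1
    push_cast at l2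
    linarith
  have k5 : (s ᵥ* dpA u 3) y = s ⬝ᵥ s := Finset.sum_congr rfl fun a _ => by
    by_cases h : a = x
    · simp [h, hsx]
    · rw [hs1 a h]; rfl
  have k6 : (s ᵥ* dpA u 3) ⬝ᵥ (s ᵥ* dpA u 3) = _ := h.nrm s s
  have k7 := dp_le (s ᵥ* dpA u 3) y
  have k8 : s ⬝ᵥ s = 2 := by rw [k5] at k7; nlinarith
  have k9 : dpA u 2 *ᵥ s = 0 := funext fun z => Finset.sum_eq_zero fun a _ => by
    rcases dp_sum hs0 (by omega) a with e | e
    · simp [e]
    have l1 : a ≠ x := fun l => by simp [l, hsx] at e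
    have l2 := h.nrm (Pi.single a 1) (Pi.single a 1)
    rw [dp_U, dp_D, dotProduct, Finset.sum_eq_single y (fun b _ hb => by
      rw [dp_zero (u := u) hs0 (dp_eq_single (by rw [k5, k8]; omega) hb) (x := a) (by omega)]; simp) (by simp),
      ← hs1 a l1, e] at l2
    have l3 := congrFun (dotProduct_self_eq_zero.1 (show (fun x => (u 2 x a : ℤ)) ⬝ᵥ _ = 0 by
      simpa using l2.symm)) z
    simp [dpA_apply, l3]
  rw [k9, k8] at k6
  rw [k5, k8, k6] at k7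
  simp at k7

theorem DP.small (h : DP I u) {i : ℕ} (hi : i ≤ 2) {y₁ y₂ : I (i + 2)} (hne : y₁ ≠ y₂)
    (hD : ∀ x, u (i + 1) x y₁ = u (i + 1) x y₂) (hr : ∃ x, u (i + 1) x y₁ ≠ 0) :
    ∃ (x : I (i + 1)) (z : I i),
      (∀ y, u (i + 1) x y = if y = y₁ ∨ y = y₂ then 1 else 0) ∧
      (∀ x', u i z x' = if x' = x then 1 else 0) ∧ u (i + 1) x y₁ = 1 := by
  have hr' : (fun x => (u (i + 1) x y₁ : ℤ)) ≠ 0 := fun e => hr.elim fun x hx =>
    hx (by simpa using congrFun e x)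
  have hS : ∀ y ∈ ({y₁, y₂} : Finset (I (i + 2))), ∀ x, (u (i + 1) x y : ℤ) = u (i + 1) x y₁ := by
    simp [hD]
  have h1 := h.boundZ _ _ hS hr'
  have h2 := dp_lower _ _ hS
  have h3 := dp_pos hr'
  rw [Finset.card_pair hne] at h1 h2
  push_cast at h1 h2
  obtain ⟨x, hx⟩ := dp_one (r := fun x => (u (i + 1) x y₁ : ℤ)) (fun _ => Int.natCast_nonneg _) (by
    by_contra hc
    obtain rfl : i = 2 := by omega
    have e : ((fun x => (u (2 + 1) x y₁ : ℤ)) ⬝ᵥ fun x => (u (2 + 1) x y₁ : ℤ)) = 2 := by omega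
    rw [e] at h2
    exact h.not_two (fun _ => Int.natCast_nonneg _) e h2)
  have hx2 : (fun x => (u (i + 1) x y₂ : ℤ)) = Pi.single x 1 := by rw [← hx]; simp [hD]
  have e1 : u (i + 1) x y₁ = 1 := by simpa using congrFun hx x
  have e2 : u (i + 1) x y₂ = 1 := by rw [← hD, e1]
  obtain ⟨t, ht⟩ : ∃ t : I (i + 2) → ℤ,
    t = (fun y => (u (i + 1) x y : ℤ)) - Pi.single y₁ 1 - Pi.single y₂ 1 := ⟨_, rfl⟩
  have t1 : t y₁ = 0 := by simp [ht, e1, hne]
  have t2 : t y₂ = 0 := by simp [ht, e2, hne.symm]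
  have t3 : ∀ y, y ≠ y₁ → y ≠ y₂ → t y = u (i + 1) x y := fun y a b => by simp [ht, a, b]
  have t0 : ∀ y, 0 ≤ t y := fun y => by
    by_cases a : y = y₁
    · rw [a, t1]
    by_cases b : y = y₂
    · rw [b, t2]
    rw [t3 y a b]; positivity
  have t4 : (fun y => (u (i + 1) x y : ℤ)) = t + Pi.single y₁ 1 + Pi.single y₂ 1 := by rw [ht]; abel
  have k1 := h.nrm (Pi.single x 1) (Pi.single x 1)
  have k2 := h.du (Pi.single x 1)
  have k3 := h.nD (Pi.single x 1)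
  have k4 := h.top x
  rw [dp_U, dp_D, t4] at k1 k2
  rw [dp_D] at k3
  rw [mulVec_add, mulVec_add, dp_D, dp_D, hx, hx2] at k2
  simp [t1, t2, hne, hne.symm] at k1 k3
  have k5 : (fun z => (u i z x : ℤ)) ᵥ* dpA u i = Pi.single x 1 + dpA u (i + 1) *ᵥ t := by
    linear_combination -k2
  have k6 := dp_nonneg t
  have k7 : t ⬝ᵥ t = 0 := by
    by_contra hc
    have l1 : ¬ IsSquare (i + 1) := by
      rcases i with _ | _ | _ | i
      · push_cast at k3; omega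
      · exact Nat.prime_two.prime.not_isSquare
      · exact Nat.prime_three.prime.not_isSquare
      · omega
    have l2 := mt k4 l1
    obtain rfl : i = 2 := by omega
    obtain ⟨y, hy⟩ := dp_one t0 (by push_cast at l2; omega)
    have l3 : t y = 1 := by simp [hy]
    refine h.not_three (x := x) (y := y) ?_ (by push_cast at l2; omega) (by rw [k5, hy, dp_D])
    rw [t3 y (fun e => by simp [e, t1] at l3) fun e => by simp [e, t2] at l3] at l3
    exact_mod_cast l3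
  obtain ⟨z, hz⟩ := dp_one (r := fun z => (u i z x : ℤ)) (fun _ => Int.natCast_nonneg _) (by omega)
  rw [dotProduct_self_eq_zero.1 k7] at k5 t4
  rw [hz, dp_U, mulVec_zero, add_zero] at k5
  refine ⟨x, z, fun y => ?_, fun x' => ?_, e1⟩
  · have := congrFun t4 y
    split_ifs with a
    · rcases a with rfl | rfl <;> assumption
    · push Not at a
      simpa [a.1, a.2] using this
  · have := congrFun k5 x'
    split_ifs with a
    · simpa [a] using this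
    · simpa [a] using this

end Cfsg.Agent.DG
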