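import Cfsg.Agent.Lib.H4.Misc3
import Cfsg.Agent.Lib.H3.Galois
import Cfsg.Agent.Lib.FS.Defs

/-!
# Degree graphs of symplectic and orthogonal groups: definitions (see notes/DG.md)
-/

set_option autoImplicit false

open scoped ComplexConjugate Matrix
open Module Cfsg

namespace Cfsg.Agent.DG

/-- inner product with the canonical `Fintype` structure -/
noncomputable def ip {G : Type*} [Group G] [Finite G] (a b : G → ℂ) : ℂ :=
  @classInner G _ (Fintype.ofFinite G) a b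

/-- induction with the canonical `Fintype` structure -/
noncomputable def ind {G : Type*} [Group G] [Finite G] (H : Subgroup G) (θ : H → ℂ) : G → ℂ :=
  @indFun G _ (Fintype.ofFinite G) H θ

theorem ip_eq {G : Type*} [Group G] [Fintype G] (a b : G → ℂ) : ip a b = classInner a b := by
  unfold ip; congr; exact Subsingleton.elim _ _

theorem ind_eq {G : Type*} [Group G] [Fintype G] (H : Subgroup G) (θ : H → ℂ) :
    ind H θ = indFun H θ := by
  unfold ind; congr; exact Subsingleton.elim _ _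

/-- a complex number fixed by all field automorphisms -/
def RatC (z : ℂ) : Prop := ∀ γ : ℂ ≃+* ℂ, γ z = z

/-- a rational valued function -/
def RatF {G : Type*} (χ : G → ℂ) : Prop := ∀ g, RatC (χ g)

section Lin

variable {F : Type} [Field F] {ι : Type} [Fintype ι] [DecidableEq ι]

/-- the unipotent radical of the stabiliser of a subspace -/
def UA (A : Submodule F (ι → F)) : Subgroup (GL ι F) where
  carrier := {u | (∀ x, (u : Matrix ι ι F) *ᵥ x - x ∈ A) ∧ ∀ x ∈ A, (u : Matrix ι ι F) *ᵥ x = x}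
  one_mem' := ⟨fun x => by simp, fun x _ => by simp⟩
  mul_mem' := fun {a b} ha hb => ⟨fun x => by
      have h := add_mem (ha.1 ((b : Matrix ι ι F) *ᵥ x)) (hb.1 x)
      rwa [sub_add_sub_cancel, Matrix.mulVec_mulVec, ← Units.val_mul] at h,
    fun x hx => by rw [Units.val_mul, ← Matrix.mulVec_mulVec, hb.2 x hx, ha.2 x hx]⟩
  inv_mem' := fun {a} ha => ⟨fun x => by
      have h := neg_mem (ha.1 (((a⁻¹ : GL ι F) : Matrix ι ι F) *ᵥ x))
      rwa [Matrix.mulVec_mulVec, Units.mul_inv, Matrix.one_mulVec, neg_sub] at h,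
    fun x hx => by
      conv_lhs => rw [← ha.2 x hx]
      rw [Matrix.mulVec_mulVec, Units.inv_mul, Matrix.one_mulVec]⟩

theorem mem_UA {A : Submodule F (ι → F)} {u : GL ι F} : u ∈ UA A ↔
    (∀ x, (u : Matrix ι ι F) *ᵥ x - x ∈ A) ∧ ∀ x ∈ A, (u : Matrix ι ι F) *ᵥ x = x := Iff.rfl

/-- cuspidal functions on a general linear group -/
def Cusp (π : GL ι F → ℂ) : Prop :=
  ∀ A : Submodule F (ι → F), A ≠ ⊥ → A ≠ ⊤ → ∑ᶠ u : UA A, π u = 0

/-- `g` stabilises a proper nonzero subspace -/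
def Red (g : GL ι F) : Prop :=
  ∃ A : Submodule F (ι → F), A ≠ ⊥ ∧ A ≠ ⊤ ∧ ∀ x ∈ A, (g : Matrix ι ι F) *ᵥ x ∈ A

/-- inverse transpose -/
def itr : GL ι F →* GL ι F where
  toFun g := ⟨((g⁻¹ : GL ι F) : Matrix ι ι F)ᵀ, (g : Matrix ι ι F)ᵀ,
    by rw [← Matrix.transpose_mul, Units.mul_inv, Matrix.transpose_one],
    by rw [← Matrix.transpose_mul, Units.inv_mul, Matrix.transpose_one]⟩
  map_one' := by apply Units.ext; simp
  map_mul' g h := by
    apply Units.ext
    simp only [Units.val_mul, mul_inv_rev, Matrix.transpose_mul]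

theorem itr_val (g : GL ι F) : (itr g : Matrix ι ι F) = ((g⁻¹ : GL ι F) : Matrix ι ι F)ᵀ := rfl

theorem itr_inv_val (g : GL ι F) : (((itr g)⁻¹ : GL ι F) : Matrix ι ι F) = (g : Matrix ι ι F)ᵀ :=
  rfl

theorem itr_itr (g : GL ι F) : itr (itr g) = g := by
  apply Units.ext
  rw [itr_val, itr_inv_val, Matrix.transpose_transpose]

/-- scalar matrices -/
def scal (ι : Type) [Fintype ι] [DecidableEq ι] : Fˣ →* GL ι F :=
  Units.map (Matrix.scalar ι : F →+* Matrix ι ι F).toMonoidHom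

theorem scal_mulVec (c : Fˣ) (x : ι → F) : (scal ι c : Matrix ι ι F) *ᵥ x = (c : F) • x := by
  change Matrix.scalar ι (c : F) *ᵥ x = _
  ext i
  simp [Matrix.scalar_apply, Matrix.mulVec_diagonal]

end Lin

section Forms

/-- `0` for symplectic, `1` for orthogonal spaces -/
def kap (F : Type) [Field F] (sy : Bool) : F := if sy then 0 else 1

/-- `-1` for symplectic, `1` for orthogonal spaces -/
def eps (F : Type) [Field F] (sy : Bool) : Fˣ := if sy then -1 else 1

/-- a nondegenerate symplectic (`sy = true`) or quadratic (`sy = false`) space -/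
structure Fm (sy : Bool) (F V : Type) [Field F] [AddCommGroup V] [Module F V] where
  B : LinearMap.BilinForm F V
  Q : V → F
  add : ∀ x y, Q (x + y) = Q x + Q y + kap F sy * B x y
  smul : ∀ (c : F) x, Q (c • x) = c ^ 2 * Q x
  symm : ∀ x y, B y x = eps F sy * B x y
  self : ∀ x, B x x = 2 * Q x
  qz : sy = true → ∀ x, Q x = 0
  nd : ∀ x, (∀ y, B x y = 0) → x = 0

variable {sy : Bool} {F V V' : Type} [Field F] [AddCommGroup V] [Module F V] [AddCommGroup V']
  [Module F V'] {ι : Type} [Fintype ι] [DecidableEq ι]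

theorem eps_mul_eps : (eps F sy : F) * eps F sy = 1 := by cases sy <;> simp [eps]

theorem kap_mul_eps : kap F sy * eps F sy = kap F sy := by cases sy <;> simp [eps, kap]

theorem one_add_eps : 1 + (eps F sy : F) = 2 * kap F sy := by
  cases sy <;> simp [eps, kap]; ring

namespace Fm

/-- the isometry group -/
def O (f : Fm sy F V) : Subgroup (V ≃ₗ[F] V) where
  carrier := {g | (∀ x, f.Q (g x) = f.Q x) ∧ ∀ x y, f.B (g x) (g y) = f.B x y}
  one_mem' := ⟨fun _ => rfl, fun _ _ => rfl⟩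
  mul_mem' := fun {a b} ha hb => ⟨fun x => (ha.1 (b x)).trans (hb.1 x),
    fun x y => (ha.2 (b x) (b y)).trans (hb.2 x y)⟩
  inv_mem' := fun {a} ha => ⟨fun x => by
      have := ha.1 (a.symm x)
      simp only [LinearEquiv.apply_symm_apply] at this
      exact this.symm, fun x y => by
      have := ha.2 (a.symm x) (a.symm y)
      simp only [LinearEquiv.apply_symm_apply] at this
      exact this.symm⟩

theorem mem_O {f : Fm sy F V} {g : V ≃ₗ[F] V} :
    g ∈ f.O ↔ (∀ x, f.Q (g x) = f.Q x) ∧ ∀ x y, f.B (g x) (g y) = f.B x y := Iff.rfl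

/-- minus the identity -/
def neg1 (f : Fm sy F V) : f.O :=
  ⟨LinearEquiv.neg F, fun x => by simpa using f.smul (-1) x, fun x y => by simp⟩

theorem neg1_apply (f : Fm sy F V) (x : V) : (f.neg1 : V ≃ₗ[F] V) x = -x := rfl

/-- the bilinear form of a hyperbolic extension -/
def hypB (ι : Type) [Fintype ι] (f : Fm sy F V) :
    LinearMap.BilinForm F ((ι → F) × (ι → F) × V) :=
  LinearMap.mk₂ F (fun a b => a.1 ⬝ᵥ b.2.1 + eps F sy * (a.2.1 ⬝ᵥ b.1) + f.B a.2.2 b.2.2)
    (fun a a' b => by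
      simp only [Prod.fst_add, Prod.snd_add, add_dotProduct, map_add, LinearMap.add_apply]
      ring)
    (fun c a b => by
      simp only [Prod.smul_fst, Prod.smul_snd, smul_dotProduct, map_smul, LinearMap.smul_apply,
        smul_eq_mul]
      ring)
    (fun a b b' => by
      simp only [Prod.fst_add, Prod.snd_add, dotProduct_add, map_add]
      ring)
    (fun c a b => by
      simp only [Prod.smul_fst, Prod.smul_snd, dotProduct_smul, map_smul, smul_eq_mul]
      ring)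

theorem hypB_apply (f : Fm sy F V) (a b : (ι → F) × (ι → F) × V) :
    hypB ι f a b = a.1 ⬝ᵥ b.2.1 + eps F sy * (a.2.1 ⬝ᵥ b.1) + f.B a.2.2 b.2.2 := rfl

/-- the orthogonal sum of `card ι` hyperbolic planes and `f` -/
def hyp (ι : Type) [Fintype ι] [DecidableEq ι] (f : Fm sy F V) :
    Fm sy F ((ι → F) × (ι → F) × V) where
  B := hypB ι f
  Q a := kap F sy * (a.1 ⬝ᵥ a.2.1) + f.Q a.2.2
  add a b := by
    simp only [hypB_apply, Prod.fst_add, Prod.snd_add, add_dotProduct, dotProduct_add, f.add]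
    rw [dotProduct_comm a.2.1 b.1]
    linear_combination (-(b.1 ⬝ᵥ a.2.1)) * (kap_mul_eps (F := F) (sy := sy))
  smul c a := by
    simp only [Prod.smul_fst, Prod.smul_snd, smul_dotProduct, dotProduct_smul, f.smul,
      smul_eq_mul]
    ring
  symm a b := by
    simp only [hypB_apply]
    rw [f.symm a.2.2 b.2.2, dotProduct_comm b.1, dotProduct_comm b.2.1]
    linear_combination (-(a.2.1 ⬝ᵥ b.1)) * (eps_mul_eps (F := F) (sy := sy))
  self a := by
    simp only [hypB_apply, f.self]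
    rw [dotProduct_comm a.2.1 a.1]
    linear_combination (a.1 ⬝ᵥ a.2.1) * (one_add_eps (F := F) (sy := sy))
  qz h a := by simp [f.qz h, kap, h]
  nd a h := by
    have h1 : ∀ y, a.1 ⬝ᵥ y = 0 := fun y => by simpa [hypB_apply] using h (0, y, 0)
    have h2 : ∀ x, a.2.1 ⬝ᵥ x = 0 := fun x => by simpa [hypB_apply] using h (x, 0, 0)
    have h3 : ∀ z, f.B a.2.2 z = 0 := fun z => by simpa [hypB_apply] using h (0, 0, z)
    exact Prod.ext (dotProduct_eq_zero_iff.mp h1)
      (Prod.ext (dotProduct_eq_zero_iff.mp h2) (f.nd _ h3))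

theorem hyp_B (f : Fm sy F V) (a b : (ι → F) × (ι → F) × V) :
    (f.hyp ι).B a b = a.1 ⬝ᵥ b.2.1 + eps F sy * (a.2.1 ⬝ᵥ b.1) + f.B a.2.2 b.2.2 := rfl

theorem hyp_Q (f : Fm sy F V) (a : (ι → F) × (ι → F) × V) :
    (f.hyp ι).Q a = kap F sy * (a.1 ⬝ᵥ a.2.1) + f.Q a.2.2 := rfl

/-- an isometry of formed spaces -/
structure Iso (f : Fm sy F V) (f' : Fm sy F V') where
  e : V ≃ₗ[F] V'
  hQ : ∀ x, f'.Q (e x) = f.Q x
  hB : ∀ x y, f'.B (e x) (e y) = f.B x y

/-- the induced isomorphism of isometry groups -/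
def Iso.grp {f : Fm sy F V} {f' : Fm sy F V'} (i : Iso f f') : f.O ≃* f'.O where
  toFun g := ⟨(i.e.symm.trans g.1).trans i.e,
    fun x => by simp [i.hQ, g.2.1, ← i.hQ (i.e.symm x)],
    fun x y => by simp [i.hB, g.2.2, ← i.hB (i.e.symm x) (i.e.symm y)]⟩
  invFun g := ⟨(i.e.trans g.1).trans i.e.symm,
    fun x => by rw [← i.hQ]; simp [g.2.1, i.hQ],
    fun x y => by rw [← i.hB]; simp [g.2.2, i.hB]⟩
  left_inv g := by ext x; simp
  right_inv g := by ext x; simp
  map_mul' g h := by ext x; simp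

theorem Iso.grp_apply {f : Fm sy F V} {f' : Fm sy F V'} (i : Iso f f') (g : f.O) (x : V) :
    (i.grp g : V' ≃ₗ[F] V') (i.e x) = i.e ((g : V ≃ₗ[F] V) x) := by
  simp [Iso.grp]

/-- no nonzero singular vector -/
def Aniso (f : Fm sy F V) : Prop := ∀ v, f.Q v = 0 → v = 0

/-- `f` is the sum of `n` hyperbolic planes and `a` -/
def St (f : Fm sy F V) (n : ℕ) (a : Fm sy F V') : Prop := Nonempty (Iso f (a.hyp (Fin n)))

/-- the parameter `t` of an anisotropic kernel -/
noncomputable def tp (_ : Fm sy F V) : ℕ := Nat.card V * if sy then Nat.card F else 1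

/-- every nonzero scalar is a value of the quadratic form -/
def Univ (f : Fm sy F V) : Prop := ∀ c : F, c ≠ 0 → ∃ v, f.Q v = c

/-- `g` is the map `z ↦ z + c B(z,v) v` -/
def IsTv (f : Fm sy F V) (g : f.O) (v : V) (c : F) : Prop :=
  ∀ z, (g : V ≃ₗ[F] V) z = z + (c * f.B z v) • v

/-- reflections -/
def IsRefl (f : Fm sy F V) (g : f.O) : Prop := ∃ a, f.Q a ≠ 0 ∧ f.IsTv g a (-(f.Q a)⁻¹)

open Classical in
/-- the isometry `z ↦ z + c B(z,v) v`, if it is one -/
noncomputable def tvel (f : Fm sy F V) (v : V) (c : F) : f.O :=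
  if h : ∃ g, f.IsTv g v c then h.choose else 1

/-- a totally singular embedding -/
structure TS (f : Fm sy F V) (j : (ι → F) →ₗ[F] V) : Prop where
  inj : Function.Injective j
  hQ : ∀ x, f.Q (j x) = 0
  hB : ∀ x y, f.B (j x) (j y) = 0

/-- the isometries acting trivially on `W^⊥ / W`, `W = range j` -/
def KJ {f : Fm sy F V} {j : (ι → F) →ₗ[F] V} (hj : f.TS j) : Subgroup f.O where
  carrier := {h | (∀ x, ∃ y, (h : V ≃ₗ[F] V) (j x) = j y) ∧ (∀ y, ∃ x, (h : V ≃ₗ[F] V) (j x) = j y) ∧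
    ∀ v, (∀ x, f.B (j x) v = 0) → ∃ x, (h : V ≃ₗ[F] V) v = v + j x}
  one_mem' := ⟨fun x => ⟨x, rfl⟩, fun x => ⟨x, rfl⟩, fun v _ => ⟨0, by simp⟩⟩
  mul_mem' := fun {a b} ha hb => ⟨fun x => by
      obtain ⟨y, hy⟩ := hb.1 x
      obtain ⟨z, hz⟩ := ha.1 y
      exact ⟨z, by rw [← hz, ← hy]; rfl⟩, fun z => by
      obtain ⟨y, hy⟩ := ha.2.1 z
      obtain ⟨x, hx⟩ := hb.2.1 y
      exact ⟨x, by rw [← hy, ← hx]; rfl⟩, fun v hv => by
      obtain ⟨x, hx⟩ := hb.2.2 v hv
      obtain ⟨y, hy⟩ := ha.2.2 v hv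
      obtain ⟨z, hz⟩ := ha.1 x
      refine ⟨y + z, ?_⟩
      change (a : V ≃ₗ[F] V) ((b : V ≃ₗ[F] V) v) = _
      rw [hx, map_add, hy, hz, map_add, add_assoc]⟩
  inv_mem' := fun {a} ha => ⟨fun y => by
      obtain ⟨x, hx⟩ := ha.2.1 y
      exact ⟨x, by rw [← hx]; exact (a : V ≃ₗ[F] V).symm_apply_apply _⟩, fun x => by
      obtain ⟨y, hy⟩ := ha.1 x
      exact ⟨y, by rw [← hy]; exact (a : V ≃ₗ[F] V).symm_apply_apply _⟩, fun v hv => by
      obtain ⟨x, hx⟩ := ha.2.2 v hv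
      obtain ⟨y, hy⟩ := ha.2.1 x
      refine ⟨-y, ?_⟩
      change (a : V ≃ₗ[F] V).symm v = _
      rw [LinearEquiv.symm_apply_eq, map_add, hx, map_neg, map_neg, hy]
      simp⟩

theorem mem_KJ {f : Fm sy F V} {j : (ι → F) →ₗ[F] V} (hj : f.TS j) {h : f.O} : h ∈ KJ hj ↔
    (∀ x, ∃ y, (h : V ≃ₗ[F] V) (j x) = j y) ∧ (∀ y, ∃ x, (h : V ≃ₗ[F] V) (j x) = j y) ∧
    ∀ v, (∀ x, f.B (j x) v = 0) → ∃ x, (h : V ≃ₗ[F] V) v = v + j x := Iff.rfl

/-- `g` acts on `range j` as the matrix `a` -/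
def Res (f : Fm sy F V) (j : (ι → F) →ₗ[F] V) (g : f.O) (a : GL ι F) : Prop :=
  ∀ x, (g : V ≃ₗ[F] V) (j x) = j ((a : Matrix ι ι F) *ᵥ x)

open Classical in
/-- the matrix of `g` on `range j` (junk if `g` does not stabilise it) -/
noncomputable def res (f : Fm sy F V) (j : (ι → F) →ₗ[F] V) (g : f.O) : GL ι F :=
  if h : ∃ a, f.Res j g a then h.choose else 1

/-- the Harish-Chandra restrictions of `ρ` do not involve `π` -/
def Free (f : Fm sy F V) (π : GL ι F → ℂ) (ρ : f.O → ℂ) : Prop :=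
  ∀ (j : (ι → F) →ₗ[F] V) (hj : f.TS j), ∑ᶠ h : KJ hj, π (f.res j h) * conj (ρ h) = 0

/-- `ρ` is free for all irreducible cuspidal characters of the groups `GL_k`, `k ∈ S` -/
def FreeK (f : Fm sy F V) (S : ℕ → Prop) (ρ : f.O → ℂ) : Prop :=
  ∀ (k : ℕ) (π : GL (Fin k) F → ℂ), 0 < k → S k → IsIrrCharacter _ π → Cusp π → f.Free π ρ

/-- `ρ` is free for all nontrivial irreducible cuspidal characters -/
def FreeAll (f : Fm sy F V) (ρ : f.O → ℂ) : Prop :=
  ∀ (k : ℕ) (π : GL (Fin k) F → ℂ), 0 < k → IsIrrCharacter _ π → Cusp π → π ≠ (fun _ => 1) →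
    f.Free π ρ

/-- `-1` acts as the scalar `s` -/
def Sg (f : Fm sy F V) (ρ : f.O → ℂ) (s : ℂ) : Prop := ρ f.neg1 = s * ρ 1

/-- `g` is the Siegel (Eichler) transformation of the singular vector `u` and `v ⊥ u` -/
def IsSieg (f : Fm sy F V) (g : f.O) (u v : V) : Prop :=
  f.Q u = 0 ∧ f.B u v = 0 ∧ ∀ z, (g : V ≃ₗ[F] V) z =
    z + f.B z v • u - (eps F sy * f.B z u) • v - (f.Q v * f.B z u) • u

/-- a linear character trivial on all Siegel transformations -/
def SL (f : Fm sy F V) (μ : f.O →* ℂˣ) : Prop := ∀ g u v, f.IsSieg g u v → μ g = 1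

/-- no self twist by a linear character that is trivial on Siegel transformations and
nontrivial on a reflection -/
def TF [Finite V] (f : Fm sy F V) (ρ : f.O → ℂ) : Prop :=
  ∀ μ : f.O →* ℂˣ, f.SL μ → (∃ r, f.IsRefl r ∧ μ r ≠ 1) → ip (fun g => ρ g * μ g) ρ = 0

/-- the stabiliser of the standard totally singular subspace -/
def P (ι : Type) [Fintype ι] [DecidableEq ι] [Finite F] (f : Fm sy F V) :
    Subgroup (f.hyp ι).O where
  carrier := {g | ∃ a : GL ι F, ∀ x, g.1 (x, 0, 0) = ((a : Matrix ι ι F) *ᵥ x, 0, 0)}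
  one_mem' := ⟨1, fun x => by simp⟩
  mul_mem' := fun {g h} ⟨a, ha⟩ ⟨b, hb⟩ => ⟨a * b, fun x => by
    change g.1 (h.1 (x, 0, 0)) = _
    rw [hb, ha, Matrix.mulVec_mulVec, Units.val_mul]⟩
  inv_mem' := fun {g} ⟨a, ha⟩ => ⟨a⁻¹, fun x => by
    change g.1.symm (x, 0, 0) = _
    rw [LinearEquiv.symm_apply_eq, ha, Matrix.mulVec_mulVec, Units.mul_inv, Matrix.one_mulVec]⟩

theorem mem_P [Finite F] {f : Fm sy F V} {g : (f.hyp ι).O} : g ∈ f.P ι ↔
    ∃ a : GL ι F, ∀ x, g.1 (x, 0, 0) = ((a : Matrix ι ι F) *ᵥ x, 0, 0) := Iff.rfl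

end Fm

end Forms

/-- `d` is the degree of an irreducible character of `G` -/
def IsDeg (G : Type*) [Group G] (d : ℕ) : Prop := ∃ χ, IsIrrCharacter G χ ∧ charDegree χ = d

/-- `∏_{i<k} (q^(i+1) - 1)` -/
def gl (q k : ℕ) : ℕ := ∏ i ∈ Finset.range k, (q ^ (i + 1) - 1)

/-- `∏_{i<k} (q^(m+i+1) - 1)(q^(m+i) t + 1)` -/
def pp (q t m k : ℕ) : ℕ := ∏ i ∈ Finset.range k, (q ^ (m + i + 1) - 1) * (q ^ (m + i) * t + 1)

/-- the order of the unipotent radical -/
def uu (q t m k : ℕ) : ℕ := (q ^ (2 * m) * t) ^ k * q ^ (k * (k - 1) / 2)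

/-- parabolic index times `gl q (k-1)` -/
def DD (q t m k : ℕ) : ℕ := pp q t m k / (q ^ k - 1)

/-- the first rank 3 degree -/
def IsD1 (q t n d : ℕ) : Prop :=
  d * ((q - 1) * (q + t)) = q * t * (q ^ n - 1) * (q ^ (n - 2) * t + 1)

/-- the second rank 3 degree -/
def IsD2 (q t n d : ℕ) : Prop :=
  d * ((q - 1) * (q + t)) = q ^ 2 * (q ^ (n - 1) - 1) * (q ^ (n - 1) * t + 1)

/-- a good cuspidal character: irreducible, cuspidal, moved by the inverse transpose, `-1` acts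
as the scalar `s` -/
structure GC {F : Type} [Field F] {ι : Type} [Fintype ι] [DecidableEq ι] (π : GL ι F → ℂ)
    (s : ℂ) : Prop where
  irr : IsIrrCharacter _ π
  cusp : Cusp π
  ne : (fun g => π (itr g)) ≠ π
  sg : π (scal ι (-1)) = s * π 1

/-- every pair of primes dividing the order divides a degree -/
def Cpl (G : Type*) [Group G] : Prop :=
  ∀ r s : ℕ, r.Prime → s.Prime → r ≠ s → r ∣ Nat.card G → s ∣ Nat.card G →
    ∃ d, IsDeg G d ∧ r ∣ d ∧ s ∣ d

/-- the central quotient -/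
abbrev PS (G : Type*) [Group G] : Type _ := G ⧸ Subgroup.center G

/-- the central quotient of the derived group -/
abbrev PO (G : Type*) [Group G] : Type _ := commutator G ⧸ Subgroup.center (commutator G)

end Cfsg.Agent.DG
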