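import Cfsg.Agent.Lib.DG.Geo
import Cfsg.Agent.Lib.FS.F1
import Cfsg.Agent.Lib.KB.Over

/-!
# From the isometry group to the simple group (row DG-Gen, see notes/DG.md)
-/

set_option autoImplicit false

open scoped ComplexConjugate Matrix
open Module Cfsg

namespace Cfsg.Agent.DG

section Abs

variable {G : Type*} [Group G] [Finite G]

theorem isDeg_quot {χ : G → ℂ} (hχ : IsIrrCharacter G χ) (N : Subgroup G) [N.Normal]
    (hN : ∀ x ∈ N, χ x = χ 1) : IsDeg (G ⧸ N) (charDegree χ) := by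
  obtain ⟨b, hb, e⟩ := H3.IsIrrCharacter_exists_deflate hχ N hN
  refine ⟨b, hb, ?_⟩
  have := e 1
  simp only [charDegree]
  rw [← this]
  rfl

/-- the restriction to the derived group is irreducible if there is no self twist -/
theorem res_irr_of_no_twist {χ : G → ℂ} (hχ : IsIrrCharacter G χ)
    (h : ∀ μ : G →* ℂˣ, μ ≠ 1 → ip (fun g => χ g * μ g) χ = 0) :
    IsIrrCharacter (commutator G) (fun k : commutator G => χ k) := by
  classical
  have := Fintype.ofFinite G
  set K := commutator G with hK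
  have := Fintype.ofFinite K
  have hcomm : IsMulCommutative (G ⧸ K) :=
    Subgroup.Normal.quotient_commutative_iff_commutator_le.2 le_rfl
  let _ : CommGroup (G ⧸ K) := IsMulCommutative.instCommGroup
  have hcard : Nat.card (G ⧸ K →* ℂˣ) = K.index :=
    CommGroup.card_monoidHom_of_hasEnoughRootsOfUnity (G ⧸ K) ℂ
  have : Finite (G ⧸ K →* ℂˣ) := Nat.finite_of_card_ne_zero (hcard ▸ K.index_ne_zero_of_finite)
  have := Fintype.ofFinite (G ⧸ K →* ℂˣ)
  have hsum : ∀ g : G, ∑ l : G ⧸ K →* ℂˣ, (l g : ℂ) = if g ∈ K then (K.index : ℂ) else 0 := by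
    intro g
    split_ifs with hg
    · simp [(QuotientGroup.eq_one_iff g).2 hg, ← hcard]
    · obtain ⟨l, hl⟩ := CommGroup.exists_apply_ne_one_of_hasEnoughRootsOfUnity (G ⧸ K) ℂ
        (mt (QuotientGroup.eq_one_iff g).1 hg)
      exact sum_hom_units_eq_zero ((Units.coeHom ℂ).comp (MonoidHom.eval (g : G ⧸ K)))
        fun e => hl (Units.ext (DFunLike.congr_fun e l))
  refine H4.isIrr_of_norm_one (H3.IsCharacter_restrict K (H3.IsIrrCharacter_isCharacter hχ)) ?_
  have h2 : (1 : ℂ) = ∑ l : G ⧸ K →* ℂˣ, classInner (fun g => χ g * l g) χ := by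
    rw [Finset.sum_eq_single 1]
    · simpa using (H3.IsIrrCharacter_classInner_self hχ).symm
    · intro l _ hl
      rw [← ip_eq]
      refine h (l.comp (QuotientGroup.mk' K)) fun e => hl ?_
      ext x
      exact congrArg Units.val (DFunLike.congr_fun e x)
    · simp
  have h3 : (∑ l : G ⧸ K →* ℂˣ, fun g => χ g * l g) =
      (K.index : ℂ) • extendByZero K fun k : K => χ k := by
    funext g
    rw [Finset.sum_apply, ← Finset.mul_sum, hsum, Pi.smul_apply, H4.extendByZero_res]
    split_ifs <;> simp [mul_comm]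
  rw [h2, ← H4.classInner_sum_left, h3, H4.classInner_smul_left, classInner, classInner,
    H4.sum_extendByZero_mul, ← K.index_mul_card, Nat.cast_mul]
  have : (K.index : ℂ) ≠ 0 := by exact_mod_cast K.index_ne_zero_of_finite
  field_simp

theorem deg_derived {χ : G → ℂ} (hχ : IsIrrCharacter G χ)
    (hz : ∀ z : commutator G, z ∈ Subgroup.center (commutator G) → χ z = χ 1) :
    ∃ c d, IsDeg (PO G) d ∧ charDegree χ = c * d ∧ c ∣ (commutator G).index ∧
      ((∀ μ : G →* ℂˣ, μ ≠ 1 → ip (fun g => χ g * μ g) χ = 0) → c = 1) := by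
  have := Fintype.ofFinite G
  have := Fintype.ofFinite (commutator G)
  have hres := H3.IsCharacter_restrict (commutator G) (H3.IsIrrCharacter_isCharacter hχ)
  obtain ⟨θ, hθ⟩ := H4.exists_irr_const (H3.IsCharacter_isClassFunction hres)
    fun h => H3.IsIrrCharacter_apply_one_ne_zero hχ (congrFun h 1)
  obtain ⟨c, hc⟩ := H4.charDegree_dvd_of_const hχ θ.2 hθ
  have hd := KB.charDegree_dvd_of_commutator_le _ le_rfl hχ θ.2 hθ
  have hpos : 0 < charDegree (θ : commutator G → ℂ) := by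
    refine Nat.pos_of_ne_zero fun h => H3.IsIrrCharacter_apply_one_ne_zero θ.2 ?_
    rw [← H4.charDegree_cast (H3.IsIrrCharacter_isCharacter θ.2), h, Nat.cast_zero]
  refine ⟨c, _, isDeg_quot θ.2 _ fun z hz' =>
    H3.IsCharacter_eq_of_constituent_ker hres θ.2 hθ (hz z hz'), by rw [hc, mul_comm], ?_,
    fun h => ?_⟩
  · rw [hc, mul_comm] at hd
    exact Nat.dvd_of_mul_dvd_mul_right hpos hd
  · have h1 := res_irr_of_no_twist hχ h
    have h2 : (fun k : commutator G => χ k) = θ := by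
      by_contra hne
      exact hθ (H3.IsIrrCharacter_classInner_of_ne h1 θ.2 hne)
    have h3 : charDegree χ = charDegree (θ : commutator G → ℂ) := by
      rw [← h2]; rfl
    rw [h3] at hc
    exact ((Nat.mul_eq_left hpos.ne').1 hc.symm)

end Abs

namespace Fm

variable {F V V' : Type} [Field F] [Finite F] [AddCommGroup V] [Module F V]
  [Finite V] [AddCommGroup V'] [Module F V'] [Finite V']

omit [Finite F] in
theorem exists_B_one {sy : Bool} (f : Fm sy F V) {v : V} (hv : v ≠ 0) : ∃ x, f.B x v = 1 := by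
  obtain ⟨y, hy⟩ := not_forall.mp (fun h3 => hv (f.nd v h3))
  have h : f.B y v ≠ 0 := fun h => hy ((B_eq_zero_comm f).mp h)
  exact ⟨(f.B y v)⁻¹ • y, by simp [h]⟩

omit [Finite F] [Finite V] in
theorem pm_of_forall {sy : Bool} {f : Fm sy F V} {z : f.O}
    (h : ∀ v, z.1 v = v ∨ z.1 v = -v) : z = 1 ∨ z = f.neg1 := by
  by_contra hc
  push Not at hc
  obtain ⟨a, ha⟩ : ∃ a, z.1 a ≠ a := not_forall.mp fun h1 => hc.1 (O_ext h1)
  obtain ⟨b, hb⟩ : ∃ b, z.1 b ≠ -b := not_forall.mp fun h1 => hc.2 (O_ext h1)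
  have h1 := (h a).resolve_left ha
  have h2 := (h b).resolve_right hb
  rcases h (a + b) with h3 | h3
  · rw [map_add, h2] at h3
    exact ha (add_right_cancel h3)
  · rw [map_add, h1, neg_add] at h3
    exact hb (add_left_cancel h3)

omit [Finite F] in
theorem center_sp {f : Fm true F V} {z : f.O} (hz : z ∈ Subgroup.center f.O) :
    z = 1 ∨ z = f.neg1 := by
  refine pm_of_forall fun v => ?_
  by_cases hv : v = 0
  · left; simp [hv]
  obtain ⟨t, ht⟩ := exists_tv (f := f) (v := v) (c := 1) (by simp [kap, f.qz rfl])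
  have h1 := ht.conj z
  rw [← Subgroup.mem_center_iff.1 hz t, mul_inv_cancel_right] at h1
  have h2 : ∀ x, f.B x (z.1 v) • z.1 v = f.B x v • v := fun x => by
    have := (h1 x).symm.trans (ht x)
    simpa using this
  obtain ⟨x, hx⟩ := f.exists_B_one hv
  have h3 := h2 x
  rw [hx, one_smul] at h3
  set c := f.B x (z.1 v) with hc
  have hc0 : c ≠ 0 := fun e => hv (by rw [← h3, e, zero_smul])
  have h4 : z.1 v = c⁻¹ • v := by
    conv_rhs => rw [← h3]
    rw [smul_smul, inv_mul_cancel₀ hc0, one_smul]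
  have h5 : c = c⁻¹ := by
    conv_lhs => rw [hc, h4, map_smul, hx, smul_eq_mul, mul_one]
  have h6 : c⁻¹ * c⁻¹ = 1 := by
    conv_lhs => rw [← h5]
    conv_lhs => congr; rfl; rw [h5]
    exact mul_inv_cancel₀ hc0
  rcases mul_self_eq_one_iff.1 h6 with h7 | h7
  · left; rw [h4, h7, one_smul]
  · right; rw [h4, h7, neg_smul, one_smul]

theorem isDeg_sp {f : Fm true F V} {χ : f.O → ℂ} (hχ : IsIrrCharacter _ χ) (hs : f.Sg χ 1) :
    IsDeg (PS f.O) (charDegree χ) := by
  refine isDeg_quot hχ _ fun z hz => ?_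
  rcases center_sp hz with rfl | rfl
  · rfl
  · simpa [Sg] using hs

section Orth

variable {f : Fm false F V}

omit [Finite F] [Finite V] in
theorem os (h5 : 5 ≤ finrank F V) : LT.OS f.Q f.B :=
  ⟨fun x y => by simpa [kap] using f.add x y, f.smul, fun x y => by simpa [eps] using f.symm y x,
    f.nd, h5⟩

omit [Finite F] [Finite V] in
theorem od (f : Fm false F V) : FS.OD f.Q f.B 0 where
  add x y := by simpa [kap] using f.add x y
  smul := f.smul
  symm x y := by simpa [eps] using f.symm y x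
  hw := Or.inl rfl
  rad x hx := ⟨0, by rw [f.nd x hx, smul_zero]⟩

omit [Finite F] [Finite V] in
theorem O_eq (f : Fm false F V) : f.O = FS.OG F f.Q 0 0 := by
  ext g
  exact ⟨fun h => ⟨h.1, map_zero _, map_zero _⟩,
    fun h => ⟨h.1, f.od.toQS.pres (f := (g : V →ₗ[F] V)) h.1⟩⟩

omit [Finite F] in
theorem gen_refl_sieg (h5 : 5 ≤ finrank F V) (M : Subgroup f.O) (h1 : ∀ r, f.IsRefl r → r ∈ M)
    (h2 : ∀ g u v, f.IsSieg g u v → g ∈ M) (g : f.O) : g ∈ M := by
  rw [← Subgroup.mem_map_iff_mem f.O.subtype_injective]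
  refine FS.le_of_refl_sieg f.od (os h5) _ (fun a ha r e => ?_) (fun u v hu huv r e => ?_)
    (f.O_eq ▸ g.2)
  · obtain ⟨t, ht⟩ := exists_refl ha
    refine ⟨t, h1 t ⟨a, ha, ht⟩, LinearEquiv.ext fun z => ?_⟩
    have := (LinearMap.congr_fun e z).trans (LT.orefl_apply _ _ _ _)
    refine (ht z).trans (Eq.trans ?_ this.symm)
    rw [neg_mul, neg_smul, sub_eq_add_neg]
  · obtain ⟨t, ht⟩ := exists_sieg hu huv
    refine ⟨t, h2 t u v ht, LinearEquiv.ext fun z => ?_⟩
    have := (LinearMap.congr_fun e z).trans (LT.sieg_apply _ _ _ _ _)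
    refine (ht.2.2 z).trans (Eq.trans ?_ this.symm)
    simp [eps]

omit [Finite F] in
theorem sieg_mem_commutator (h5 : 5 ≤ finrank F V) {g : f.O} {u v : V} (hg : f.IsSieg g u v) :
    g ∈ commutator f.O := by
  have og : LT.OG f.Q f.B (LinearEquiv.automorphismGroup.toLinearMapMonoidHom.comp f.O.subtype) :=
    ⟨os h5, fun a b hab => Subtype.ext (LinearEquiv.toLinearMap_injective hab), fun g => g.2.1,
      fun k hk => by
        obtain ⟨g, hg, e⟩ := FS.exists_equiv_of_iso f.od hk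
        exact ⟨⟨g, f.O_eq ▸ hg⟩, e⟩,
      fun h2 g hg v hv e => by
        haveI : CharP F 2 := CharTwo.of_one_ne_zero_of_two_eq_zero one_ne_zero h2
        have hm : (g : V ≃ₗ[F] V) ∈ ⁅f.O, f.O⁆ := by
          rw [← Subgroup.map_subtype_commutator]
          exact ⟨g, hg, rfl⟩
        have := FS.even_of_mem_commutator f.od
          (Subgroup.commutator_mono f.O_eq.le f.O_eq.le hm)
        rw [FS.dk_refl f.od hv (r := (g : V ≃ₗ[F] V)) e] at this
        exact Nat.not_even_one this⟩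
  obtain ⟨k, hk, e⟩ := og.sieg_mem hg.1 hg.2.1
  have : k = g := O_ext fun z => by
    have := (LinearMap.congr_fun e z).trans (LT.sieg_apply _ _ _ _ _)
    refine this.trans (Eq.trans ?_ (hg.2.2 z).symm)
    simp [eps]
  exact this ▸ hk

omit [Finite F] in
theorem line_of_comm (h5 : 5 ≤ finrank F V) {z : f.O}
    (hz : ∀ g u v, f.IsSieg g u v → g * z = z * g) {u : V} (hu : f.Q u = 0) :
    ∃ c : F, z.1 u = c • u := by
  have o := os (f := f) h5
  have huu : f.B u u = 0 := by rw [o.self, hu, mul_zero]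
  have key : ∀ v, f.B u v = 0 →
      f.B (z.1 u) v • u - f.B (z.1 u) u • v - (f.Q v * f.B (z.1 u) u) • u = 0 := fun v hv => by
    obtain ⟨g, hg⟩ := exists_sieg hu hv
    have h1 : g.1 u = u := by rw [hg.2.2, hv, huu]; simp
    have h2 : g.1 (z.1 u) = z.1 u := by rw [← mul_app, hz g u v hg, mul_app, h1]
    rw [hg.2.2] at h2
    simp only [eps, Bool.false_eq_true, if_false, Units.val_one, one_mul] at h2
    linear_combination (norm := module) h2
  have h0 : f.B (z.1 u) u = 0 := by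
    obtain ⟨a, ha, hau, -⟩ := o.nonsing u u
    have h1 := key a (by rw [o.symm, hau])
    have h2 : f.B (z.1 u) u • a = (f.B (z.1 u) a - f.Q a * f.B (z.1 u) u) • u := by
      linear_combination (norm := module) -h1
    have h3 := congrArg f.Q h2
    rw [o.smul, o.smul, hu, mul_zero] at h3
    exact pow_eq_zero_iff two_ne_zero |>.1 ((mul_eq_zero.1 h3).resolve_right ha)
  by_contra hc
  obtain ⟨x, hx1, hx2⟩ := o.sep1 (u := u) (v := z.1 u) fun hm => by
    obtain ⟨c, hc'⟩ := Submodule.mem_span_singleton.1 hm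
    exact hc ⟨c, hc'.symm⟩
  have h1 := key x (by rw [o.symm, hx1])
  rw [h0, o.symm, hx2] at h1
  have h2 : u = 0 := by simpa using h1
  exact hc ⟨0, by rw [h2]; simp⟩

omit [Finite F] in
theorem pm_of_comm (h5 : 5 ≤ finrank F V) {u : V} (h0 : u ≠ 0) (hu : f.Q u = 0) {z : f.O}
    (hz : ∀ g u v, f.IsSieg g u v → g * z = z * g) : z = 1 ∨ z = f.neg1 := by
  have o := os (f := f) h5
  have huu : f.B u u = 0 := by rw [o.self, hu, mul_zero]
  obtain ⟨c, hc⟩ := line_of_comm h5 hz hu
  have hc0 : c ≠ 0 := fun e => h0 (z.1.injective (by rw [hc, e, zero_smul, map_zero]))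
  have E : ∀ x, f.B x u ≠ 0 →
      z.1 x = c⁻¹ • x + ((c - c⁻¹) * (f.Q x / f.B x u)) • u := fun x hx => by
    have h1 : f.Q (x - (f.Q x / f.B x u) • u) = 0 := by
      rw [o.sub, o.smul, hu, map_smul, smul_eq_mul, div_mul_cancel₀ _ hx]; ring
    obtain ⟨d, hd⟩ := line_of_comm h5 hz h1
    have h2 := z.2.2 (x - (f.Q x / f.B x u) • u) u
    rw [hd, hc] at h2
    simp only [map_smul, map_sub, LinearMap.smul_apply, LinearMap.sub_apply, huu, smul_eq_mul,
      mul_zero, sub_zero] at h2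
    have h3 : d = c⁻¹ := by
      field_simp
      exact mul_right_cancel₀ hx (by linear_combination h2)
    rw [map_sub, map_smul, hc, h3] at hd
    linear_combination (norm := module) hd
  obtain ⟨w, hw⟩ := o.sep0 h0
  have hcc : c⁻¹ * c⁻¹ = 1 := by
    obtain ⟨a, ha, hau, -⟩ := o.nonsing u u
    have h1 := E w (by rw [hw]; exact one_ne_zero)
    have h2 := E (w + a) (by rw [map_add, LinearMap.add_apply, hw, hau]; simp)
    have h3 : z.1 a = c⁻¹ • a + ((c - c⁻¹) * (f.Q (w + a) / f.B (w + a) u) -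
        (c - c⁻¹) * (f.Q w / f.B w u)) • u := by
      rw [map_add] at h2
      linear_combination (norm := module) h2 - h1
    have h4 := z.2.1 a
    rw [h3, o.lin, hu, hau] at h4
    exact mul_right_cancel₀ ha (by linear_combination h4)
  have hci : c - c⁻¹ = 0 := by
    have : c * c⁻¹ = 1 := mul_inv_cancel₀ hc0
    linear_combination (-c) * hcc + c⁻¹ * this
  have E2 : ∀ x, z.1 x = c⁻¹ • x := fun x => by
    by_cases hx : f.B x u = 0
    · have h1 := E w (by rw [hw]; exact one_ne_zero)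
      have h2 := E (w + x) (by rw [map_add, LinearMap.add_apply, hw, hx]; simp)
      rw [hci, zero_mul, zero_smul, add_zero] at h1 h2
      rw [map_add] at h2
      linear_combination (norm := module) h2 - h1
    · rw [E x hx, hci, zero_mul, zero_smul, add_zero]
  refine pm_of_forall fun v => ?_
  rcases mul_self_eq_one_iff.1 hcc with h7 | h7
  · left; rw [E2, h7, one_smul]
  · right; rw [E2, h7, neg_smul, one_smul]

omit [Finite F] in
theorem refl_ab_eq {a b : V} {r r' : f.O} (ha : f.Q a ≠ 0) {s : F} (hab : f.Q a = s ^ 2 * f.Q b)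
    (hr : f.IsTv r a (-(f.Q a)⁻¹)) (hr' : f.IsTv r' b (-(f.Q b)⁻¹)) :
    Abelianization.of r = Abelianization.of r' := by
  have hs : s ≠ 0 := fun e => ha (by rw [hab, e]; simp)
  have hb : f.Q b ≠ 0 := fun e => ha (by rw [hab, e]; simp)
  have h1 : f.IsTv r' (s • b) (-(f.Q (s • b))⁻¹) := fun z => by
    rw [hr' z, f.smul, map_smul, smul_smul, smul_eq_mul]
    congr 2
    field_simp
  obtain ⟨g, hg⟩ := trans_Q ha (hab.trans (f.smul s b).symm)
  have h2 := hr.conj g
  rw [hg, hab, ← f.smul] at h2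
  rw [h1.unique h2, map_mul, map_mul, map_inv, mul_comm (Abelianization.of g),
    mul_inv_cancel_right]

omit [Finite F] in
theorem exists_ab (P : F → Prop) (hP : ∀ x y, x ≠ 0 → y ≠ 0 → P x → P y → ∃ s, x = s ^ 2 * y) :
    ∃ t : Abelianization f.O, Nat.card (Subgroup.zpowers t) ∣ 2 ∧ ∀ a r, f.Q a ≠ 0 → P (f.Q a) →
      f.IsTv r a (-(f.Q a)⁻¹) → Abelianization.of r ∈ Subgroup.zpowers t := by
  by_cases h : ∃ b, f.Q b ≠ 0 ∧ P (f.Q b)
  · obtain ⟨b, hb, hb'⟩ := h
    obtain ⟨r', hr'⟩ := exists_refl hb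
    refine ⟨Abelianization.of r', ?_, fun a r ha ha' hr => ?_⟩
    · rw [Nat.card_zpowers]
      refine orderOf_dvd_of_pow_eq_one ?_
      rw [pow_two, ← map_mul, IsRefl.sq ⟨b, hb, hr'⟩, map_one]
    · obtain ⟨s, hs⟩ := hP _ _ ha hb ha' hb'
      rw [refl_ab_eq ha hs hr hr']
      exact Subgroup.mem_zpowers _
  · exact ⟨1, by simp, fun a r ha ha' _ => (h ⟨a, ha, ha'⟩).elim⟩

omit [Finite F] in
theorem ab_mem (h5 : 5 ≤ finrank F V) (M : Subgroup (Abelianization f.O))
    (h : ∀ r, f.IsRefl r → Abelianization.of r ∈ M) (x : Abelianization f.O) : x ∈ M := by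
  obtain ⟨g, rfl⟩ := QuotientGroup.mk_surjective x
  refine gen_refl_sieg h5 (M.comap Abelianization.of) h (fun g u v hg => ?_) g
  have : Abelianization.of g = 1 := by
    rw [← MonoidHom.mem_ker, Abelianization.ker_of]
    exact sieg_mem_commutator h5 hg
  rw [Subgroup.mem_comap, this]
  exact one_mem _

theorem index_dvd_four (h5 : 5 ≤ finrank F V) : (commutator f.O).index ∣ 4 := by
  classical
  have := Fintype.ofFinite F
  obtain ⟨t, ht, h1⟩ := exists_ab (f := f) IsSquare fun x y hx hy ⟨a, ha⟩ ⟨b, hb⟩ =>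
    ⟨a / b, by
      have : b ≠ 0 := fun e => hy (by rw [hb, e, mul_zero])
      rw [ha, hb]; field_simp⟩
  obtain ⟨t', ht', h2⟩ := exists_ab (f := f) (fun x => ¬ IsSquare x) fun x y hx hy h3 h4 => by
    rw [← quadraticChar_neg_one_iff_not_isSquare] at h3 h4
    have : quadraticChar F (x * y) = 1 := by rw [map_mul, h3, h4]; norm_num
    obtain ⟨s, hs⟩ := (quadraticChar_one_iff_isSquare (mul_ne_zero hx hy)).1 this
    exact ⟨s / y, by field_simp; linear_combination hs⟩
  let φ := (Subgroup.zpowers t).subtype.coprod (Subgroup.zpowers t').subtype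
  have hφ : Function.Surjective φ := fun x => by
    refine ab_mem h5 φ.range (fun r ⟨a, ha, hr⟩ => ?_) x
    by_cases h : IsSquare (f.Q a)
    · exact ⟨(⟨_, h1 a r ha h hr⟩, 1), by simp [φ]⟩
    · exact ⟨(1, ⟨_, h2 a r ha h hr⟩), by simp [φ]⟩
  have := Subgroup.card_dvd_of_surjective φ hφ
  rw [Nat.card_prod] at this
  exact this.trans (Nat.mul_dvd_mul ht ht')

theorem index_dvd_two (h5 : 5 ≤ finrank F V) (he : Even (Nat.card F)) :
    (commutator f.O).index ∣ 2 := by
  classical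
  have := Fintype.ofFinite F
  have h2 : ringChar F = 2 := by
    by_contra hc
    have := FiniteField.odd_card_of_char_ne_two hc
    rw [Nat.card_eq_fintype_card, Nat.even_iff] at he
    omega
  obtain ⟨t, ht, h1⟩ := exists_ab (f := f) (fun _ => True) fun x y hx hy _ _ => by
    obtain ⟨s, hs⟩ := FiniteField.isSquare_of_char_two h2 (x / y)
    exact ⟨s, by rw [pow_two, ← hs, div_mul_cancel₀ _ hy]⟩
  have : Subgroup.zpowers t = ⊤ := by
    rw [eq_top_iff]
    exact fun x _ => ab_mem h5 _ (fun r ⟨a, ha, hr⟩ => h1 a r ha trivial hr) x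
  rw [this, Subgroup.card_top] at ht
  exact ht

end Orth

theorem isDeg_om {f : Fm false F V} {a : Fm false F V'} {n : ℕ} (h : St f n a) (hn : 3 ≤ n)
    {χ : f.O → ℂ} (hχ : IsIrrCharacter _ χ) (hs : f.Sg χ 1 ∨ f.neg1 ∉ commutator f.O) :
    ∃ c d, IsDeg (PO f.O) d ∧ charDegree χ = c * d ∧ c ∣ 4 ∧ (Even (Nat.card F) → c ∣ 2) ∧
      (f.TF χ → c = 1) := by
  have h5 : 5 ≤ finrank F V := by rw [h.finrank]; omega
  obtain ⟨u, h0, hu⟩ := h.exists_sing (by omega)
  obtain ⟨c, d, h1, h2, h3, h4⟩ := deg_derived hχ fun z hz => by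
    rcases pm_of_comm h5 h0 hu (z := z) (fun g u v hg => congrArg Subtype.val
      (Subgroup.mem_center_iff.1 hz ⟨g, sieg_mem_commutator h5 hg⟩)) with e | e
    · rw [e]
    · rcases hs with hs | hs
      · rw [e]; simpa [Sg] using hs
      · exact (hs (e ▸ z.2)).elim
  refine ⟨c, d, h1, h2, h3.trans (index_dvd_four h5), fun he => h3.trans (index_dvd_two h5 he),
    fun ht => h4 fun μ hμ => ?_⟩
  have hsl : f.SL μ := fun g u v hg =>
    Abelianization.commutator_subset_ker μ (sieg_mem_commutator h5 hg)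
  refine ht μ hsl ?_
  by_contra hc
  push Not at hc
  exact hμ (MonoidHom.ext fun g => gen_refl_sieg h5 μ.ker hc hsl g)

end Fm

end Cfsg.Agent.DG
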