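import Cfsg.Agent.Lib.DG.Ch

/-!
# Geometry of formed spaces (row DG-Geo, see notes/DG.md)
-/

set_option autoImplicit false

open scoped ComplexConjugate Matrix
open Module Cfsg

namespace Cfsg.Agent.DG.Fm

variable {sy : Bool} {F V V' V'' : Type} [Field F] [AddCommGroup V] [Module F V]
  [AddCommGroup V'] [Module F V'] [AddCommGroup V''] [Module F V''] {ι κ : Type} [Fintype ι]
  [DecidableEq ι] [Fintype κ] [DecidableEq κ] {f : Fm sy F V}

theorem Q_zero (f : Fm sy F V) : f.Q 0 = 0 := by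
  simpa using f.smul 0 0

theorem Q_neg (f : Fm sy F V) (x : V) : f.Q (-x) = f.Q x := by
  simpa using f.smul (-1) x

theorem kap_Q (f : Fm sy F V) (x : V) : kap F sy * f.Q x = f.Q x := by
  cases sy
  · simp [kap]
  · simp [f.qz rfl]

theorem eps_Q (f : Fm sy F V) (x : V) : eps F sy * f.Q x = f.Q x := by
  cases sy
  · simp [eps]
  · simp [f.qz rfl]

theorem Q_sub (f : Fm sy F V) (x y : V) :
    f.Q (x - y) = f.Q x + f.Q y - kap F sy * f.B x y := by
  rw [sub_eq_add_neg, f.add, Q_neg, map_neg]; ring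

theorem inj_of_B {f' : Fm sy F V'} {g : V →ₗ[F] V'} (hB : ∀ x y, f'.B (g x) (g y) = f.B x y) :
    Function.Injective g :=
  (injective_iff_map_eq_zero g).mpr (fun x hx => f.nd x (fun y => by rw [← hB, hx]; simp))

theorem mkO [Finite V] (g : V →ₗ[F] V) (hQ : ∀ x, f.Q (g x) = f.Q x)
    (hB : ∀ x y, f.B (g x) (g y) = f.B x y) : ∃ h : f.O, ∀ z, h.1 z = g z :=
  ⟨⟨LinearEquiv.ofBijective g (Finite.injective_iff_bijective.mp (inj_of_B hB)), hQ, hB⟩,
    fun _ => rfl⟩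

theorem O_ext {g g' : f.O} (h : ∀ z, g.1 z = g'.1 z) : g = g' := Subtype.ext (LinearEquiv.ext h)

theorem mul_app (g g' : f.O) (z : V) : (g * g').1 z = g.1 (g'.1 z) := rfl

theorem inv_app (g : f.O) (z : V) : (g⁻¹).1 (g.1 z) = z := g.1.symm_apply_apply z

theorem app_inv (g : f.O) (z : V) : g.1 ((g⁻¹).1 z) = z := g.1.apply_symm_apply z
theorem B_eq_zero_comm (f : Fm sy F V) {x y : V} : f.B x y = 0 ↔ f.B y x = 0 := by
  rw [f.symm x y]
  simp

theorem neg1_comm (f : Fm sy F V) (g : f.O) : g * f.neg1 = f.neg1 * g := by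
  exact O_ext (fun z => by simp [mul_app, neg1_apply])

theorem neg1_sq (f : Fm sy F V) : f.neg1 * f.neg1 = 1 := by
  exact O_ext (fun z => by simp [mul_app, neg1_apply])

theorem exists_tv [Finite V] {v : V} {c : F} (h : kap F sy + c * f.Q v = 0) :
    ∃ g, f.IsTv g v c := by
  refine mkO (LinearMap.id + c • (f.B.flip v).smulRight v) (fun x => ?_) (fun x y => ?_) |>.imp
    (fun g hg z => by rw [hg]; simp [smul_smul])
  · simp only [LinearMap.add_apply, LinearMap.id_apply, LinearMap.smul_apply,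
      LinearMap.smulRight_apply, LinearMap.BilinForm.flip_apply, f.add, f.smul, map_smul, smul_eq_mul]
    linear_combination c * f.B x v ^ 2 * h
  · simp only [LinearMap.add_apply, LinearMap.id_apply, LinearMap.smul_apply,
      LinearMap.smulRight_apply, LinearMap.BilinForm.flip_apply, map_add, map_smul, smul_eq_mul, f.self,
      f.symm y v]
    linear_combination 2 * c * f.B x v * f.B y v * h +
      c * f.B x v * f.B y v * (one_add_eps (F := F) (sy := sy))

theorem tvel_spec [Finite V] {v : V} {c : F} (h : kap F sy + c * f.Q v = 0) :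
    f.IsTv (f.tvel v c) v c := by
  have h1 := exists_tv h
  rw [tvel, dif_pos h1]
  exact h1.choose_spec

theorem IsTv.unique {g g' : f.O} {v : V} {c : F} (h : f.IsTv g v c) (h' : f.IsTv g' v c) :
    g = g' := by
  exact O_ext (fun z => (h z).trans (h' z).symm)

theorem IsTv.conj {g : f.O} {v : V} {c : F} (h : f.IsTv g v c) (x : f.O) :
    f.IsTv (x * g * x⁻¹) ((x : V ≃ₗ[F] V) v) c := by
  intro z
  rw [mul_app, mul_app, h, map_add, map_smul, app_inv, ← x.2.2, app_inv]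

theorem IsRefl.sq {g : f.O} (h : f.IsRefl g) : g * g = 1 := by
  obtain ⟨a, ha, h⟩ := h
  refine O_ext (fun z => ?_)
  rw [mul_app, h, h z, map_add, map_smul, LinearMap.add_apply, LinearMap.smul_apply, f.self,
    add_assoc, ← add_smul, smul_eq_mul]
  have : -(f.Q a)⁻¹ * f.B z a + -(f.Q a)⁻¹ * (f.B z a + -(f.Q a)⁻¹ * f.B z a * (2 * f.Q a)) = 0 := by
    field_simp
    ring
  rw [this]
  simp

theorem exists_refl [Finite V] {a : V} (h : f.Q a ≠ 0) : ∃ g, f.IsTv g a (-(f.Q a)⁻¹) := by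
  refine exists_tv ?_
  have hk : kap F sy = 1 := mul_right_cancel₀ h (by rw [kap_Q, one_mul])
  rw [hk, neg_mul, inv_mul_cancel₀ h, add_neg_cancel]

theorem exists_sieg [Finite V] {u v : V} (hu : f.Q u = 0) (huv : f.B u v = 0) :
    ∃ g, f.IsSieg g u v := by
  have h1 : f.B v u = 0 := (B_eq_zero_comm f).mp huv
  refine mkO (LinearMap.id + (f.B.flip v - f.Q v • f.B.flip u).smulRight u +
    (-(eps F sy : F) • f.B.flip u).smulRight v) (fun x => ?_) (fun x y => ?_) |>.imp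
    (fun g hg => ⟨hu, huv, fun z => by rw [hg]; simp; module⟩)
  · simp only [LinearMap.add_apply, LinearMap.id_apply, LinearMap.smul_apply, LinearMap.sub_apply,
      LinearMap.smulRight_apply, LinearMap.BilinForm.flip_apply, f.add, f.smul, map_smul, map_add,
      smul_eq_mul, hu, huv]
    linear_combination f.B x u ^ 2 * f.Q v * (eps_mul_eps (F := F) (sy := sy)) -
      f.B x u ^ 2 * f.kap_Q v - f.B x u * f.B x v * (kap_mul_eps (F := F) (sy := sy))
  · simp only [LinearMap.add_apply, LinearMap.id_apply, LinearMap.smul_apply, LinearMap.sub_apply,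
      LinearMap.smulRight_apply, LinearMap.BilinForm.flip_apply, map_add, map_smul, smul_eq_mul, f.self,
      f.symm y v, f.symm y u, hu, huv, h1]
    linear_combination (2 * f.B x u * f.B y u * f.Q v - f.B x u * f.B y v) *
      (eps_mul_eps (F := F) (sy := sy)) - f.B x u * f.B y u * f.eps_Q v

/-- every functional is represented by a vector -/
theorem exists_dual [Finite V] (f : Fm sy F V) (φ : V →ₗ[F] F) : ∃ v, ∀ z, f.B z v = φ z := by
  have h1 : Function.Injective f.B.flip := (injective_iff_map_eq_zero _).mpr (fun v hv =>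
    f.nd v (fun y => (B_eq_zero_comm f).mp (LinearMap.congr_fun hv y)))
  obtain ⟨v, hv⟩ := (LinearMap.injective_iff_surjective_of_finrank_eq_finrank
    (Subspace.dual_finrank_eq (K := F) (V := V)).symm).mp h1 φ
  exact ⟨v, fun z => LinearMap.congr_fun hv z⟩

/-- a functional given through an injective map is represented by a vector -/
theorem exists_dual_inj [Finite V] (f : Fm sy F V) {j : V' →ₗ[F] V} (hj : Function.Injective j)
    (φ : V' →ₗ[F] F) : ∃ v, ∀ z, f.B (j z) v = φ z := by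
  obtain ⟨l, hl⟩ := j.exists_leftInverse_of_injective (LinearMap.ker_eq_bot.mpr hj)
  obtain ⟨v, hv⟩ := f.exists_dual (φ.comp l)
  exact ⟨v, fun z => by rw [hv, LinearMap.comp_apply, ← LinearMap.comp_apply l, hl]; rfl⟩

theorem trans_opp [Finite V] {u u' : V} (hu : f.Q u = 0) (hu' : f.Q u' = 0) (h : f.B u u' ≠ 0) :
    ∃ g : f.O, (g : V ≃ₗ[F] V) u = u' := by
  obtain ⟨g, hg⟩ := exists_tv (f := f) (v := u - u') (c := (f.B u u')⁻¹) (by
    rw [Q_sub, hu, hu']
    field_simp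
    ring)
  refine ⟨g, ?_⟩
  rw [hg, map_sub, f.self, hu, mul_zero, zero_sub, mul_neg, inv_mul_cancel₀ h]
  simp
theorem trans_sing [Finite V] {u u' : V} (h0 : u ≠ 0) (h0' : u' ≠ 0) (hu : f.Q u = 0)
    (hu' : f.Q u' = 0) : ∃ g : f.O, (g : V ≃ₗ[F] V) u = u' := by
  by_cases h : f.B u u' = 0
  swap
  · exact trans_opp hu hu' h
  obtain ⟨w, h1, h2⟩ : ∃ w, f.B u w ≠ 0 ∧ f.B u' w ≠ 0 := by
    obtain ⟨a, ha⟩ := not_forall.mp (fun h3 => h0 (f.nd u h3))
    obtain ⟨b, hb⟩ := not_forall.mp (fun h3 => h0' (f.nd u' h3))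
    by_cases h3 : f.B u' a = 0
    · by_cases h4 : f.B u b = 0
      · exact ⟨a + b, by simpa [h4] using ha, by simpa [h3] using hb⟩
      · exact ⟨b, h4, hb⟩
    · exact ⟨a, ha, h3⟩
  have h3 : f.B w u ≠ 0 := fun h3 => h1 ((B_eq_zero_comm f).mp h3)
  have h4 : f.Q (w - (f.Q w / f.B w u) • u) = 0 := by
    rw [Q_sub, f.smul, hu, map_smul, smul_eq_mul, div_mul_cancel₀ _ h3, kap_Q]
    ring
  obtain ⟨g, hg⟩ := trans_opp hu h4 (by simpa [f.self, hu] using h1)
  obtain ⟨g', hg'⟩ := trans_opp hu' h4 (by simpa [(B_eq_zero_comm f).mp h] using h2)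
  exact ⟨g'⁻¹ * g, by rw [mul_app, hg, ← hg', inv_app]⟩

theorem trans_Q [Finite V] {a b : V} (ha : f.Q a ≠ 0) (hab : f.Q a = f.Q b) :
    ∃ g : f.O, (g : V ≃ₗ[F] V) a = b := by
  have hk : kap F sy = 1 := mul_right_cancel₀ ha (by rw [kap_Q, one_mul])
  have h1 : f.B a (a - b) = f.Q (a - b) := by
    rw [Q_sub, map_sub, f.self, hk, ← hab]; ring
  by_cases h : f.Q (a - b) = 0
  swap
  · obtain ⟨g, hg⟩ := exists_refl h
    refine ⟨g, ?_⟩
    rw [hg, h1, neg_mul, inv_mul_cancel₀ h]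
    simp
  by_cases h0 : a - b = 0
  · exact ⟨1, sub_eq_zero.mp h0⟩
  obtain ⟨v, hv⟩ := f.exists_dual_inj (j := (LinearMap.toSpanSingleton F V (a - b)).coprod
    (LinearMap.toSpanSingleton F V a)) ((injective_iff_map_eq_zero _).mpr (fun x hx => by
      simp only [LinearMap.coprod_apply, LinearMap.toSpanSingleton_apply] at hx
      have h2 := f.smul x.2 a
      rw [← eq_neg_of_add_eq_zero_left hx |> neg_eq_iff_eq_neg.mpr, Q_neg, f.smul, h] at h2
      have h3 : x.2 = 0 := by simpa [ha] using h2.symm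
      rw [h3, zero_smul, add_zero] at hx
      exact Prod.ext ((smul_eq_zero.mp hx).resolve_right h0) h3)) (-LinearMap.snd F F F)
  have h2 := hv (1, 0)
  have h3 := hv (0, 1)
  simp only [LinearMap.coprod_apply, LinearMap.toSpanSingleton_apply, one_smul, zero_smul,
    add_zero, zero_add, LinearMap.neg_apply, LinearMap.snd_apply, neg_zero] at h2 h3
  obtain ⟨g, -, -, hg⟩ := exists_sieg h h2
  refine ⟨g, ?_⟩
  rw [hg, h1, h, h3]
  simp

/-- linear characters agree on reflections in vectors of the same length -/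
theorem lin_refl_eq [Finite V] (μ : f.O →* ℂˣ) {a b : V} {r r' : f.O} (ha : f.Q a ≠ 0)
    (hab : f.Q a = f.Q b) (hr : f.IsTv r a (-(f.Q a)⁻¹)) (hr' : f.IsTv r' b (-(f.Q b)⁻¹)) :
    μ r = μ r' := by
  obtain ⟨g, hg⟩ := trans_Q ha hab
  have h1 := hr.conj g
  rw [hg, hab] at h1
  rw [hr'.unique h1, map_mul, map_mul, map_inv, mul_comm (μ g), mul_inv_cancel_right]

/-! ### isometries -/

/-- identity -/
def Iso.refl (f : Fm sy F V) : Iso f f := ⟨LinearEquiv.refl F V, fun _ => rfl, fun _ _ => rfl⟩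

/-- inverse -/
def Iso.symm {f' : Fm sy F V'} (i : Iso f f') : Iso f' f :=
  ⟨i.e.symm, fun x => by rw [← i.hQ]; simp, fun x y => by rw [← i.hB]; simp⟩

/-- composition -/
def Iso.trans {f' : Fm sy F V'} {f'' : Fm sy F V''} (i : Iso f f') (i' : Iso f' f'') :
    Iso f f'' :=
  ⟨i.e.trans i'.e, fun x => by simp [i'.hQ, i.hQ], fun x y => by simp [i'.hB, i.hB]⟩

theorem Iso.hyp {f' : Fm sy F V'} (i : Iso f f') (ι : Type) [Fintype ι] [DecidableEq ι] :
    ∃ i' : Iso (f.hyp ι) (f'.hyp ι), ∀ x y z, i'.e (x, y, z) = (x, y, i.e z) := by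
  exact ⟨⟨(LinearEquiv.refl F _).prodCongr ((LinearEquiv.refl F _).prodCongr i.e),
    fun x => by simp [hyp_Q, i.hQ], fun x y => by simp [hyp_B, i.hB]⟩, fun _ _ _ => rfl⟩

theorem St.refl (a : Fm sy F V) (n : ℕ) : St (a.hyp (Fin n)) n a := ⟨Iso.refl _⟩

theorem St.zero (a : Fm sy F V) : St a 0 a := by
  exact ⟨⟨{ toFun := fun v => (0, 0, v), invFun := fun x => x.2.2, map_add' := by simp,
            map_smul' := by simp, left_inv := fun _ => rfl,
            right_inv := fun x => Prod.ext (Subsingleton.elim _ _)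
              (Prod.ext (Subsingleton.elim _ _) rfl) },
    fun x => by simp [hyp_Q], fun x y => by simp [hyp_B]⟩⟩

theorem St.iso {f' : Fm sy F V''} {a : Fm sy F V'} {n : ℕ} (h : St f n a) (i : Iso f' f) :
    St f' n a := by
  obtain ⟨i'⟩ := h
  exact ⟨i.trans i'⟩

theorem hypHyp (a : Fm sy F V') (m k : ℕ) :
    Nonempty (Iso ((a.hyp (Fin m)).hyp (Fin k)) (a.hyp (Fin (m + k)))) := by
  have key : ∀ (x y : Fin m → F) (x' y' : Fin k → F),
      Fin.append x x' ⬝ᵥ Fin.append y y' = x ⬝ᵥ y + x' ⬝ᵥ y' := fun x y x' y' => by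
    simp [dotProduct, Fin.sum_univ_add]
  have ha : ∀ (x y : Fin m → F) (x' y' : Fin k → F),
      Fin.append (x + y) (x' + y') = Fin.append x x' + Fin.append y y' := fun x y x' y' => by
    funext i
    refine Fin.addCases (fun i => ?_) (fun i => ?_) i <;> simp
  have hs : ∀ (c : F) (x : Fin m → F) (x' : Fin k → F),
      Fin.append (c • x) (c • x') = c • Fin.append x x' := fun c x x' => by
    funext i
    refine Fin.addCases (fun i => ?_) (fun i => ?_) i <;> simp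
  refine ⟨⟨{ toFun := fun v => (Fin.append v.2.2.1 v.1, Fin.append v.2.2.2.1 v.2.1, v.2.2.2.2)
             invFun := fun x => (fun i => x.1 (Fin.natAdd m i), fun i => x.2.1 (Fin.natAdd m i),
               fun i => x.1 (Fin.castAdd k i), fun i => x.2.1 (Fin.castAdd k i), x.2.2)
             map_add' := fun x y => by simp [ha]
             map_smul' := fun c x => by simp [hs]
             left_inv := fun x => by simp
             right_inv := fun x => by simp [Fin.append_castAdd_natAdd] }, fun x => ?_,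
    fun x y => ?_⟩⟩
  · simp [hyp_Q, key]; ring
  · simp [hyp_B, key]; ring
theorem St.hyp {a : Fm sy F V'} {m : ℕ} (h : St f m a) (k : ℕ) :
    St (f.hyp (Fin k)) (m + k) a := by
  obtain ⟨i⟩ := h
  obtain ⟨i', -⟩ := i.hyp (Fin k)
  obtain ⟨i''⟩ := hypHyp a m k
  exact ⟨i'.trans i''⟩

theorem St.split {a : Fm sy F V'} {m k : ℕ} (h : St f (m + k) a) :
    Nonempty (Iso f ((a.hyp (Fin m)).hyp (Fin k))) := by
  obtain ⟨i⟩ := h
  obtain ⟨i''⟩ := hypHyp a m k
  exact ⟨i.trans i''.symm⟩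

theorem St.grp {f' : Fm sy F V''} {a : Fm sy F V'} {n : ℕ} (h : St f n a) (h' : St f' n a) :
    Nonempty (f.O ≃* f'.O) := by
  obtain ⟨i⟩ := h
  obtain ⟨i'⟩ := h'
  exact ⟨(i.trans i'.symm).grp⟩

theorem St.card [Finite F] [Finite V'] {a : Fm sy F V'} {n : ℕ} (h : St f n a) :
    Nat.card V = Nat.card F ^ (2 * n) * Nat.card V' := by
  obtain ⟨i⟩ := h
  rw [Nat.card_congr i.e.toEquiv, Nat.card_prod, Nat.card_prod, Nat.card_fun]
  simp
  ring

theorem St.finrank [Finite F] [Finite V'] {a : Fm sy F V'} {n : ℕ} (h : St f n a) :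
    finrank F V = 2 * n + finrank F V' := by
  obtain ⟨i⟩ := h
  rw [i.e.finrank_eq]
  simp
  ring

theorem St.univ {V V' : Type} [AddCommGroup V] [Module F V] [AddCommGroup V'] [Module F V']
    {f : Fm false F V} {a : Fm false F V'} {n : ℕ} (h : St f n a) (hn : 1 ≤ n ∨ a.Univ) :
    f.Univ := by
  obtain ⟨i⟩ := h
  intro c hc
  rcases hn with hn | hn
  · refine ⟨i.e.symm (Pi.single ⟨0, hn⟩ 1, Pi.single ⟨0, hn⟩ c, 0), ?_⟩
    rw [← i.hQ]
    simp [hyp_Q, kap, Q_zero]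
  · obtain ⟨w, hw⟩ := hn c hc
    refine ⟨i.e.symm (0, 0, w), ?_⟩
    rw [← i.hQ]
    simp [hyp_Q, hw]

theorem St.exists_sing {a : Fm sy F V'} {n : ℕ} (h : St f n a) (hn : 1 ≤ n) :
    ∃ v, v ≠ 0 ∧ f.Q v = 0 := by
  obtain ⟨i⟩ := h
  refine ⟨i.e.symm (Pi.single ⟨0, hn⟩ 1, 0, 0), by simp, ?_⟩
  rw [← i.hQ]
  simp [hyp_Q, Q_zero]

/-! ### totally singular embeddings -/

theorem exists_C (f : Fm sy F V) (v : ι → V) : ∃ C : Matrix ι ι F,
    (∀ i j, C j i + eps F sy * C i j + f.B (v i) (v j) = 0) ∧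
      ∀ i, kap F sy * C i i + f.Q (v i) = 0 := by
  let e := Fintype.equivFin ι
  refine ⟨fun a b => if e b < e a then -f.B (v b) (v a) else if a = b then -f.Q (v a) else 0,
    fun i j => ?_, fun i => by simp [kap_Q]⟩
  rcases lt_trichotomy (e i) (e j) with h | h | h
  · have : i ≠ j := fun h1 => by simp [h1] at h
    simp [h, h.not_gt, this]
  · obtain rfl := e.injective h
    simp only [lt_self_iff_false, if_false, if_true, f.self]
    linear_combination -f.eps_Q (v i)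
  · have : j ≠ i := fun h1 => by simp [h1] at h
    simp [h, h.not_gt, this, f.symm (v j) (v i)]

theorem Q_sum_eq_zero {w : ι → V} (hQ : ∀ i, f.Q (w i) = 0) (hB : ∀ i l, f.B (w i) (w l) = 0)
    (y : ι → F) : f.Q (∑ i, y i • w i) = 0 := by
  classical
  refine Finset.induction_on (Finset.univ : Finset ι) (by simp [Q_zero]) (fun i s hi ih => ?_)
  rw [Finset.sum_insert hi, f.add, ih, f.smul, hQ]
  simp [hB]

theorem TS.exists_hyp' [Finite V] {j : (ι → F) →ₗ[F] V} (hj : f.TS j) :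
    ∃ (W : Submodule F V) (f' : Fm sy F W) (i : Iso f (f'.hyp ι)), ∀ x, i.e (j x) = (x, 0, 0) := by
  choose v hv using fun i => f.exists_dual_inj hj.inj (LinearMap.proj i)
  simp only [LinearMap.proj_apply] at hv
  obtain ⟨C, hC1, hC2⟩ := f.exists_C v
  let w : ι → V := fun i => v i + j (fun a => C a i)
  have w1 : ∀ x i, f.B (j x) (w i) = x i := fun x i => by simp [w, hv, hj.hB]
  have w2 : ∀ i l, f.B (w i) (w l) = 0 := fun i l => by
    simp only [w, map_add, LinearMap.add_apply, hv, hj.hB, f.symm (j _) (v i)]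
    linear_combination hC1 i l
  have w3 : ∀ i, f.Q (w i) = 0 := fun i => by
    simp only [w, f.add, hj.hQ, f.symm (j _) (v i), hv]
    linear_combination hC2 i + C i i * (kap_mul_eps (F := F) (sy := sy))
  let j' : (ι → F) →ₗ[F] V := Fintype.linearCombination F w
  have k1 : ∀ x y, f.B (j x) (j' y) = x ⬝ᵥ y := fun x y => by
    simp [j', Fintype.linearCombination_apply, w1, dotProduct, mul_comm]
  have k2 : ∀ x y, f.B (j' x) (j' y) = 0 := fun x y => by
    simp [j', Fintype.linearCombination_apply, w2]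
  have k3 : ∀ y, f.Q (j' y) = 0 := Q_sum_eq_zero w3 w2
  let W : Submodule F V := LinearMap.ker (f.B.flip.compl₂ j) ⊓ LinearMap.ker (f.B.flip.compl₂ j')
  have hW : ∀ z, z ∈ W ↔ (∀ x, f.B (j x) z = 0) ∧ ∀ y, f.B (j' y) z = 0 := fun z => by
    simp [W, LinearMap.ext_iff]
  have dec : ∀ z, ∃ x y, z - j x - j' y ∈ W := fun z => by
    refine ⟨fun i => f.B z (w i), fun i => f.B (j (Pi.single i 1)) z, (hW _).mpr ⟨fun x => ?_,
      fun y => ?_⟩⟩
    · rw [map_sub, map_sub, k1, hj.hB, sub_zero, sub_eq_zero]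
      conv_lhs => rw [pi_eq_sum_univ' x]
      simp [dotProduct]
    · rw [map_sub, map_sub, k2, f.symm (j _), k1, f.symm z, sub_zero, sub_eq_zero]
      simp [j', Fintype.linearCombination_apply, dotProduct, mul_comm]
  let f' : Fm sy F W :=
    { B := f.B.compl₁₂ W.subtype W.subtype
      Q := fun x => f.Q x
      add := fun x y => f.add _ _
      smul := fun c x => f.smul _ _
      symm := fun x y => f.symm _ _
      self := fun x => f.self _
      qz := fun h x => f.qz h _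
      nd := fun x hx => Subtype.ext (f.nd _ (fun z => by
        obtain ⟨a, b, h⟩ := dec z
        have h1 : f.B x (z - j a - j' b) = 0 := hx ⟨_, h⟩
        rwa [map_sub, map_sub, (B_eq_zero_comm f).mp (((hW _).mp x.2).1 a),
          (B_eq_zero_comm f).mp (((hW _).mp x.2).2 b), sub_zero, sub_zero] at h1)) }
  let g : ((ι → F) × (ι → F) × W) →ₗ[F] V := j.coprod (j'.coprod W.subtype)
  have gB : ∀ x y, f.B (g x) (g y) = (f'.hyp ι).B x y := fun x y => by
    have a1 := (hW _).mp x.2.2.2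
    have a2 := (hW _).mp y.2.2.2
    simp only [g, LinearMap.coprod_apply, Submodule.subtype_apply, map_add, LinearMap.add_apply,
      hj.hB, k1, k2, a2.1, a2.2, f.symm (j _) (j' _), (B_eq_zero_comm f).mp (a1.1 _),
      (B_eq_zero_comm f).mp (a1.2 _), hyp_B, dotProduct_comm y.1]
    simp [f', add_assoc, add_left_comm]
  have gQ : ∀ x, f.Q (g x) = (f'.hyp ι).Q x := fun x => by
    have a1 := (hW _).mp x.2.2.2
    simp only [g, LinearMap.coprod_apply, Submodule.subtype_apply, map_add, f.add, hj.hQ, k3, k1,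
      a1.1, a1.2, hyp_Q]
    simp [f', add_comm]
  let i : Iso (f'.hyp ι) f := ⟨LinearEquiv.ofBijective g ⟨inj_of_B gB, fun z => by
    obtain ⟨a, b, h⟩ := dec z
    exact ⟨(a, b, ⟨_, h⟩), by simp [g]⟩⟩, gQ, gB⟩
  exact ⟨W, f', i.symm, fun x => i.e.symm_apply_eq.mpr (by
    change j x = g (x, 0, 0)
    simp [g])⟩
theorem TS.two_card_le [Finite V] {j : (ι → F) →ₗ[F] V} (hj : f.TS j) :
    2 * Fintype.card ι ≤ finrank F V := by
  obtain ⟨W, f', i, -⟩ := hj.exists_hyp'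
  rw [i.e.finrank_eq]
  simp
  omega

/-- a totally singular subspace splits off with a hyperbolic partner -/
theorem TS.exists_hyp [Finite V] {j : (ι → F) →ₗ[F] V} (hj : f.TS j) :
    ∃ (W : Submodule F V) (f' : Fm sy F W) (i : Iso f (f'.hyp ι)), ∀ x, i.e (j x) = (x, 0, 0) := by
  exact hj.exists_hyp'

theorem ts_std (f : Fm sy F V) : (f.hyp ι).TS (LinearMap.inl F (ι → F) ((ι → F) × V)) := by
  exact ⟨LinearMap.inl_injective, fun x => by simp [hyp_Q, Q_zero], fun x y => by simp [hyp_B]⟩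

theorem TS.comp {j : (ι → F) →ₗ[F] V} (hj : f.TS j) (g : f.O) :
    f.TS (((g : V ≃ₗ[F] V) : V →ₗ[F] V).comp j) := by
  exact ⟨g.1.injective.comp hj.inj, fun x => (g.2.1 _).trans (hj.hQ x),
    fun x y => (g.2.2 _ _).trans (hj.hB x y)⟩

theorem gl_ext {a b : GL ι F}
    (h : ∀ x, (a : Matrix ι ι F) *ᵥ x = (b : Matrix ι ι F) *ᵥ x) : a = b :=
  Units.ext (Matrix.toLin'.injective (LinearMap.ext h))

theorem exists_gl (φ : (ι → F) →ₗ[F] (ι → F)) (h : Function.Injective φ) :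
    ∃ a : GL ι F, ∀ x, (a : Matrix ι ι F) *ᵥ x = φ x := by
  have h1 : ∀ x, LinearMap.toMatrix' φ *ᵥ x = φ x := fun x => by
    rw [← Matrix.toLin'_apply, Matrix.toLin'_toMatrix']
  obtain ⟨a, ha⟩ := Matrix.mulVec_injective_iff_isUnit.mp
    (show Function.Injective (LinearMap.toMatrix' φ).mulVec from fun x y e => h (by
      rw [← h1, ← h1]; exact e))
  exact ⟨a, fun x => by rw [ha, h1]⟩

theorem dot_itr (a : GL ι F) (x y : ι → F) :
    ((a : Matrix ι ι F) *ᵥ x) ⬝ᵥ ((itr a : Matrix ι ι F) *ᵥ y) = x ⬝ᵥ y := by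
  rw [itr_val, Matrix.dotProduct_mulVec, Matrix.vecMul_transpose, Matrix.mulVec_mulVec,
    Units.inv_mul, Matrix.one_mulVec]

theorem exists_levO [Finite F] [Finite V] (a : GL ι F) (h : f.O) : ∃ g : (f.hyp ι).O, ∀ x y z,
    g.1 (x, y, z) = ((a : Matrix ι ι F) *ᵥ x, (itr a : Matrix ι ι F) *ᵥ y, h.1 z) := by
  obtain ⟨g, hg⟩ := mkO (f := f.hyp ι) ((Matrix.toLin' (a : Matrix ι ι F)).prodMap
    ((Matrix.toLin' (itr a : Matrix ι ι F)).prodMap (h.1 : V →ₗ[F] V)))
    (fun x => by simp [hyp_Q, dot_itr, h.2.1]) (fun x y => by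
      simp [hyp_B, dot_itr, h.2.2, dotProduct_comm _ ((a : Matrix ι ι F) *ᵥ _),
        dotProduct_comm x.2.1])
  exact ⟨g, fun x y z => by rw [hg]; simp⟩
theorem TS.res_eq {j : (ι → F) →ₗ[F] V} (hj : f.TS j) {g : f.O} {a : GL ι F}
    (h : f.Res j g a) : f.res j g = a := by
  have h1 : ∃ a, f.Res j g a := ⟨a, h⟩
  rw [res, dif_pos h1]
  exact gl_ext (fun x => hj.inj ((h1.choose_spec x).symm.trans (h x)))

theorem Res.mul {j : (ι → F) →ₗ[F] V} {g g' : f.O} {a a' : GL ι F} (h : f.Res j g a)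
    (h' : f.Res j g' a') : f.Res j (g * g') (a * a') := by
  intro x
  rw [mul_app, h', h, Matrix.mulVec_mulVec, Units.val_mul]

theorem TS.res_of_stab [Finite V] {j : (ι → F) →ₗ[F] V} (hj : f.TS j) {g : f.O}
    (h : ∀ x, ∃ y, (g : V ≃ₗ[F] V) (j x) = j y) : f.Res j g (f.res j g) := by
  obtain ⟨l, hl⟩ := j.exists_leftInverse_of_injective (LinearMap.ker_eq_bot.mpr hj.inj)
  have h1 : ∀ x, j (l (g.1 (j x))) = g.1 (j x) := fun x => by
    obtain ⟨y, hy⟩ := h x
    rw [hy, ← LinearMap.comp_apply l, hl]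
    rfl
  obtain ⟨a, ha⟩ := exists_gl (l.comp ((g.1 : V →ₗ[F] V).comp j)) (fun x y e =>
    hj.inj (g.1.injective (by rw [← h1, ← h1 y]; exact congrArg j e)))
  have h2 : f.Res j g a := fun x => by rw [ha]; exact (h1 x).symm
  rwa [hj.res_eq h2]

theorem TS.exists_resK [Finite V] {j : (ι → F) →ₗ[F] V} (hj : f.TS j) :
    ∃ φ : KJ hj →* GL ι F, Function.Surjective φ ∧ ∀ h : KJ hj, φ h = f.res j h := by
  refine ⟨MonoidHom.mk' (fun h => f.res j h) (fun a b => hj.res_eq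
    ((hj.res_of_stab a.2.1).mul (hj.res_of_stab b.2.1))), fun a => ?_, fun _ => rfl⟩
  rcases isEmpty_or_nonempty ι with hι | hι
  · exact ⟨1, gl_ext (fun x => Subsingleton.elim _ _)⟩
  have : Finite F := Finite.of_injective (fun c : F => j (fun _ => c))
    (fun c d e => congrFun (hj.inj e) hι.some)
  obtain ⟨W, f', i, hi⟩ := hj.exists_hyp
  obtain ⟨g, hg⟩ := exists_levO (f := f') a 1
  have h1 : ∀ z, i.e ((i.grp.symm g).1 z) = g.1 (i.e z) := fun z => by
    rw [← i.grp_apply, MulEquiv.apply_symm_apply]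
  have h2 : f.Res j (i.grp.symm g) a := fun x => i.e.injective (by rw [h1, hi, hi, hg]; simp)
  refine ⟨⟨i.grp.symm g, fun x => ⟨_, h2 x⟩, fun y => ⟨(a⁻¹ : GL ι F) *ᵥ y, ?_⟩, fun v hv => ?_⟩,
    hj.res_eq h2⟩
  · rw [h2, Matrix.mulVec_mulVec, Units.mul_inv, Matrix.one_mulVec]
  · have h3 : (i.e v).2.1 = 0 := dotProduct_eq_zero_iff.mp (fun x => by
      have := hv x
      rw [← i.hB, hi, hyp_B] at this
      simpa [dotProduct_comm] using this)
    refine ⟨(a : Matrix ι ι F) *ᵥ (i.e v).1 - (i.e v).1, i.e.injective ?_⟩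
    rw [h1, map_add, hi, show i.e v = ((i.e v).1, (i.e v).2.1, (i.e v).2.2) from rfl, hg, h3]
    simp

/-- `h` acts trivially on `W^⊥ / W`, `W = range j` -/
def TrivQ (f : Fm sy F V) (j : (ι → F) →ₗ[F] V) (h : f.O) : Prop :=
  ∀ v, (∀ x, f.B (j x) v = 0) → ∃ x, (h : V ≃ₗ[F] V) v = v + j x

theorem exists_fac {X Y : Type*} [AddCommGroup X] [Module F X] [AddCommGroup Y] [Module F Y]
    (N : X →ₗ[F] Y) (φ : X →ₗ[F] F) (h : ∀ x, N x = 0 → φ x = 0) :
    ∃ g : Y →ₗ[F] F, ∀ x, g (N x) = φ x := by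
  have : φ ∈ LinearMap.range N.dualMap := by
    rw [LinearMap.range_dualMap_eq_dualAnnihilator_ker, Submodule.mem_dualAnnihilator]
    exact h
  obtain ⟨g, hg⟩ := this
  exact ⟨g, fun x => LinearMap.congr_fun hg x⟩

theorem TrivQ.mul {j : (ι → F) →ₗ[F] V} {g g' : f.O} (h : f.TrivQ j g) (h' : f.TrivQ j g')
    (hs : ∀ x, ∃ y, g.1 (j x) = j y) : f.TrivQ j (g * g') := by
  intro v hv
  obtain ⟨x, hx⟩ := h v hv
  obtain ⟨x', hx'⟩ := h' v hv
  obtain ⟨y, hy⟩ := hs x'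
  exact ⟨x + y, by rw [mul_app, hx', map_add, hx, hy, map_add, add_assoc]⟩

theorem sieg_one [Finite V] {j₁ : (ι → F) →ₗ[F] V} {j₂ : (κ → F) →ₗ[F] V} (h₁ : f.TS j₁)
    (h₂ : f.TS j₂) {A : Submodule F (ι → F)}
    (hA : (∀ x, x ∈ A ↔ ∀ y, f.B (j₁ x) (j₂ y) = 0) ∨ (∀ x, x ∈ A ↔ ∃ y, j₁ x = j₂ y))
    {a : ι → F} (ha : a ∈ A) (φ : (ι → F) →ₗ[F] F) (hφ : ∀ x ∈ A, φ x = 0) :
    ∃ h : f.O, (∀ x, h.1 (j₁ x) = j₁ (x + φ x • a)) ∧ f.TrivQ j₁ h ∧
      (∀ y, h.1 (j₂ y) = j₂ y) ∧ f.TrivQ j₂ h := by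
  have key : ∀ v, (∀ x, f.B (j₁ x) v = φ x) → ∃ h : f.O, f.IsSieg h (j₁ a) v ∧
      (∀ x, h.1 (j₁ x) = j₁ (x + φ x • a)) ∧ f.TrivQ j₁ h := fun v hv => by
    obtain ⟨g, hg⟩ := exists_sieg (h₁.hQ a) ((hv a).trans (hφ a ha))
    exact ⟨g, hg, fun x => by rw [hg.2.2, h₁.hB, hv]; simp, fun z hz =>
      ⟨f.B z v • a, by rw [hg.2.2, (B_eq_zero_comm f).mp (hz a)]; simp⟩⟩
  rcases hA with hA | hA
  · obtain ⟨g, hg⟩ := exists_fac (LinearMap.compl₁₂ f.B j₁ j₂) φ
      (fun x hx => hφ x ((hA x).mpr (fun y => LinearMap.congr_fun hx y)))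
    obtain ⟨y₀, rfl⟩ := (Module.evalEquiv F (κ → F)).surjective g
    obtain ⟨h, h1, h2, h3⟩ := key (j₂ y₀) (fun x => by simpa using hg x)
    refine ⟨h, h2, h3, fun y => ?_, fun z hz => ⟨-(eps F sy * f.B z (j₁ a)) • y₀, ?_⟩⟩
    · rw [h1.2.2, h₂.hB, (B_eq_zero_comm f).mp ((hA a).mp ha y)]; simp
    · rw [h1.2.2, (B_eq_zero_comm f).mp (hz y₀), h₂.hQ]; simp [sub_eq_add_neg]
  · obtain ⟨g, hg⟩ := exists_fac ((LinearMap.range j₂).mkQ.comp j₁) φ (fun x hx => hφ x
      ((hA x).mpr (by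
        obtain ⟨y, hy⟩ := (Submodule.Quotient.mk_eq_zero _).mp hx
        exact ⟨y, hy.symm⟩)))
    obtain ⟨v, hv⟩ := f.exists_dual (g.comp (LinearMap.range j₂).mkQ)
    obtain ⟨h, h1, h2, h3⟩ := key v (fun x => by rw [hv]; exact hg x)
    obtain ⟨b, hb⟩ := (hA a).mp ha
    refine ⟨h, h2, h3, fun y => ?_, fun z hz => ⟨f.B z v • b, ?_⟩⟩
    · have : f.B (j₂ y) v = 0 := by
        rw [hv, LinearMap.comp_apply, Submodule.mkQ_apply,
          (Submodule.Quotient.mk_eq_zero _).mpr (LinearMap.mem_range_self j₂ y), map_zero]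
      rw [h1.2.2, this, hb, h₂.hB]; simp
    · rw [h1.2.2, hb, (B_eq_zero_comm f).mp (hz b)]; simp
/-- products of Siegel transformations acting on `range j₁` as a given unipotent matrix and
trivially on everything else -/
theorem sieg_family [Finite V] {j₁ : (ι → F) →ₗ[F] V} {j₂ : (κ → F) →ₗ[F] V} (h₁ : f.TS j₁)
    (h₂ : f.TS j₂) {A : Submodule F (ι → F)}
    (hA : (∀ x, x ∈ A ↔ ∀ y, f.B (j₁ x) (j₂ y) = 0) ∨ (∀ x, x ∈ A ↔ ∃ y, j₁ x = j₂ y))
    {u : GL ι F} (hu : u ∈ UA A) :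
    ∃ h : f.O, f.Res j₁ h u ∧ f.TrivQ j₁ h ∧ f.Res j₂ h 1 ∧ f.TrivQ j₂ h := by
  let R : ((ι → F) →ₗ[F] (ι → F)) → Prop := fun M => (∀ x, M x ∈ A) ∧ (∀ x ∈ A, M x = 0) ∧
    ∃ h : f.O, (∀ x, h.1 (j₁ x) = j₁ (x + M x)) ∧ f.TrivQ j₁ h ∧ (∀ y, h.1 (j₂ y) = j₂ y) ∧
      f.TrivQ j₂ h
  let b := Module.finBasis F A
  let M : (ι → F) →ₗ[F] A := (Matrix.toLin' (u : Matrix ι ι F) - LinearMap.id).codRestrict A hu.1
  have h1 : R (∑ i, ((b.coord i).comp M).smulRight (b i : ι → F)) := by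
    refine Finset.sum_induction _ R ?_ ?_ (fun i _ => ?_)
    · rintro M₁ M₂ ⟨a1, a2, g, a3, a4, a5, a6⟩ ⟨b1, b2, g', b3, b4, b5, b6⟩
      refine ⟨fun x => add_mem (a1 x) (b1 x), fun x hx => by simp [a2 x hx, b2 x hx], g * g',
        fun x => ?_, a4.mul b4 (fun x => ⟨_, a3 x⟩), fun y => by rw [mul_app, b5, a5],
        a6.mul b6 (fun y => ⟨_, a5 y⟩)⟩
      rw [mul_app, b3, a3, map_add M₁, a2 _ (b1 x), LinearMap.add_apply]
      congr 1
      abel
    · exact ⟨by simp, by simp, 1, fun x => by simp, fun v _ => ⟨0, by simp⟩, fun _ => rfl,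
        fun v _ => ⟨0, by simp⟩⟩
    · have h2 : ∀ x ∈ A, (b.coord i).comp M x = 0 := fun x hx => by
        have : M x = 0 := Subtype.ext (sub_eq_zero.mpr (hu.2 x hx))
        rw [LinearMap.comp_apply, this, map_zero]
      exact ⟨fun x => A.smul_mem _ (b i).2, fun x hx => by
        rw [LinearMap.smulRight_apply, h2 x hx, zero_smul], sieg_one h₁ h₂ hA (b i).2 _ h2⟩
  obtain ⟨-, -, h, h2, h3, h4, h5⟩ := h1
  refine ⟨h, fun x => ?_, h3, fun y => by simpa using h4 y, h5⟩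
  rw [h2]
  congr 1
  have := congrArg Subtype.val (b.sum_repr (M x))
  simp only [AddSubmonoidClass.coe_finset_sum, SetLike.val_smul] at this
  simp only [LinearMap.sum_apply, LinearMap.smulRight_apply, LinearMap.comp_apply,
    Basis.coord_apply, this]
  change x + ((u : Matrix ι ι F) *ᵥ x - x) = _
  abel

/-! ### freeness -/

variable [Finite F] [Finite V]

theorem free_one {π : GL ι F → ℂ} (hπ : IsIrrCharacter _ π) (h1 : π ≠ fun _ => 1) :
    f.Free π (fun _ => 1) := by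
  intro j hj
  obtain ⟨φ, h1, h2⟩ := hj.exists_resK
  have := Fintype.ofFinite (KJ hj)
  have := Fintype.ofFinite (GL ι F)
  simp only [← h2, map_one, mul_one, finsum_eq_sum_of_fintype]
  rw [H3.sum_comp_of_surjective φ h1, H3.sum_irr_eq_zero hπ ‹_›, mul_zero]

theorem freeAll_one : f.FreeAll (fun _ => 1) := by
  exact fun _ _ _ h1 _ h2 => free_one h1 h2

theorem free_of_dim (h : finrank F V < 2 * Fintype.card ι) (π : GL ι F → ℂ) (ρ : f.O → ℂ) :
    f.Free π ρ := by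
  exact fun _ hj => absurd hj.two_card_le (by omega)

theorem freeK_of_aniso (h : f.Aniso) (ρ : f.O → ℂ) : f.FreeK (fun _ => True) ρ := by
  intro k π hk _ _ _ j hj
  have := congrFun (hj.inj ((h _ (hj.hQ 1)).trans (map_zero j).symm)) ⟨0, hk⟩
  simp at this

theorem Free.part {π : GL ι F → ℂ} (hπ : IsCharacter _ π) {χ ψ : f.O → ℂ}
    (hχ : IsCharacter _ χ) (hψ : IsCharacter _ ψ) (h : f.Free π (χ + ψ)) : f.Free π χ := by
  intro j hj
  obtain ⟨φ, -, h2⟩ := hj.exists_resK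
  have h3 := h j hj
  simp only [← h2] at h3 ⊢
  exact part_zero (KJ hj).subtype (H3.IsCharacter_comp φ hπ) hχ hψ h3

theorem FreeK.part {S : ℕ → Prop} {χ ψ : f.O → ℂ} (hχ : IsCharacter _ χ)
    (hψ : IsCharacter _ ψ) (h : f.FreeK S (χ + ψ)) : f.FreeK S χ := by
  exact fun k π hk h1 h2 h3 =>
    (h k π hk h1 h2 h3).part (H3.IsIrrCharacter_isCharacter h2) hχ hψ

theorem FreeAll.part {χ ψ : f.O → ℂ} (hχ : IsCharacter _ χ) (hψ : IsCharacter _ ψ)
    (h : f.FreeAll (χ + ψ)) : f.FreeAll χ := by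
  exact fun k π hk h1 h2 h3 =>
    (h k π hk h1 h2 h3).part (H3.IsIrrCharacter_isCharacter h1) hχ hψ

theorem FreeAll.freeK {χ : f.O → ℂ} (h : f.FreeAll χ) : f.FreeK (fun k => 2 ≤ k) χ := by
  refine fun k π hk h1 h2 h3 => h k π hk h2 h3 ?_
  rintro rfl
  have h4 := h3 (LinearMap.ker (LinearMap.proj (R := F) (φ := fun _ : Fin k => F) ⟨0, hk⟩))
    (fun h5 => ?_) (fun h5 => ?_)
  · have := Fintype.ofFinite (UA (LinearMap.ker (LinearMap.proj (R := F)
      (φ := fun _ : Fin k => F) ⟨0, hk⟩)))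
    simp [finsum_eq_sum_of_fintype] at h4
  · have h6 : (Pi.single ⟨1, h1⟩ 1 : Fin k → F) ∈ (⊥ : Submodule F (Fin k → F)) := by
      rw [← h5]
      simp
    simp at h6
  · have h6 : (1 : Fin k → F) ∈ (⊤ : Submodule F (Fin k → F)) := trivial
    rw [← h5] at h6
    simp at h6

theorem FreeAll.gc {χ : f.O → ℂ} (h : f.FreeAll χ) {k : ℕ} (hk : 0 < k)
    {π : GL (Fin k) F → ℂ} {s : ℂ} (hπ : GC π s) : f.Free π χ := by
  exact h k π hk hπ.irr hπ.cusp (fun h1 => hπ.ne (by rw [h1]))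

theorem TF.part {χ ψ : f.O → ℂ} (hχ : IsCharacter _ χ) (hψ : IsCharacter _ ψ)
    (h : f.TF (χ + ψ)) : f.TF χ := by
  exact fun μ h1 h2 => twist_part_zero μ hχ hψ (h μ h1 h2)

theorem tf_of_odd {χ : f.O → ℂ} (hχ : IsIrrCharacter _ χ) (h : Odd (charDegree χ)) :
    f.TF χ := by
  rintro μ - ⟨r, h1, h2⟩
  exact twist_zero_of_odd hχ h μ h1.sq h2

theorem Sg.part {χ ψ : f.O → ℂ} (hχ : IsCharacter _ χ) (hψ : IsCharacter _ ψ) {s : ℂ}
    (hs : s = 1 ∨ s = -1) (h : f.Sg (χ + ψ) s) : f.Sg χ s := by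
  exact sign_part hs hχ hψ h

theorem sg_of_even (h : Even (Nat.card F)) (χ : f.O → ℂ) : f.Sg χ 1 := by
  have h2 : (2 : F) = 0 := by
    have := Fintype.ofFinite F
    have hc : ringChar F = 2 := by
      by_contra hc
      have := FiniteField.odd_card_of_char_ne_two hc
      rw [Nat.card_eq_fintype_card, Nat.even_iff] at h
      omega
    exact_mod_cast (ringChar.spec F 2).mpr (by rw [hc])
  have : f.neg1 = 1 := O_ext (fun z => by
    rw [neg1_apply]
    change -z = z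
    linear_combination (norm := module) h2 • (-z))
  rw [Sg, this, one_mul]

/-- a linear character nontrivial on the kernel of restriction is free -/
theorem free_of_elt (μ : f.O →* ℂˣ) (π : GL ι F → ℂ)
    (h : ∀ (j : (ι → F) →ₗ[F] V), f.TS j → ∃ u, f.Res j u 1 ∧ f.TrivQ j u ∧ μ u ≠ 1) :
    f.Free π (fun g => μ g) := by
  intro j hj
  obtain ⟨u, h1, h2, h3⟩ := h j hj
  obtain ⟨φ, -, h4⟩ := hj.exists_resK
  have h5 : ∀ x, u.1 (j x) = j x := fun x => by simpa using h1 x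
  let u' : KJ hj := ⟨u, fun x => ⟨x, h5 x⟩, fun x => ⟨x, h5 x⟩, h2⟩
  have h6 : φ u' = 1 := (h4 u').trans (hj.res_eq h1)
  have := Fintype.ofFinite (KJ hj)
  simp only [← h4, finsum_eq_sum_of_fintype]
  have h7 := Equiv.sum_comp (Equiv.mulLeft u') (fun x : KJ hj => π (φ x) * conj (μ x : ℂ))
  simp only [Equiv.coe_mulLeft, map_mul, h6, one_mul, Subgroup.coe_mul, Units.val_mul,
    mul_left_comm (π _), ← Finset.mul_sum] at h7
  have h8 : conj (μ u : ℂ) - 1 ≠ 0 := fun h8 => h3 (Units.ext (by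
    simpa using congrArg conj (sub_eq_zero.mp h8)))
  exact (mul_eq_zero.mp (by linear_combination h7)).resolve_left h8

end Cfsg.Agent.DG.Fm
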