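import Cfsg.Agent.Lib.DG.Ch

/-!
# Moments of a Hecke operator (row DG-HM, see notes/DG.md)
-/

set_option autoImplicit false

open scoped ComplexConjugate
open Cfsg

namespace Cfsg.Agent.DG

variable {G : Type*} [Group G] [Finite G]

/-- the data of a Hecke operator -/
structure HD (P U L : Subgroup G) (w : G) (σ : P → ℂ) : Prop where
  irr : IsIrrCharacter P σ
  hU : U ≤ P
  hL : L ≤ P
  dec : ∀ p ∈ P, ∃ l ∈ L, ∃ u ∈ U, p = l * u
  nU : ∀ p ∈ P, ∀ u ∈ U, p * u * p⁻¹ ∈ U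
  card : Nat.card P = Nat.card L * Nat.card U
  wL : ∀ l ∈ L, w * l * w⁻¹ ∈ L
  w2 : w * w ∈ L
  opp : ∀ u ∈ U, w * u * w⁻¹ ∈ P → u = 1
  wP : w ∉ P
  kU : ∀ p : P, (p : G) ∈ U → σ p = σ 1
  kL : ∀ p : P, (∃ l ∈ L, (p : G) = w * l * w⁻¹ * l⁻¹) → σ p = σ 1
  kw : ∀ p : P, (p : G) = w * w → σ p = σ 1

open Classical in
/-- `σ p` on `u w p`, zero off the big cell -/
noncomputable def tau (P U : Subgroup G) (w : G) (σ : P → ℂ) (g : G) : ℂ :=
  if h : ∃ p : P, ∃ u ∈ U, g = u * w * p then σ h.choose else 0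

/-- the eigenvalue of the Hecke operator on a constituent `ξ` of multiplicity one -/
noncomputable def lam (P U : Subgroup G) (w : G) (σ : P → ℂ) (ξ : G → ℂ) : ℂ :=
  (Nat.card U : ℂ) / Nat.card P * ∑ᶠ p : P, conj (σ p) * ξ (p * w)

variable {P U L : Subgroup G} {w : G} {σ : P → ℂ}

theorem sum_conj_mul {H : Type*} [Group H] [Fintype H] {s a : H → ℂ} (hs : IsIrrCharacter H s)
    (ha : IsClassFunction H a) (q : H) :
    s 1 * ∑ p, conj (s p) * a (p * q) = Nat.card H * classInner a s * s q := by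
  classical
  have h0 := H3.card_ne_zero_complex H
  have h1 : ∀ τ : IrrCharacter H, s 1 * ∑ p, conj (s p) * (τ : H → ℂ) (p * q) =
      if τ = ⟨s, hs⟩ then Nat.card H * s q else 0 := fun τ => by
    have h2 : ∑ p, conj (s p) * (τ : H → ℂ) p = Nat.card H * classInner (τ : H → ℂ) s := by
      rw [classInner, mul_inv_cancel_left₀ h0]
      exact Finset.sum_congr rfl fun _ _ => mul_comm _ _
    rw [H3.IsIrrCharacter_sum_mul τ.2
      (H3.IsClassFunction_conj (H3.IsIrrCharacter_isClassFunction hs)), h2,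
      H3.classInner_irr τ ⟨s, hs⟩]
    split_ifs with h
    · subst h
      have := H3.IsIrrCharacter_apply_one_ne_zero hs
      field_simp
    · simp
  simp only [H3.IsClassFunction_apply_eq_sum ha (_ * q), Finset.mul_sum]
  rw [Finset.sum_comm]
  have h3 : ∀ τ : IrrCharacter H, ∑ p, s 1 * (conj (s p) *
      (classInner a τ * (τ : H → ℂ) (p * q))) = classInner a τ *
        if τ = ⟨s, hs⟩ then Nat.card H * s q else 0 := fun τ => by
    rw [← h1, Finset.mul_sum, Finset.mul_sum]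
    exact Finset.sum_congr rfl fun _ _ => by ring
  simp only [h3, mul_ite, mul_zero, Finset.sum_ite_eq', Finset.mem_univ, if_true]
  ring

theorem HD.mulk (h : HD P U L w σ) {k : P} (hk : σ k = σ 1) (p : P) : σ (k * p) = σ p :=
  H3.IsCharacter_mul_of_eq (H3.IsIrrCharacter_isCharacter h.irr) hk p

theorem HD.mulk' (h : HD P U L w σ) {k : P} (hk : σ k = σ 1) (p : P) : σ (p * k) = σ p :=
  H3.IsCharacter_mul_of_eq' (H3.IsIrrCharacter_isCharacter h.irr) hk p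

theorem HD.uniq (h : HD P U L w σ) {u u' : G} (hu : u ∈ U) (hu' : u' ∈ U) {p p' : G}
    (hp : p ∈ P) (hp' : p' ∈ P) (e : u * w * p = u' * w * p') : u = u' ∧ p = p' := by
  have h1 : u'⁻¹ * u = 1 := h.opp _ (mul_mem (inv_mem hu') hu) (by
    have h2 : w * (u'⁻¹ * u) * w⁻¹ = (w * w) * (p' * p⁻¹) * (w * w)⁻¹ := by
      have : u = u' * w * p' * p⁻¹ * w⁻¹ := by rw [← e]; group
      rw [this]; group
    rw [h2]
    exact mul_mem (mul_mem (h.hL h.w2) (mul_mem hp' (inv_mem hp))) (inv_mem (h.hL h.w2)))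
  obtain rfl : u' = u := inv_mul_eq_one.mp h1
  exact ⟨rfl, mul_left_cancel e⟩
theorem HD.tau_eq (h : HD P U L w σ) {u : G} (hu : u ∈ U) (p : P) :
    tau P U w σ (u * w * p) = σ p := by
  have h1 : ∃ p' : P, ∃ u' ∈ U, u * w * p = u' * w * p' := ⟨p, u, hu, rfl⟩
  rw [tau, dif_pos h1]
  obtain ⟨u', hu', e⟩ := h1.choose_spec
  exact congrArg σ (Subtype.ext (h.uniq hu hu' p.2 h1.choose.2 e).2.symm)

theorem tau_of_not {g : G} (h : ∀ p ∈ P, ∀ u ∈ U, g ≠ u * w * p) : tau P U w σ g = 0 := by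
  rw [tau, dif_neg]
  rintro ⟨p, u, hu, e⟩
  exact h p p.2 u hu e

section Alg

variable {A : Type*} [Ring A] [Algebra ℂ A] (φ : G →* A)

/-- the idempotent of `σ` -/
noncomputable def idem (P : Subgroup G) [Fintype P] (σ : P → ℂ) (φ : G →* A) : A :=
  ∑ p : P, (σ 1 / Nat.card P * conj (σ p)) • φ p

variable [Fintype P] [Fintype U] [Fintype L]

omit [Fintype U] [Fintype L] in
theorem HD.idem_comm (h : HD P U L w σ) {q : G} (hq : q ∈ P) :
    φ q * idem P σ φ = idem P σ φ * φ q := by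
  simp only [idem, Finset.mul_sum, Finset.sum_mul, mul_smul_comm, smul_mul_assoc, ← map_mul]
  refine Fintype.sum_equiv (MulAut.conj (⟨q, hq⟩ : P)).toEquiv _ _ (fun p => ?_)
  simp [H3.IsIrrCharacter_isClassFunction h.irr p ⟨q, hq⟩]

omit [Fintype U] [Fintype L] in
theorem HD.idem_ker (h : HD P U L w σ) {k : P} (hk : σ k = σ 1) :
    idem P σ φ * φ k = idem P σ φ := by
  simp only [idem, Finset.sum_mul, smul_mul_assoc, ← map_mul]
  refine Fintype.sum_equiv (Equiv.mulRight k) _ _ (fun p => ?_)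
  simp [h.mulk' hk]

omit [Fintype U] [Fintype L] in
theorem HD.idem_idem (h : HD P U L w σ) : idem P σ φ * idem P σ φ = idem P σ φ := by
  have hc := H3.IsIrrCharacter_isCharacter h.irr
  have h0 := H3.card_ne_zero_complex P
  have h1 : ∀ q : P, φ q * idem P σ φ =
      ∑ p : P, (σ 1 / Nat.card P * conj (σ (q⁻¹ * p))) • φ p := fun q => by
    simp only [idem, Finset.mul_sum, mul_smul_comm, ← map_mul]
    refine Fintype.sum_equiv (Equiv.mulLeft q) _ _ (fun p => ?_)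
    simp
  have h5 : idem P σ φ * idem P σ φ =
      ∑ q : P, (σ 1 / Nat.card P * conj (σ q)) • φ q * idem P σ φ := Finset.sum_mul _ _ _
  rw [h5]
  simp only [smul_mul_assoc, h1, Finset.smul_sum, smul_smul]
  rw [Finset.sum_comm, idem]
  refine Finset.sum_congr rfl fun p _ => ?_
  rw [← Finset.sum_smul]
  congr 1
  have h2 := sum_conj_mul h.irr (H3.IsCharacter_isClassFunction hc) p⁻¹
  rw [H3.IsIrrCharacter_classInner_self h.irr, H3.IsCharacter_apply_inv hc] at h2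
  have h3 : ∀ q : P, conj (σ (q⁻¹ * p)) = σ (q * p⁻¹) := fun q => by
    rw [← H3.IsCharacter_apply_inv hc,
      H3.IsClassFunction_mul_comm (H3.IsCharacter_isClassFunction hc)]
    simp
  have h4 : ∑ q : P, σ 1 / Nat.card P * conj (σ q) * (σ 1 / Nat.card P * conj (σ (q⁻¹ * p))) =
      σ 1 / Nat.card P / Nat.card P * (σ 1 * ∑ q, conj (σ q) * σ (q * p⁻¹)) := by
    simp only [Finset.mul_sum, h3]
    exact Finset.sum_congr rfl fun _ _ => by ring
  rw [h4, h2]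
  field_simp

omit [Fintype L] in
theorem HD.idem_sum (h : HD P U L w σ) :
    idem P σ φ * ∑ u : U, φ u = (Nat.card U : ℂ) • idem P σ φ ∧
      (∑ u : U, φ u) * idem P σ φ = (Nat.card U : ℂ) • idem P σ φ := by
  have h1 : ∀ u : U, idem P σ φ * φ u = idem P σ φ := fun u =>
    h.idem_ker φ (k := ⟨u, h.hU u.2⟩) (h.kU _ u.2)
  constructor
  · simp [Finset.mul_sum, h1, Nat.cast_smul_eq_nsmul]
  · simp [Finset.sum_mul, h.idem_comm φ (h.hU (Subtype.prop _)), h1, Nat.cast_smul_eq_nsmul]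

theorem HD.idem_w (h : HD P U L w σ) : (Nat.card U : ℂ) • (idem P σ φ * φ w * idem P σ φ) =
    idem P σ φ * (φ w * ∑ u : U, φ u) := by
  let e : A := ∑ l : L, (σ 1 / Nat.card P * conj (σ ⟨l, h.hL l.2⟩)) • φ l
  have h1 : idem P σ φ = e * ∑ u : U, φ u := by
    simp only [e, idem, Finset.sum_mul_sum, smul_mul_assoc, ← map_mul]
    rw [← Fintype.sum_prod_type']
    refine (Fintype.sum_bijective (fun x : L × U => (⟨x.1 * x.2, mul_mem (h.hL x.1.2)
      (h.hU x.2.2)⟩ : P)) ((Nat.bijective_iff_surjective_and_card _).mpr ⟨fun p => ?_, by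
        rw [h.card, Nat.card_prod]⟩) _ _ (fun x => ?_)).symm
    · obtain ⟨l, hl, u, hu, e⟩ := h.dec p p.2
      exact ⟨(⟨l, hl⟩, ⟨u, hu⟩), Subtype.ext e.symm⟩
    · rw [← h.mulk' (h.kU ⟨x.2, h.hU x.2.2⟩ x.2.2) ⟨x.1, h.hL x.1.2⟩]
      rfl
  have h2 : φ w * e = e * φ w := by
    simp only [e, Finset.mul_sum, Finset.sum_mul, mul_smul_comm, smul_mul_assoc, ← map_mul]
    refine Fintype.sum_bijective (fun l : L => (⟨w * l * w⁻¹, h.wL l l.2⟩ : L))
      (Finite.injective_iff_bijective.mp (fun a b e => Subtype.ext (by simpa using e))) _ _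
      (fun l => ?_)
    have h3 : σ ⟨w * l * w⁻¹, h.hL (h.wL l l.2)⟩ = σ ⟨l, h.hL l.2⟩ := by
      rw [← h.mulk (h.kL ⟨w * l * w⁻¹ * (l : G)⁻¹, mul_mem (h.hL (h.wL l l.2))
        (inv_mem (h.hL l.2))⟩ ⟨l, l.2, rfl⟩) ⟨l, h.hL l.2⟩]
      congr 1
      ext; simp
    simp [h3]
  have h3 : idem P σ φ * e = e * idem P σ φ := by
    simp only [e, Finset.mul_sum, Finset.sum_mul, mul_smul_comm, smul_mul_assoc,
      h.idem_comm φ (h.hL (Subtype.prop _))]
  have h4 : (Nat.card U : ℂ) • (idem P σ φ * e) = idem P σ φ := by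
    rw [h3, ← mul_smul_comm, ← (h.idem_sum φ).2, ← mul_assoc, ← h1, h.idem_idem]
  calc _ = (Nat.card U : ℂ) • (idem P σ φ * φ w * (e * ∑ u : U, φ u)) := by rw [← h1]
    _ = (Nat.card U : ℂ) • (idem P σ φ * e) * (φ w * ∑ u : U, φ u) := by
      rw [smul_mul_assoc, mul_assoc, ← mul_assoc (φ w), h2, mul_assoc, mul_assoc]
    _ = _ := by rw [h4]

omit [Fintype U] [Fintype L] in
theorem HD.hecke_comm (h : HD P U L w σ) {q : G} (hq : q ∈ P) :
    idem P σ φ * φ w * idem P σ φ * φ q = φ q * (idem P σ φ * φ w * idem P σ φ) := by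
  obtain ⟨l, hl, u, hu, rfl⟩ := h.dec q hq
  have h1 : idem P σ φ * φ u = idem P σ φ := h.idem_ker φ (k := ⟨u, h.hU hu⟩) (h.kU _ hu)
  have h2 : idem P σ φ * φ (w * l * w⁻¹ * l⁻¹) = idem P σ φ :=
    h.idem_ker φ (h.kL ⟨_, mul_mem (h.hL (h.wL l hl)) (inv_mem (h.hL hl))⟩ ⟨l, hl, rfl⟩)
  have h3 : idem P σ φ * φ (l * u) = φ l * idem P σ φ := by
    rw [map_mul, ← mul_assoc, ← h.idem_comm φ (h.hL hl), mul_assoc, h1]
  have h4 : φ w * φ l = φ (w * l * w⁻¹ * l⁻¹) * φ l * φ w := by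
    simp only [← map_mul]; congr 1; group
  calc _ = idem P σ φ * (φ w * φ l) * idem P σ φ := by simp only [mul_assoc, h3]
    _ = idem P σ φ * φ l * φ w * idem P σ φ := by rw [h4, ← mul_assoc, ← mul_assoc, h2]
    _ = _ := by rw [← mul_assoc, ← mul_assoc, h.idem_comm φ hq, h3, h.idem_comm φ (h.hL hl)]

end Alg

/-- the trace of the idempotent times `g` -/
noncomputable def trI (P : Subgroup G) (σ : P → ℂ) (ξ : G → ℂ) (g : G) : ℂ :=
  ∑ᶠ p : P, σ 1 / Nat.card P * conj (σ p) * ξ (p * g)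

theorem HD.rep (h : HD P U L w σ) {ξ : G → ℂ} (hξ : IsCharacter G ξ)
    (h1 : ip σ (fun p : P => ξ p) = 1) :
    IsIntegral ℤ (lam P U w σ ξ) ∧
      σ 1 * lam P U w σ ξ ^ 2 = Nat.card U * ∑ᶠ u : U, trI P σ ξ (w * u * w) ∧
      σ 1 * lam P U w σ ξ ^ 3 =
        Nat.card U * ∑ᶠ u : U, ∑ᶠ u' : U, trI P σ ξ (w * u' * (w * u * w)) := by
  have := Fintype.ofFinite P
  have := Fintype.ofFinite U
  have := Fintype.ofFinite L
  have hs := H3.IsIrrCharacter_apply_one_ne_zero h.irr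
  have h0 := H3.card_ne_zero_complex P
  have hcl := H3.IsClassFunction_restrict P (H3.IsCharacter_isClassFunction hξ)
  rw [ip_eq, ← H3.conj_classInner, map_eq_one_iff _ (RingHom.injective _)] at h1
  obtain ⟨n, ρ, rfl⟩ := hξ
  let E := idem P σ ρ
  have t1 : ∀ g, LinearMap.trace ℂ _ (E * ρ g) = trI P σ ρ.character g := fun g => by
    simp only [E, idem, trI, Finset.sum_mul, smul_mul_assoc, map_sum, map_smul, ← map_mul,
      finsum_eq_sum_of_fintype, smul_eq_mul, Representation.character]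
  have t2 : ∀ q : P, LinearMap.trace ℂ _ (E * ρ q) = σ q := fun q => by
    have h2 := sum_conj_mul h.irr hcl q
    rw [h1] at h2
    rw [t1, trI, finsum_eq_sum_of_fintype]
    simp only [mul_assoc, ← Finset.mul_sum, Subgroup.coe_mul] at h2 ⊢
    field_simp
    linear_combination h2
  have t3 : LinearMap.trace ℂ _ E = σ 1 := by simpa using t2 1
  have hEE : E * E = E := h.idem_idem ρ
  have hW : ∀ x ∈ LinearMap.range E, E x = x := by
    rintro _ ⟨y, rfl⟩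
    exact LinearMap.congr_fun hEE y
  have hle : ∀ q : P, LinearMap.range E ≤ (LinearMap.range E).comap (ρ.comp P.subtype q) := by
    rintro q _ ⟨y, rfl⟩
    exact ⟨ρ q y, (LinearMap.congr_fun (h.idem_comm ρ q.2) y).symm⟩
  let τ := Representation.subrepresentation (ρ.comp P.subtype) _ hle
  have hτ : τ.character = σ := funext fun q => by
    rw [← t2, ← LinearMap.trace_restrict_eq_of_forall_mem (LinearMap.range E) (E * ρ q)
      (fun x => ⟨_, rfl⟩)]
    refine congrArg (LinearMap.trace ℂ _) (LinearMap.ext fun x => Subtype.ext ?_)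
    exact (hW _ (hle q x.2)).symm
  have := H3.isIrreducible_of_isIrrCharacter τ (hτ ▸ h.irr)
  obtain ⟨c, hc⟩ := H3.exists_scalar_of_comm τ ((E * ρ w * E).restrict (p := LinearMap.range E)
    (q := LinearMap.range E) (fun x _ => ⟨_, rfl⟩)) (fun q => LinearMap.ext fun x =>
      Subtype.ext (LinearMap.congr_fun (h.hecke_comm ρ q.2) x))
  have h2 : E * ρ w * E = c • E := LinearMap.ext fun x => by
    have h3 : (E * ρ w * E) (E x) = c • E x :=
      congrArg Subtype.val (LinearMap.congr_fun hc ⟨E x, x, rfl⟩)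
    rw [← Module.End.mul_apply, mul_assoc, hEE] at h3
    exact h3
  have h3 : lam P U w σ ρ.character = Nat.card U * c := by
    have h4 := congrArg (LinearMap.trace ℂ _) h2
    rw [LinearMap.trace_mul_cycle, hEE, t1, map_smul, t3, trI, finsum_eq_sum_of_fintype] at h4
    simp only [mul_assoc, ← Finset.mul_sum, smul_eq_mul] at h4
    rw [lam, finsum_eq_sum_of_fintype]
    field_simp at h4
    rw [h4]
    field_simp
  let X := ρ w * ∑ u : U, ρ u
  have h4 : E * X = lam P U w σ ρ.character • E := by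
    rw [← h.idem_w ρ, h3, mul_smul, ← h2]
  have h5 : ∀ j : ℕ, E * X ^ j = lam P U w σ ρ.character ^ j • E := fun j => by
    induction j with
    | zero => simp
    | succ j ih => rw [pow_succ, ← mul_assoc, ih, smul_mul_assoc, h4, smul_smul, pow_succ]
  have h6 : ∀ Y, LinearMap.trace ℂ _ (E * (Y * X)) =
      Nat.card U * LinearMap.trace ℂ _ (E * (Y * ρ w)) := fun Y => by
    rw [← mul_assoc Y, ← mul_assoc E, LinearMap.trace_mul_comm, ← mul_assoc, (h.idem_sum ρ).2,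
      smul_mul_assoc, map_smul, smul_eq_mul]
  refine ⟨?_, ?_, ?_⟩
  · have h7 : IsIntegral ℤ X := by
      have := (IsIntegral.of_finite ℤ (∑ u : U, MonoidAlgebra.of ℤ G (w * u))).map
        (MonoidAlgebra.lift ℤ (Module.End ℂ (Fin n → ℂ)) G ρ)
      simpa [X, Finset.mul_sum] using this
    obtain ⟨p, hp, hp'⟩ := h7
    refine ⟨p, hp, ?_⟩
    have h8 : E * Polynomial.aeval X p = Polynomial.aeval (lam P U w σ ρ.character) p • E := by
      simp only [Polynomial.aeval_eq_sum_range, Finset.mul_sum, mul_smul_comm, h5, Finset.sum_smul,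
        smul_assoc]
    rw [Polynomial.aeval_def, hp', mul_zero] at h8
    refine (smul_eq_zero.mp h8.symm).resolve_right (fun h9 => hs ?_)
    rw [← t3, h9, map_zero]
  · have h7 := congrArg (LinearMap.trace ℂ _) (h5 2)
    rw [map_smul, t3, pow_two, h6] at h7
    rw [mul_comm, ← smul_eq_mul, ← h7]
    simp only [X, Finset.mul_sum, Finset.sum_mul, map_sum, ← map_mul, t1,
      finsum_eq_sum_of_fintype]
  · have h7 := congrArg (LinearMap.trace ℂ _) (h5 3)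
    rw [map_smul, t3, pow_succ, h6, pow_two] at h7
    rw [mul_comm, ← smul_eq_mul, ← h7]
    simp only [X, Finset.mul_sum, Finset.sum_mul, map_sum, ← map_mul, t1,
      finsum_eq_sum_of_fintype, mul_assoc]

theorem HD.trI_sum (h : HD P U L w σ) (S : Finset (G → ℂ)) (hS : ∀ ξ ∈ S, IsIrrCharacter G ξ)
    (hR : ind P σ = ∑ ξ ∈ S, ξ) :
    (∀ ξ ∈ S, ip σ (fun p : P => ξ p) = 1) ∧ ∀ g, ∑ ξ ∈ S, ξ 1 * trI P σ ξ g =
      Nat.card G * (σ 1 / Nat.card P * extendByZero P σ g) := by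
  classical
  have := Fintype.ofFinite G
  have := Fintype.ofFinite P
  have hc := H3.IsIrrCharacter_isCharacter h.irr
  have h1 : ∀ ξ, IsIrrCharacter G ξ → ip σ (fun p : P => ξ p) = ∑ ξ' ∈ S, ip ξ' ξ := fun ξ hξ => by
    rw [← ip_ind P σ (H3.IsIrrCharacter_isClassFunction hξ), hR, ip_eq, H3.classInner_sum_left]
    simp only [ip_eq]
  refine ⟨fun ξ hξ => ?_, fun g => ?_⟩
  · rw [h1 ξ (hS ξ hξ), Finset.sum_eq_single_of_mem ξ hξ
      (fun b hb hb' => ip_irr (hS b hb) (hS ξ hξ) hb'), ip_self (hS ξ hξ)]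
  have h2 : ∑ ξ ∈ S, ξ 1 * trI P σ ξ g =
      ∑ χ : IrrCharacter G, (χ : G → ℂ) 1 * trI P σ χ g := by
    refine Eq.trans ?_ (Finset.sum_map Finset.univ (Function.Embedding.subtype _)
      (fun ξ : G → ℂ => ξ 1 * trI P σ ξ g))
    refine Finset.sum_subset (fun ξ hξ => by simpa using hS ξ hξ) (fun ξ hξ hξ' => ?_)
    have hξ : IsIrrCharacter G ξ := by simpa using hξ
    have h3 := h1 ξ hξ
    rw [Finset.sum_eq_zero (fun b hb => ip_irr (hS b hb) hξ (fun e => hξ' (e ▸ hb))), ip_eq,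
      H4.classInner_eq_zero_comm, classInner, mul_eq_zero] at h3
    have h4 := sum_hom_mul2 (H3.IsIrrCharacter_isCharacter hξ) hc P.subtype (MonoidHom.id P)
      (by rw [finsum_eq_sum_of_fintype]
          exact h3.resolve_left (inv_ne_zero (H3.card_ne_zero_complex P))) g 1
    simp only [finsum_eq_sum_of_fintype, trI, mul_assoc, ← Finset.mul_sum] at h4 ⊢
    simp only [Subgroup.coe_subtype, MonoidHom.id_apply, mul_one, mul_comm (ξ _)] at h4
    rw [h4]; simp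
  have h3 : ∀ p : P, ∑ χ : IrrCharacter G, (χ : G → ℂ) 1 *
      (σ 1 / Nat.card P * conj (σ p) * (χ : G → ℂ) (p * g)) =
      σ 1 / Nat.card P * conj (σ p) * if p * g = 1 then (Nat.card G : ℂ) else 0 := fun p => by
    rw [← H3.sum_degree_mul_irr, Finset.mul_sum]
    exact Finset.sum_congr rfl fun _ _ => by ring
  rw [h2]
  simp only [trI, finsum_eq_sum_of_fintype, Finset.mul_sum]
  rw [Finset.sum_comm]
  simp only [h3]
  by_cases hg : g ∈ P
  · rw [Finset.sum_eq_single (⟨g, hg⟩⁻¹ : P) (fun b _ hb => by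
      rw [if_neg (fun e => hb (Subtype.ext (eq_inv_of_mul_eq_one_left e))), mul_zero]) (by simp),
      H4.extendByZero_of_mem _ _ hg, H3.IsCharacter_apply_inv hc]
    simp
    ring
  · rw [H4.extendByZero_of_notMem _ _ hg, Finset.sum_eq_zero (fun b _ => by
      rw [if_neg (fun e => hg (by rw [eq_inv_of_mul_eq_one_right e]; exact inv_mem b.2)),
        mul_zero])]
    simp

theorem HD.sum_ext (h : HD P U L w σ) (g : G) :
    ∑ᶠ u : U, extendByZero P σ (w * u * g) = tau P U w σ g := by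
  have := Fintype.ofFinite U
  rw [finsum_eq_sum_of_fintype]
  by_cases hg : ∃ p ∈ P, ∃ u ∈ U, g = u * w * p
  · obtain ⟨p, hp, u, hu, rfl⟩ := hg
    have h2 := h.hL h.w2
    rw [Finset.sum_eq_single (⟨u, hu⟩⁻¹ : U) (fun b _ hb => H4.extendByZero_of_notMem _ _
      (fun e => hb (Subtype.ext (eq_inv_of_mul_eq_one_left (h.opp _ (mul_mem b.2 hu) ?_)))))
      (by simp), h.tau_eq hu ⟨p, hp⟩, ← h.mulk (h.kw ⟨w * w, h2⟩ rfl), ← H4.extendByZero_coe P σ]
    · congr 1; simp; group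
    · convert mul_mem (mul_mem e (inv_mem hp)) (inv_mem h2) using 1
      group
  · rw [tau_of_not (fun p hp u hu e => hg ⟨p, hp, u, hu, e⟩)]
    refine Finset.sum_eq_zero fun u _ => H4.extendByZero_of_notMem _ _ (fun e => hg
      ⟨_, mul_mem (inv_mem (h.hL h.w2)) e, _, inv_mem u.2, by group⟩)
/-- the moments for a multiplicity free induced character -/
theorem HD.moments (h : HD P U L w σ) (S : Finset (G → ℂ)) (hS : ∀ ξ ∈ S, IsIrrCharacter G ξ)
    (hR : ind P σ = ∑ ξ ∈ S, ξ) :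
    (∀ ξ ∈ S, IsIntegral ℤ (lam P U w σ ξ)) ∧ ∑ ξ ∈ S, ξ 1 * lam P U w σ ξ = 0 ∧
      ∑ ξ ∈ S, ξ 1 * lam P U w σ ξ ^ 2 = Nat.card U * ∑ ξ ∈ S, ξ 1 ∧
      σ 1 * ∑ ξ ∈ S, ξ 1 * lam P U w σ ξ ^ 3 =
        (∑ᶠ u : U, tau P U w σ (w * u * w)) * Nat.card U * ∑ ξ ∈ S, ξ 1 := by
  have := Fintype.ofFinite U
  obtain ⟨h1, h2⟩ := h.trI_sum S hS hR
  have h3 := fun ξ hξ => h.rep (H3.IsIrrCharacter_isCharacter (hS ξ hξ)) (h1 ξ hξ)
  have hs := H3.IsIrrCharacter_apply_one_ne_zero h.irr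
  have h0 := H3.card_ne_zero_complex P
  have h4 : ∑ ξ ∈ S, ξ 1 = Nat.card G * (σ 1 / Nat.card P) := by
    rw [← Finset.sum_apply, ← hR, ind_one, ← P.index_mul_card]
    push_cast
    field_simp
  refine ⟨fun ξ hξ => (h3 ξ hξ).1, ?_, ?_, ?_⟩
  · have := Fintype.ofFinite P
    have h5 : ∀ ξ : G → ℂ, σ 1 * lam P U w σ ξ = Nat.card U * trI P σ ξ w := fun ξ => by
      simp only [lam, trI, finsum_eq_sum_of_fintype, mul_assoc, ← Finset.mul_sum]
      ring
    refine mul_left_cancel₀ hs ?_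
    have h6 := h2 w
    rw [H4.extendByZero_of_notMem _ _ h.wP, mul_zero, mul_zero] at h6
    rw [Finset.mul_sum, Finset.sum_congr rfl (fun ξ _ => show _ = Nat.card U * (ξ 1 * trI P σ ξ w)
      by rw [mul_left_comm, h5]; ring), ← Finset.mul_sum, h6, mul_zero, mul_zero]
  · refine mul_left_cancel₀ hs ?_
    rw [Finset.mul_sum, Finset.sum_congr rfl (fun ξ hξ => show _ = Nat.card U *
      ∑ u : U, ξ 1 * trI P σ ξ (w * u * w) by
        rw [mul_left_comm, (h3 ξ hξ).2.1, finsum_eq_sum_of_fintype, ← Finset.mul_sum]; ring),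
      ← Finset.mul_sum, Finset.sum_comm]
    simp only [h2, ← Finset.mul_sum]
    have h5 := h.tau_eq (one_mem U) 1
    simp only [OneMemClass.coe_one, one_mul, mul_one] at h5
    rw [← finsum_eq_sum_of_fintype, h.sum_ext, h5, h4]
    ring
  · rw [Finset.mul_sum, Finset.sum_congr rfl (fun ξ hξ => show _ = Nat.card U *
      ∑ u : U, ∑ u' : U, ξ 1 * trI P σ ξ (w * u' * (w * u * w)) by
        rw [mul_left_comm, (h3 ξ hξ).2.2]
        simp only [finsum_eq_sum_of_fintype, ← Finset.mul_sum]; ring),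
      ← Finset.mul_sum, Finset.sum_comm]
    have h5 : ∀ u : U, ∑ ξ ∈ S, ∑ u' : U, ξ 1 * trI P σ ξ (w * u' * (w * u * w)) =
        Nat.card G * (σ 1 / Nat.card P) * tau P U w σ (w * u * w) := fun u => by
      rw [Finset.sum_comm]
      simp only [h2, ← Finset.mul_sum]
      rw [← finsum_eq_sum_of_fintype, h.sum_ext, ← mul_assoc]
    simp only [h5]
    rw [← Finset.mul_sum, h4, finsum_eq_sum_of_fintype]
    ring

theorem HD.lam_map (h : HD P U L w σ) (hσ : RatF σ) (γ : ℂ ≃+* ℂ) (ξ : G → ℂ) :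
    lam P U w σ (fun g => γ (ξ g)) = γ (lam P U w σ ξ) := by
  have := Fintype.ofFinite P
  simp only [lam, finsum_eq_sum_of_fintype, map_mul, map_div₀, map_natCast, map_sum,
    ← H3.IsCharacter_apply_inv (H3.IsIrrCharacter_isCharacter h.irr), hσ _ γ]

theorem lam_add (a b : G → ℂ) : lam P U w σ (a + b) = lam P U w σ a + lam P U w σ b := by
  have := Fintype.ofFinite P
  simp only [lam, finsum_eq_sum_of_fintype, Pi.add_apply, mul_add, Finset.sum_add_distrib]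
/-- norm two -/
theorem HD.two (h : HD P U L w σ) (hn : ip (ind P σ) (ind P σ) = 2) :
    ∃ χ₁ χ₂, IsIrrCharacter G χ₁ ∧ IsIrrCharacter G χ₂ ∧ χ₁ ≠ χ₂ ∧ ind P σ = χ₁ + χ₂ ∧
      ∃ l₁ l₂ : ℂ, IsIntegral ℤ l₁ ∧ IsIntegral ℤ l₂ ∧ l₁ * l₂ = -Nat.card U ∧
        χ₁ 1 * l₁ + χ₂ 1 * l₂ = 0 ∧ (l₁ + l₂) * σ 1 = ∑ᶠ u : U, tau P U w σ (w * u * w) ∧
        (RatF σ → RatC (l₁ + l₂) ∧ (RatC l₁ ∨ χ₁ 1 ≠ χ₂ 1 → RatF χ₁ ∧ RatF χ₂)) := by
  classical
  have := Fintype.ofFinite G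
  obtain ⟨a, b, ha, hb, hab, e⟩ :=
    two_of_norm (isChar_ind P (H3.IsIrrCharacter_isCharacter h.irr)) hn
  obtain ⟨m0, m1, m2, m3⟩ := h.moments {a, b} (by simp [ha, hb]) (by rw [Finset.sum_pair hab, e])
  simp only [Finset.sum_pair hab] at m1 m2 m3
  have hD : a 1 + b 1 ≠ 0 := by
    rw [← Pi.add_apply, ← e, ind_one]
    exact mul_ne_zero (by exact_mod_cast P.index_ne_zero_of_finite)
      (H3.IsIrrCharacter_apply_one_ne_zero h.irr)
  have hU := H3.card_ne_zero_complex U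
  have h1 : lam P U w σ a * lam P U w σ b = -Nat.card U := mul_left_cancel₀ hD (by
    linear_combination (lam P U w σ a + lam P U w σ b) * m1 - m2)
  have h2 : ∀ γ : ℂ ≃+* ℂ, RatF σ → (fun g => γ ((a + b) g)) = a + b := fun γ hσ => by
    rw [← e, ind_eq]
    refine (H4.indFun_map P σ (γ : ℂ →+* ℂ)).symm.trans ?_
    congr 1
    exact funext fun p => hσ p γ
  refine ⟨a, b, ha, hb, hab, e, _, _, m0 a (by simp), m0 b (by simp), h1, m1,
    mul_left_cancel₀ (mul_ne_zero hU hD) ?_, fun hσ => ⟨fun γ => ?_, fun h3 => ?_⟩⟩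
  · linear_combination m3 - σ 1 * (lam P U w σ a + lam P U w σ b) * m2 +
      σ 1 * lam P U w σ a * lam P U w σ b * m1
  · rw [← lam_add, ← h.lam_map hσ, h2 γ hσ]
  have h4 : ∀ γ : ℂ ≃+* ℂ, (fun g => γ (a g)) = a := fun γ => by
    have ha' : IsIrrCharacter G (fun g => γ (a g)) := H3.IsIrrCharacter_map (γ : ℂ →+* ℂ) ha
    have hb' : IsIrrCharacter G (fun g => γ (b g)) := H3.IsIrrCharacter_map (γ : ℂ →+* ℂ) hb
    by_contra h5
    have h6 : (fun g => γ (a g)) + (fun g => γ (b g)) = a + b := by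
      rw [← h2 γ hσ]; ext g; simp
    by_cases h7 : (fun g => γ (a g)) = b
    · rcases h3 with h3 | h3
      · have h8 := h.lam_map hσ γ a
        rw [h7, h3 γ] at h8
        rw [h8, ← add_mul, mul_eq_zero] at m1
        rw [m1.resolve_left hD, zero_mul] at h1
        exact hU (neg_eq_zero.mp h1.symm)
      · obtain ⟨n, -, hn⟩ := H3.IsIrrCharacter_apply_one ha
        exact h3 (by rw [← h7]; simp [hn])
    · have h8 := congrArg (classInner (fun g => γ (a g))) h6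
      rw [H3.classInner_add_right, H3.classInner_add_right,
        H3.IsIrrCharacter_classInner_of_ne ha' ha h5, H3.IsIrrCharacter_classInner_of_ne ha' hb h7,
        H3.IsIrrCharacter_classInner_self ha'] at h8
      obtain ⟨n, hn⟩ := H3.IsCharacter_classInner (H3.IsIrrCharacter_isCharacter ha')
        (H3.IsIrrCharacter_isCharacter hb')
      rw [show classInner (fun g => γ (a g)) (fun g => γ (b g)) = n from hn] at h8
      norm_cast at h8
      omega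
  refine ⟨fun g γ => congrFun (h4 γ) g, fun g γ => ?_⟩
  have h5 := congrFun (h2 γ hσ) g
  simp only [Pi.add_apply, map_add, congrFun (h4 γ) g] at h5
  exact add_left_cancel h5

theorem two_point {d₁ d₂ l₁ l₂ e₁ e₂ t₁ t₂ : ℂ} (ht : t₁ ≠ t₂) (h₁ : e₁ ≠ 0) (h₂ : e₂ ≠ 0)
    (k₁ : d₁ ≠ 0) (k₂ : d₂ ≠ 0) (m0 : d₁ + d₂ = e₁ + e₂)
    (m1 : d₁ * l₁ + d₂ * l₂ = e₁ * t₁ + e₂ * t₂)
    (m2 : d₁ * l₁ ^ 2 + d₂ * l₂ ^ 2 = e₁ * t₁ ^ 2 + e₂ * t₂ ^ 2)
    (m3 : d₁ * l₁ ^ 3 + d₂ * l₂ ^ 3 = e₁ * t₁ ^ 3 + e₂ * t₂ ^ 3) :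
    (d₁ = e₁ ∧ d₂ = e₂) ∨ (d₁ = e₂ ∧ d₂ = e₁) := by
  have ht' := sub_ne_zero.mpr ht
  have hl : l₁ - l₂ ≠ 0 := fun hl => by
    obtain rfl := sub_eq_zero.mp hl
    refine mul_ne_zero (mul_ne_zero h₁ h₂) (pow_ne_zero 2 ht') ?_
    have a1 : e₁ * t₁ + e₂ * t₂ = (e₁ + e₂) * l₁ := by rw [← m0, ← m1]; ring
    have a2 : e₁ * t₁ ^ 2 + e₂ * t₂ ^ 2 = (e₁ + e₂) * l₁ ^ 2 := by rw [← m0, ← m2]; ring
    linear_combination (e₁ + e₂) * a2 - (e₁ * t₁ + e₂ * t₂ + (e₁ + e₂) * l₁) * a1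
  have f1 : (l₁ - t₁) * (l₁ - t₂) = 0 := mul_left_cancel₀ (mul_ne_zero k₁ hl) (by
    linear_combination m3 - (t₁ + t₂ + l₂) * m2 + (t₁ * t₂ + l₂ * (t₁ + t₂)) * m1 -
      l₂ * t₁ * t₂ * m0)
  have f2 : (l₂ - t₁) * (l₂ - t₂) = 0 := mul_left_cancel₀ (mul_ne_zero k₂ hl) (by
    linear_combination -m3 + (t₁ + t₂ + l₁) * m2 - (t₁ * t₂ + l₁ * (t₁ + t₂)) * m1 +
      l₁ * t₁ * t₂ * m0)
  rcases mul_eq_zero.mp f1 with g1 | g1 <;> rcases mul_eq_zero.mp f2 with g2 | g2 <;>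
    rw [sub_eq_zero] at g1 g2 <;> rw [g1, g2] at hl m1
  · simp at hl
  · exact Or.inl ⟨mul_right_cancel₀ ht' (by linear_combination m1 - t₂ * m0),
      mul_right_cancel₀ ht' (by linear_combination -m1 + t₁ * m0)⟩
  · exact Or.inr ⟨mul_right_cancel₀ ht' (by linear_combination -m1 + t₁ * m0),
      mul_right_cancel₀ ht' (by linear_combination m1 - t₂ * m0)⟩
  · simp at hl
/-- norm three for the permutation character, given the solution of the moment equations -/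
theorem HD.three (h : HD P U L w (fun _ => 1))
    (hn : ip (ind P (fun _ => 1)) (ind P (fun _ => 1)) = 3) {t₁ t₂ e₁ e₂ : ℂ} (ht : t₁ ≠ t₂)
    (h₁ : e₁ ≠ 0) (h₂ : e₂ ≠ 0) (m0 : 1 + e₁ + e₂ = P.index)
    (m1 : Nat.card U + e₁ * t₁ + e₂ * t₂ = 0)
    (m2 : (Nat.card U : ℂ) ^ 2 + e₁ * t₁ ^ 2 + e₂ * t₂ ^ 2 = Nat.card U * P.index)
    (m3 : (Nat.card U : ℂ) ^ 3 + e₁ * t₁ ^ 3 + e₂ * t₂ ^ 3 =
      (∑ᶠ u : U, tau P U w (fun _ => 1) (w * u * w)) * Nat.card U * P.index) :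
    ∃ χ₁ χ₂, IsIrrCharacter G χ₁ ∧ IsIrrCharacter G χ₂ ∧ χ₁ ≠ χ₂ ∧ χ₁ ≠ (fun _ => 1) ∧
      χ₂ ≠ (fun _ => 1) ∧ ind P (fun _ => 1) = (fun _ => 1) + χ₁ + χ₂ ∧ χ₁ 1 = e₁ ∧
      χ₂ 1 = e₂ := by
  classical
  have := Fintype.ofFinite P
  have h0 := H3.card_ne_zero_complex P
  obtain ⟨a, b, ha, hb, hab, ha1, hb1, e⟩ := three_of_norm (isChar_ind P H3.isCharacter_one) hn
    H3.isIrrCharacter_one (by
      rw [ip_ind P _ (H3.IsClassFunction_const 1), ip_self H3.isIrrCharacter_one]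
      exact one_ne_zero)
  have hs : ∀ f : (G → ℂ) → ℂ, ∑ ξ ∈ {fun _ => 1, a, b}, f ξ = f (fun _ => 1) + f a + f b :=
    fun f => by
      rw [Finset.sum_insert (by simp [ha1.symm, hb1.symm]), Finset.sum_pair hab, add_assoc]
  obtain ⟨-, n1, n2, n3⟩ := h.moments {fun _ => 1, a, b} (by simp [ha, hb, H3.isIrrCharacter_one])
    (by rw [Finset.sum_insert (by simp [ha1.symm, hb1.symm]), Finset.sum_pair hab, e, add_assoc])
  have h1 : lam P U w (fun _ => 1) (fun _ => 1) = Nat.card U := by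
    simp only [lam, finsum_eq_sum_of_fintype, map_one, mul_one, Finset.sum_const,
      Finset.card_univ, nsmul_eq_mul, ← Nat.card_eq_fintype_card]
    field_simp
  have n0 : 1 + a 1 + b 1 = P.index := by
    have := congrFun e 1
    rw [ind_one, mul_one] at this
    exact this.symm
  simp only [hs, h1, one_mul, n0] at n1 n2 n3
  rcases two_point (l₁ := lam P U w (fun _ => 1) a) (l₂ := lam P U w (fun _ => 1) b) ht h₁ h₂
    (H3.IsIrrCharacter_apply_one_ne_zero ha)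
    (H3.IsIrrCharacter_apply_one_ne_zero hb) (by linear_combination n0 - m0)
    (by linear_combination n1 - m1) (by linear_combination n2 - m2)
    (by linear_combination n3 - m3) with k | k
  · exact ⟨a, b, ha, hb, hab, ha1, hb1, e, k⟩
  · exact ⟨b, a, hb, ha, hab.symm, hb1, ha1, by rw [e, add_right_comm], k.2, k.1⟩

/-- the degree ratio is a power of `p` -/
theorem ratio {p N d₁ d₂ : ℕ} (hp : p.Prime) (h₁ : 0 < d₁) (h₂ : 0 < d₂) {l₁ l₂ : ℂ}
    (i₁ : IsIntegral ℤ l₁) (i₂ : IsIntegral ℤ l₂) (hm : l₁ * l₂ = -(p : ℂ) ^ N)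
    (hs : d₁ * l₁ + d₂ * l₂ = 0) :
    ∃ e : ℕ, (d₁ = p ^ e * d₂ ∨ d₂ = p ^ e * d₁) ∧
      (l₁ + l₂) ^ 2 * (p : ℂ) ^ e = (p : ℂ) ^ N * ((p : ℂ) ^ e - 1) ^ 2 ∧
      (RatC (l₁ + l₂) → e ≠ 0 → e % 2 = N % 2) ∧ (e = 0 → Even N → RatC l₁) := by
  have k₁ : (d₁ : ℂ) ≠ 0 := by exact_mod_cast h₁.ne'
  have k₂ : (d₂ : ℂ) ≠ 0 := by exact_mod_cast h₂.ne'
  have hp0 : (p : ℂ) ≠ 0 := by exact_mod_cast hp.ne_zero
  have e₁ : l₁ ^ 2 = ((d₂ * p ^ N : ℕ) : ℂ) / d₁ := by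
    push_cast; field_simp; linear_combination l₁ * hs - d₂ * hm
  have e₂ : l₂ ^ 2 = ((d₁ * p ^ N : ℕ) : ℂ) / d₂ := by
    push_cast; field_simp; linear_combination l₂ * hs - d₁ * hm
  obtain ⟨a, ha⟩ := H3.dvd_of_isIntegral_div h₁.ne' (e₁ ▸ i₁.pow 2)
  obtain ⟨b, hb⟩ := H3.dvd_of_isIntegral_div h₂.ne' (e₂ ▸ i₂.pow 2)
  rw [ha, Nat.cast_mul, mul_div_cancel_left₀ _ k₁] at e₁
  rw [hb, Nat.cast_mul, mul_div_cancel_left₀ _ k₂] at e₂
  have hab : a * b = p ^ (2 * N) := by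
    have : (a : ℂ) * b = p ^ (2 * N) := by
      rw [← e₁, ← e₂, ← mul_pow, hm]; ring
    exact_mod_cast this
  obtain ⟨i, -, rfl⟩ := (Nat.dvd_prime_pow hp).mp (Dvd.intro _ hab)
  obtain ⟨j, -, rfl⟩ := (Nat.dvd_prime_pow hp).mp (Dvd.intro_left _ hab)
  have hij : i + j = 2 * N := Nat.pow_right_injective hp.two_le (by simpa [pow_add] using hab)
  push_cast at e₁ e₂
  have key : ∀ e : ℕ, (l₁ + l₂) ^ 2 * (p : ℂ) ^ e = (p : ℂ) ^ N * ((p : ℂ) ^ e - 1) ^ 2 →
      RatC (l₁ + l₂) → e ≠ 0 → e % 2 = N % 2 := fun e h hr he => by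
    obtain ⟨x, hx⟩ := H3.exists_rat_of_forall_ringEquiv ((i₁.add i₂).tower_top) hr
    obtain ⟨z, rfl⟩ := H3.exists_int_of_isIntegral_rat (hx ▸ i₁.add i₂)
    have h1 : 1 < p ^ e := Nat.one_lt_pow he hp.one_lt
    have h2 : z.natAbs ^ 2 * p ^ e = p ^ N * (p ^ e - 1) ^ 2 := by
      rw [hx] at h
      have : ((z ^ 2 * p ^ e : ℤ) : ℂ) = ((p ^ N * (p ^ e - 1) ^ 2 : ℤ) : ℂ) := by
        push_cast at h ⊢; exact h
      zify [h1.le]
      rw [sq_abs]
      exact_mod_cast this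
    have h3 : p ^ e - 1 ≠ 0 := by omega
    have h4 : z.natAbs ≠ 0 := fun h4 => by
      rw [h4] at h2
      exact mul_ne_zero (pow_ne_zero _ hp.ne_zero) (pow_ne_zero 2 h3) (by simpa using h2.symm)
    have h5 : (p ^ e - 1).factorization p = 0 := Nat.factorization_eq_zero_of_not_dvd (fun h5 =>
      hp.one_lt.ne' (Nat.dvd_one.mp ((Nat.dvd_sub_iff_right h1.le (dvd_pow_self p he)).mp h5)))
    have h6 := congrArg (fun n => Nat.factorization n p) h2
    simp only [Nat.factorization_mul (pow_ne_zero 2 h4) (pow_ne_zero e hp.ne_zero),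
      Nat.factorization_mul (pow_ne_zero N hp.ne_zero) (pow_ne_zero 2 h3), Nat.factorization_pow,
      Finsupp.add_apply, Finsupp.smul_apply, hp.factorization_self, h5, smul_eq_mul] at h6
    omega
  have key2 : i = N → Even N → RatC l₁ := by
    rintro rfl ⟨k, hk⟩ γ
    rw [hk, pow_add, ← pow_two, sq_eq_sq_iff_eq_or_eq_neg] at e₁
    rcases e₁ with h | h <;> simp [h]
  rcases le_total i N with h | h
  · obtain ⟨e, rfl⟩ := Nat.exists_eq_add_of_le h
    obtain rfl : j = i + e + e := by omega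
    have h1 : (l₁ + l₂) ^ 2 * (p : ℂ) ^ e = (p : ℂ) ^ (i + e) * ((p : ℂ) ^ e - 1) ^ 2 := by
      linear_combination (p : ℂ) ^ e * (e₁ + e₂ + 2 * hm)
    refine ⟨e, Or.inl (Nat.eq_of_mul_eq_mul_right (pow_pos hp.pos i) ?_), h1, key e h1,
      fun he => key2 (by omega)⟩
    rw [← ha]; ring
  · obtain ⟨e, rfl⟩ := Nat.exists_eq_add_of_le h
    obtain rfl : N = j + e := by omega
    have h1 : (l₁ + l₂) ^ 2 * (p : ℂ) ^ e = (p : ℂ) ^ (j + e) * ((p : ℂ) ^ e - 1) ^ 2 := by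
      linear_combination (p : ℂ) ^ e * (e₁ + e₂ + 2 * hm)
    refine ⟨e, Or.inr (Nat.eq_of_mul_eq_mul_right (pow_pos hp.pos j) ?_), h1, key e h1,
      fun he => key2 (by omega)⟩
    rw [← hb]; ring

end Cfsg.Agent.DG
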