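import Cfsg.Agent.Lib.DG.Par
import Cfsg.Agent.Lib.DG.Heis

/-!
# Mackey formulas for Harish-Chandra induction (row DG-Mack, see notes/DG.md)
-/

set_option autoImplicit false

open scoped ComplexConjugate Matrix
open Module Cfsg

namespace Cfsg.Agent.DG.Fm

variable {sy : Bool} {F V : Type} [Field F] [Finite F] [AddCommGroup V] [Module F V] [Finite V]
  {ι κ : Type} [Fintype ι] [DecidableEq ι] [Fintype κ] [DecidableEq κ] {f : Fm sy F V}

/-- a family of elements of the parabolic subgroup which kills a Mackey summand -/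
def Kill (f : Fm sy F V) (j : (κ → F) →ₗ[F] ((ι → F) × (ι → F) × V)) (θ : GL κ F → ℂ)
    (π : GL ι F → ℂ) (ρ : f.O → ℂ) : Prop :=
  ∃ (K : Type) (_ : Finite K) (_ : Nonempty K) (t : K → f.P ι) (c : K → GL κ F),
    (∀ k, (f.hyp ι).Res j (t k) (c k) ∧ (f.hyp ι).TrivQ j (t k)) ∧
      ∀ a b, ∑ᶠ k, θ (c k * a) * conj (f.sig π ρ (t k * b)) = 0

theorem prS_of_res {h : (f.hyp ι).O} {u : GL ι F}
    (h1 : (f.hyp ι).Res (LinearMap.inl F (ι → F) ((ι → F) × V)) h u)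
    (h2 : (f.hyp ι).TrivQ (LinearMap.inl F (ι → F) ((ι → F) × V)) h) : f.PrS h (u, 1) :=
  ⟨h1, fun z => by
    obtain ⟨x, hx⟩ := h2 (0, 0, z) (fun x => by simp [hyp_B])
    exact ⟨x, by simpa using hx⟩⟩

theorem PrS.mem {g : (f.hyp ι).O} {l : GL ι F × f.O} (h : f.PrS g l) : g ∈ f.P ι := ⟨_, h.1⟩

theorem PrS.pr {g : (f.hyp ι).O} {l : GL ι F × f.O} (h : f.PrS g l) (hg : g ∈ f.P ι) :
    f.pr ι ⟨g, hg⟩ = l := pr_eq h.1 h.2

omit [Finite F] [Finite V] in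
theorem Res.conj {j : (κ → F) →ₗ[F] V} {g h : f.O} {c : GL κ F}
    (h1 : f.Res (g.1.toLinearMap.comp j) h c) : f.Res j (g⁻¹ * h * g) c := fun x => by
  rw [mul_app, mul_app]
  exact (congrArg _ (h1 x)).trans (inv_app g _)

omit [Finite F] [Finite V] in
theorem TrivQ.conj {j : (κ → F) →ₗ[F] V} {g h : f.O}
    (h1 : f.TrivQ (g.1.toLinearMap.comp j) h) : f.TrivQ j (g⁻¹ * h * g) := fun v hv => by
  obtain ⟨x, hx⟩ := h1 (g.1 v) (fun x => (g.2.2 _ _).trans (hv x))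
  refine ⟨x, ?_⟩
  rw [mul_app, mul_app, hx, map_add, inv_app]
  exact congrArg _ (inv_app g _)

omit [Finite F] [Finite V] in
theorem mem_KJ_of {j : (κ → F) →ₗ[F] V} (hj : f.TS j) {h : f.O} {c : GL κ F}
    (h1 : f.Res j h c) (h2 : f.TrivQ j h) : h ∈ KJ hj :=
  ⟨fun x => ⟨_, h1 x⟩, fun y => ⟨((c⁻¹ : GL κ F) : Matrix κ κ F) *ᵥ y, by
    rw [h1, Matrix.mulVec_mulVec, Units.mul_inv, Matrix.one_mulVec]⟩, h2⟩

theorem ext_avg {G K : Type*} [Group G] {P : Subgroup G} {σ : P → ℂ} (t : K → P) (c : K → ℂ)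
    (h : ∀ b, ∑ᶠ k, c k * conj (σ (t k * b)) = 0) (y : G) :
    ∑ᶠ k, c k * conj (extendByZero P σ (t k * y)) = 0 := by
  by_cases hy : y ∈ P
  · rw [← h ⟨y, hy⟩]
    exact finsum_congr fun k => by rw [← H4.extendByZero_coe P σ]; rfl
  · have : ∀ k, extendByZero P σ (t k * y) = 0 := fun k => H4.extendByZero_of_notMem _ _
      (fun e => hy ((mul_mem_cancel_left (t k).2).mp e))
    simp [this]

theorem Kill.kj {j : (κ → F) →ₗ[F] ((ι → F) × (ι → F) × V)} (hj : (f.hyp ι).TS j)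
    {g : (f.hyp ι).O} {θ : GL κ F → ℂ} {π : GL ι F → ℂ} {ρ : f.O → ℂ}
    (h : f.Kill (g.1.toLinearMap.comp j) θ π ρ) :
    ∑ᶠ h : KJ hj, θ ((f.hyp ι).res j h) *
      conj (extendByZero (f.P ι) (f.sig π ρ) (g * h * g⁻¹)) = 0 := by
  obtain ⟨K, _, _, t, c, h1, h2⟩ := h
  refine sum_eq_zero_of_avg _ (fun k => Equiv.mulLeft
    ⟨_, mem_KJ_of hj (h1 k).1.conj (h1 k).2.conj⟩) (fun x => ?_)
  rw [← ext_avg t _ (h2 ((f.hyp ι).res j x)) (g * x * g⁻¹)]
  refine finsum_congr fun k => ?_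
  simp only [Equiv.coe_mulLeft, Subgroup.coe_mul]
  rw [hj.res_eq ((h1 k).1.conj.mul (hj.res_of_stab x.2.1))]
  congr 3
  group

theorem Kill.mI {g : (f.hyp ι).O} {π π' : GL ι F → ℂ} {ρ ρ' : f.O → ℂ}
    (h : f.Kill (g⁻¹.1.toLinearMap.comp (LinearMap.inl F (ι → F) ((ι → F) × V))) π' π ρ) :
    mI (f.P ι) (f.sig π ρ) (f.sig π' ρ') g = 0 := by
  obtain ⟨K, _, _, t, c, h1, h2⟩ := h
  have := Fintype.ofFinite K
  refine sum_eq_zero_of_avg _ (fun k => Equiv.mulLeft (t k)) (fun x => ?_)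
  have h3 := fun k => prS_of_res (h1 k).1.conj (h1 k).2.conj
  rw [← ext_avg (σ := f.sig π' ρ') (fun k => ⟨_, (h3 k).mem⟩) (fun k => f.sig π ρ (t k * x))
    (fun b => ?_) (g * x * g⁻¹)]
  · refine finsum_congr fun k => ?_
    simp only [Equiv.coe_mulLeft, Subgroup.coe_mul]
    congr 3
    group
  · have h4 := congrArg (fun z => conj (z * ρ' (f.pr ι b).2)) (h2 (f.pr ι b).1 x)
    simp only [finsum_eq_sum_of_fintype, Finset.sum_mul, map_sum, map_mul, zero_mul, map_zero,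
      Complex.conj_conj] at h4 ⊢
    rw [← h4]
    refine Finset.sum_congr rfl fun k _ => ?_
    simp only [sig, map_mul, (h3 k).pr, Prod.fst_mul, Prod.snd_mul, one_mul]
    ring

theorem kill_std {j : (κ → F) →ₗ[F] ((ι → F) × (ι → F) × V)} (hj : (f.hyp ι).TS j)
    (θ : GL κ F → ℂ) {π : GL ι F → ℂ} (hπ : IsCharacter _ π) (hc : Cusp π) (ρ : f.O → ℂ)
    {A : Submodule F (ι → F)} (h0 : A ≠ ⊥) (h1 : A ≠ ⊤)
    (hA : (∀ x, x ∈ A ↔ ∀ y, (f.hyp ι).B (x, 0, 0) (j y) = 0) ∨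
      (∀ x, x ∈ A ↔ ∃ y, (x, 0, 0) = j y)) : f.Kill j θ π ρ := by
  choose t a1 a2 a3 a4 using fun u : UA A => sieg_family (ts_std f) hj hA u.2
  have h2 := fun u => prS_of_res (a1 u) (a2 u)
  refine ⟨UA A, inferInstance, inferInstance, fun u => ⟨_, (h2 u).mem⟩, fun _ => 1,
    fun u => ⟨a3 u, a4 u⟩, fun a b => ?_⟩
  have := Fintype.ofFinite (UA A)
  have h3 := hc.sum_mul hπ h0 h1 (f.pr ι b).1
  simp only [sig, map_mul, (h2 _).pr, finsum_eq_sum_of_fintype, Prod.fst_mul,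
    Prod.snd_mul, one_mul, ← Finset.mul_sum, ← Finset.sum_mul, ← map_sum] at h3 ⊢
  simp [h3]

theorem kill_j {j : (κ → F) →ₗ[F] ((ι → F) × (ι → F) × V)} (hj : (f.hyp ι).TS j)
    {θ : GL κ F → ℂ} (hθ : IsCharacter _ θ) (hc : Cusp θ) (π : GL ι F → ℂ) (ρ : f.O → ℂ)
    {A : Submodule F (κ → F)} (h0 : A ≠ ⊥) (h1 : A ≠ ⊤)
    (hA : (∀ x, x ∈ A ↔ ∀ y, (f.hyp ι).B (j x) (y, 0, 0) = 0) ∨
      (∀ x, x ∈ A ↔ ∃ y, j x = (y, 0, 0))) : f.Kill j θ π ρ := by
  choose t a1 a2 a3 a4 using fun u : UA A => sieg_family hj (ts_std f) hA u.2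
  have h2 := fun u => prS_of_res (a3 u) (a4 u)
  refine ⟨UA A, inferInstance, inferInstance, fun u => ⟨_, (h2 u).mem⟩, fun u => u,
    fun u => ⟨a1 u, a2 u⟩, fun a b => ?_⟩
  have := Fintype.ofFinite (UA A)
  have h3 := hc.sum_mul hθ h0 h1 a
  simp only [sig, map_mul, (h2 _).pr, finsum_eq_sum_of_fintype, Prod.fst_mul,
    Prod.snd_mul, one_mul, ← Finset.sum_mul] at h3 ⊢
  simp [h3]

theorem kill_hom {j : (κ → F) →ₗ[F] ((ι → F) × (ι → F) × V)} {θ : GL κ F → ℂ}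
    (hθ : IsCharacter _ θ) {π : GL ι F → ℂ} (hπ : IsCharacter _ π) {ρ : f.O → ℂ}
    (hρ : IsCharacter _ ρ) {K : Type} [Group K] [Finite K] (c : K →* GL κ F)
    (l : K →* GL ι F × f.O) {u : (f.hyp ι).O} (hu : u ∈ f.UU ι)
    (h1 : ∀ k, (f.hyp ι).Res (u.1.toLinearMap.comp j) (f.lev ι (l k)) (c k))
    (h2 : ∀ k, (f.hyp ι).TrivQ (u.1.toLinearMap.comp j) (f.lev ι (l k)))
    (h3 : ∑ᶠ k, θ (c k) * conj (π (l k).1 * ρ (l k).2) = 0) : f.Kill j θ π ρ := by
  refine ⟨K, inferInstance, inferInstance,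
    fun k => ⟨u, UU_le hu⟩⁻¹ * ⟨_, lev_mem (l k)⟩ * ⟨u, UU_le hu⟩, c,
    fun k => ⟨(h1 k).conj, (h2 k).conj⟩, fun a b => ?_⟩
  simp only [sig, map_mul (f.pr ι), map_inv, (pr_eq_one_iff ⟨u, UU_le hu⟩).mpr hu, pr_lev, inv_one,
    one_mul, mul_one]
  exact sum_hom_mul2 hθ (H4.isCharacter_prod hπ hρ) c l h3 a (f.pr ι b)

theorem kill_free {j : (κ → F) →ₗ[F] ((ι → F) × (ι → F) × V)} (hj : (f.hyp ι).TS j)
    {θ : GL κ F → ℂ} (hθ : IsCharacter _ θ) {π : GL ι F → ℂ} (hπ : IsCharacter _ π)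
    {ρ : f.O → ℂ} (hρ : IsCharacter _ ρ) (hf : f.Free θ ρ) (h1 : ∀ y, (j y).2.1 = 0)
    (h2 : ∀ x y, (x, 0, 0) = j y → x = 0) : f.Kill j θ π ρ := by
  let j' : (κ → F) →ₗ[F] V := (LinearMap.snd F _ _).comp ((LinearMap.snd F _ _).comp j)
  have h3 : ∀ y, j y = ((j y).1, 0, j' y) := fun y => by rw [← h1 y]; rfl
  have hj' : f.TS j' := ⟨(injective_iff_map_eq_zero _).mpr (fun y hy => hj.inj (by
      have h4 := h3 y
      rw [hy] at h4
      rw [h4, h2 _ _ h4.symm, map_zero]; rfl)),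
    fun y => by simpa [hyp_Q, h1, j'] using hj.hQ y,
    fun x y => by simpa [hyp_B, h1, j'] using hj.hB x y⟩
  choose v hv using fun i => f.exists_dual_inj hj'.inj
    ((LinearMap.proj i).comp ((LinearMap.fst F _ _).comp j))
  obtain ⟨C, hC⟩ := exists_UD (f := f) v
  obtain ⟨u, hu⟩ := exists_uni hC
  have h4 : ∀ y, (u.1.toLinearMap.comp j) y = (0, 0, j' y) := fun y => by
    change u.1 (j y) = _
    rw [h3, hu]
    simp only [hv]
    simp [funext_iff]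
  obtain ⟨φ, -, hφ⟩ := hj'.exists_resK
  refine kill_hom hθ hπ hρ φ ((1 : KJ hj' →* GL ι F).prod (KJ hj').subtype) hu.mem
    (fun k x => ?_) (fun k t ht => ?_) ?_
  · rw [h4, h4, lev_apply, hφ, ← hj'.res_of_stab k.2.1]
    simp
  · obtain ⟨x, hx⟩ := k.2.2.2 t.2.2 (fun x => by simpa [h4, hyp_B] using ht x)
    refine ⟨x, ?_⟩
    rw [h4, show t = (t.1, t.2.1, t.2.2) from rfl, lev_apply]
    simp [hx, Prod.ext_iff]
  · have := Fintype.ofFinite (KJ hj')
    have h5 := hf j' hj'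
    simp only [hφ, finsum_eq_sum_of_fintype, MonoidHom.prod_apply, MonoidHom.one_apply, map_mul,
      mul_left_comm (θ _), ← Finset.mul_sum, Subgroup.coe_subtype] at h5 ⊢
    rw [h5, mul_zero]

theorem kill_or {j : (κ → F) →ₗ[F] ((ι → F) × (ι → F) × V)} (hj : (f.hyp ι).TS j)
    {θ : GL κ F → ℂ} (hθ : IsCharacter _ θ) {π : GL ι F → ℂ} (hπ : IsCharacter _ π)
    (hc : Cusp π) {ρ : f.O → ℂ} (hρ : IsCharacter _ ρ) (hf : f.Free θ ρ) :
    f.Kill j θ π ρ ∨ (∀ x, (∀ y, (f.hyp ι).B (x, 0, 0) (j y) = 0) → x = 0) ∨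
      ∀ x, ∃ y, (x, 0, 0) = j y := by
  let A := LinearMap.ker (LinearMap.compl₁₂ (f.hyp ι).B (LinearMap.inl F _ _) j)
  have hA : ∀ x, x ∈ A ↔ ∀ y, (f.hyp ι).B (x, 0, 0) (j y) = 0 := fun x => LinearMap.ext_iff
  let A' := (LinearMap.range j).comap (LinearMap.inl F (ι → F) ((ι → F) × V))
  have hA' : ∀ x, x ∈ A' ↔ ∃ y, (x, 0, 0) = j y := fun x => exists_congr fun _ => eq_comm
  by_cases h0 : A = ⊥
  · exact Or.inr (Or.inl fun x hx => by simpa [h0] using (hA x).mpr hx)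
  by_cases h1 : A = ⊤
  swap
  · exact Or.inl (kill_std hj θ hπ hc ρ h0 h1 (Or.inl hA))
  by_cases h2 : A' = ⊤
  · exact Or.inr (Or.inr fun x => (hA' x).mp (by simp [h2]))
  by_cases h3 : A' = ⊥
  swap
  · exact Or.inl (kill_std hj θ hπ hc ρ h3 h2 (Or.inr hA'))
  refine Or.inl (kill_free hj hθ hπ hρ hf (fun y => dotProduct_eq_zero_iff.mp fun x => ?_)
    (fun x y e => by simpa [h3] using (hA' x).mpr ⟨y, e⟩))
  simpa [hyp_B, dotProduct_comm] using (hA x).mp (by simp [h1]) y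

theorem kill_or' [Nonempty ι] {j : (κ → F) →ₗ[F] ((ι → F) × (ι → F) × V)} (hj : (f.hyp ι).TS j)
    {θ : GL κ F → ℂ} (hθ : IsCharacter _ θ) (hc' : Cusp θ) {π : GL ι F → ℂ}
    (hπ : IsCharacter _ π) (hc : Cusp π) {ρ : f.O → ℂ} (hρ : IsCharacter _ ρ) (hf : f.Free θ ρ) :
    f.Kill j θ π ρ ∨ (Fintype.card κ = Fintype.card ι ∧
      ((∀ y, (j y).2.1 = 0 → y = 0) ∨ ∀ y, ∃ x, j y = (x, 0, 0))) := by
  let A := LinearMap.ker (LinearMap.compl₁₂ (f.hyp ι).B j (LinearMap.inl F (ι → F) _))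
  have hA : ∀ x, x ∈ A ↔ ∀ y, (f.hyp ι).B (j x) (y, 0, 0) = 0 := fun x => LinearMap.ext_iff
  let A' := (LinearMap.range (LinearMap.inl F (ι → F) ((ι → F) × V))).comap j
  have hA' : ∀ x, x ∈ A' ↔ ∃ y, j x = (y, 0, 0) := fun x => exists_congr fun _ => eq_comm
  rcases kill_or hj hθ hπ hc hρ hf with h | h | h
  · exact Or.inl h
  · have h1 : A ≠ ⊤ := fun h1 => one_ne_zero (h 1 fun y =>
      (B_eq_zero_comm _).mp ((hA y).mp (by simp [h1]) 1))
    by_cases h0 : A = ⊥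
    swap
    · exact Or.inl (kill_j hj hθ hc' π ρ h0 h1 (Or.inl hA))
    have h2 : ∀ y, (j y).2.1 = 0 → y = 0 := fun y hy => by
      simpa [h0] using (hA y).mpr (fun x => by simp [hyp_B, hy])
    refine Or.inr ⟨le_antisymm ?_ ?_, Or.inl h2⟩
    · simpa using LinearMap.finrank_le_finrank_of_injective (f := (LinearMap.fst F _ _).comp
        ((LinearMap.snd F _ _).comp j)) ((injective_iff_map_eq_zero _).mpr h2)
    · simpa using LinearMap.finrank_le_finrank_of_injective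
        (f := LinearMap.compl₁₂ (f.hyp ι).B (LinearMap.inl F (ι → F) _) j)
        ((injective_iff_map_eq_zero _).mpr fun x hx => h x (LinearMap.ext_iff.mp hx))
  · have h0 : A' ≠ ⊥ := fun h0 => by
      obtain ⟨y, hy⟩ := h 1
      have : y = 0 := by simpa [h0] using (hA' y).mpr ⟨1, hy.symm⟩
      simp [this] at hy
    by_cases h1 : A' = ⊤
    swap
    · exact Or.inl (kill_j hj hθ hc' π ρ h0 h1 (Or.inr hA'))
    have h2 : ∀ y, ∃ x, j y = (x, 0, 0) := fun y => (hA' y).mp (by simp [h1])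
    refine Or.inr ⟨?_, Or.inr h2⟩
    have h3 : LinearMap.range j = LinearMap.range (LinearMap.inl F (ι → F) ((ι → F) × V)) := by
      refine le_antisymm ?_ ?_
      · rintro _ ⟨y, rfl⟩
        exact (h2 y).imp fun _ e => e.symm
      · rintro _ ⟨x, rfl⟩
        exact (h x).imp fun _ e => e.symm
    have h4 := LinearMap.finrank_range_of_inj hj.inj
    rw [h3, LinearMap.finrank_range_of_inj LinearMap.inl_injective] at h4
    simpa using h4.symm

theorem sum_conj_eq_zero {G : Type} [Group G] [Finite G] {θ π : G → ℂ} (hθ : IsCharacter _ θ)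
    (h : ip θ π = 0) (s : G) (z : ℂ) : ∑ᶠ a, θ (s⁻¹ * a * s) * conj (π a * z) = 0 := by
  have := Fintype.ofFinite G
  rw [ip_eq, classInner, mul_eq_zero] at h
  simp only [finsum_eq_sum_of_fintype, map_mul, ← mul_assoc, ← Finset.sum_mul,
    H3.IsClassFunction_conj_inv (H3.IsCharacter_isClassFunction hθ)]
  rw [h.resolve_left (inv_ne_zero (H3.card_ne_zero_complex G)), zero_mul]
theorem m1 [Nonempty ι] {π π' : GL ι F → ℂ} {ρ ρ' : f.O → ℂ} (hπ : IsCharacter _ π)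
    (hπ' : IsCharacter _ π') (hρ : IsCharacter _ ρ) (hρ' : IsCharacter _ ρ') (hc : Cusp π)
    (hf : f.Free π' ρ) :
    ip (f.hc π ρ) (f.hc π' ρ') = (ip π π' + ip (fun g => π (itr g)) π') * ip ρ ρ' := by
  classical
  have := Fintype.ofFinite (f.P ι)
  have := Fintype.ofFinite (GL ι F)
  have := Fintype.ofFinite f.O
  have hw := wey_not_mem (f := f) (ι := ι)
  have h1 : (1 : (f.hyp ι).O) ≠ f.wey ι := fun e => hw (e ▸ one_mem _)
  rw [Fm.hc, Fm.hc, mackey (H3.IsCharacter_isClassFunction (sig_char hπ hρ))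
    (H3.IsCharacter_isClassFunction (sig_char hπ' hρ')) {1, f.wey ι} ?_ ?_, Finset.sum_pair h1,
    add_mul]
  · congr 1
    · rw [ip_eq, ip_eq, ← H4.classInner_prod, ← H3.classInner_comp_of_surjective (f.pr ι)
        pr_surjective, classInner, mI, finsum_eq_sum_of_fintype, div_eq_inv_mul]
      simp [H4.extendByZero_coe, sig]
    · have h2 : Nat.card {h : f.P ι // f.wey ι * h * (f.wey ι)⁻¹ ∈ f.P ι} =
          Nat.card (GL ι F × f.O) := by
        refine (Nat.card_eq_of_bijective (fun l => ⟨⟨_, lev_mem l⟩, by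
          rw [wey_lev]; exact lev_mem _⟩) ⟨fun a b e => lev_injective
            (congrArg (fun t => t.1.1) e), fun h => ?_⟩).symm
        obtain ⟨l, hl⟩ := mem_lev_of_opp h.1.2 h.2
        exact ⟨l, Subtype.ext (Subtype.ext hl)⟩
      let e : GL ι F × f.O ≃ GL ι F × f.O :=
        (Function.Involutive.toPerm itr itr_itr).prodCongr (Equiv.refl _)
      rw [ip_eq, ip_eq, ← H4.classInner_prod, ← H4.classInner_comp_equiv e, classInner, mI,
        finsum_eq_sum_of_fintype, div_eq_inv_mul, h2]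
      congr 1
      refine (Fintype.sum_of_injective (fun l => (⟨_, lev_mem l⟩ : f.P ι))
        (fun a b e => lev_injective (congrArg Subtype.val e)) _ _ (fun h hh => ?_)
        (fun l => ?_)).symm
      · rw [H4.extendByZero_of_notMem _ _ (fun h3 => hh ?_), map_zero, mul_zero]
        obtain ⟨l, hl⟩ := mem_lev_of_opp h.2 h3
        exact ⟨l, Subtype.ext hl⟩
      · obtain ⟨a, b⟩ := l
        simp only [wey_lev]
        rw [H4.extendByZero_of_mem _ _ (lev_mem _)]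
        simp [sig, pr_lev, e, itr_itr, Function.Involutive.toPerm]
  · intro s hs s' hs' p hp p' hp' e
    simp only [Finset.mem_insert, Finset.mem_singleton] at hs hs'
    rcases hs with rfl | rfl <;> rcases hs' with rfl | rfl
    · rfl
    · exact absurd (e ▸ mul_mem (mul_mem hp (one_mem _)) hp') hw
    · refine absurd ?_ hw
      rw [← mul_mem_cancel_left hp, ← mul_mem_cancel_right hp', ← e]
      exact one_mem _
    · rfl
  · intro g hg
    rcases kill_or ((ts_std f).comp g⁻¹) hπ' hπ hc hρ hf with h | h | h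
    · exact h.mI
    · obtain ⟨u, hu, p, hp, e⟩ := mem_cell (g := g) (fun x hx => h x fun y => by
        rw [← g.2.2]
        change (f.hyp ι).B _ (g.1 (g⁻¹.1 (y, 0, 0))) = 0
        rw [app_inv]
        simp [hyp_B, hx])
      exact absurd e (hg _ (by simp) u (UU_le hu) p hp)
    · refine absurd (by simp) (hg 1 (by simp) g ⟨_, (ts_std f).res_of_stab (g := g) fun x => ?_⟩
        1 (one_mem _))
      obtain ⟨y, hy⟩ := h x
      exact ⟨y, (congrArg g.1 hy).trans (app_inv g _)⟩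

theorem m2 [Nonempty ι] [Nonempty κ] {π : GL ι F → ℂ} {θ : GL κ F → ℂ} {ρ : f.O → ℂ}
    (hπ : IsCharacter _ π) (hθ : IsCharacter _ θ) (hρ : IsCharacter _ ρ) (hc : Cusp π)
    (hc' : Cusp θ) (hf : f.Free θ ρ) (hne : Fintype.card κ ≠ Fintype.card ι) :
    (f.hyp ι).Free θ (f.hc π ρ) := by
  intro j hj
  refine sum_mul_ind_eq_zero (fun g => Kill.kj hj ?_)
  exact (kill_or' (hj.comp g) hθ hc' hπ hc hρ hf).resolve_right (fun h => hne h.1)

theorem m2' [Nonempty ι] {π θ : GL ι F → ℂ} {ρ : f.O → ℂ}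
    (hπ : IsCharacter _ π) (hθ : IsCharacter _ θ) (hρ : IsCharacter _ ρ) (hc : Cusp π)
    (hc' : Cusp θ) (hf : f.Free θ ρ) (h1 : ip θ π = 0) (h2 : ip θ (fun g => π (itr g)) = 0) :
    (f.hyp ι).Free θ (f.hc π ρ) := by
  intro j hj
  refine sum_mul_ind_eq_zero (fun g => Kill.kj hj ?_)
  have hj' := hj.comp g
  generalize g.1.toLinearMap.comp j = j at hj'
  rcases kill_or' hj' hθ hc' hπ hc hρ hf with h | ⟨-, h | h⟩
  · exact h
  · obtain ⟨s, hs⟩ := exists_gl ((LinearMap.fst F _ _).comp ((LinearMap.snd F _ _).comp j))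
      ((injective_iff_map_eq_zero _).mpr h)
    obtain ⟨v, C, h3, h4⟩ := ud_of_sing (f := f)
      (j := j.comp (Matrix.toLin' ((s⁻¹ : GL ι F) : Matrix ι ι F))) (fun x => hj'.hQ _)
      (fun x y => hj'.hB _ _) (fun y => (hs _).symm.trans (by
        rw [Matrix.toLin'_apply, Matrix.mulVec_mulVec, Units.mul_inv, Matrix.one_mulVec]))
    obtain ⟨u, hu⟩ := exists_uni h3
    have h5 : ∀ y, (u⁻¹.1.toLinearMap.comp j) y = (0, (s : Matrix ι ι F) *ᵥ y, 0) := fun y => by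
      have h6 := h4 ((s : Matrix ι ι F) *ᵥ y)
      simp only [LinearMap.comp_apply, Matrix.toLin'_apply, Matrix.mulVec_mulVec, Units.inv_mul,
        Matrix.one_mulVec] at h6
      change u⁻¹.1 (j y) = _
      rw [← inv_app u (0, _, 0), hu, h6]
      simp only [Matrix.mulVec_mulVec, map_zero, LinearMap.zero_apply, zero_add]
      exact congrArg _ (Prod.ext (sub_zero _).symm rfl)
    refine kill_hom hθ hπ hρ (MulAut.conj s⁻¹).toMonoidHom (itr.prod 1) (inv_mem hu.mem)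
      (fun a x => ?_) (fun a t ht => ?_) (by simpa using sum_conj_eq_zero hθ h2 s (ρ 1))
    · rw [h5, h5, lev_apply]
      simp [itr_itr, ← Matrix.mul_assoc]
    · have h6 : t.1 = 0 := dotProduct_eq_zero_iff.mp fun x => by
        have := ht (((s⁻¹ : GL ι F) : Matrix ι ι F) *ᵥ x)
        rw [h5, Matrix.mulVec_mulVec, Units.mul_inv, Matrix.one_mulVec] at this
        simpa [hyp_B, dotProduct_comm] using this
      refine ⟨((s⁻¹ : GL ι F) : Matrix ι ι F) *ᵥ ((a : Matrix ι ι F) *ᵥ t.2.1 - t.2.1), ?_⟩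
      rw [h5, Matrix.mulVec_mulVec, Units.mul_inv, Matrix.one_mulVec,
        show t = (t.1, t.2.1, t.2.2) from rfl, lev_apply, h6]
      simp [itr_itr, Prod.ext_iff]
  · have h3 : ∀ y, j y = ((j y).1, 0, 0) := fun y => by
      obtain ⟨x, hx⟩ := h y
      rw [hx]
    obtain ⟨s, hs⟩ := exists_gl ((LinearMap.fst F _ _).comp j) (fun a b e => hj'.inj (by
      rw [h3, h3 b]; exact congrArg (fun t => (t, 0, 0)) e))
    have h5 : ∀ y, ((1 : (f.hyp ι).O).1.toLinearMap.comp j) y =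
        ((s : Matrix ι ι F) *ᵥ y, 0, 0) := fun y => by rw [hs]; exact h3 y
    refine kill_hom hθ hπ hρ (MulAut.conj s⁻¹).toMonoidHom ((MonoidHom.id _).prod 1) (one_mem _)
      (fun a x => ?_) (fun a t ht => ?_) (by simpa using sum_conj_eq_zero hθ h1 s (ρ 1))
    · rw [h5, h5, lev_apply]
      simp [← Matrix.mul_assoc]
    · have h6 : t.2.1 = 0 := dotProduct_eq_zero_iff.mp fun x => by
        have := ht (((s⁻¹ : GL ι F) : Matrix ι ι F) *ᵥ x)
        rw [h5, Matrix.mulVec_mulVec, Units.mul_inv, Matrix.one_mulVec] at this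
        simpa [hyp_B, dotProduct_comm] using this
      refine ⟨((s⁻¹ : GL ι F) : Matrix ι ι F) *ᵥ ((a : Matrix ι ι F) *ᵥ t.1 - t.1), ?_⟩
      rw [h5, Matrix.mulVec_mulVec, Units.mul_inv, Matrix.one_mulVec,
        show t = (t.1, t.2.1, t.2.2) from rfl, lev_apply, h6]
      simp

end Cfsg.Agent.DG.Fm
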