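import Cfsg.Agent.Lib.DG.MainC

/-!
# Type B (row DG-MainB, see notes/DG.md)
-/

set_option autoImplicit false

open scoped ComplexConjugate Matrix
open Module Cfsg

namespace Cfsg.Agent.DG.Fm

variable {F : Type} [Field F] [Finite F]

theorem gc_any {a : ℕ} (ha : 1 ≤ a) (h : a = 1 → 3 ≤ Nat.card F) :
    ∃ (π : GL (Fin (2 ^ a)) F → ℂ) (s : ℂ), GC π s := by
  by_cases h1 : a = 1 ∧ Nat.card F = 3
  · obtain ⟨rfl, h3⟩ := h1
    obtain ⟨π, hπ⟩ := gc_two_odd h3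
    exact ⟨π, _, hπ⟩
  · obtain ⟨π, hπ⟩ := gc_pow (F := F) ha (fun h2 => by have := h h2; omega)
    exact ⟨π, _, hπ⟩

theorem singleO {G : Type*} [Group G] {c d D : ℕ} (hd : IsDeg G d) (hD : D ∣ c * d) (hc : c ∣ 4)
    (h : ∀ r : ℕ, r.Prime → r ∣ Nat.card G → r ∣ D)
    (h2 : 8 ∣ D ∨ (c ∣ 2 ∧ 4 ∣ D) ∨ c = 1) : Cpl G :=
  cpl_of_all hd (fun r hr h1 => dvd_crude hr rfl hc ((h r hr h1).trans hD) (fun _ =>
    h2.imp (·.trans hD) (Or.imp_left (And.imp_right (·.trans hD)))))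

theorem even_two_pow {a : ℕ} (ha : 1 ≤ a) : Even (2 ^ a) :=
  (Nat.even_pow' (by omega)).mpr even_two

theorem caseB (h : (2 : F) ≠ 0) {a m n : ℕ} (ha : 1 ≤ a) (hm : 1 ≤ m) (hm' : m ≤ 2 ^ a)
    (hn : m + 2 ^ a = n) : Cpl (PO ((lineFm h).hyp (Fin n)).O) := by
  have hodd := odd_q_of_two_ne h
  have hq := two_le_q (F := F)
  have hq3 : 3 ≤ Nat.card F := by obtain ⟨x, hx⟩ := hodd; omega
  obtain ⟨π, s, hπ⟩ := gc_any (F := F) ha (fun _ => hq3)
  have hk : 0 < 2 ^ a := by positivity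
  have hk2 : 2 ^ 1 ≤ 2 ^ a := Nat.pow_le_pow_right (by norm_num) ha
  have key : ∀ {V : Type} [AddCommGroup V] [Module F V] [Finite V] {f : Fm false F V},
      St f m (lineFm h) → ∀ {ρ : f.O → ℂ}, IsIrrCharacter _ ρ → f.FreeAll ρ →
      (∀ r : ℕ, r.Prime → r ∣ Nat.card F → r ∣ charDegree ρ) →
      Cpl (PO ((lineFm h).hyp (Fin n)).O) := by
    intro V _ _ _ f hf ρ h1 h2 h3
    obtain ⟨c, d, e1, e2, e3, -⟩ := supO (line_aniso h) hn (by omega) hf hk hπ h1 (h2.gc hk hπ)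
      (Or.inr (neg_not_mem_odd h (by rw [(hf.hyp _).finrank]; simp)))
    rw [line_tp] at e2
    refine singleO e1 e2 e3 (fun r hr h4 => ?_)
      (Or.inl ((nt8 hq hodd hodd (even_two_pow ha) hk).mul_right _))
    by_cases h5 : r ∣ Nat.card F
    · exact (h3 r hr h5).mul_left _
    · have h6 := (prB h (by omega) hr h4).resolve_left h5
      rw [← hn] at h6
      exact (nt1 hq hr h5 (Or.inr rfl) (even_two_pow ha) hk hm' h6).mul_right _
  by_cases hm1 : m = 1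
  · subst hm1
    obtain ⟨ρ, h1, h2, -, h4⟩ := rank2 (line_aniso h)
    exact key (st1 _) h1 h4 (fun r _ hr => by rwa [h2, line_tp])
  · obtain ⟨m, rfl⟩ : ∃ m', m = m' + 1 := ⟨m - 1, by omega⟩
    obtain ⟨ρ, -, h1, -, h2, -, -, -, h4, -⟩ := rank3 (line_aniso h) (St.refl _ m) (by omega)
    rw [line_tp] at h2
    exact key (stS _ m) h1 h4
      (fun r hr hr' => prime_dvd_of_two_mul hq3 q_primePow hr hr' (d1_self hq h2))

theorem cplB (h : (2 : F) ≠ 0) {n : ℕ} (hn : 3 ≤ n) : Cpl (PO ((lineFm h).hyp (Fin n)).O) := by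
  by_cases h5 : 5 ≤ n
  · obtain ⟨a, m, ha, hm, hm', e⟩ := exists_K h5
    exact caseB h (by omega) hm hm' e
  · exact caseB h (a := 1) (m := n - 2) le_rfl (by omega) (by omega) (by omega)

end Cfsg.Agent.DG.Fm
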