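import Cfsg.Agent.Lib.DG.Sup

/-!
# Type C (row DG-MainC, see notes/DG.md)
-/

set_option autoImplicit false

open scoped ComplexConjugate Matrix
open Module Cfsg

namespace Cfsg.Agent.DG.Fm

variable {F : Type} [Field F] [Finite F]

theorem singleC {m k n d e : ℕ} (hn : m + k = n) (hk : Even k) (hk0 : 0 < k) (hm : m ≤ k)
    (hd : IsDeg (PS ((zeroFm true F).hyp (Fin n)).O) d)
    (h : DD (Nat.card F) (Nat.card F) m k * e ∣ d)
    (he : ∀ r : ℕ, r.Prime → r ∣ Nat.card F → r ∣ e) :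
    Cpl (PS ((zeroFm true F).hyp (Fin n)).O) := by
  refine cpl_of_all hd (fun r hr h1 => ?_)
  by_cases hq : r ∣ Nat.card F
  · exact ((he r hr hq).mul_left _).trans h
  · have h2 := (prC hr h1).resolve_left hq
    rw [← hn] at h2
    exact ((nt1 two_le_q hr hq (Or.inr rfl) hk hk0 hm h2).mul_right _).trans h

theorem st1 {sy : Bool} {V : Type} [AddCommGroup V] [Module F V] (a : Fm sy F V) :
    St (a.hyp (Fin 1)) 1 a := St.refl a 1

theorem stS {sy : Bool} {V : Type} [AddCommGroup V] [Module F V] (a : Fm sy F V) (m : ℕ) :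
    St ((a.hyp (Fin m)).hyp (Fin 1)) (m + 1) a := (St.refl a m).hyp 1

/-- `k = 2^a` with the Steinberg character of `Sp₂` -/
theorem caseC1 {a n : ℕ} (ha : 1 ≤ a) (h : a = 1 → 4 ≤ Nat.card F) (hn : 1 + 2 ^ a = n) :
    Cpl (PS ((zeroFm true F).hyp (Fin n)).O) := by
  obtain ⟨π, hπ⟩ := gc_pow (F := F) ha h
  obtain ⟨ρ, h1, h2, h3, h4⟩ := rank2 (zero_aniso (F := F) true)
  have hk : 0 < 2 ^ a := by positivity
  obtain ⟨d, hd, h5⟩ := supC hn (st1 _) hk hπ h1 (h4.gc hk hπ) h3 (one_mul _)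
  refine singleC hn ((Nat.even_pow' (by omega)).mpr even_two) hk hk hd h5 (fun r _ hr => ?_)
  rwa [h2, zero_tp_true]

/-- `k = 2^a` with the first rank three character -/
theorem caseC2 {a m n : ℕ} (ha : 1 ≤ a) (h : a = 1 → 4 ≤ Nat.card F) (hq : 3 ≤ Nat.card F)
    (hm : 1 ≤ m) (hm' : m + 1 ≤ 2 ^ a) (hn : m + 1 + 2 ^ a = n) :
    Cpl (PS ((zeroFm true F).hyp (Fin n)).O) := by
  obtain ⟨π, hπ⟩ := gc_pow (F := F) ha h
  obtain ⟨ρ, -, h1, -, h2, -, h3, -, h4, -⟩ := rank3 (zero_aniso (F := F) true) (St.refl _ m) hm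
  have hk : 0 < 2 ^ a := by positivity
  obtain ⟨d, hd, h5⟩ := supC hn (stS _ m) hk hπ h1 (h4.gc hk hπ) h3 (one_mul _)
  refine singleC hn ((Nat.even_pow' (by omega)).mpr even_two) hk hm' hd h5 (fun r hr hr' => ?_)
  rw [zero_tp_true] at h2
  exact prime_dvd_of_two_mul hq q_primePow hr hr' (d1_self two_le_q h2)

theorem caseC3 {a m n : ℕ} (ha : 2 ≤ a) (hq : Nat.card F = 2) (hm' : m + 2 ≤ 2 ^ a)
    (hn : m + 2 + 2 ^ a = n) : Cpl (PS ((zeroFm true F).hyp (Fin n)).O) := by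
  obtain ⟨π, hπ⟩ := gc_pow (F := F) (a := a) (by omega) (by omega)
  obtain ⟨ρ, h1, h2, h3, -⟩ := sp_even hq (St.refl (zeroFm true F) m)
  have hk : 0 < 2 ^ a := by positivity
  have hk4 : 2 ^ 2 ≤ 2 ^ a := Nat.pow_le_pow_right (by norm_num) ha
  obtain ⟨d, hd, h5⟩ := supC hn ((St.refl _ m).hyp 2) hk hπ h1
    (h2 _ π hk (by omega) hπ.irr hπ.cusp) (sg_of_even (by rw [hq]; exact even_two) ρ) (one_mul _)
  refine singleC hn ((Nat.even_pow' (by omega)).mpr even_two) hk hm' hd h5 (fun r hr hr' => ?_)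
  rw [hq] at hr'
  exact hr'.trans h3

theorem topC {k : ℕ} (hk : 0 < k) {π : GL (Fin k) F → ℂ} (hπ : GC π 1) :
    ∃ d, IsDeg (PS ((zeroFm true F).hyp (Fin k)).O) d ∧ DD (Nat.card F) (Nat.card F) 0 k ∣ d := by
  obtain ⟨d, hd, h⟩ := supC (zero_add k) (St.zero _) hk hπ irr_one (freeAll_one.gc hk hπ)
    (sg_one _) (one_mul _)
  exact ⟨d, hd, by simpa [deg_one] using h⟩

theorem t2C {m : ℕ} (hm : 1 ≤ m) : ∃ d₁ d₂, IsDeg (PS ((zeroFm true F).hyp (Fin (m + 1))).O) d₁ ∧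
    IsDeg (PS ((zeroFm true F).hyp (Fin (m + 1))).O) d₂ ∧
    IsD1 (Nat.card F) (Nat.card F) (m + 1) d₁ ∧ IsD2 (Nat.card F) (Nat.card F) (m + 1) d₂ := by
  obtain ⟨χ₁, χ₂, h1, h2, h3, h4, h5, h6, -⟩ :=
    rank3 (zero_aniso (F := F) true) (St.refl _ m) hm
  rw [zero_tp_true] at h3 h4
  exact ⟨_, _, dirC (stS _ m) h1 h5, dirC (stS _ m) h2 h6, h3, h4⟩

theorem cplC2 (hq : 3 ≤ Nat.card F) : Cpl (PS ((zeroFm true F).hyp (Fin 2)).O) := by
  obtain ⟨d, hd, h⟩ := sp4 (F := F)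
  by_cases h3 : Nat.card F = 3
  · refine cpl_of_all hd (fun r hr h1 => h r hr ?_)
    have h2 := prC hr h1
    rw [h3] at h2 ⊢
    have : r ∈ [2, 3, 5] := mem_of_dvd_pow (N := 3 * pp 3 3 0 2) (e := 7) hr _ (by norm_num)
      (by decide) (h2.elim (·.mul_right _) (·.mul_left _))
    simp only [List.mem_cons, List.not_mem_nil, or_false] at this
    rcases this with rfl | rfl | rfl <;> norm_num
  obtain ⟨π, hπ⟩ := gc_pow (F := F) (a := 1) le_rfl (fun _ => by omega)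
  obtain ⟨d₀, hd₀, h₀⟩ := topC (k := 2) two_pos hπ
  obtain ⟨d₁, -, hd₁, -, h₁, -⟩ := t2C (F := F) (m := 1) le_rfl
  have key : ∀ r s : ℕ, r.Prime → s.Prime → r ∣ Nat.card F → ¬ s ∣ Nat.card F →
      s ∣ pp (Nat.card F) (Nat.card F) 0 2 →
      ∃ d, IsDeg (PS ((zeroFm true F).hyp (Fin 2)).O) d ∧ r ∣ d ∧ s ∣ d := by
    intro r s hr hs h1 h2 h4
    obtain ⟨x, hx⟩ : ∃ x, Nat.card F = x + 1 := ⟨Nat.card F - 1, by omega⟩
    by_cases h5 : s ∣ Nat.card F * (Nat.card F ^ 2 + 1) * (Nat.card F - 1)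
    · exact ⟨d, hd, h r hr ((h1.mul_right _).mul_right _), h s hs h5⟩
    refine ⟨d₁, hd₁, prime_dvd_of_two_mul hq q_primePow hr h1 (d1_self two_le_q h₁), ?_⟩
    have e1 : pp (Nat.card F) (Nat.card F) 0 2 =
        (Nat.card F + 1) ^ 2 * ((Nat.card F ^ 2 + 1) * (Nat.card F - 1) * (Nat.card F - 1)) := by
      have : (x + 1) ^ 2 - 1 = x * (x + 2) := by
        rw [Nat.sub_eq_iff_eq_add (Nat.one_le_pow _ _ (by omega))]; ring
      simp only [pp, Finset.prod_range_succ, Finset.range_zero, Finset.prod_empty, hx]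
      norm_num [this]
      ring
    have h6 : s ∣ Nat.card F + 1 := by
      rw [e1] at h4
      rcases (Nat.Prime.dvd_mul hs).mp h4 with h6 | h6
      · exact hs.dvd_of_dvd_pow h6
      · exfalso
        rcases (Nat.Prime.dvd_mul hs).mp h6 with h7 | h7
        · exact h5 (by rw [mul_assoc]; exact h7.mul_left _)
        · exact h5 (h7.mul_left _)
    have h7 : ¬ s ∣ Nat.card F - 1 := fun h7 => h5 (h7.mul_left _)
    have h8 : s ≠ 2 := by
      rintro rfl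
      omega
    have h9 : s ∣ d₁ * ((Nat.card F - 1) * (Nat.card F + Nat.card F)) := by
      rw [h₁]
      exact Dvd.dvd.mul_left (by simpa using h6) _
    rcases (Nat.Prime.dvd_mul hs).mp h9 with h10 | h10
    · exact h10
    · exfalso
      rcases (Nat.Prime.dvd_mul hs).mp h10 with h11 | h11
      · exact h7 h11
      · rw [← two_mul] at h11
        rcases (Nat.Prime.dvd_mul hs).mp h11 with h12 | h12
        · exact h8 ((Nat.prime_dvd_prime_iff_eq hs Nat.prime_two).mp h12)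
        · exact h2 h12
  intro r s hr hs hrs h1 h2
  by_cases hr' : r ∣ Nat.card F <;> by_cases hs' : s ∣ Nat.card F
  · exact ⟨d, hd, h r hr ((hr'.mul_right _).mul_right _), h s hs ((hs'.mul_right _).mul_right _)⟩
  · exact key r s hr hs hr' hs' ((prC hs h2).resolve_left hs')
  · obtain ⟨d, h3, h4, h5⟩ := key s r hs hr hs' hr' ((prC hr h1).resolve_left hr')
    exact ⟨d, h3, h5, h4⟩
  · exact ⟨d₀, hd₀, (nt1 two_le_q hr hr' (Or.inr rfl) even_two two_pos (Nat.zero_le _)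
      ((prC hr h1).resolve_left hr')).trans h₀, (nt1 two_le_q hs hs' (Or.inr rfl) even_two two_pos
      (Nat.zero_le _) ((prC hs h2).resolve_left hs')).trans h₀⟩

theorem neg1_ne_one {sy : Bool} {V : Type} [AddCommGroup V] [Module F V] (f : Fm sy F V)
    (hq : Odd (Nat.card F)) {v : V} (hv : v ≠ 0) : f.neg1 ≠ 1 := by
  intro h
  have h1 : -v = v := by
    rw [← f.neg1_apply, h]; rfl
  have h2 : (2 : F) ≠ 0 := by
    intro h0
    have := Fintype.ofFinite F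
    have hc : ringChar F = 2 := by
      have := (ringChar.spec F 2).mp (by exact_mod_cast h0)
      exact ((Nat.dvd_prime Nat.prime_two).mp this).resolve_left CharP.ringChar_ne_one
    have := FiniteField.even_card_of_char_two hc
    rw [Nat.card_eq_fintype_card, Nat.odd_iff] at hq
    omega
  have h3 : (2 : F) • v = 0 := by
    rw [two_smul]
    nth_rewrite 1 [← h1]
    simp
  exact hv ((smul_eq_zero.mp h3).resolve_left h2)

theorem cplC3 : Cpl (PS ((zeroFm true F).hyp (Fin 3)).O) := by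
  have hq := two_le_q (F := F)
  by_cases h2 : Nat.card F = 2
  · refine cpl_of_all (sp6 h2) (fun r hr h1 => ?_)
    have h3 := prC hr h1
    rw [h2] at h3
    have : r ∈ [2, 3, 5, 7] := mem_of_dvd_pow (N := 2 * pp 2 2 0 3) (e := 4) hr _ (by norm_num)
      (by decide) (h3.elim (·.mul_right _) (·.mul_left _))
    simp only [List.mem_cons, List.not_mem_nil, or_false] at this
    rcases this with rfl | rfl | rfl | rfl <;> norm_num
  by_cases h3 : Nat.card F = 3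
  swap
  · exact caseC1 (a := 1) le_rfl (fun _ => by omega) rfl
  obtain ⟨π, hπ⟩ := gc_two_odd h3
  obtain ⟨v, hv, -⟩ := (st1 (zeroFm true F)).exists_sing le_rfl
  obtain ⟨ρ, hρ, hs⟩ := exists_odd_irr (neg1_ne_one ((zeroFm true F).hyp (Fin 1))
    (by rw [h3]; decide) hv) (neg1_sq _) (neg1_comm _)
  obtain ⟨d₀, hd₀, h₀⟩ := supC (n := 3) rfl (st1 _) two_pos hπ hρ
    (free_of_dim (by rw [(st1 (zeroFm true F)).finrank]; simp) _ _) hs (by norm_num)
  obtain ⟨d₁, d₂, hd₁, hd₂, h₁, h₂⟩ := t2C (F := F) (m := 2) (by norm_num)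
  rw [h3] at h₀ h₁ h₂
  refine cpl_list [2, 3, 5, 7, 13] [7280, 195, 168] (fun r hr h => ?_) ?_ (by decide)
  · have h4 := prC hr h
    rw [h3] at h4
    exact mem_of_dvd_pow (N := 3 * pp 3 3 0 3) (e := 10) hr _ (by norm_num)
      (by decide) (h4.elim (·.mul_right _) (·.mul_left _))
  · simp only [List.mem_cons, List.not_mem_nil, or_false, forall_eq_or_imp, forall_eq]
    norm_num [IsD1, IsD2] at h₁ h₂
    exact ⟨⟨d₀, hd₀, (Dvd.intro _ rfl).trans h₀⟩, ⟨d₁, hd₁, by omega⟩, ⟨d₂, hd₂, by omega⟩⟩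

theorem cplC4 : Cpl (PS ((zeroFm true F).hyp (Fin 4)).O) := by
  have hq := two_le_q (F := F)
  by_cases h4 : 4 ≤ Nat.card F
  · exact caseC2 (a := 1) (m := 1) le_rfl (fun _ => h4) (by omega) le_rfl le_rfl rfl
  obtain ⟨π, hπ⟩ := gc_pow (F := F) (a := 2) (by norm_num) (by norm_num)
  obtain ⟨d₀, hd₀, h₀⟩ := topC (k := 4) (by norm_num) hπ
  by_cases h3 : Nat.card F = 3
  · obtain ⟨d₁, d₂, hd₁, hd₂, h₁, h₂⟩ := t2C (F := F) (m := 3) (by norm_num)
    rw [h3] at h₀ h₁ h₂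
    refine cpl_list [2, 3, 5, 7, 13, 41] [38205440, 1680, 1599] (fun r hr h => ?_) ?_ (by decide)
    · have h4 := prC hr h
      rw [h3] at h4
      exact mem_of_dvd_pow (N := 3 * pp 3 3 0 4) (e := 15) hr _ (by norm_num)
        (by decide) (h4.elim (·.mul_right _) (·.mul_left _))
    · simp only [List.mem_cons, List.not_mem_nil, or_false, forall_eq_or_imp, forall_eq]
      norm_num [IsD1, IsD2] at h₁ h₂
      exact ⟨⟨d₀, hd₀, h₀⟩, ⟨d₁, hd₁, by omega⟩, ⟨d₂, hd₂, by omega⟩⟩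
  have h2 : Nat.card F = 2 := by omega
  obtain ⟨π₃, hπ₃⟩ := gc_three (F := F) (by omega)
  obtain ⟨ρ, h5, h6, h7, h8⟩ := rank2 (zero_aniso (F := F) true)
  obtain ⟨d₁, hd₁, h₁⟩ := supC (n := 4) rfl (st1 _) (by norm_num) hπ₃ h5
    (h8.gc (by norm_num) hπ₃) h7 (one_mul _)
  obtain ⟨χ, e1, -, e2, e3⟩ := sp_even h2 (St.refl (zeroFm true F) 2)
  have hd₂ := dirC ((St.refl (zeroFm true F) 2).hyp 2) e1
    (sg_of_even (by rw [h2]; exact even_two) χ)
  rw [h6, zero_tp_true, h2] at h₁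
  rw [h2] at h₀
  refine cpl_list [2, 3, 5, 7, 17] [48195, 68850, 14] (fun r hr h => ?_) ?_ (by decide)
  · have h4 := prC hr h
    rw [h2] at h4
    exact mem_of_dvd_pow (N := 2 * pp 2 2 0 4) (e := 5) hr _ (by norm_num)
      (by decide) (h4.elim (·.mul_right _) (·.mul_left _))
  · simp only [List.mem_cons, List.not_mem_nil, or_false, forall_eq_or_imp, forall_eq]
    have e4 := e3 (by decide)
    exact ⟨⟨d₀, hd₀, h₀⟩, ⟨d₁, hd₁, h₁⟩, ⟨_, hd₂, by omega⟩⟩

theorem cplC {n : ℕ} (hn : 2 ≤ n) (h2 : n = 2 → 3 ≤ Nat.card F) :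
    Cpl (PS ((zeroFm true F).hyp (Fin n)).O) := by
  by_cases h5 : 5 ≤ n
  · obtain ⟨a, m, ha, hm, hm', e⟩ := exists_K h5
    by_cases hm1 : m = 1
    · subst hm1
      exact caseC1 (by omega) (by omega) e
    by_cases hq : Nat.card F = 2
    · obtain ⟨m, rfl⟩ : ∃ m', m = m' + 2 := ⟨m - 2, by omega⟩
      exact caseC3 ha hq hm' e
    · obtain ⟨m, rfl⟩ : ∃ m', m = m' + 1 := ⟨m - 1, by omega⟩
      have := two_le_q (F := F)
      exact caseC2 (by omega) (by omega) (by omega) (by omega) hm' e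
  · obtain rfl | rfl | rfl : n = 2 ∨ n = 3 ∨ n = 4 := by omega
    · exact cplC2 (h2 rfl)
    · exact cplC3
    · exact cplC4

end Cfsg.Agent.DG.Fm
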