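import Cfsg.Agent.Lib.DG.MainB

/-!
# Type D (row DG-MainD, see notes/DG.md)
-/

set_option autoImplicit false

open scoped ComplexConjugate Matrix
open Module Cfsg

namespace Cfsg.Agent.DG.Fm

variable {F : Type} [Field F] [Finite F]

/-- `k = 2^a` with the second rank three character -/
theorem caseD2 {a m n : ℕ} (ha : 1 ≤ a) (h : a = 1 → 4 ≤ Nat.card F) (hm : 1 ≤ m)
    (hm' : m + 1 ≤ 2 ^ a) (hn : m + 1 + 2 ^ a = n) :
    Cpl (PO ((zeroFm false F).hyp (Fin n)).O) := by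
  have hq := two_le_q (F := F)
  obtain ⟨π, hπ⟩ := gc_pow (F := F) ha h
  have hk : 0 < 2 ^ a := by positivity
  obtain ⟨-, ρ, -, h1, -, h2, -, h3, -, h4, -⟩ :=
    rank3 (zero_aniso (F := F) false) (St.refl _ m) hm
  obtain ⟨c, d, e1, e2, e3, e4, -⟩ := supO (zero_aniso false) hn (by omega) (stS _ m) hk hπ h1
    (h4.gc hk hπ) (Or.inl ⟨rfl, h3⟩)
  rw [zero_tp_false] at e2 h2
  have h5 := d2_one hq h2
  refine singleO e1 e2 e3 (fun r hr h6 => ?_) ?_
  · by_cases h7 : r ∣ Nat.card F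
    · exact ((h7.trans (dvd_pow_self _ two_ne_zero)).trans h5).mul_left _
    · have h8 := (prD hr h6).resolve_left h7
      rw [← hn] at h8
      exact (nt1 hq hr h7 (Or.inl rfl) (even_two_pow ha) hk hm' h8).mul_right _
  · rcases Nat.even_or_odd (Nat.card F) with h6 | h6
    · exact Or.inr (Or.inl ⟨e4 h6, ((pow_dvd_pow_of_dvd h6.two_dvd 2).trans h5).mul_left _⟩)
    · exact Or.inl ((nt8 hq h6 odd_one (even_two_pow ha) hk).mul_right _)

/-- `k = 2^a`, `m = k + 1` with the first rank three character -/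
theorem caseD1 {a n : ℕ} (ha : 1 ≤ a) (h : a = 1 → 3 ≤ Nat.card F)
    (hn : 2 ^ a + 1 + 2 ^ a = n) : Cpl (PO ((zeroFm false F).hyp (Fin n)).O) := by
  have hq := two_le_q (F := F)
  have hk : 0 < 2 ^ a := by positivity
  have hk2 : 2 ^ 1 ≤ 2 ^ a := Nat.pow_le_pow_right (by norm_num) ha
  obtain ⟨ρ, ρ₂, h1, -, h2, -, h3, -, h4, -, h5, -⟩ :=
    rank3 (zero_aniso (F := F) false) (St.refl _ (2 ^ a)) hk
  have : ∃ (π : GL (Fin (2 ^ a)) F → ℂ) (s : ℂ), GC π s ∧ (s = 1 ∨ (a = 1 ∧ Nat.card F = 3)) := by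
    by_cases h6 : a = 1 ∧ Nat.card F = 3
    · obtain ⟨π, s, hπ⟩ := gc_any ha h
      exact ⟨π, s, hπ, Or.inr h6⟩
    · obtain ⟨π, hπ⟩ := gc_pow (F := F) ha (fun h2 => by have := h h2; omega)
      exact ⟨π, _, hπ, Or.inl rfl⟩
  obtain ⟨π, s, hπ, hs⟩ := this
  obtain ⟨c, d, e1, e2, e3, e4, e5⟩ := supO (zero_aniso false) hn (by omega) (stS _ _) hk hπ h1
    (h4.gc hk hπ) (hs.imp (fun h6 => ⟨h6, h3⟩) (fun h6 => neg_not_mem_D5 h6.2 (by
      obtain ⟨rfl, -⟩ := h6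
      exact (stS (zeroFm false F) 2).hyp 2)))
  rw [zero_tp_false] at e2 h2
  have h6 := d1_one hq h2
  refine singleO e1 e2 e3 (fun r hr h7 => ?_) ?_
  · by_cases h8 : r ∣ Nat.card F
    · exact (h8.trans h6).mul_left _
    · have h9 := (prD hr h7).resolve_left h8
      rw [← hn] at h9
      exact nt2 hq hr h8 (even_two_pow ha) hk h2 h9
  · rcases Nat.even_or_odd (Nat.card F) with h7 | h7
    · by_cases h8 : Nat.card F = 2
      · exact Or.inr (Or.inr (e5 h8 (by omega) (h5 (perm_tf (St.refl _ _) (Or.inl hk2))).1))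
      · exact Or.inr (Or.inl ⟨e4 h7, ((four_dvd_q h7 h8).trans h6).mul_left _⟩)
    · exact Or.inl ((nt8 hq h7 odd_one (even_two_pow ha) hk).mul_right _)

section general

variable {V' : Type} [AddCommGroup V'] [Module F V'] [Finite V'] {a : Fm false F V'}

/-- induction from `GL_k` times the trivial character -/
theorem topO (ha : a.Aniso) {m k n : ℕ} (hn : m + k = n) (h3 : 3 ≤ n) (hk : 0 < k)
    {π : GL (Fin k) F → ℂ} (hπ : GC π 1) : ∃ c d, IsDeg (PO (a.hyp (Fin n)).O) d ∧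
      DD (Nat.card F) a.tp m k ∣ c * d ∧ c ∣ 4 := by
  obtain ⟨c, d, e1, e2, e3, -⟩ := supO ha hn h3 (St.refl _ m) hk hπ irr_one
    (freeAll_one.gc hk hπ) (Or.inl ⟨rfl, sg_one _⟩)
  exact ⟨c, d, e1, by simpa [deg_one] using e2, e3⟩

/-- the rank three degrees survive in the simple group -/
theorem t2O (ha : a.Aniso) {m : ℕ} (hm : 2 ≤ m) : ∃ d₁ d₂, IsDeg (PO (a.hyp (Fin (m + 1))).O) d₁ ∧
    IsDeg (PO (a.hyp (Fin (m + 1))).O) d₂ ∧ IsD1 (Nat.card F) a.tp (m + 1) d₁ ∧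
    IsD2 (Nat.card F) a.tp (m + 1) d₂ := by
  obtain ⟨χ₁, χ₂, h1, h2, h3, h4, h5, h6, -, -, h7, -⟩ := rank3 ha (St.refl _ m) (by omega)
  obtain ⟨h8, h9⟩ := h7 (perm_tf (St.refl _ _) (Or.inl hm))
  obtain ⟨c, d, e1, e2, -, -, e3⟩ := dirO (stS a m) (by omega) h1 (Or.inl h5)
  obtain ⟨c', d', e1', e2', -, -, e3'⟩ := dirO (stS a m) (by omega) h2 (Or.inl h6)
  rw [e3 h8, one_mul] at e2
  rw [e3' h9, one_mul] at e2'
  exact ⟨d, d', e1, e1', e2 ▸ h3, e2' ▸ h4⟩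

end general

theorem cplD4 : Cpl (PO ((zeroFm false F).hyp (Fin 4)).O) := by
  have hq := two_le_q (F := F)
  by_cases h4 : 4 ≤ Nat.card F
  · exact caseD2 (a := 1) (m := 1) le_rfl (fun _ => h4) le_rfl le_rfl rfl
  obtain ⟨π, hπ⟩ := gc_pow (F := F) (a := 2) (by norm_num) (by norm_num)
  obtain ⟨c, d₀, hd₀, h₀, hc⟩ := topO (zero_aniso false) (m := 0) (k := 4) rfl (by norm_num)
    (by norm_num) hπ
  obtain ⟨d₁, d₂, hd₁, hd₂, h₁, h₂⟩ := t2O (zero_aniso (F := F) false) (m := 3) (by norm_num)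
  rw [zero_tp_false] at h₀ h₁ h₂
  by_cases h3 : Nat.card F = 3
  · rw [h3] at h₀ h₁ h₂
    refine cpl_list [2, 3, 5, 7, 13] [232960, 300, 819] (fun r hr h => ?_) ?_ (by decide)
    · have h4 := prD hr h
      rw [h3] at h4
      exact mem_of_dvd_pow (N := 3 * pp 3 1 0 4) (e := 15) hr _ (by norm_num)
        (by decide) (h4.elim (·.mul_right _) (·.mul_left _))
    · simp only [List.mem_cons, List.not_mem_nil, or_false, forall_eq_or_imp, forall_eq]
      norm_num [IsD1, IsD2] at h₁ h₂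
      exact ⟨⟨d₀, hd₀, crude (by norm_num) hc h₀⟩, ⟨d₁, hd₁, by omega⟩, ⟨d₂, hd₂, by omega⟩⟩
  have h2 : Nat.card F = 2 := by omega
  rw [h2] at h₀ h₁ h₂
  refine cpl_list [2, 3, 5, 7] [2835, 50, 84] (fun r hr h => ?_) ?_ (by decide)
  · have h4 := prD hr h
    rw [h2] at h4
    exact mem_of_dvd_pow (N := 2 * pp 2 1 0 4) (e := 5) hr _ (by norm_num)
      (by decide) (h4.elim (·.mul_right _) (·.mul_left _))
  · simp only [List.mem_cons, List.not_mem_nil, or_false, forall_eq_or_imp, forall_eq]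
    norm_num [IsD1, IsD2] at h₁ h₂
    exact ⟨⟨d₀, hd₀, crude_odd hc (by norm_num) (Dvd.dvd.trans (by decide) h₀)⟩,
      ⟨d₁, hd₁, by omega⟩, ⟨d₂, hd₂, by omega⟩⟩

theorem cplD5 : Cpl (PO ((zeroFm false F).hyp (Fin 5)).O) := by
  have hq := two_le_q (F := F)
  by_cases h2 : Nat.card F = 2
  swap
  · exact caseD1 (a := 1) le_rfl (fun _ => by omega) rfl
  obtain ⟨π, hπ⟩ := gc_pow (F := F) (a := 2) (by norm_num) (by norm_num)
  obtain ⟨c, d₀, hd₀, h₀, hc⟩ := topO (zero_aniso false) (m := 1) (k := 4) (n := 5) rfl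
    (by norm_num) (by norm_num) hπ
  obtain ⟨d₁, d₂, hd₁, hd₂, h₁, h₂⟩ := t2O (zero_aniso (F := F) false) (m := 4) (by norm_num)
  rw [zero_tp_false, h2] at h₀ h₁ h₂
  refine cpl_list [2, 3, 5, 7, 17, 31] [1494045, 186, 340, 14] (fun r hr h => ?_) ?_ (by decide)
  · have h4 := prD hr h
    rw [h2] at h4
    exact mem_of_dvd_pow (N := 2 * pp 2 1 0 5) (e := 5) hr _ (by norm_num)
      (by decide) (h4.elim (·.mul_right _) (·.mul_left _))
  · simp only [List.mem_cons, List.not_mem_nil, or_false, forall_eq_or_imp, forall_eq]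
    norm_num [IsD1, IsD2] at h₁ h₂
    exact ⟨⟨d₀, hd₀, crude_odd hc (by norm_num) h₀⟩, ⟨d₁, hd₁, by omega⟩, ⟨d₂, hd₂, by omega⟩,
      op10_2 h2⟩

theorem cplD {n : ℕ} (hn : 4 ≤ n) : Cpl (PO ((zeroFm false F).hyp (Fin n)).O) := by
  by_cases h6 : 6 ≤ n
  · obtain ⟨a, m, ha, hm, hm', e⟩ := exists_K (n := n) (by omega)
    by_cases hm1 : m = 1
    · subst hm1
      obtain ⟨a, rfl⟩ : ∃ a', a = a' + 1 := ⟨a - 1, by omega⟩
      refine caseD1 (a := a) (by omega) (fun h => ?_) (by rw [← e, pow_succ]; ring)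
      subst h
      omega
    · obtain ⟨m, rfl⟩ : ∃ m', m = m' + 1 := ⟨m - 1, by omega⟩
      exact caseD2 (by omega) (by omega) (by omega) hm' e
  · obtain rfl | rfl : n = 4 ∨ n = 5 := by omega
    · exact cplD4
    · exact cplD5

end Cfsg.Agent.DG.Fm
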