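import Cfsg.Agent.Lib.DG.MainD

/-!
# Type ²D (row DG-MainE, see notes/DG.md)
-/

set_option autoImplicit false

open scoped ComplexConjugate Matrix
open Module Cfsg

namespace Cfsg.Agent.DG.Fm

variable {F : Type} [Field F] [Finite F] {a b : F} (h : AnB a b)

theorem four_dvd_sq {q : ℕ} (hq : Even q) : 4 ∣ q ^ 2 := pow_dvd_pow_of_dvd hq.two_dvd 2

/-- induction from `GL_k` times the Steinberg character of `O₄⁻` -/
theorem stE {k n : ℕ} (hn : 1 + k = n) (h3 : 3 ≤ n) {π : GL (Fin k) F → ℂ} {s : ℂ} (hπ : GC π s)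
    (hs : s = 1 ∨ (Odd (Nat.card F) ∧ k = 2)) : ∃ c d, IsDeg (PO ((planeFm h).hyp (Fin n)).O) d ∧
      DD (Nat.card F) (Nat.card F ^ 2) 1 k * Nat.card F ^ 2 ∣ c * d ∧ c ∣ 4 ∧
      (Even (Nat.card F) → c ∣ 2) := by
  obtain ⟨ρ, h1, h2, h4, h5⟩ := rank2 (plane_aniso h)
  have hk : 0 < k := by omega
  obtain ⟨c, d, e1, e2, e3, e4, -⟩ := supO (plane_aniso h) hn h3 (st1 _) hk hπ h1 (h5.gc hk hπ)
    (hs.imp (fun h6 => ⟨h6, h4⟩) (fun h6 => neg_not_mem_E3 (h := h) h6.1 (by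
      obtain ⟨-, rfl⟩ := h6
      exact (st1 (planeFm h)).hyp 2)))
  rw [h2, plane_tp] at e2
  exact ⟨c, d, e1, e2, e3, e4⟩

theorem caseE1 {i n : ℕ} (hi : 2 ≤ i) (hn : 1 + 2 ^ i = n) :
    Cpl (PO ((planeFm h).hyp (Fin n)).O) := by
  have hq := two_le_q (F := F)
  obtain ⟨π, hπ⟩ := gc_pow (F := F) (a := i) (by omega) (by omega)
  have hk4 : 2 ^ 2 ≤ 2 ^ i := Nat.pow_le_pow_right (by norm_num) hi
  have hev : Even (2 ^ i) := even_two_pow (by omega)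
  obtain ⟨c, d, e1, e2, e3, e4⟩ := stE h hn (by omega) hπ (Or.inl rfl)
  refine singleO e1 e2 e3 (fun r hr h6 => ?_) ?_
  · by_cases h7 : r ∣ Nat.card F
    · exact (h7.trans (dvd_pow_self _ two_ne_zero)).mul_left _
    · have h8 := (prE h (by omega) hr h6).resolve_left h7
      rw [← hn] at h8
      exact (nt3 hq hr h7 hev (by omega) h8).mul_right _
  · rcases Nat.even_or_odd (Nat.card F) with h6 | h6
    · exact Or.inr (Or.inl ⟨e4 h6, (four_dvd_sq h6).mul_left _⟩)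
    · exact Or.inl ((nt8 hq h6 h6.pow hev (by omega)).mul_right _)

theorem caseE2 {i m n : ℕ} (hi : 1 ≤ i) (h4 : i = 1 → 4 ≤ Nat.card F) (hm : 1 ≤ m)
    (hm' : m + 1 ≤ 2 ^ i) (hn : m + 1 + 2 ^ i = n) : Cpl (PO ((planeFm h).hyp (Fin n)).O) := by
  have hq := two_le_q (F := F)
  obtain ⟨π, hπ⟩ := gc_pow (F := F) hi h4
  have hk : 0 < 2 ^ i := by positivity
  have hev : Even (2 ^ i) := even_two_pow hi
  obtain ⟨ρ₁, ρ, -, h1, -, h2, -, h3, -, h5, h6, -⟩ := rank3 (plane_aniso h) (St.refl _ m) hm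
  obtain ⟨c, d, e1, e2, e3, e4, e5⟩ := supO (plane_aniso h) hn (by omega) (stS _ m) hk hπ h1
    (h5.gc hk hπ) (Or.inl ⟨rfl, h3⟩)
  rw [plane_tp] at e2 h2
  have h7 := d2_sq hq h2
  refine singleO e1 e2 e3 (fun r hr h8 => ?_) ?_
  · by_cases h9 : r ∣ Nat.card F
    · exact (h9.trans h7).mul_left _
    · have h10 := (prE h (by omega) hr h8).resolve_left h9
      rw [← hn] at h10
      exact nt4 hq hr h9 hev (by omega) hm' h2 h10
  · rcases Nat.even_or_odd (Nat.card F) with h8 | h8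
    · by_cases h9 : Nat.card F = 2
      · exact Or.inr (Or.inr (e5 h9 (by omega)
          (h6 (perm_tf (St.refl _ _) (Or.inr ⟨hm, plane_univ h⟩))).2))
      · exact Or.inr (Or.inl ⟨e4 h8, ((four_dvd_q h8 h9).trans h7).mul_left _⟩)
    · exact Or.inl ((nt8 hq h8 h8.pow hev hk).mul_right _)

theorem cplE4 : Cpl (PO ((planeFm h).hyp (Fin 4)).O) := by
  have hq := two_le_q (F := F)
  by_cases h4 : 4 ≤ Nat.card F
  · exact caseE2 h (i := 1) (m := 1) le_rfl (fun _ => h4) le_rfl le_rfl rfl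
  obtain ⟨π, hπ⟩ := gc_pow (F := F) (a := 2) (by norm_num) (by norm_num)
  obtain ⟨c, d₀, hd₀, h₀, hc⟩ := topO (plane_aniso h) (m := 0) (k := 4) rfl (by norm_num)
    (by norm_num) hπ
  obtain ⟨π₃, hπ₃⟩ := gc_three (F := F) (by omega)
  obtain ⟨c', d₁, hd₁, h₁, hc', hc2⟩ := stE h (n := 4) rfl (by norm_num) hπ₃ (Or.inl rfl)
  obtain ⟨-, d₂, -, hd₂, -, h₂⟩ := t2O (plane_aniso h) (m := 3) (by norm_num)
  rw [plane_tp] at h₀ h₂
  by_cases h3 : Nat.card F = 3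
  · rw [h3] at h₀ h₁ h₂
    refine cpl_list [2, 3, 5, 7, 13, 41, 61] [582632960, 806722560, 2379] (fun r hr h => ?_) ?_
      (by decide)
    · have h4 := prE _ (by norm_num) hr h
      rw [h3] at h4
      exact mem_of_dvd_pow (N := 3 * pp 3 (3 ^ 2) 0 4) (e := 15) hr _ (by norm_num)
        (by decide) (h4.elim (·.mul_right _) (·.mul_left _))
    · simp only [List.mem_cons, List.not_mem_nil, or_false, forall_eq_or_imp, forall_eq]
      norm_num [IsD2] at h₂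
      exact ⟨⟨d₀, hd₀, crude (by norm_num) hc h₀⟩, ⟨d₁, hd₁, crude (by norm_num) hc' h₁⟩,
        ⟨d₂, hd₂, by omega⟩⟩
  have h2 : Nat.card F = 2 := by omega
  have hc3 := hc2 (by rw [h2]; exact even_two)
  rw [h2] at h₀ h₁ h₂
  refine cpl_list [2, 3, 5, 7, 11, 17] [530145, 454410, 154] (fun r hr h => ?_) ?_ (by decide)
  · have h4 := prE _ (by norm_num) hr h
    rw [h2] at h4
    exact mem_of_dvd_pow (N := 2 * pp 2 (2 ^ 2) 0 4) (e := 5) hr _ (by norm_num)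
      (by decide) (h4.elim (·.mul_right _) (·.mul_left _))
  · simp only [List.mem_cons, List.not_mem_nil, or_false, forall_eq_or_imp, forall_eq]
    norm_num [IsD2] at h₂
    exact ⟨⟨d₀, hd₀, crude_odd hc (by norm_num) h₀⟩, ⟨d₁, hd₁, crude (by norm_num) hc3 h₁⟩,
      ⟨d₂, hd₂, by omega⟩⟩

theorem cplE3small (hq3 : Nat.card F ≤ 3) : Cpl (PO ((planeFm h).hyp (Fin 3)).O) := by
  have hq := two_le_q (F := F)
  obtain ⟨π₃, hπ₃⟩ := gc_three (F := F) hq3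
  obtain ⟨c, d₀, hd₀, h₀, hc⟩ := topO (plane_aniso h) (m := 0) (k := 3) rfl (by norm_num)
    (by norm_num) hπ₃
  rw [plane_tp] at h₀
  by_cases h3 : Nat.card F = 3
  · obtain ⟨π, hπ⟩ := gc_two_odd h3
    obtain ⟨c', d₁, hd₁, h₁, hc', -⟩ := stE h (n := 3) rfl (by norm_num) hπ
      (Or.inr ⟨by rw [h3]; decide, rfl⟩)
    rw [h3] at h₀ h₁
    refine cpl_list [2, 3, 5, 7, 13, 41] [91840, 134316, 195] (fun r hr h => ?_) ?_ (by decide)
    · have h4 := prE _ (by norm_num) hr h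
      rw [h3] at h4
      exact mem_of_dvd_pow (N := 3 * pp 3 (3 ^ 2) 0 3) (e := 9) hr _ (by norm_num)
        (by decide) (h4.elim (·.mul_right _) (·.mul_left _))
    · simp only [List.mem_cons, List.not_mem_nil, or_false, forall_eq_or_imp, forall_eq]
      exact ⟨⟨d₀, hd₀, crude (by norm_num) hc h₀⟩, ⟨d₁, hd₁, crude (by norm_num) hc' h₁⟩,
        om8_3 h3 h⟩
  have h2 : Nat.card F = 2 := by omega
  obtain ⟨d₁, -, hd₁, -, h₁, -⟩ := t2O (plane_aniso h) (m := 2) (by norm_num)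
  rw [plane_tp] at h₁
  rw [h2] at h₀ h₁
  refine cpl_list [2, 3, 5, 7, 17] [2295, 84, 1190] (fun r hr h => ?_) ?_ (by decide)
  · have h4 := prE _ (by norm_num) hr h
    rw [h2] at h4
    exact mem_of_dvd_pow (N := 2 * pp 2 (2 ^ 2) 0 3) (e := 3) hr _ (by norm_num)
      (by decide) (h4.elim (·.mul_right _) (·.mul_left _))
  · simp only [List.mem_cons, List.not_mem_nil, or_false, forall_eq_or_imp, forall_eq]
    norm_num [IsD1] at h₁
    exact ⟨⟨d₀, hd₀, crude_odd hc (by norm_num) h₀⟩, ⟨d₁, hd₁, by omega⟩, om8_2 h2 h⟩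

theorem gc_even {ι : Type} [Fintype ι] [DecidableEq ι] {π : GL ι F → ℂ} {s : ℂ} (hπ : GC π s)
    (hq : Even (Nat.card F)) : s = 1 := by
  have h1 := hπ.sg
  rw [scal_neg_one_of_even hq] at h1
  have h2 : π 1 ≠ 0 := by
    rw [← H4.charDegree_irr_cast hπ.irr]
    exact_mod_cast (H4.charDegree_pos hπ.irr).ne'
  exact (mul_right_cancel₀ h2 (by rw [← h1, one_mul])).symm

theorem dd_E {q : ℕ} (hq : 2 ≤ q) : DD q (q ^ 2) 1 2 = (q ^ 3 + 1) * (q ^ 3 - 1) * (q ^ 4 + 1) ∧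
    DD q (q ^ 2) 0 1 = q ^ 2 + 1 ∧
    pp q (q ^ 2) 0 3 = (q - 1) * (q ^ 2 + 1) * ((q ^ 2 - 1) * DD q (q ^ 2) 1 2) := by
  have h1 : 0 < q ^ 2 - 1 := by
    have : 2 ^ 2 ≤ q ^ 2 := Nat.pow_le_pow_left hq 2
    omega
  have e1 : pp q (q ^ 2) 1 2 = (q ^ 2 - 1) * ((q ^ 3 + 1) * (q ^ 3 - 1) * (q ^ 4 + 1)) := by
    simp only [pp, Finset.prod_range_succ, Finset.range_zero, Finset.prod_empty]
    norm_num
    ring
  have e2 : DD q (q ^ 2) 1 2 = (q ^ 3 + 1) * (q ^ 3 - 1) * (q ^ 4 + 1) := by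
    rw [DD, e1, Nat.mul_div_cancel_left _ h1]
  refine ⟨e2, ?_, ?_⟩
  · simp only [DD, pp, Finset.prod_range_succ, Finset.range_zero, Finset.prod_empty]
    norm_num
    rw [Nat.mul_div_cancel_left _ (by omega)]
  · rw [e2, ← e1, show 3 = 1 + 2 from rfl, pp_add]
    simp [pp]

theorem cplE3big (h4 : 4 ≤ Nat.card F) : Cpl (PO ((planeFm h).hyp (Fin 3)).O) := by
  have hq := two_le_q (F := F)
  obtain ⟨π, hπ⟩ := gc_pow (F := F) (a := 1) le_rfl (fun _ => h4)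
  obtain ⟨θ, s, -, hθ⟩ := gc_one h4
  obtain ⟨c₁, d₁, hd₁, h₁, hc₁, hc₁'⟩ := stE h (k := 2) (n := 3) rfl le_rfl hπ (Or.inl rfl)
  have fa := freeK_of_aniso (plane_aniso h) (fun _ => (1 : ℂ))
  obtain ⟨g1, g2, -⟩ := step1 (plane_aniso h) (St.zero _) one_pos hθ irr_one
    (fa 1 θ one_pos trivial hθ.irr hθ.cusp)
  have g3 := hc_freeK one_pos (H3.IsIrrCharacter_isCharacter hθ.irr) hθ.cusp
    (H3.IsIrrCharacter_isCharacter irr_one) fa
  obtain ⟨c₂, d₂, hd₂, h₂, hc₂, -⟩ := supO (plane_aniso h) (k := 2) (n := 3) rfl le_rfl (st1 _)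
    two_pos hπ g1 (g3 2 π two_pos ⟨trivial, by norm_num⟩ hπ.irr hπ.cusp)
    ((Nat.even_or_odd (Nat.card F)).imp (fun h5 => ⟨rfl, sg_of_even h5 _⟩)
      (fun h5 => neg_not_mem_E3 (h := h) h5 ((st1 (planeFm h)).hyp 2)))
  obtain ⟨ρ, -, r1, -, r2, -, r3, -, r4, -⟩ := rank3 (plane_aniso h) (St.refl _ 1) le_rfl
  obtain ⟨c₃, d₃, hd₃, h₃, hc₃, hc₃', -⟩ := supO (plane_aniso h) (k := 1) (n := 3) rfl le_rfl
    (stS _ 1) one_pos hθ r1 (r4.gc one_pos hθ)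
    ((Nat.even_or_odd (Nat.card F)).imp (fun h5 => ⟨gc_even hθ h5, r3⟩)
      (fun h5 => neg_not_mem_E3 (h := h) h5 ((stS (planeFm h) 1).hyp 1)))
  rw [plane_tp] at g2 h₂ h₃ r2
  obtain ⟨e1, e2, e3⟩ := dd_E hq
  rw [e2, deg_one, mul_one] at g2
  have h8 : Odd (Nat.card F) → 8 ∣ DD (Nat.card F) (Nat.card F ^ 2) 1 2 :=
    fun h5 => nt8 hq h5 h5.pow even_two two_pos
  have r5 : charDegree ρ = Nat.card F ^ 2 * (Nat.card F ^ 2 + 1) := by
    obtain ⟨x, hx⟩ : ∃ x, Nat.card F = x + 1 := ⟨Nat.card F - 1, by omega⟩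
    have : (x + 1) ^ 2 - 1 = x * (x + 2) := by
      rw [Nat.sub_eq_iff_eq_add (Nat.one_le_pow _ _ (by omega))]; ring
    rw [IsD1, hx] at r2
    norm_num [this] at r2
    rw [hx]
    refine Nat.eq_of_mul_eq_mul_right (m := x * (x + 1 + (x + 1) ^ 2)) (by
      have : 0 < x := by omega
      positivity) ?_
    rw [r2]
    ring
  have hA : ∀ r : ℕ, r.Prime → ¬ r ∣ Nat.card F →
      r ∣ Nat.card (PO ((planeFm h).hyp (Fin 3)).O) →
      r ∣ DD (Nat.card F) (Nat.card F ^ 2) 1 2 ∨ (r ≠ 2 ∧ r ∣ Nat.card F ^ 2 + 1) := by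
    intro r hr h5 h6
    by_cases h2 : r = 2
    · subst h2
      exact Or.inl (Dvd.dvd.trans (by norm_num) (h8 (Nat.odd_iff.mpr (by omega))))
    have h7 := (prE h (by norm_num) hr h6).resolve_left h5
    have k1 : r ∣ Nat.card F - 1 → r ∣ DD (Nat.card F) (Nat.card F ^ 2) 1 2 := fun h9 => by
      rw [e1]
      exact ((h9.trans (by simpa using Nat.sub_dvd_pow_sub_pow (Nat.card F) 1 3)).mul_left
        _).mul_right _
    rw [e3] at h7
    rcases (Nat.Prime.dvd_mul hr).mp h7 with h9 | h9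
    · exact ((Nat.Prime.dvd_mul hr).mp h9).imp k1 (fun h10 => ⟨h2, h10⟩)
    · refine Or.inl (((Nat.Prime.dvd_mul hr).mp h9).elim (fun h10 => ?_) id)
      rw [← one_pow 2, Nat.sq_sub_sq] at h10
      refine ((Nat.Prime.dvd_mul hr).mp h10).elim (fun h11 => ?_) k1
      have h12 := Odd.nat_add_dvd_pow_add_pow (Nat.card F) 1 (by decide : Odd 3)
      rw [one_pow] at h12
      rw [e1]
      exact ((h11.trans h12).mul_right _).mul_right _
  have hp : ∀ {r c d D e : ℕ}, r.Prime → r ∣ Nat.card F → c ∣ 4 → (Even (Nat.card F) → c ∣ 2) →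
      Nat.card F ^ 2 ∣ e → D * e ∣ c * d → r ∣ d := by
    intro r c d D e hr h5 h6 h7 h9 h10
    refine dvd_crude hr rfl h6 ((((h5.trans (dvd_pow_self _ two_ne_zero)).trans h9).mul_left
      _).trans h10) (fun h2 => Or.inr (Or.inl ?_))
    have h11 : Even (Nat.card F) := even_iff_two_dvd.mpr (h2 ▸ h5)
    exact ⟨h7 h11, (((four_dvd_sq h11).trans h9).mul_left _).trans h10⟩
  have hn : ∀ {r c d e : ℕ}, r.Prime → ¬ r ∣ Nat.card F → c ∣ 4 →
      DD (Nat.card F) (Nat.card F ^ 2) 1 2 * e ∣ c * d →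
      r ∣ DD (Nat.card F) (Nat.card F ^ 2) 1 2 * e → r ∣ d := by
    intro r c d e hr h5 h6 h7 h9
    refine dvd_crude hr rfl h6 (h9.trans h7) (fun h2 => Or.inl ?_)
    subst h2
    exact ((h8 (Nat.odd_iff.mpr (by omega))).mul_right _).trans h7
  have key : ∀ r s : ℕ, r.Prime → s.Prime → r ∣ Nat.card F → ¬ s ∣ Nat.card F →
      s ∣ Nat.card (PO ((planeFm h).hyp (Fin 3)).O) →
      ∃ d, IsDeg (PO ((planeFm h).hyp (Fin 3)).O) d ∧ r ∣ d ∧ s ∣ d := by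
    intro r s hr hs h5 h6 h7
    rcases hA s hs h6 h7 with h9 | h9
    · exact ⟨d₁, hd₁, hp hr h5 hc₁ hc₁' dvd_rfl h₁, hn hs h6 hc₁ h₁ (h9.mul_right _)⟩
    · refine ⟨d₃, hd₃, hp hr h5 hc₃ hc₃' (by rw [r5]; exact Dvd.intro _ rfl) h₃, ?_⟩
      refine dvd_crude hs rfl hc₃ (Dvd.dvd.trans ?_ h₃) (fun h2 => absurd h2 h9.1)
      rw [r5]
      exact (h9.2.mul_left _).mul_left _
  have hB : ∀ r : ℕ, r.Prime → ¬ r ∣ Nat.card F →
      r ∣ Nat.card (PO ((planeFm h).hyp (Fin 3)).O) → r ∣ d₂ := fun r hr h5 h6 =>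
    hn hr h5 hc₂ h₂ ((hA r hr h5 h6).elim (·.mul_right _) (fun h7 => (h7.2.trans g2).mul_left _))
  intro r s hr hs hrs h1 h2
  by_cases hr' : r ∣ Nat.card F <;> by_cases hs' : s ∣ Nat.card F
  · exact ⟨d₁, hd₁, hp hr hr' hc₁ hc₁' dvd_rfl h₁, hp hs hs' hc₁ hc₁' dvd_rfl h₁⟩
  · exact key r s hr hs hr' hs' h2
  · obtain ⟨d, h3, h5, h6⟩ := key s r hs hr hs' hr' h1
    exact ⟨d, h3, h6, h5⟩
  · exact ⟨d₂, hd₂, hB r hr hr' h1, hB s hs hs' h2⟩

theorem cplE {n : ℕ} (hn : 3 ≤ n) : Cpl (PO ((planeFm h).hyp (Fin n)).O) := by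
  by_cases h5 : 5 ≤ n
  · obtain ⟨i, m, hi, hm, hm', e⟩ := exists_K h5
    by_cases hm1 : m = 1
    · subst hm1
      exact caseE1 h hi e
    · obtain ⟨m, rfl⟩ : ∃ m', m = m' + 1 := ⟨m - 1, by omega⟩
      exact caseE2 h (by omega) (by omega) (by omega) hm' e
  · obtain rfl | rfl : n = 3 ∨ n = 4 := by omega
    · by_cases h4 : 4 ≤ Nat.card F
      · exact cplE3big h h4
      · exact cplE3small h (by omega)
    · exact cplE4 h

end Cfsg.Agent.DG.Fm
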