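import Cfsg.Agent.Lib.DG.Heis
import Cfsg.Agent.Lib.DG.DP

/-!
# Large families agreeing on reducible elements are cuspidal (row DG-Min, see notes/DG.md)
-/

set_option autoImplicit false
set_option linter.unusedSectionVars false

open scoped ComplexConjugate Matrix
open Cfsg Module

namespace Cfsg.Agent.DG

variable {F : Type} [Field F] [Finite F] {α β : Type} [Fintype α] [DecidableEq α] [Fintype β]
  [DecidableEq β]

theorem exists_trans (e : (α → F) ≃ₗ[F] (β → F)) :
    ∃ E : GL α F ≃* GL β F, ∀ g x, (E g).val *ᵥ e x = e (g.val *ᵥ x) :=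
  ⟨Units.mapEquiv ((Matrix.toLinAlgEquiv'.trans (e.conjAlgEquiv F)).trans
    Matrix.toLinAlgEquiv'.symm).toMulEquiv, fun g x => by
    rw [← Matrix.toLinAlgEquiv'_apply]; simp [Matrix.toLinAlgEquiv'_apply]⟩

section
variable {e : (α → F) ≃ₗ[F] (β → F)} {E : GL α F ≃* GL β F}
  (hE : ∀ g x, (E g).val *ᵥ e x = e (g.val *ᵥ x))
include hE

theorem trans_sum (χ : GL β F → ℂ) (B : Submodule F (α → F)) :
    ∑ᶠ u : UA (B.map (e : (α → F) →ₗ[F] (β → F))), χ u = ∑ᶠ u : UA B, χ (E u) := by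
  have m : ∀ x, e x ∈ B.map (e : (α → F) →ₗ[F] (β → F)) ↔ x ∈ B := fun x => by simp
  refine (finsum_comp_equiv (E.toEquiv.subtypeEquiv fun u => ⟨fun h => ⟨fun x => ?_, fun x hx => ?_⟩,
    fun h => ⟨fun x => ?_, fun x hx => ?_⟩⟩)).symm
  · obtain ⟨x, rfl⟩ := e.surjective x
    exact (congrArg (· - e x) (hE u x)).trans (map_sub e _ _).symm ▸ (m _).2 (h.1 x)
  · obtain ⟨x, rfl⟩ := e.surjective x
    exact (hE u x).trans (congrArg e (h.2 x ((m x).1 hx)))
  · exact (m _).1 ((congrArg (· - e x) (hE u x)).trans (map_sub e _ _).symm ▸ h.1 (e x))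
  · exact e.injective ((hE u x).symm.trans (h.2 _ ((m x).2 hx)))

theorem trans_red {g : GL α F} (h : Red g) : Red (E g) := by
  obtain ⟨A, h0, h1, h⟩ := h
  refine ⟨A.map (e : (α → F) →ₗ[F] (β → F)), by simpa using h0, by simpa using h1, ?_⟩
  rintro _ ⟨x, hx, rfl⟩
  exact ⟨_, h x hx, (hE g x).symm⟩

end

/-- the inclusion of the first block -/
def iL (β : Type) : (α → F) →ₗ[F] (α ⊕ β → F) where
  toFun y := Sum.elim y 0
  map_add' x y := by ext (i | i) <;> simp
  map_smul' c x := by ext (i | i) <;> simp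

theorem iL_inj : Function.Injective (iL β : (α → F) → _) := fun _ _ e =>
  funext fun i => congrFun e (.inl i)

theorem mem_iL {B : Submodule F (α → F)} {x : α ⊕ β → F} :
    x ∈ B.map (iL β) ↔ x ∘ Sum.inl ∈ B ∧ x ∘ Sum.inr = 0 :=
  ⟨by rintro ⟨y, hy, rfl⟩; exact ⟨hy, rfl⟩, fun h => ⟨_, h.1, by
    ext (i | i)
    exacts [rfl, (congrFun h.2 i).symm]⟩⟩

theorem pb_mem_UA {B : Submodule F (α → F)} {a : GL α F} {y : Matrix α β F} {c : GL β F} :
    (pb a y c).1 ∈ UA (B.map (iL β)) ↔ a ∈ UA B ∧ (∀ v, y *ᵥ v ∈ B) ∧ c = 1 := by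
  have k : ∀ (u : α → F) (v : β → F), (pb a y c).1.val *ᵥ Sum.elim u v =
      Sum.elim (a.val *ᵥ u + y *ᵥ v) (c.val *ᵥ v) := fun u v => by
    rw [pb_val, Matrix.fromBlocks_mulVec]; simp
  refine ⟨fun h => ⟨⟨fun x => ?_, fun x hx => ?_⟩, fun v => ?_, Units.ext (Matrix.ext_iff_mulVec.2
    fun v => ?_)⟩, fun h => ⟨fun x => ?_, ?_⟩⟩
  · simpa [k, Function.comp_def, ← Pi.sub_def] using (mem_iL.1 (h.1 (Sum.elim x 0))).1
  · simpa using congrArg (· ∘ Sum.inl) ((k x 0).symm.trans (h.2 _ ⟨x, hx, rfl⟩))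
  · simpa [k, Function.comp_def] using (mem_iL.1 (h.1 (Sum.elim 0 v))).1
  · simpa [k, Function.comp_def, ← Pi.sub_def, sub_eq_zero] using (mem_iL.1 (h.1 (Sum.elim 0 v))).2
  · rw [← Sum.elim_comp_inl_inr x, k, h.2.2, mem_iL]
    refine ⟨?_, by ext i; simp⟩
    convert add_mem (h.1.1 (x ∘ Sum.inl)) (h.2.1 (x ∘ Sum.inr)) using 1
    ext i; simp; ring
  · rintro _ ⟨x, hx, rfl⟩
    refine (k x 0).trans ?_
    rw [h.1.2 x hx]; simp; rfl

theorem UA_le_PB {B : Submodule F (α → F)} : UA (B.map (iL β)) ≤ PB α β F := fun u h =>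
  mem_PB.2 fun i j => by simpa using congrFun (mem_iL.1 (h.1 (Pi.single (.inl j) 1))).2 i

theorem bl_UA {B : Submodule F (α → F)} {g : PB α β F} (h : g.1 ∈ UA (B.map (iL β))) :
    (bl g).1 ∈ UA B ∧ (bl g).2 = 1 := by
  rw [← pb_bl g, pb_mem_UA] at h
  exact ⟨h.1, h.2.2⟩

theorem sum_top (χ : GL (α ⊕ β) F → ℂ) :
    ∑ᶠ u : UA ((⊤ : Submodule F (α → F)).map (iL β)), χ u = ∑ᶠ y : Matrix α β F, χ (pb 1 y 1) := by
  refine (finsum_comp_equiv (Equiv.ofBijective (fun y : Matrix α β F =>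
    (⟨(pb 1 y 1).1, pb_mem_UA.2 ⟨one_mem _, fun _ => trivial, rfl⟩⟩ :
      UA ((⊤ : Submodule F (α → F)).map (iL β)))) ⟨fun y y' e => ?_,
    fun u => ?_⟩)).symm
  · exact congrArg (fun u : UA _ => u.1.val.toBlocks₁₂) e
  · have h := bl_UA (g := ⟨u.1, UA_le_PB u.2⟩) u.2
    have h1 : (bl ⟨u.1, UA_le_PB u.2⟩).1 = 1 := Units.ext (Matrix.ext_iff_mulVec.2 fun v => by
      simpa using h.1.2 v trivial)
    have := pb_bl (⟨u.1, UA_le_PB u.2⟩ : PB α β F)
    rw [h1, h.2] at this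
    exact ⟨_, Subtype.ext (congrArg (fun g : PB α β F => g.1) this)⟩

theorem red_of_PB [Nonempty α] [Nonempty β] (g : PB α β F) : Red g.1 := by
  refine ⟨(⊤ : Submodule F (α → F)).map (iL β), fun e => ?_, fun e => ?_, fun x hx => ?_⟩
  · have : iL β (1 : α → F) = 0 := (Submodule.mem_bot F).1 (e ▸ ⟨1, trivial, rfl⟩)
    exact one_ne_zero (congrFun this (.inl (Classical.arbitrary α)))
  · exact one_ne_zero (congrFun (mem_iL.1 (e.ge (trivial : (1 : α ⊕ β → F) ∈ ⊤))).2 (Classical.arbitrary β))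
  · refine mem_iL.2 ⟨trivial, funext fun i => ?_⟩
    simp [Matrix.mulVec, dotProduct, Fintype.sum_sum_type, g.2.1, fun j => show x (.inr j) = 0 from
      congrFun (mem_iL.1 hx).2 j]

theorem sum_zero_of_const {σ : GL α F → ℂ} {ρ : GL β F → ℂ} (hσ : IsIrrCharacter _ σ)
    (hρ : IsIrrCharacter _ ρ) {χ : GL (α ⊕ β) F → ℂ} (hχ : IsCharacter _ χ)
    (h : ip (hcg σ ρ) χ ≠ 0) {B : Submodule F (α → F)}
    (h0 : ∑ᶠ u : UA (B.map (iL β)), χ u = 0) : ∑ᶠ u : UA B, σ u = 0 := by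
  have := Fintype.ofFinite (PB α β F)
  have := Fintype.ofFinite (UA B)
  have := Fintype.ofFinite (UA (B.map (iL β)))
  have h1 : IsIrrCharacter _ (inf σ ρ) :=
    H4.isIrr_comp_surjective bl bl_surjective (H4.isIrr_prod hσ hρ)
  rw [hcg, ip_ind _ _ (H3.IsCharacter_isClassFunction hχ), ip_eq, Ne, H4.classInner_eq_zero_comm] at h
  have h2 := part_zero (Subgroup.inclusion (UA_le_PB (B := B))) H3.isCharacter_one
    (H3.IsIrrCharacter_isCharacter h1)
    (H4.isCharacter_sub_const (H3.IsCharacter_restrict _ hχ) h1 h) (by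
      simp only [finsum_eq_sum_of_fintype] at h0 ⊢
      simpa using congrArg conj h0)
  let f : UA (B.map (iL β)) →* UA B := ((MonoidHom.fst _ _).comp (bl.comp
    (Subgroup.inclusion UA_le_PB))).codRestrict _ fun u => (bl_UA u.2).1
  have h3 := H4.classInner_comp_surjective f (fun u => ⟨⟨(pb u.1 0 1).1,
    pb_mem_UA.2 ⟨u.2, by simp, rfl⟩⟩, Subtype.ext (congrArg Prod.fst (bl_pb _ _ _))⟩)
    (fun _ => 1) fun u => σ u
  have h4 : ∀ u : UA (B.map (iL β)), inf σ ρ (Subgroup.inclusion UA_le_PB u) = σ (f u) * ρ 1 :=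
    fun u => by rw [inf, (bl_UA u.2).2]; rfl
  simp only [h4, finsum_eq_sum_of_fintype, map_mul, ← mul_assoc, ← Finset.sum_mul] at h2
  rw [classInner, classInner, (mul_eq_zero.1 h2).resolve_right
    (by simpa using H3.IsIrrCharacter_apply_one_ne_zero hρ), mul_zero, eq_comm,
    mul_eq_zero_iff_left (inv_ne_zero (H3.card_ne_zero_complex _))] at h3
  rw [finsum_eq_sum_of_fintype]
  simpa using congrArg conj h3

theorem exists_hcg {χ : GL (α ⊕ β) F → ℂ} (hχ : IsClassFunction _ χ)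
    (h : ∑ᶠ y : Matrix α β F, χ (pb 1 y 1) ≠ 0) :
    ∃ (σ : IrrCharacter (GL α F)) (ρ : IrrCharacter (GL β F)), ip (hcg σ.1 ρ.1) χ ≠ 0 := by
  have := Fintype.ofFinite (GL α F)
  have := Fintype.ofFinite (GL β F)
  have := Fintype.ofFinite (Matrix α β F)
  obtain ⟨σ, hσ⟩ := H4.exists_irr_const (a := fun a : GL α F => ∑ᶠ y : Matrix α β F, χ (pb a y 1))
    (fun a d => by
      let e : Matrix α β F ≃ Matrix α β F := ⟨fun y => d.val * y, fun y => d⁻¹.val * y,
        fun y => by simp [← Matrix.mul_assoc], fun y => by simp [← Matrix.mul_assoc]⟩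
      refine (finsum_comp_equiv e).symm.trans (finsum_congr fun y => ?_)
      rw [← hχ (pb a y 1) (pb d 0 1).1, ← Subgroup.coe_inv, ← Subgroup.coe_mul, ← Subgroup.coe_mul,
        show (pb d 0 (1 : GL β F))⁻¹ = pb d⁻¹ 0 1 from
          inv_eq_of_mul_eq_one_right (by simp [pb_mul, pb_one])]
      simp [pb_mul, e]) fun e => h (congrFun e 1)
  obtain ⟨ρ, hρ⟩ := H4.exists_irr_const (der_class σ.1 hχ) fun e => hσ (by
    have := congrFun e 1
    rw [der, Pi.zero_apply, mul_eq_zero_iff_left (inv_ne_zero (Nat.cast_ne_zero.2 Nat.card_pos.ne')),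
      finsum_eq_sum_of_fintype, Fintype.sum_prod_type] at this
    simp only [← Finset.mul_sum] at this
    simp only [classInner, finsum_eq_sum_of_fintype, mul_comm _ (conj _), this, mul_zero])
  exact ⟨σ, ρ, by rwa [ip_der _ _ hχ, ip_eq, Ne, H4.classInner_eq_zero_comm]⟩

theorem deg_le_one (h : Fintype.card α ≤ 1) {χ : GL α F → ℂ} (hχ : IsIrrCharacter _ χ) : χ 1 = 1 := by
  have := Fintype.card_le_one_iff_subsingleton.1 h
  refine H3.IsIrrCharacter_apply_one_of_comm (fun a b => Units.ext (Matrix.ext fun i j => ?_)) hχ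
  simp only [Units.val_mul, Matrix.mul_apply, Fintype.sum_subsingleton _ i, Subsingleton.elim j i, mul_comm]

theorem deg_one (hq : Nat.card F = 2) (h1 : Fintype.card α = 1) (h2 : Fintype.card β = 1)
    {χ : GL (α ⊕ β) F → ℂ} (hχ : IsIrrCharacter _ χ) (h : ∑ᶠ y : Matrix α β F, χ (pb 1 y 1) = 0) :
    χ 1 = 1 := by
  classical
  have := Fintype.ofFinite (GL (α ⊕ β) F)
  have := Fintype.ofFinite (Matrix α β F)
  obtain ⟨y, hy, hy'⟩ := (Nat.card_eq_two_iff' (0 : Matrix α β F)).1 (by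
    rw [Matrix, Nat.card_fun, Nat.card_fun, hq]; simp [h1, h2])
  rw [finsum_eq_sum_of_fintype, Fintype.sum_eq_add 0 y hy.symm fun x hx => (hx.2 (hy' x hx.1)).elim,
    pb_one] at h
  have n : (1 : GL (α ⊕ β) F) ≠ pb 1 y 1 := fun e =>
    hy ((congrArg (fun u : GL (α ⊕ β) F => u.val.toBlocks₁₂) e).symm.trans (by
      ext i j; simp [Matrix.toBlocks₁₂]))
  have h3 := Finset.sum_le_sum_of_subset_of_nonneg (f := fun g => ‖χ g‖ ^ 2)
    (Finset.subset_univ {1, (pb 1 y 1).1}) fun _ _ _ => by positivity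
  obtain ⟨d, hd, e⟩ := H3.IsIrrCharacter_apply_one hχ
  rw [H4.sum_norm_sq_irr hχ, Finset.sum_pair n, eq_neg_of_add_eq_zero_right h, norm_neg, card_GL, hq,
    Fintype.card_sum, h1, h2] at h3
  simp only [OneMemClass.coe_one, e, Complex.norm_natCast] at h3
  have h4 : d ^ 2 + d ^ 2 ≤ 6 := by exact_mod_cast h3
  rw [e, show d = 1 by nlinarith, Nat.cast_one]

/-- multiplicities -/
noncomputable def mu {G : Type*} [Group G] [Finite G] (a b : G → ℂ) : ℕ :=
  @H4.mult G _ (Fintype.ofFinite G) a b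

theorem mu_cast {G : Type*} [Group G] [Finite G] {a b : G → ℂ} (ha : IsCharacter G a)
    (hb : IsCharacter G b) : (mu a b : ℂ) = ip a b := @H4.mult_cast G _ (Fintype.ofFinite G) _ _ ha hb

theorem sum_mu {G : Type*} [Group G] [Finite G] {a b : G → ℂ} (ha : IsCharacter G a)
    (hb : IsCharacter G b) : ((∑ y : IrrCharacter G, mu a y * mu b y : ℕ) : ℂ) = ip a b :=
  (congrArg _ (@H4.mult_eq_sum_mult G _ (Fintype.ofFinite G) _ _ ha hb).symm).trans (mu_cast ha hb)

theorem deg_mu {G : Type*} [Group G] [Finite G] {a : G → ℂ} (ha : IsCharacter G a) :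
    a 1 = ∑ y : IrrCharacter G, mu a y * y.1 1 := by
  simpa [mu] using congrFun (@H4.char_eq_sum_mult G _ (Fintype.ofFinite G) _ ha) 1

open Classical in
theorem ip_ite {G : Type*} [Group G] [Finite G] (x x' : IrrCharacter G) :
    ip x.1 x'.1 = if x = x' then 1 else 0 := by
  split_ifs with h
  exacts [h ▸ ip_self x.2, ip_irr x.2 x'.2 fun e => h (Subtype.ext e)]

/-- the index types of the levels -/
def TT (α β : Type) : ℕ → Type
  | 0 => β
  | j + 1 => α ⊕ TT α β j

instance instFintypeTT : ∀ j, Fintype (TT α β j)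
  | 0 => ‹Fintype β›
  | j + 1 => @instFintypeSum _ _ _ (instFintypeTT j)

instance instDecEqTT : ∀ j, DecidableEq (TT α β j)
  | 0 => ‹DecidableEq β›
  | j + 1 => @instDecidableEqSum _ _ _ (instDecEqTT j)

theorem card_TT (j : ℕ) : Fintype.card (TT α β j) = j * Fintype.card α + Fintype.card β := by
  induction j with
  | zero => rw [zero_mul, zero_add]; rfl
  | succ j ih => exact (Fintype.card_sum (α := α) (β := TT α β j)).trans (by rw [ih]; ring)

open Classical in
theorem dp_hcg [Nonempty α] {σ : GL α F → ℂ} (hσ : IsIrrCharacter _ σ) (hc : Cusp σ)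
    (hlt : Fintype.card β < Fintype.card α) : DP (fun j => IrrCharacter (GL (TT α β j) F))
    fun j x y => mu (G := GL (α ⊕ TT α β j) F) (hcg σ x.1) y.1 := by
  have c := H3.IsIrrCharacter_isCharacter hσ
  refine ⟨fun x x' => Nat.cast_injective (R := ℂ) ?_, fun j x x' => Nat.cast_injective (R := ℂ) ?_⟩
  · refine (sum_mu (hcg_char c (H4.irr_isChar x)) (hcg_char c (H4.irr_isChar x'))).trans ?_
    exact (heis0 hσ hc hlt (H3.IsIrrCharacter_isClassFunction x.2)
      (H3.IsIrrCharacter_isClassFunction x'.2)).trans ((ip_ite x x').trans (by simp))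
  · refine (sum_mu (hcg_char c (H4.irr_isChar x)) (hcg_char c (H4.irr_isChar x'))).trans
      ((heis (γ := TT α β j) hσ hc (H3.IsIrrCharacter_isClassFunction x.2)
        (H3.IsIrrCharacter_isClassFunction x'.2)).trans ?_)
    rw [finsum_eq_sum_of_fintype, Nat.cast_add, Nat.cast_sum]
    refine congrArg₂ _ ((ip_ite x x').trans (by simp)) (Finset.sum_congr rfl fun z _ => ?_)
    have h1 := hcg_char c (H4.irr_isChar z)
    rw [Nat.cast_mul]
    refine congrArg₂ _ ?_ (mu_cast h1 (H4.irr_isChar x')).symm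
    exact (@H3.IsCharacter_classInner_comm _ _ (Fintype.ofFinite _) _ _ (H4.irr_isChar x) h1).trans
      (mu_cast h1 (H4.irr_isChar x)).symm

/-- linear characters through the determinant -/
noncomputable def ld (θ : Fˣ →* ℂˣ) (α : Type) [Fintype α] [DecidableEq α] : IrrCharacter (GL α F) :=
  ⟨_, H3.isIrrCharacter_linear (θ.comp Matrix.GeneralLinearGroup.det)⟩

theorem mu_ld (θ : Fˣ →* ℂˣ) : mu (hcg (ld θ α).1 (ld θ β).1) (ld θ (α ⊕ β)).1 = 1 := by
  refine Nat.cast_injective (R := ℂ) ((mu_cast (hcg_char (H4.irr_isChar _) (H4.irr_isChar _))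
    (H4.irr_isChar _)).trans ?_)
  rw [hcg, ip_ind _ _ (H3.IsIrrCharacter_isClassFunction (ld θ _).2), Nat.cast_one,
    ← ip_self (H3.isIrrCharacter_linear ((θ.comp Matrix.GeneralLinearGroup.det).comp (PB α β F).subtype))]
  refine congrArg₂ _ (funext fun g => ?_) rfl
  obtain ⟨⟨⟨a, x⟩, c⟩, rfl⟩ := pbE.surjective g
  change (θ _ : ℂ) * θ _ = θ _
  rw [← Units.val_mul, ← map_mul, show bl (pbE ((a, x), c)) = (a, c) from bl_pb _ _ _]
  exact congrArg (fun u => (θ u : ℂ)) (Units.ext (Matrix.det_fromBlocks_zero₂₁ a.val x c.val).symm)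

theorem exists_ld (h : Fintype.card α = 1) {σ : GL α F → ℂ} (hσ : IsIrrCharacter _ σ) :
    ∃ θ, σ = (ld θ α).1 := by
  obtain ⟨lam, rfl⟩ := H3.IsCharacter_exists_linear (H3.IsIrrCharacter_isCharacter hσ) (deg_le_one h.le hσ)
  obtain ⟨_⟩ := Fintype.card_eq_one_iff_nonempty_unique.1 h
  refine ⟨lam.comp (scal α), funext fun g => congrArg (fun u => (lam u : ℂ)) (Units.ext ?_)⟩
  ext i j
  rw [Subsingleton.elim i default, Subsingleton.elim j default]
  simp [scal]

theorem odd_index (hq : Nat.card F = 2) : Odd (PB α β F).index := by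
  have := index_PB (F := F) (α := α) (β := β)
  refine Nat.Odd.of_mul_left (this.symm.subst (motive := Odd) ?_)
  rw [hq, gl]
  exact Finset.prod_induction _ Odd (fun _ _ => Odd.mul) odd_one fun i _ =>
    Nat.Even.sub_odd Nat.one_le_two_pow (by simp [pow_succ]) odd_one

theorem cusp_deg (hq : Nat.card F = 2) (h : Fintype.card α = 2) {σ : GL α F → ℂ}
    (hσ : IsIrrCharacter _ σ) (hc : Cusp σ) : σ 1 = 1 := by
  let e : (Unit ⊕ Unit → F) ≃ₗ[F] (α → F) := LinearEquiv.ofFinrankEq _ _ (by simp [h])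
  obtain ⟨E, hE⟩ := exists_trans e
  have k : finrank F (((⊤ : Submodule F (Unit → F)).map (iL Unit)).map
      (e : (Unit ⊕ Unit → F) →ₗ[F] (α → F))) = 1 := by
    rw [LinearEquiv.finrank_map_eq, ← (Submodule.equivMapOfInjective _ iL_inj _).finrank_eq]; simp
  have := hc (((⊤ : Submodule F (Unit → F)).map (iL Unit)).map (e : (Unit ⊕ Unit → F) →ₗ[F] (α → F)))
    (fun e => by rw [e] at k; simp at k) (fun e => by rw [e] at k; simp [h] at k)
  rw [trans_sum hE, sum_top fun g => σ (E g)] at this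
  simpa using deg_one hq rfl rfl (H4.isIrr_comp_equiv E hσ) this

theorem core [Nonempty α] (hlt : Fintype.card β < Fintype.card α) {j m : ℕ}
    (χ : Fin m → GL (α ⊕ TT α β j) F → ℂ) (hirr : ∀ i, IsIrrCharacter _ (χ i))
    (hinj : Function.Injective χ) (hag : ∀ i i', ∀ g : PB α (TT α β j) F, χ i g = χ i' g) (i : Fin m)
    (h0 : ∑ᶠ y : Matrix α (TT α β j) F, χ i (pb 1 y 1) ≠ 0)
    (hmin : ∀ B : Submodule F (α → F), B ≠ ⊥ → B ≠ ⊤ → 
      ∑ᶠ u : UA (B.map (iL (TT α β j))), χ i u = 0) :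
    m ≤ j + 1 ∧ (m = j + 1 → IsSquare j) ∧ (2 ≤ m → (j + 1) * Fintype.card α + Fintype.card β ≤ 4 →
      (j + 1) * Fintype.card α + Fintype.card β ≠ 2 ∧ Nat.card F ≠ 2) := by
  classical
  have cf := fun i => H3.IsIrrCharacter_isClassFunction (hirr i)
  have ch := fun i => H3.IsIrrCharacter_isCharacter (hirr i)
  obtain ⟨⟨σ, hσ⟩, ρ, hρ⟩ := exists_hcg (cf i) h0
  have hc : Cusp σ := fun B h1 h2 => sum_zero_of_const hσ ρ.2 (ch i) hρ (hmin B h1 h2)
  have c := H3.IsIrrCharacter_isCharacter hσ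
  have dp := dp_hcg hσ hc hlt
  have hD : ∀ i i' (x : IrrCharacter (GL (TT α β j) F)), mu (hcg σ x.1) (χ i) = mu (hcg σ x.1) (χ i') :=
    fun i i' x => Nat.cast_injective (R := ℂ) (by
      rw [mu_cast (hcg_char c (H4.irr_isChar x)) (ch i), mu_cast (hcg_char c (H4.irr_isChar x)) (ch i'),
        hcg, ip_ind _ _ (cf i), ip_ind _ _ (cf i'), funext (hag i i')])
  have hr : mu (hcg σ ρ.1) (χ i) ≠ 0 := fun e => hρ (by
    rw [← mu_cast (hcg_char c (H4.irr_isChar ρ)) (ch i), e, Nat.cast_zero])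
  let Y : Fin m ↪ IrrCharacter (GL (TT α β (j + 1)) F) :=
    ⟨fun i => ⟨χ i, hirr i⟩, fun _ _ e => hinj (congrArg Subtype.val e)⟩
  have hS : ∀ y ∈ Finset.univ.map Y, ∀ x : IrrCharacter (GL (TT α β j) F),
      mu (G := GL (α ⊕ TT α β j) F) (hcg σ x.1) y.1 = mu (hcg σ x.1) (χ i) := fun y hy x => by
    obtain ⟨i', -, rfl⟩ := Finset.mem_map.1 hy
    exact hD i' i x
  have hr' : (fun x : IrrCharacter (GL (TT α β j) F) => mu (hcg σ x.1) (χ i)) ≠ 0 :=
    fun e => hr (congrFun e ρ)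
  have b := dp.bound _ _ hS hr'
  rw [Finset.card_map, Finset.card_fin] at b
  have b1 : m ≤ j + 1 := (Nat.le_mul_of_pos_right m (Finset.sum_pos' (fun _ _ => Nat.zero_le _)
    ⟨ρ, Finset.mem_univ _, by positivity⟩)).trans b
  refine ⟨b1, fun e => dp.sq _ _ hS hr' (by simpa using e), fun h2 h4 => ?_⟩
  have a0 : 0 < Fintype.card α := Fintype.card_pos
  obtain ⟨j, rfl⟩ : ∃ i, j = i + 1 := ⟨j - 1, by omega⟩
  have : Nontrivial (Fin m) := Fin.nontrivial_iff_two_le.2 h2
  obtain ⟨i', hi'⟩ := exists_ne i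
  obtain ⟨x, z, e1, e2, -⟩ := dp.small (i := j) (by nlinarith) (y₁ := Y i) (y₂ := Y i')
    (Y.injective.ne hi'.symm) (hD i i') ⟨ρ, hr⟩
  have d1 : ((PB α (TT α β (j + 1)) F).index : ℂ) * (σ 1 * x.1 1) = 2 * χ i 1 := by
    rw [← hcg_one, deg_mu (hcg_char c (H4.irr_isChar x))]
    refine (Finset.sum_congr rfl fun y _ => congrArg (fun n : ℕ => (n : ℂ) * y.1 1) (e1 y)).trans ?_
    refine (Fintype.sum_eq_add (Y i) (Y i') (Y.injective.ne hi'.symm) fun y hy => by simp [hy]).trans ?_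
    simp only [true_or, or_true, if_true, Nat.cast_one, one_mul]
    exact (congrArg (χ i 1 + ·) (hag i' i 1)).trans (two_mul _).symm
  have d2 : ((PB α (TT α β j) F).index : ℂ) * (σ 1 * z.1 1) = x.1 1 := by
    rw [← hcg_one, deg_mu (hcg_char c (H4.irr_isChar z))]
    refine (Finset.sum_congr rfl fun y _ => congrArg (fun n : ℕ => (n : ℂ) * y.1 1) (e2 y)).trans ?_
    exact (Fintype.sum_eq_single (α := IrrCharacter (GL (TT α β (j + 1)) F)) x
      fun y hy => by simp [hy]).trans (by simp)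
  refine ⟨fun k2 => ?_, fun hq => ?_⟩
  · obtain rfl : j = 0 := by nlinarith
    have a1 : Fintype.card α = 1 := by omega
    have b0 : Fintype.card β = 0 := by omega
    obtain ⟨θ, rfl⟩ := exists_ld a1 hσ
    have := Fintype.card_eq_zero_iff.1 b0
    have hz : z = ld θ β := Subtype.ext (funext fun g => by
      rw [show g = 1 from Units.ext (Matrix.ext fun i => isEmptyElim (α := β) i)]
      exact (deg_le_one (α := β) (b0.le.trans zero_le_one) z.2).trans
        (deg_le_one (b0.le.trans zero_le_one) (ld θ β).2).symm)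
    subst hz
    have hx : ld θ (α ⊕ β) = x := by
      have := (e2 (ld θ (α ⊕ β))).symm.trans (mu_ld θ)
      exact by_contra fun n => zero_ne_one ((if_neg n).symm.trans this)
    have hy : χ i 1 = 1 := by
      subst hx
      have := (e1 (ld θ (α ⊕ α ⊕ β))).symm.trans (mu_ld θ)
      have k : (ld θ (α ⊕ α ⊕ β)).1 1 = 1 := by simp [ld]
      rcases (by_contra fun n => zero_ne_one ((if_neg n).symm.trans this) :
        ld θ (α ⊕ α ⊕ β) = Y i ∨ ld θ (α ⊕ α ⊕ β) = Y i') with e | e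
      · exact (congrArg (fun y => y.1 1) e).symm.trans k
      · exact (hag i i' 1).trans ((congrArg (fun y => y.1 1) e).symm.trans k)
    rw [hy, deg_le_one a1.le hσ, deg_le_one (by rw [card_TT]; omega) x.2] at d1
    have k := index_PB (F := F) (α := α) (β := TT α β 1)
    simp only [mul_one] at d1
    rw [show (PB α (TT α β 1) F).index = 2 by exact_mod_cast d1, card_TT, a1, b0] at k
    obtain ⟨q, hq⟩ : ∃ q, Nat.card F = q + 2 := ⟨Nat.card F - 2, by
      have := Finite.one_lt_card (α := F); omega⟩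
    simp [gl, Finset.prod_range_succ, hq, sq, add_mul, mul_add] at k
    nlinarith
  · have s1 : σ 1 = 1 := by
      by_cases a1 : Fintype.card α ≤ 1
      exacts [deg_le_one a1 hσ, cusp_deg hq (by nlinarith) hσ hc]
    have z1 : z.1 1 = 1 := by
      by_cases t1 : Fintype.card (TT α β j) ≤ 1
      · exact deg_le_one t1 z.2
      rw [card_TT] at t1
      have a1 : Fintype.card α = 1 := by nlinarith
      obtain rfl : j = 2 := by rw [a1] at t1 h4; omega
      refine deg_one (α := α) (β := TT α β 1) hq a1 (by rw [card_TT]; omega) z.2 (by_contra fun n => ?_)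
      obtain ⟨σ', w, hw⟩ := exists_hcg (α := α) (β := TT α β 1) (H3.IsIrrCharacter_isClassFunction z.2) n
      have : Subsingleton (GL α F) := (Nat.card_eq_one_iff_unique.1 (by rw [card_GL, hq, a1]; rfl)).1
      rw [show σ'.1 = σ from funext fun g => by
        rw [Subsingleton.elim g 1, s1, deg_le_one a1.le σ'.2]] at hw
      have k := dp.succ 1 z z
      simp only [e2, if_true] at k
      rw [Fintype.sum_eq_single x fun y hy => by simp [hy], if_pos rfl, one_mul, left_eq_add,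
        Finset.sum_eq_zero_iff] at k
      exact hw ((mu_cast (hcg_char c (H4.irr_isChar w)) (H4.irr_isChar z)).symm.trans
        (Nat.cast_eq_zero.2 (mul_self_eq_zero.1 (k w (Finset.mem_univ _)))))
    obtain ⟨d, hd⟩ := H3.IsCharacter_apply_one (ch i)
    rw [← d2, s1, z1, hd] at d1
    have k : (PB α (TT α β (j + 1)) F).index * (PB α (TT α β j) F).index = 2 * d := by
      simp only [one_mul, mul_one] at d1
      exact_mod_cast d1
    exact Nat.not_even_iff_odd.2 (k ▸ (odd_index hq).mul (odd_index hq)) (even_two_mul d)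

theorem cusp_of_family {k m : ℕ} (χ : Fin m → GL (Fin k) F → ℂ)
    (hirr : ∀ i, IsIrrCharacter _ (χ i)) (hinj : Function.Injective χ)
    (hag : ∀ i j g, Red g → χ i g = χ j g)
    (hm : k < m ∨ (k = m ∧ ¬ IsSquare (k - 1)) ∨
      (2 ≤ m ∧ (k = 2 ∨ (Nat.card F = 2 ∧ k ≤ 4)))) (i : Fin m) : Cusp (χ i) := by
  by_contra hc
  simp only [Cusp, not_forall] at hc
  obtain ⟨A, ⟨h0, h1, h2⟩, hmin⟩ := (InvImage.wf (fun A : Submodule F (Fin k → F) => finrank F A)
    Nat.lt_wfRel.wf).has_min {A | ∃ (_ : A ≠ ⊥) (_ : A ≠ ⊤), ¬ ∑ᶠ u : UA A, χ i u = 0} hc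
  obtain ⟨a, ha⟩ : ∃ a, finrank F A = a := ⟨_, rfl⟩
  have a0 : 0 < a := ha ▸ Nat.pos_of_ne_zero (by simpa using h0)
  have ak : a < k := by simpa [ha] using Submodule.finrank_lt h1
  obtain ⟨j, hj⟩ : ∃ j, k / a = j + 1 := ⟨k / a - 1, by have := Nat.div_pos ak.le a0; omega⟩
  have hk : (j + 1) * a + k % a = k := by rw [← hj, mul_comm, Nat.div_add_mod]
  have : Nonempty (Fin a) := ⟨⟨0, a0⟩⟩
  have : Nonempty (TT (Fin a) (Fin (k % a)) j) := Fintype.card_pos_iff.1 (by
    simp only [card_TT, Fintype.card_fin]; nlinarith)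
  let e0 : (Fin a ⊕ TT (Fin a) (Fin (k % a)) j → F) ≃ₗ[F] (Fin k → F) :=
    LinearEquiv.ofFinrankEq _ _ (by simp [card_TT]; linarith)
  have fr : ∀ (e : (Fin a ⊕ TT (Fin a) (Fin (k % a)) j → F) ≃ₗ[F] (Fin k → F))
      (B : Submodule F (Fin a → F)), finrank F ((B.map (iL _)).map e.toLinearMap) =
      finrank F B := fun e B => by
    rw [LinearEquiv.finrank_map_eq, ← (Submodule.equivMapOfInjective _ iL_inj _).finrank_eq]
  obtain ⟨c, hc⟩ := Submodule.exists_linearEquiv_restrict_eq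
    (LinearEquiv.ofFinrankEq _ A ((fr e0 ⊤).trans (by simp [ha])))
  obtain ⟨E, hE⟩ := exists_trans (e0.trans c)
  have hA : ((⊤ : Submodule F (Fin a → F)).map (iL _)).map (e0.trans c).toLinearMap = A :=
    Submodule.eq_of_le_of_finrank_eq (by
      rintro _ ⟨x, hx, rfl⟩
      exact (hc ⟨e0 x, x, hx, rfl⟩).subst (motive := (· ∈ A)) (Subtype.property _))
      ((fr _ ⊤).trans (by simp [ha]))
  obtain ⟨k1, k2, k3⟩ := core (α := Fin a) (β := Fin (k % a)) (by simpa using Nat.mod_lt k a0)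
    (fun i g => χ i (E g)) (fun i => H4.isIrr_comp_equiv E (hirr i))
    (fun i i' e => hinj (funext fun g => by simpa using congrFun e (E.symm g)))
    (fun i i' g => hag i i' _ (trans_red hE (red_of_PB g))) i
    (by rwa [← sum_top fun g => χ i (E g), ← trans_sum hE, hA]) fun B b0 b1 => by
      have l : finrank F B < a := by simpa using Submodule.finrank_lt b1
      rw [← trans_sum hE]
      refine by_contra fun n => hmin _ ⟨fun e => b0 ?_, fun e => ?_, n⟩ ((fr _ B).trans_lt (l.trans_eq ha.symm))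
      · have := fr (e0.trans c) B
        rw [e] at this
        simpa using this.symm
      · have := fr (e0.trans c) B
        rw [e] at this
        simp at this
        omega
  simp only [Fintype.card_fin, hk] at k3
  have jk : j + 1 ≤ k := hj ▸ Nat.div_le_self k a
  rcases hm with h | ⟨h, h'⟩ | ⟨h, h' | h'⟩
  · omega
  · exact h' (by rw [show k - 1 = j by omega]; exact k2 (by omega))
  · exact (k3 h (by omega)).1 h'
  · exact (k3 h h'.2).2 h'.1

end Cfsg.Agent.DG
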