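import Cfsg.Agent.Lib.DG.Ch

/-!
# The degree of a cuspidal character (row DG-Mir, see notes/DG.md)
-/

set_option autoImplicit false
set_option linter.unusedSectionVars false

open scoped ComplexConjugate Matrix
open Cfsg Module

namespace Cfsg.Agent.DG

theorem mir_abs {K W : Type*} [Group K] [Finite K] [AddCommGroup W] [Module ℂ W]
    [FiniteDimensional ℂ W] (τ : Representation ℂ K W)
    (h1 : ∀ a a', a ≠ 1 → a' ≠ 1 → τ.character a = τ.character a')
    (h2 : ∀ v, (∀ a, τ a v = v) → v = 0) (μ : K →* ℂ) {a₀ : K} (hμ : μ a₀ ≠ 1)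
    {E : Submodule ℂ W} (hE : ∀ v, v ∈ E ↔ ∀ a, τ a v = μ a • v) :
    finrank ℂ W = (Nat.card K - 1) * finrank ℂ E := by
  classical
  have := Fintype.ofFinite K
  have hK := H3.card_ne_zero_complex K
  have : Invertible (Nat.card K : ℂ) := invertibleOfNonzero hK
  have hi : ∀ a, μ a⁻¹ * μ a = 1 := fun a => by rw [← map_mul, inv_mul_cancel, map_one]
  let τ' : Representation ℂ K W :=
    { toFun := fun a => μ a⁻¹ • τ a
      map_one' := by simp
      map_mul' := fun a b => by simp [smul_smul, mul_comm] }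
  have e1 := τ.card_inv_mul_sum_char_eq_finrank
  have e2 := τ'.card_inv_mul_sum_char_eq_finrank
  have e3 : τ'.invariants = E := Submodule.ext fun v => by
    rw [hE]
    refine forall_congr' fun a => ⟨fun h => ?_, fun h => ?_⟩
    · conv_rhs => rw [← h]
      change _ = μ a • μ a⁻¹ • τ a v
      rw [smul_smul, mul_comm, hi, one_smul]
    · change μ a⁻¹ • τ a v = v
      rw [h, smul_smul, hi, one_smul]
  have e4 : ∀ a, τ'.character a = μ a⁻¹ * τ.character a := fun a => map_smul _ _ _
  have ha : a₀ ≠ 1 := fun e => hμ (by rw [e, map_one])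
  have e5 : ∑ a, μ a⁻¹ = 0 := (Equiv.sum_comp (Equiv.inv K) μ).trans
      (sum_hom_units_eq_zero μ fun e => hμ (by rw [e]; rfl))
  rw [(Submodule.eq_bot_iff τ.invariants).2 h2, finrank_bot, ← Finset.add_sum_erase _ _ (Finset.mem_univ 1),
    Finset.sum_congr rfl fun a h => h1 a a₀ (Finset.ne_of_mem_erase h) ha] at e1
  rw [e3, ← Finset.add_sum_erase _ _ (Finset.mem_univ 1), Finset.sum_congr rfl fun a h => by
    rw [e4, h1 a a₀ (Finset.ne_of_mem_erase h) ha], ← Finset.sum_mul] at e2
  rw [← Finset.add_sum_erase _ _ (Finset.mem_univ 1)] at e5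
  rw [eq_neg_of_add_eq_zero_right e5] at e2
  simp only [Representation.char_one, Finset.sum_const, Finset.card_erase_of_mem, Finset.mem_univ,
    Finset.card_univ, ← Nat.card_eq_fintype_card, nsmul_eq_mul, inv_one, map_one] at e1 e2
  have h0 : 1 ≤ Nat.card K := Nat.card_pos
  have : (finrank ℂ W : ℂ) = ((Nat.card K - 1 : ℕ) : ℂ) * finrank ℂ E := by
    rw [← e2]
    push_cast [h0] at e1 ⊢
    field_simp at e1 ⊢
    linear_combination e1
  exact_mod_cast this

variable {F : Type} [Field F] [Finite F] {k : ℕ}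

theorem gl_ext {g h : GL (Fin k) F}
    (e : ∀ v, (g : Matrix (Fin k) (Fin k) F) *ᵥ v = (h : Matrix (Fin k) (Fin k) F) *ᵥ v) : g = h :=
  Units.ext (Matrix.ext_iff_mulVec.2 e)

theorem exists_tv (i : Fin k) (w : Fin k → F) (h : 1 + w i ≠ 0) :
    ∃ g : GL (Fin k) F, ∀ v, (g : Matrix (Fin k) (Fin k) F) *ᵥ v = v + v i • w := by
  have e : ∀ v, (1 + Matrix.vecMulVec w (Pi.single i 1)) *ᵥ v = v + v i • w := fun v => by
    rw [Matrix.add_mulVec, Matrix.one_mulVec, Matrix.vecMulVec_mulVec]; simp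
  obtain ⟨g, hg⟩ := (Matrix.mulVec_injective_iff_isUnit (A := 1 + Matrix.vecMulVec w
      (Pi.single i 1))).1 fun v v' h' => by
    rw [e, e] at h'
    have h1 : v i = v' i := mul_right_cancel₀ h (by
      have := congrFun h' i
      simp only [Pi.add_apply, Pi.smul_apply, smul_eq_mul] at this
      linear_combination this)
    rwa [h1, add_left_inj] at h'
  exact ⟨g, fun v => by rw [hg, e]⟩

/-- vectors supported on the first `m` coordinates -/
def mirA (F : Type) [Field F] (k m : ℕ) : Submodule F (Fin k → F) where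
  carrier := {a | ∀ i : Fin k, m ≤ i → a i = 0}
  zero_mem' := fun _ _ => rfl
  add_mem' := fun ha hb i hi => by simp [ha i hi, hb i hi]
  smul_mem' := fun c a ha i hi => by simp [ha i hi]

theorem card_mirA {m : ℕ} (hm : m ≤ k) : Nat.card (mirA F k m) = Nat.card F ^ m := by
  rw [← Nat.card_fin m, ← Nat.card_fun, Nat.card_fin]
  refine Nat.card_eq_of_bijective (fun a i => a.1 (i.castLE hm)) ⟨fun a b e => ?_, fun b => ?_⟩
  · ext i
    by_cases hi : m ≤ i
    · rw [a.2 i hi, b.2 i hi]
    · exact congrFun e ⟨i, not_le.1 hi⟩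
  · exact ⟨⟨fun i => if h : i < m then b ⟨i, h⟩ else 0, fun i hi => dif_neg (not_lt.2 hi)⟩,
      funext fun i => dif_pos i.2⟩

/-- the matrices whose rows `≥ m` are trivial -/
def mirR (F : Type) [Field F] (k m : ℕ) : Subgroup (GL (Fin k) F) where
  carrier := {g | ∀ v, ∀ i : Fin k, m ≤ i → ((g : Matrix (Fin k) (Fin k) F) *ᵥ v) i = v i}
  one_mem' := fun v i _ => by simp
  mul_mem' := fun {a b} ha hb v i hi => by
    rw [Units.val_mul, ← Matrix.mulVec_mulVec, ha _ i hi, hb _ i hi]
  inv_mem' := fun {a} ha v i hi => by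
    rw [← ha (_ *ᵥ v) i hi, Matrix.mulVec_mulVec, Units.mul_inv, Matrix.one_mulVec]

theorem exists_mirX (c : Fin k) (a : Multiplicative (mirA F k c)) : ∃ g : mirR F k c, ∀ v,
    ((g : GL (Fin k) F) : Matrix (Fin k) (Fin k) F) *ᵥ v = v + v c • a.toAdd.1 := by
  obtain ⟨g, hg⟩ := exists_tv c a.toAdd.1 (by simp [a.toAdd.2 c le_rfl])
  exact ⟨⟨g, fun v i hi => by simp [hg, a.toAdd.2 i hi]⟩, hg⟩

/-- the column subgroups -/
noncomputable def mirX (c : Fin k) : Multiplicative (mirA F k c) →* mirR F k c :=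
  MonoidHom.mk' (fun a => (exists_mirX c a).choose)
    fun a b => Subtype.ext (gl_ext fun v => by
      rw [Subgroup.coe_mul, Units.val_mul, ← Matrix.mulVec_mulVec, (exists_mirX c a).choose_spec,
        (exists_mirX c b).choose_spec, (exists_mirX c _).choose_spec]
      simp [b.toAdd.2 c le_rfl, add_left_comm, add_comm])

theorem mirX_apply (c : Fin k) (a : Multiplicative (mirA F k c)) (v : Fin k → F) :
    ((mirX c a : GL (Fin k) F) : Matrix (Fin k) (Fin k) F) *ᵥ v = v + v c • a.toAdd.1 :=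
  (exists_mirX c a).choose_spec v

theorem mirX_conj {m : ℕ} {g : GL (Fin k) F} (hg : g ∈ mirR F k m) {c : Fin k} (hc : m ≤ c)
    {a b : Multiplicative (mirA F k c)}
    (e : (g : Matrix (Fin k) (Fin k) F) *ᵥ a.toAdd.1 = b.toAdd.1) :
    g * mirX c a = mirX c b * g := gl_ext fun v => by
  simp only [Units.val_mul, ← Matrix.mulVec_mulVec, mirX_apply, Matrix.mulVec_add,
    Matrix.mulVec_smul, e, hg v c hc]

variable {W : Type*} [AddCommGroup W] [Module ℂ W] [FiniteDimensional ℂ W]
  (ρ : Representation ℂ (GL (Fin k) F) W) (ψ : AddChar F ℂ)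

/-- the Whittaker spaces -/
def mirV (m : ℕ) : Submodule ℂ W where
  carrier := {v | ∀ b c : Fin k, m ≤ c → (b : ℕ) + 1 = c → ∀ a, ρ (mirX c a) v = ψ (a.toAdd.1 b) • v}
  zero_mem' := by simp
  add_mem' := fun ha hb b c h1 h2 a => by rw [map_add, ha b c h1 h2, hb b c h1 h2, smul_add]
  smul_mem' := fun r v ha b c h1 h2 a => by rw [map_smul, ha b c h1 h2, smul_comm]

theorem mirV_inv {m : ℕ} (g : mirR F k m) :
    mirV ρ ψ (m + 1) ≤ (mirV ρ ψ (m + 1)).comap ((ρ.comp (mirR F k m).subtype) g) :=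
  fun v hv b c h1 h2 a => by
    have hg := inv_mem g.2
    have e := mirX_conj g.2 (c := c) (by omega) (b := a) (a := Multiplicative.ofAdd
      ⟨((g.1⁻¹ : GL (Fin k) F) : Matrix (Fin k) (Fin k) F) *ᵥ a.toAdd.1, fun i hi => by
        rw [hg _ i (by omega), a.toAdd.2 i hi]⟩) (by
      simp only [toAdd_ofAdd, Matrix.mulVec_mulVec, Units.mul_inv, Matrix.one_mulVec])
    change ρ _ (ρ g.1 v) = _ • ρ g.1 v
    rw [← Module.End.mul_apply, ← map_mul, ← e, map_mul, Module.End.mul_apply, hv b c h1 h2,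
      map_smul]
    exact congrArg (ψ · • _) (hg _ b (by omega))

theorem mir_fix {m : ℕ} {v : W} (h : ∀ c : Fin k, m ≤ c → ∀ a : Multiplicative (mirA F k c),
    a.toAdd.1 ∈ mirA F k m → ρ (mirX c a) v = v) (u : GL (Fin k) F) (hu : u ∈ UA (mirA F k m)) :
    ρ u v = v := by
  classical
  have key : ∀ (S : Finset (Fin k)) (u : GL (Fin k) F), u ∈ UA (mirA F k m) →
      (∀ c ∉ S, (u : Matrix (Fin k) (Fin k) F) *ᵥ Pi.single c 1 = Pi.single c 1) → ρ u v = v := by
    intro S
    induction S using Finset.induction_on with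
    | empty =>
      intro u _ e
      rw [show u = 1 from Units.ext (Matrix.ext_of_mulVec_single fun c => by
        rw [e c (by simp), Units.val_one, Matrix.one_mulVec])]
      simp
    | insert c S hc ih =>
      intro u hu e
      by_cases hm : m ≤ c; swap
      · refine ih u hu fun d hd => ?_
        by_cases hdc : d = c
        · exact hu.2 _ fun i hi => Pi.single_eq_of_ne (fun e => hm (by rw [← hdc, ← e]; exact hi)) _
        · exact e d (by simp [hd, hdc])
      have ha := hu.1 (Pi.single c 1)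
      let a : Multiplicative (mirA F k c) := Multiplicative.ofAdd ⟨_, fun i hi => ha i (hm.trans hi)⟩
      have ha' : a⁻¹.toAdd.1 ∈ mirA F k m := neg_mem ha
      have hx : (mirX c a : GL (Fin k) F) ∈ UA (mirA F k m) :=
        ⟨fun x => by rw [mirX_apply, add_sub_cancel_left]; exact Submodule.smul_mem _ _ ha,
          fun x hx => by rw [mirX_apply, hx c hm, zero_smul, add_zero]⟩
      have := ih (u * (mirX c a⁻¹ : mirR F k c)) (mul_mem hu (by rw [map_inv]; exact inv_mem hx))
        fun d hd => by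
          rw [Units.val_mul, ← Matrix.mulVec_mulVec, mirX_apply, Matrix.mulVec_add,
            hu.2 _ (Submodule.smul_mem _ _ ha')]
          by_cases hdc : d = c
          · simp [hdc, a]
          · simp [e d (by simp [hd, hdc]), Ne.symm hdc]
      rwa [map_mul, Module.End.mul_apply, h c hm _ ha'] at this
  exact key Finset.univ u hu fun c hc => (hc (Finset.mem_univ c)).elim

theorem mir_step (hψ : ψ ≠ 1) (hc : Cusp ρ.character) {m : ℕ} (hm : m + 1 < k) :
    finrank ℂ (mirV ρ ψ (m + 2)) = (Nat.card F ^ (m + 1) - 1) * finrank ℂ (mirV ρ ψ (m + 1)) := by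
  classical
  let b : Fin k := ⟨m, by omega⟩
  let c : Fin k := ⟨m + 1, hm⟩
  let σ := Representation.subrepresentation _ _ (mirV_inv ρ ψ (m := c))
  have hle : mirV ρ ψ (m + 1) ≤ mirV ρ ψ (m + 2) := fun v hv b c h1 => hv b c (by omega)
  obtain ⟨t, ht⟩ := AddChar.ne_one_iff.1 hψ
  have hb : ∀ s : F, (Pi.single b s : Fin k → F) ∈ mirA F k c := fun s i hi =>
    Pi.single_eq_of_ne (fun e => by simp [e, b, c] at hi) _
  have step : ∀ (i : Fin k) (a a' : Multiplicative (mirA F k c)), a.toAdd.1 i ≠ 0 →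
      a'.toAdd.1 i ≠ 0 → σ.character (mirX c a) = σ.character (mirX c a') := fun i a a' h h' => by
    obtain ⟨g, hg⟩ := exists_tv i ((a.toAdd.1 i)⁻¹ • (a'.toAdd.1 - a.toAdd.1)) (by
      simp only [Pi.smul_apply, Pi.sub_apply, smul_eq_mul]; field_simp; simpa using ⟨h', h⟩)
    have h1 : g ∈ mirR F k c := fun v j hj => by simp [hg, a.toAdd.2 j hj, a'.toAdd.2 j hj]
    have h2 := mirX_conj h1 le_rfl (a := a) (b := a') (by simp [hg, smul_smul, h])
    rw [← σ.char_conj _ ⟨g, h1⟩]
    exact congrArg _ (mul_inv_eq_of_eq_mul (Subtype.ext h2))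
  have ne : ∀ a : Multiplicative (mirA F k c), a ≠ 1 → ∃ i, a.toAdd.1 i ≠ 0 := fun a h => by
    by_contra! e
    exact h (Subtype.ext (funext e))
  rw [← (Submodule.comapSubtypeEquivOfLe hle).finrank_eq, ← card_mirA hm.le]
  refine mir_abs (σ.comp (mirX c)) (fun a a' h h' => ?_) (fun v hv => ?_)
    (ψ.toMonoidHom.comp (AddMonoidHom.toMultiplicative ((LinearMap.proj b).comp
      (mirA F k c).subtype).toAddMonoidHom)) (a₀ := Multiplicative.ofAdd ⟨_, hb t⟩)
    (by simpa using ht) fun v => ⟨fun hv a => Subtype.ext (hv b c le_rfl rfl a), fun hv b' c' h1 h2 => ?_⟩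
  · obtain ⟨i, hi⟩ := ne a h
    obtain ⟨j, hj⟩ := ne a' h'
    let z : Multiplicative (mirA F k c) := Multiplicative.ofAdd
      ⟨fun l => if l = i ∨ l = j then 1 else 0, fun l hl => if_neg (by
        rintro (rfl | rfl)
        exacts [hi (a.toAdd.2 _ hl), hj (a'.toAdd.2 _ hl)])⟩
    exact (step i a z hi (by simp [z])).trans (step j z a' (by simp [z]) hj)
  · have := Fintype.ofFinite (UA (mirA F k c))
    have h1 := hc (mirA F k c) ((Submodule.ne_bot_iff _).2 ⟨_, hb 1, by simp⟩)
      fun e => by simpa using (e.ge (Submodule.mem_top (x := Pi.single c 1))) c le_rfl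
    rw [finsum_eq_sum_of_fintype] at h1
    have h2 := LinearMap.congr_fun
      (H4.sum_rep_eq_zero_of_sum_char (ρ.comp (UA (mirA F k c)).subtype) h1) v.1
    have h3 : ∀ u : UA (mirA F k c), (ρ.comp (UA (mirA F k c)).subtype) u v.1 = v.1 := fun u => by
      refine mir_fix ρ (fun d hd a ha => ?_) u.1 u.2
      by_cases e : d = c
      · subst e; exact congrArg Subtype.val (hv a)
      have h3 : m + 2 ≤ d := lt_of_le_of_ne hd fun e' => e (Fin.ext e'.symm)
      rw [v.2 ⟨d - 1, by omega⟩ d h3 (by simp only; omega), ha _ (by simp only [c]; omega)]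
      simp
    rw [LinearMap.sum_apply, Finset.sum_congr rfl fun u _ => h3 u, Finset.sum_const,
      LinearMap.zero_apply, ← Nat.cast_smul_eq_nsmul ℂ] at h2
    exact Subtype.ext ((smul_eq_zero.1 h2).resolve_left (by simp))
  · by_cases e : c' = c
    · subst e
      obtain rfl : b' = b := Fin.ext (by simpa [c] using h2)
      exact fun a => congrArg Subtype.val (hv a)
    · exact v.2 b' c' (lt_of_le_of_ne h1 fun e' => e (Fin.ext e'.symm)) h2

theorem gl_dvd_of_cusp {k : ℕ} {π : GL (Fin k) F → ℂ} (hπ : IsCharacter _ π) (hc : Cusp π) :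
    gl (Nat.card F) (k - 1) ∣ charDegree π := by
  obtain ⟨n, ρ, rfl⟩ := hπ
  have := Fintype.ofFinite F
  let ψ := AddChar.FiniteField.primitiveChar_to_Complex F
  have hψ : ψ ≠ 1 := fun e => AddChar.FiniteField.primitiveChar_to_Complex_isPrimitive F
    one_ne_zero (by rw [AddChar.mulShift_one]; exact e)
  have key : ∀ m, m < k → gl (Nat.card F) m ∣ finrank ℂ (mirV ρ ψ (m + 1)) := fun m => by
    induction m with
    | zero => simp [gl]
    | succ m ih =>
      intro hm
      rw [mir_step ρ ψ hψ hc hm, gl, Finset.prod_range_succ, mul_comm]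
      exact Nat.mul_dvd_mul_left _ (ih (by omega))
  rcases k with _ | k
  · simp [gl]
  have := key k (by omega)
  rwa [show mirV ρ ψ (k + 1) = ⊤ from eq_top_iff.2 fun v _ b c h => by omega, finrank_top,
    ← H4.charDegree_character ρ] at this

end Cfsg.Agent.DG
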