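import Cfsg.Agent.Lib.DG.Aniso

/-!
# Cases where `-1` is outside the derived group (row DG-Neg, see notes/DG.md)
-/

set_option autoImplicit false

open scoped ComplexConjugate Matrix
open Module Cfsg

namespace Cfsg.Agent.DG.Fm

variable {sy : Bool} {F V : Type} [Field F] [Finite F] [AddCommGroup V] [Module F V] [Finite V]

/-- the sign of the action on the vectors of length `c` -/
theorem exists_sign (f : Fm sy F V) (c : F) : ∃ μ : f.O →* ℂˣ, (∀ g, μ g = 1 ∨ μ g = -1) ∧
    ∀ g : f.O, g * g = 1 → (∀ v, f.Q v = c → g.1 v ≠ v) → f.NQ c % 4 = 2 → μ g = -1 := by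
  classical
  let _ := Fintype.ofFinite (f.QS c)
  refine ⟨(Units.map (Int.castRingHom ℂ).toMonoidHom).comp (Equiv.Perm.sign.comp
    (MulAction.toPermHom f.O (f.QS c))), fun g => ?_, fun g hg h1 h2 => ?_⟩
  · rcases Int.units_eq_one_or (Equiv.Perm.sign (MulAction.toPermHom f.O (f.QS c) g)) with e | e <;>
      simp only [MonoidHom.comp_apply, e]
    exacts [.inl (map_one _), .inr (Units.ext (by simp))]
  · have : IsEmpty (Function.fixedPoints (MulAction.toPermHom f.O (f.QS c) g)) :=
      ⟨fun v => h1 _ v.1.2 (congrArg Subtype.val v.2)⟩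
    have e : Fintype.card (f.QS c) = f.NQ c := Nat.card_eq_fintype_card.symm
    rw [MonoidHom.comp_apply, MonoidHom.comp_apply, Equiv.Perm.sign_of_pow_two_eq_one
      (by rw [pow_two, ← map_mul, hg, map_one]), Fintype.card_eq_zero (α := Function.fixedPoints _),
      e, Odd.neg_one_pow ⟨f.NQ c / 4, by omega⟩]
    exact Units.ext (by simp)

theorem neg_not_mem_of_NQ {f : Fm sy F V} (hq : Odd (Nat.card F)) (h : f.NQ 1 % 4 = 2) :
    f.neg1 ∉ commutator f.O := fun e => by
  obtain ⟨μ, -, h2⟩ := f.exists_sign 1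
  have h3 : (2 : F) ≠ 0 := fun e => by
    let _ := Fintype.ofFinite F
    have := FiniteField.even_card_of_char_two (CharP.ringChar_of_prime_eq_zero Nat.prime_two e)
    rw [Nat.odd_iff, Nat.card_eq_fintype_card] at hq
    omega
  have := (h2 _ f.neg1_sq (fun v hv e => one_ne_zero (α := F) (by
    rw [← hv, (smul_eq_zero.1 (show (2 : F) • v = 0 by
      rw [two_smul]; exact add_eq_zero_iff_neg_eq.2 e)).resolve_left h3, Q_zero])) h).symm.trans
    (Abelianization.commutator_subset_ker μ e)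
  have := congrArg Units.val this
  norm_num at this

theorem neg_not_mem_odd {f : Fm sy F V} (hq : (2 : F) ≠ 0) (h : Odd (finrank F V)) :
    f.neg1 ∉ commutator f.O := fun e => by
  have : Module.Finite F V := Module.Finite.of_finite
  have h1 := congrArg Units.val
    (Abelianization.commutator_subset_ker (LinearEquiv.det.comp f.O.subtype) e)
  rw [MonoidHom.comp_apply, LinearEquiv.coe_det, show ((f.O.subtype f.neg1 : V ≃ₗ[F] V) : V →ₗ[F] V)
    = (-1 : F) • LinearMap.id by ext; simp [neg1], LinearMap.det_smul, h.neg_one_pow,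
    LinearMap.det_id, mul_one, Units.val_one] at h1
  exact hq (by linear_combination -h1)

theorem NQ_succ {V' : Type} [AddCommGroup V'] [Module F V'] [Finite V'] {f : Fm false F V}
    {a : Fm false F V'} {n : ℕ} (hs : St f (n + 1) a) (c : F) :
    f.NQ c = Nat.card F * (a.hyp (Fin n)).NQ c +
      Nat.card F ^ (2 * n) * Nat.card V' * (Nat.card F - 1) := by
  obtain ⟨i⟩ := hs.split
  rw [NQ_iso i, NQ_hyp, (St.refl a n).card]

theorem neg_not_mem_E3 {f : Fm false F V} {a b : F} {h : AnB a b} (hq : Odd (Nat.card F))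
    (hs : St f 3 (planeFm h)) : f.neg1 ∉ commutator f.O := by
  refine neg_not_mem_of_NQ hq ?_
  obtain ⟨i⟩ := St.zero (planeFm h)
  rw [NQ_succ hs, NQ_succ (St.refl _ _), NQ_succ (St.refl _ _), ← NQ_iso i, plane_NQ h one_ne_zero,
    Nat.card_prod]
  obtain ⟨k, hk⟩ := hq
  rw [hk, Nat.add_sub_cancel]
  obtain ⟨t, rfl | rfl⟩ := Nat.even_or_odd' k <;> ring_nf <;> omega

theorem neg_not_mem_D5 {f : Fm false F V} (hq : Nat.card F = 3)
    (hs : St f 5 (zeroFm false F)) : f.neg1 ∉ commutator f.O := by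
  refine neg_not_mem_of_NQ (hq ▸ by decide) ?_
  obtain ⟨i⟩ := St.zero (zeroFm false F)
  rw [NQ_succ hs, NQ_succ (St.refl _ _), NQ_succ (St.refl _ _), NQ_succ (St.refl _ _),
    NQ_succ (St.refl _ _), ← NQ_iso i, zero_NQ one_ne_zero, hq, Nat.card_unique]
  norm_num

end Cfsg.Agent.DG.Fm
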