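import Cfsg.Agent.Lib.DG.T2
import Cfsg.Agent.Lib.DG.Neg
import Cfsg.Agent.Lib.DG.CuspEx
import Cfsg.Agent.Lib.DG.Gen

/-!
# Special characters of small orthogonal groups (row DG-OrS, see notes/DG.md)
-/

set_option autoImplicit false

open scoped ComplexConjugate Matrix
open Module Cfsg

namespace Cfsg.Agent.DG.Fm

variable {F : Type} [Field F] [Finite F]

section aux

variable {V V' : Type} [AddCommGroup V] [Module F V] [Finite V] [AddCommGroup V'] [Module F V']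
  [Finite V']

theorem tfO {f : Fm false F V} {a : Fm false F V'} {n : ℕ} (h : St f n a) (hn : 3 ≤ n)
    {χ : f.O → ℂ} (hχ : IsIrrCharacter _ χ) (hq : Nat.card F = 2) (ht : f.TF χ) :
    IsDeg (PO (a.hyp (Fin n)).O) (charDegree χ) := by
  obtain ⟨c, d, h1, h2, -, -, h3⟩ := isDeg_om h hn hχ
    (Or.inl (sg_of_even (by rw [hq]; exact even_two) χ))
  obtain ⟨e⟩ := h.grp (St.refl _ n)
  obtain ⟨e'⟩ := po_equiv e
  rw [h2, h3 ht, one_mul]
  exact isDeg_of_equiv e' h1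

theorem tv_tvel {sy : Bool} {f : Fm sy F V} {c : Fˣ} {v : V} (h : kap F sy * c + f.Q v = 0) :
    f.IsTv (f.tvel v (c⁻¹ : Fˣ)) v (c⁻¹ : Fˣ) :=
  tvel_spec (by
    have := c.mul_inv
    linear_combination (↑c⁻¹ : F) * h - kap F sy * this)

theorem refl_tvel {f : Fm false F V} {c : Fˣ} {v : V} (h : kap F false * c + f.Q v = 0) :
    f.IsRefl (f.tvel v (c⁻¹ : Fˣ)) := by
  have h1 : f.Q v = -c := by
    simp only [kap, Bool.false_eq_true, if_false, one_mul] at h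
    linear_combination h
  refine ⟨v, by simp [h1], ?_⟩
  have := tv_tvel h
  rwa [h1, inv_neg, neg_neg, ← Units.val_inv_eq_inv_val]

theorem e_zero {p N e : ℕ} (hp : p.Prime) {β : ℂ} (h0 : β = 0)
    (h : β ^ 2 * (p : ℂ) ^ e = (p : ℂ) ^ N * ((p : ℂ) ^ e - 1) ^ 2) : e = 0 := by
  have h1 : (p : ℂ) ≠ 0 := by exact_mod_cast hp.ne_zero
  rw [h0] at h
  have h2 : (p : ℂ) ^ e - 1 = 0 := by simpa [h1] using h.symm
  have h3 : p ^ e = 1 := by exact_mod_cast sub_eq_zero.mp h2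
  exact (Nat.pow_eq_one.mp h3).resolve_left hp.one_lt.ne'

/-- the second level of the chains over the field with two elements -/
theorem sgn_step {f : Fm false F V} {a : Fm false F V'} (ha : a.Aniso) {m N : ℕ} (h : St f m a)
    (hm : 1 ≤ m) (hq : Nat.card F = 2) (hN : uu 2 a.tp m 2 = 2 ^ N) {ρ : f.O → ℂ}
    (hρ : IsIrrCharacter _ ρ) (hodd : Odd (charDegree ρ))
    (hf : ∀ lam : GL (Fin 2) F →* ℂˣ, Cusp (fun g => (lam g : ℂ)) →
      f.Free (fun g => (lam g : ℂ)) ρ) :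
    ∃ e d : ℕ, IsDeg (PO (a.hyp (Fin (m + 2))).O) (2 ^ e * d) ∧
      (2 ^ e + 1) * d * 3 = pp 2 a.tp m 2 * charDegree ρ ∧ (RatF ρ → e ≠ 0 → e % 2 = N % 2) := by
  obtain ⟨lam, h1, h2, h3, -⟩ := exists_sgn hq
  obtain ⟨χ₁, χ₂, e, β, i₁, i₂, -, q2, q3, q4, -, -, q7⟩ := step3 ha h two_pos lam h1 h2
    (by simp [eps]) hρ (hf lam h1) Nat.prime_two (N := N) (by rw [hq]; exact hN)
  obtain ⟨b, hb⟩ := h.univ (Or.inl hm) 1 one_ne_zero
  have ht := hc_tf hq ⟨b, by rw [hb]; exact one_ne_zero⟩ two_pos (H4.isCharacter_linear lam) h1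
    (H3.IsIrrCharacter_isCharacter hρ) (hf lam h1) (tf_of_odd hρ hodd)
  rw [q2] at ht
  rw [hq] at q4
  exact ⟨e, _, q3 ▸ tfO (h.hyp 2) (by omega) i₁ hq (ht.part (H3.IsIrrCharacter_isCharacter i₁)
    (H3.IsIrrCharacter_isCharacter i₂)), q4, fun q8 => (q7 h3 q8).1⟩

theorem sim_sum {f : Fm false F V} {ρ : f.O → ℂ} (hsim : f.SimInv ρ) (s : V ≃ₗ[F] V)
    (s1 : ∀ x, f.Q (s x) = (-1 : Fˣ) * f.Q x)
    (s2 : ∀ x y, f.B (s x) (s y) = (-1 : Fˣ) * f.B x y) (η : GL (Fin 1) F →* ℂˣ)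
    (e2 : η (scal (Fin 1) (-1)) = -1) (e3 : ∀ c : Fˣ, c = 1 ∨ c = -1) :
    ∑ᶠ c : Fˣ, ∑ᶠ v : {v : V // kap F false * c + f.Q v = 0},
      (η (scal (Fin 1) c) : ℂ) * ρ (f.tvel v (c⁻¹ : Fˣ)) = 0 := by
  have h1 : (1 : Fˣ) ≠ -1 := fun h1 => by
    rw [← h1, map_one, map_one] at e2
    have := congrArg Units.val e2
    norm_num at this
  classical
  rw [finsum_eq_sum_of_support_subset (s := {1, -1}) _ (fun c _ => by simpa using e3 c),
    Finset.sum_pair h1]
  let φ : {v // kap F false * (1 : Fˣ) + f.Q v = 0} ≃ {v // kap F false * (-1 : Fˣ) + f.Q v = 0} :=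
    s.toEquiv.subtypeEquiv (fun v => by
      simp only [kap, LinearEquiv.coe_toEquiv, s1]
      constructor <;> intro h2 <;> simp at h2 ⊢ <;> linear_combination -h2)
  rw [← finsum_comp_equiv φ, ← finsum_add_distrib (Set.toFinite _) (Set.toFinite _)]
  refine finsum_eq_zero_of_forall_eq_zero (fun v => ?_)
  have h2 : ρ (f.tvel (φ v) ((-1 : Fˣ)⁻¹ : Fˣ)) = ρ (f.tvel v ((1 : Fˣ)⁻¹ : Fˣ)) := by
    refine hsim s (-1) s1 s2 _ _ (fun x => ?_)
    rw [tv_tvel (φ v).2, tv_tvel v.2]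
    change s x + (_ * f.B (s x) (s v)) • s v = _
    rw [s2]
    simp
  rw [h2, e2]
  simp

end aux
theorem om8_2 (hq : Nat.card F = 2) {a b : F} (h : AnB a b) :
    ∃ d, IsDeg (PO ((planeFm h).hyp (Fin 3)).O) d ∧ 2 * 5 * 7 * 17 ∣ d := by
  obtain ⟨ρ, r1, r2, r3, r4⟩ := plane_two h hq
  have fa := freeK_of_aniso (plane_aniso h) ρ
  obtain ⟨χ₁, χ₂, e, β, i₁, i₂, -, q2, -, q4, q5, q6, q7⟩ := step3one (plane_aniso h) (St.zero _)
    (1 : GL (Fin 1) F →* ℂˣ) (fun _ => rfl) rfl r1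
    (fa 1 _ one_pos trivial (H3.isIrrCharacter_linear _) (cusp1 _)) Nat.prime_two (N := 2)
    (by rw [plane_tp, hq]; norm_num)
  have hβ : β = 0 := by
    refine (mul_eq_zero.mp (q6.trans ?_)).resolve_right (H3.IsIrrCharacter_apply_one_ne_zero r1)
    refine finsum_eq_zero_of_forall_eq_zero (fun c => finsum_eq_zero_of_forall_eq_zero
      (fun v => ?_))
    rw [r4 _ (refl_tvel v.2), mul_zero]
  obtain rfl := e_zero Nat.prime_two hβ q5
  rw [plane_tp, hq, r2] at q4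
  have d2 : charDegree χ₂ = 5 := by omega
  have f2 := hc_freeK one_pos (H4.isCharacter_linear (1 : GL (Fin 1) F →* ℂˣ)) (cusp1 _)
    (H3.IsIrrCharacter_isCharacter r1) fa
  rw [q2, add_comm] at f2
  have f3 := f2.part (H3.IsIrrCharacter_isCharacter i₂) (H3.IsIrrCharacter_isCharacter i₁)
  obtain ⟨e, d, s1, s2, s3⟩ := sgn_step (plane_aniso h) (St.refl _ 1) le_rfl hq (N := 9)
    (by rw [plane_tp, hq]; decide) i₂ (by rw [d2]; decide)
    (fun lam hl => f3 2 _ two_pos ⟨trivial, by norm_num⟩ (H3.isIrrCharacter_linear _) hl)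
  have s4 := s3 ((q7 (fun _ => Or.inl rfl) r3).2 (Or.inr even_two)).2
  rw [plane_tp, hq, d2, show pp 2 (2 ^ 2) 1 2 = 3213 by decide] at s2
  refine ⟨_, s1, ?_⟩
  have he : e < 13 := by
    by_contra h1
    have h2 : 2 ^ 13 ≤ 2 ^ e := Nat.pow_le_pow_right (by norm_num) (by omega)
    rcases Nat.eq_zero_or_pos d with rfl | h3
    · omega
    · nlinarith
  interval_cases e <;> omega

theorem two_eq_zero (hq : Nat.card F = 2) : (2 : F) = 0 := by
  have := Fintype.ofFinite F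
  have h := FiniteField.cast_card_eq_zero F
  rw [← Nat.card_eq_fintype_card, hq] at h
  exact_mod_cast h

theorem nq_four (hq : Nat.card F = 2) : ((zeroFm false F).hyp (Fin 2)).NQ 1 = 6 := by
  obtain ⟨i⟩ := St.split (m := 1) (k := 1) (St.refl (zeroFm false F) 2)
  rw [NQ_iso i, NQ_hyp, NQ_hyp, zero_NQ one_ne_zero, (St.refl (zeroFm false F) 1).card, hq]
  simp

theorem sieg_sign (hq : Nat.card F = 2) {μ : ((zeroFm false F).hyp (Fin 2)).O →* ℂˣ}
    (hμ : ∀ g : ((zeroFm false F).hyp (Fin 2)).O, g * g = 1 →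
      (∀ v, ((zeroFm false F).hyp (Fin 2)).Q v = 1 → g.1 v ≠ v) → μ g = -1)
    {j : (Fin 2 → F) →ₗ[F] _} (hj : ((zeroFm false F).hyp (Fin 2)).TS j) :
    ∃ g : ((zeroFm false F).hyp (Fin 2)).O, μ g ≠ 1 ∧ ∀ z, g.1 z =
      z + ((zeroFm false F).hyp (Fin 2)).B z (j (Pi.single 1 1)) • j (Pi.single 0 1) -
        ((zeroFm false F).hyp (Fin 2)).B z (j (Pi.single 0 1)) • j (Pi.single 1 1) := by
  generalize hf : (zeroFm false F).hyp (Fin 2) = f at *
  have hr : finrank F ((Fin 2 → F) × (Fin 2 → F) × (Fin 0 → F)) = 4 := by simp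
  obtain ⟨g, -, -, hg⟩ := exists_sieg (hj.hQ (Pi.single 0 1)) (hj.hB _ (Pi.single 1 1))
  simp only [hj.hQ, eps, zero_mul, zero_smul, sub_zero, Bool.false_eq_true, if_false,
    Units.val_one, one_mul] at hg
  refine ⟨g, ?_, hg⟩
  rw [hμ g]
  · intro h
    have := congrArg Units.val h
    norm_num at this
  · refine Subtype.ext (LinearEquiv.ext fun z => ?_)
    change g.1 (g.1 z) = z
    rw [hg, hg z]
    simp only [map_add, map_sub, map_smul, LinearMap.add_apply, LinearMap.sub_apply,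
      LinearMap.smul_apply, hj.hB, smul_zero, add_zero, sub_zero]
    have h2 := two_eq_zero hq
    linear_combination (norm := module) (h2 • (f.B z (j (Pi.single 1 1)) • j (Pi.single 0 1) -
      f.B z (j (Pi.single 0 1)) • j (Pi.single 1 1)))
  · intro z hz h
    rw [hg] at h
    have h1 : j (f.B z (j (Pi.single 1 1)) • Pi.single 0 1 -
        f.B z (j (Pi.single 0 1)) • Pi.single 1 1) = j 0 := by
      rw [map_sub, map_smul, map_smul, map_zero]
      linear_combination (norm := module) h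
    have h2 := hj.inj h1
    have h3 := congrFun h2 0
    have h4 := congrFun h2 1
    simp at h3 h4
    obtain ⟨W, f', i, hi⟩ := hj.exists_hyp
    have h5 : finrank F W = 0 := by
      have := i.e.finrank_eq
      rw [hr] at this
      simp at this
      omega
    have : Subsingleton W := Module.finrank_zero_iff.mp h5
    rw [← i.hB, hi, hyp_B] at h3 h4
    simp [eps] at h3 h4
    rw [← i.hQ, hyp_Q, Subsingleton.elim (i.e z).2.2 0, Q_zero] at hz
    simp [dotProduct, h3, h4] at hz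
theorem mu_free (hq : Nat.card F = 2) : ∃ μ : ((zeroFm false F).hyp (Fin 2)).O →* ℂˣ,
    (∀ π : GL (Fin 1) F → ℂ, ((zeroFm false F).hyp (Fin 2)).Free π (fun g => μ g)) ∧
    ∀ π : GL (Fin 2) F → ℂ, ((zeroFm false F).hyp (Fin 2)).Free π (fun g => μ g) := by
  obtain ⟨μ, -, hμ⟩ := exists_sign ((zeroFm false F).hyp (Fin 2)) 1
  have hμ' := fun g h1 h2 => hμ g h1 h2 (by rw [nq_four hq])
  refine ⟨μ, fun π => free_of_elt μ π (fun j hj => ?_), fun π => free_of_elt μ π (fun j hj => ?_)⟩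
  · obtain ⟨g₀, hg₀⟩ := trans_sing (f := (zeroFm false F).hyp (Fin 2))
      (u := (Pi.single 0 1, 0, 0)) (u' := j (Pi.single 0 1)) (by simp)
      (by rw [← map_zero j]; exact hj.inj.ne (by simp)) ((ts_std _).hQ _) (hj.hQ _)
    have h2 := (ts_std (ι := Fin 2) (zeroFm false F)).comp g₀
    obtain ⟨g, h3, h4⟩ := sieg_sign hq hμ' h2
    have h5 := h2.hB (Pi.single 0 1) (Pi.single 1 1)
    simp only [LinearMap.comp_apply, LinearMap.inl_apply, LinearEquiv.coe_coe] at h4 h5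
    change ∀ z, g.1 z = z + _ • g₀.1 (Pi.single 0 1, 0, 0) - ((zeroFm false F).hyp (Fin 2)).B z
      (g₀.1 (Pi.single 0 1, 0, 0)) • _ at h4
    change ((zeroFm false F).hyp (Fin 2)).B (g₀.1 (Pi.single 0 1, 0, 0)) _ = 0 at h5
    rw [hg₀] at h4 h5
    refine ⟨g, fun x => ?_, fun v hv => ?_, h3⟩
    · have hx : x = x 0 • Pi.single 0 1 := funext fun i => by
        rw [Subsingleton.elim i 0]; simp
      rw [h4, hj.hB, hx, map_smul, map_smul, LinearMap.smul_apply, h5]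
      simp
    · rw [h4, (B_eq_zero_comm _).mp (hv _), zero_smul, sub_zero, ← map_smul]
      exact ⟨_, rfl⟩
  · obtain ⟨g, h3, h4⟩ := sieg_sign hq hμ' hj
    refine ⟨g, fun x => ?_, fun v hv => ⟨0, ?_⟩, h3⟩
    · rw [h4, hj.hB, hj.hB]
      simp
    · rw [h4, (B_eq_zero_comm _).mp (hv _), (B_eq_zero_comm _).mp (hv _)]
      simp
theorem op10_2 (hq : Nat.card F = 2) :
    ∃ d, IsDeg (PO ((zeroFm false F).hyp (Fin 5)).O) d ∧ 14 ∣ d := by
  obtain ⟨μ, f1, f2⟩ := mu_free hq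
  obtain ⟨χ₁, χ₂, e, β, i₁, i₂, -, q2, -, q4, -⟩ := step3one (zero_aniso false) (St.refl _ 2)
    (1 : GL (Fin 1) F →* ℂˣ) (fun _ => rfl) rfl (H3.isIrrCharacter_linear μ) (f1 _)
    Nat.prime_two (N := 4) (by rw [zero_tp_false, hq]; norm_num)
  rw [zero_tp_false, hq,
    H4.charDegree_eq_of_apply_one (a := fun g => (μ g : ℂ)) (n := 1) (by simp)] at q4
  have d2 : charDegree χ₂ = 7 := by
    have he : e < 6 := by
      by_contra h1
      have h2 : 2 ^ 6 ≤ 2 ^ e := Nat.pow_le_pow_right (by norm_num) (by omega)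
      have := H4.charDegree_pos i₂
      norm_num at q4
      nlinarith
    interval_cases e <;> omega
  obtain ⟨e, d, s1, s2, -⟩ := sgn_step (zero_aniso false) ((St.refl _ 2).hyp 1) (by norm_num) hq
    (N := 13) (by rw [zero_tp_false]; decide) i₂ (by rw [d2]; decide) (fun lam hl => by
      have f3 := m2 (H4.isCharacter_linear (1 : GL (Fin 1) F →* ℂˣ)) (H4.isCharacter_linear lam)
        (H4.isCharacter_linear μ) (cusp1 _) hl (f2 _) (by simp)
      rw [q2, add_comm] at f3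
      exact f3.part (H4.isCharacter_linear lam) (H3.IsIrrCharacter_isCharacter i₂)
        (H3.IsIrrCharacter_isCharacter i₁))
  rw [zero_tp_false, d2, show pp 2 1 (2 + 1) 2 = 71145 by decide] at s2
  refine ⟨_, s1, ?_⟩
  have he : e < 18 := by
    by_contra h1
    have h2 : 2 ^ 18 ≤ 2 ^ e := Nat.pow_le_pow_right (by norm_num) (by omega)
    rcases Nat.eq_zero_or_pos d with rfl | h3
    · omega
    · nlinarith
  interval_cases e <;> omega

theorem om8_3 (hq : Nat.card F = 3) {a b : F} (h : AnB a b) :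
    ∃ d, IsDeg (PO ((planeFm h).hyp (Fin 3)).O) d ∧ 3 * 5 * 13 ∣ d := by
  obtain ⟨ρ, ρ', r1, -, r2, r3, -, -, r4, -, -, r5⟩ := rank3 (plane_aniso h) (St.refl _ 1) le_rfl
  rw [plane_tp, hq] at r2 r3
  norm_num [IsD1, IsD2] at r2 r3
  have d1 : charDegree ρ = 90 := by omega
  have hsim := r5 (by omega)
  obtain ⟨η, e1, e2, e3⟩ := exists_eta hq
  have hne : (fun g => (η g : ℂ)) ≠ fun _ => 1 := fun h1 => by
    have := congrFun h1 (scal (Fin 1) (-1))
    simp only [e2] at this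
    norm_num at this
  obtain ⟨χ₁, χ₂, e, β, -, i₂, -, -, -, q4, q5, q6, -⟩ := step3one (plane_aniso h)
    ((St.refl _ 1).hyp 1) η e1 (by simp [eps]) r1
    (r4 1 _ one_pos (H3.isIrrCharacter_linear _) (cusp1 _) hne) Nat.prime_three (N := 6)
    (by rw [plane_tp, hq]; norm_num)
  obtain ⟨s, s1, s2⟩ := sim_hyp (sim_hyp (plane_sim h (-1)) (Fin 1)) (Fin 1)
  have hβ : β = 0 := (mul_eq_zero.mp (q6.trans (sim_sum hsim s s1 s2 η e2 e3))).resolve_right
    (H3.IsIrrCharacter_apply_one_ne_zero r1)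
  obtain rfl := e_zero Nat.prime_three hβ q5
  rw [plane_tp, hq, d1] at q4
  have hs := ((St.refl (planeFm h) 1).hyp 1).hyp 1
  obtain ⟨c, d, t1, t2, t3, -⟩ := isDeg_om hs le_rfl i₂
    (Or.inr (neg_not_mem_E3 (h := h) (by rw [hq]; decide) hs))
  obtain ⟨g⟩ := hs.grp (St.refl _ 3)
  obtain ⟨g'⟩ := po_equiv g
  refine ⟨d, isDeg_of_equiv g' t1, ?_⟩
  have t4 : c * d = 47970 := by omega
  have t5 : c ≤ 4 := Nat.le_of_dvd (by norm_num) t3
  interval_cases c <;> omega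

end Cfsg.Agent.DG.Fm
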