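import Cfsg.Agent.Lib.DG.Geo
import Cfsg.Agent.Lib.DG.HM

/-!
# The parabolic subgroup, its Levi decomposition and Harish-Chandra induction
(row DG-Par, see notes/DG.md)
-/

set_option autoImplicit false

open scoped ComplexConjugate Matrix
open Module Cfsg

namespace Cfsg.Agent.DG.Fm

variable {sy : Bool} {F V : Type} [Field F] [Finite F] [AddCommGroup V] [Module F V] [Finite V]
  {ι : Type} [Fintype ι] [DecidableEq ι]

/-- `l` is the Levi component of `g` -/
def PrS (f : Fm sy F V) (g : (f.hyp ι).O) (l : GL ι F × f.O) : Prop :=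
  (∀ x, g.1 (x, 0, 0) = ((l.1 : Matrix ι ι F) *ᵥ x, 0, 0)) ∧
    ∀ z, ∃ x, g.1 (0, 0, z) = (x, 0, l.2.1 z)

omit [Finite F] [Finite V] in
theorem PrS.unique {f : Fm sy F V} {g : (f.hyp ι).O} {l l' : GL ι F × f.O} (h : f.PrS g l)
    (h' : f.PrS g l') : l = l' :=
  Prod.ext (gl_ext fun x => congrArg Prod.fst ((h.1 x).symm.trans (h'.1 x))) (O_ext fun z => by
    obtain ⟨x, hx⟩ := h.2 z
    obtain ⟨x', hx'⟩ := h'.2 z
    exact congrArg (fun t => t.2.2) (hx.symm.trans hx'))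

omit [Finite F] [Finite V] in
theorem PrS.mul {f : Fm sy F V} {g g' : (f.hyp ι).O} {l l' : GL ι F × f.O} (h : f.PrS g l)
    (h' : f.PrS g' l') : f.PrS (g * g') (l * l') := by
  refine ⟨fun x => ?_, fun z => ?_⟩
  · rw [mul_app, h'.1, h.1, Matrix.mulVec_mulVec]; rfl
  · obtain ⟨x, hx⟩ := h'.2 z
    obtain ⟨x', hx'⟩ := h.2 (l'.2.1 z)
    refine ⟨(l.1 : Matrix ι ι F) *ᵥ x + x', ?_⟩
    have e : ((x, 0, l'.2.1 z) : (ι → F) × (ι → F) × V) = (x, 0, 0) + (0, 0, l'.2.1 z) := by simp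
    rw [mul_app, hx, e, map_add, h.1, hx']
    simp [mul_app]

omit [Finite F] [Finite V] in
theorem snd_zero {f : Fm sy F V} {g : (f.hyp ι).O} {a : GL ι F}
    (ha : ∀ x, g.1 (x, 0, 0) = ((a : Matrix ι ι F) *ᵥ x, 0, 0)) (x : ι → F) (z : V) :
    (g.1 (x, 0, z)).2.1 = 0 := by
  refine dotProduct_eq_zero_iff.mp (fun y => ?_)
  have := g.2.2 (((a⁻¹ : GL ι F) : Matrix ι ι F) *ᵥ y, 0, 0) (x, 0, z)
  rw [ha, Matrix.mulVec_mulVec, Units.mul_inv, Matrix.one_mulVec, hyp_B, hyp_B] at this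
  simpa [dotProduct_comm] using this

theorem exists_prS {f : Fm sy F V} {g : (f.hyp ι).O} (hg : g ∈ f.P ι) : ∃ l, f.PrS g l := by
  obtain ⟨a, ha⟩ := hg
  obtain ⟨h, hh⟩ := mkO (f := f) ((LinearMap.snd F _ _).comp ((LinearMap.snd F _ _).comp
    (g.1.toLinearMap.comp ((LinearMap.inr F _ _).comp (LinearMap.inr F _ _)))))
    (fun z => by simpa [hyp_Q, snd_zero ha] using g.2.1 (0, 0, z))
    (fun z z' => by simpa [hyp_B, snd_zero ha] using g.2.2 (0, 0, z) (0, 0, z'))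
  exact ⟨(a, h), ha, fun z => ⟨(g.1 (0, 0, z)).1, Prod.ext rfl (Prod.ext (snd_zero ha 0 z)
    (hh z).symm)⟩⟩
theorem exists_pr (ι : Type) [Fintype ι] [DecidableEq ι] (f : Fm sy F V) :
    ∃ φ : f.P ι →* GL ι F × f.O, ∀ g : f.P ι,
      (∀ x, g.1.1 (x, 0, 0) = (((φ g).1 : Matrix ι ι F) *ᵥ x, 0, 0)) ∧
      ∀ z, ∃ x, g.1.1 (0, 0, z) = (x, 0, (φ g).2.1 z) := by
  choose φ hφ using fun g : f.P ι => exists_prS g.2
  exact ⟨MonoidHom.mk' φ (fun a b => (hφ (a * b)).unique ((hφ a).mul (hφ b))), hφ⟩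

/-- the projection of the parabolic subgroup onto the Levi factor -/
noncomputable def pr (ι : Type) [Fintype ι] [DecidableEq ι] (f : Fm sy F V) :
    f.P ι →* GL ι F × f.O := (exists_pr ι f).choose

variable {f : Fm sy F V}

theorem pr_fst (g : f.P ι) (x : ι → F) :
    g.1.1 (x, 0, 0) = (((f.pr ι g).1 : Matrix ι ι F) *ᵥ x, 0, 0) :=
  ((exists_pr ι f).choose_spec g).1 x

theorem pr_snd (g : f.P ι) (z : V) : ∃ x, g.1.1 (0, 0, z) = (x, 0, (f.pr ι g).2.1 z) :=
  ((exists_pr ι f).choose_spec g).2 z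

theorem pr_eq {g : f.P ι} {a : GL ι F} {h : f.O}
    (h1 : ∀ x, g.1.1 (x, 0, 0) = ((a : Matrix ι ι F) *ᵥ x, 0, 0))
    (h2 : ∀ z, ∃ x, g.1.1 (0, 0, z) = (x, 0, h.1 z)) : f.pr ι g = (a, h) := by
  exact PrS.unique ⟨pr_fst g, pr_snd g⟩ ⟨h1, h2⟩

theorem exists_lev (ι : Type) [Fintype ι] [DecidableEq ι] (f : Fm sy F V) :
    ∃ φ : GL ι F × f.O →* (f.hyp ι).O, ∀ l x y z, (φ l).1 (x, y, z) =
      ((l.1 : Matrix ι ι F) *ᵥ x, (itr l.1 : Matrix ι ι F) *ᵥ y, l.2.1 z) := by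
  choose φ hφ using fun l : GL ι F × f.O => exists_levO (f := f) l.1 l.2
  refine ⟨MonoidHom.mk' φ (fun a b => O_ext (fun z => ?_)), hφ⟩
  obtain ⟨x, y, z⟩ := z
  rw [mul_app, hφ, hφ, hφ]
  simp [mul_app]

/-- the Levi factor -/
noncomputable def lev (ι : Type) [Fintype ι] [DecidableEq ι] (f : Fm sy F V) :
    GL ι F × f.O →* (f.hyp ι).O := (exists_lev ι f).choose

theorem lev_apply (l : GL ι F × f.O) (x y : ι → F) (z : V) : (f.lev ι l).1 (x, y, z) =
    ((l.1 : Matrix ι ι F) *ᵥ x, (itr l.1 : Matrix ι ι F) *ᵥ y, l.2.1 z) :=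
  (exists_lev ι f).choose_spec l x y z

theorem lev_mem (l : GL ι F × f.O) : f.lev ι l ∈ f.P ι := by
  exact ⟨l.1, fun x => by simp [lev_apply]⟩

theorem pr_lev (l : GL ι F × f.O) : f.pr ι ⟨f.lev ι l, lev_mem l⟩ = l := by
  exact pr_eq (fun x => by simp [lev_apply]) (fun z => ⟨0, by simp [lev_apply]⟩)

theorem lev_injective : Function.Injective (f.lev ι) := by
  intro a b h
  rw [← pr_lev (f := f) a, ← pr_lev (f := f) b]
  congr 1
  exact Subtype.ext h

theorem pr_surjective : Function.Surjective (f.pr ι) := by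
  exact fun l => ⟨_, pr_lev l⟩

/-- the unipotent radical -/
def UU (ι : Type) [Fintype ι] [DecidableEq ι] (f : Fm sy F V) : Subgroup (f.hyp ι).O where
  carrier := {g | (∀ x, g.1 (x, 0, 0) = (x, 0, 0)) ∧ ∀ z, ∃ x, g.1 (0, 0, z) = (x, 0, z)}
  one_mem' := ⟨fun _ => rfl, fun _ => ⟨0, rfl⟩⟩
  mul_mem' := fun {a b} ha hb => ⟨fun x => by
      change a.1 (b.1 (x, 0, 0)) = _
      rw [hb.1, ha.1], fun z => by
      obtain ⟨x, hx⟩ := hb.2 z
      obtain ⟨x', hx'⟩ := ha.2 z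
      refine ⟨x + x', ?_⟩
      change a.1 (b.1 (0, 0, z)) = _
      have e : ((x, 0, z) : (ι → F) × (ι → F) × V) = (x, 0, 0) + (0, 0, z) := by simp
      rw [hx, e, map_add, ha.1, hx']
      simp⟩
  inv_mem' := fun {a} ha => ⟨fun x => by
      change a.1.symm (x, 0, 0) = _
      rw [LinearEquiv.symm_apply_eq, ha.1], fun z => by
      obtain ⟨x, hx⟩ := ha.2 z
      refine ⟨-x, ?_⟩
      change a.1.symm (0, 0, z) = _
      have e : ((-x, 0, z) : (ι → F) × (ι → F) × V) = (-x, 0, 0) + (0, 0, z) := by simp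
      rw [LinearEquiv.symm_apply_eq, e, map_add, ha.1, hx]
      simp⟩

theorem mem_UU {g : (f.hyp ι).O} : g ∈ f.UU ι ↔
    (∀ x, g.1 (x, 0, 0) = (x, 0, 0)) ∧ ∀ z, ∃ x, g.1 (0, 0, z) = (x, 0, z) := Iff.rfl

theorem UU_le : f.UU ι ≤ f.P ι := by
  exact fun g hg => ⟨1, fun x => by simpa using hg.1 x⟩

theorem pr_eq_one_iff (g : f.P ι) : f.pr ι g = 1 ↔ g.1 ∈ f.UU ι := by
  constructor
  · intro h
    exact ⟨fun x => by simpa [h] using pr_fst g x, fun z => by simpa [h] using pr_snd g z⟩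
  · intro h
    exact pr_eq (fun x => by simpa using h.1 x) h.2

theorem card_P :
    Nat.card (f.P ι) = Nat.card (GL ι F) * Nat.card f.O * Nat.card (f.UU ι) := by
  have h1 : (f.pr ι).ker = (f.UU ι).subgroupOf (f.P ι) := by
    ext g
    rw [MonoidHom.mem_ker, pr_eq_one_iff, Subgroup.mem_subgroupOf]
  rw [← (f.pr ι).ker.index_mul_card, Subgroup.index_ker,
    MonoidHom.range_eq_top.mpr pr_surjective, Subgroup.card_top, Nat.card_prod, h1,
    Nat.card_congr (Subgroup.subgroupOfEquivOfLe UU_le).toEquiv]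

/-- the data describing an element of the unipotent radical -/
structure UD (f : Fm sy F V) (v : ι → V) (C : Matrix ι ι F) : Prop where
  hB : ∀ i j, C j i + eps F sy * C i j + f.B (v i) (v j) = 0
  hQ : ∀ i, kap F sy * C i i + f.Q (v i) = 0

/-- `u` is the unipotent element with data `v`, `C` -/
def IsUni (f : Fm sy F V) (u : (f.hyp ι).O) (v : ι → V) (C : Matrix ι ι F) : Prop :=
  ∀ x y z, u.1 (x, y, z) = (x + C *ᵥ y - fun i => f.B z (v i), y, z + ∑ i, y i • v i)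

omit [Finite F] [Finite V] in
theorem UD.dot {v : ι → V} {C : Matrix ι ι F} (h : f.UD v C) (y y' : ι → F) :
    (C *ᵥ y) ⬝ᵥ y' + eps F sy * (y ⬝ᵥ (C *ᵥ y')) +
      f.B (∑ i, y i • v i) (∑ i, y' i • v i) = 0 := by
  have h1 : (C *ᵥ y) ⬝ᵥ y' = ∑ i, ∑ j, y i * y' j * C j i := by
    simp only [dotProduct, Matrix.mulVec, Finset.sum_mul]
    rw [Finset.sum_comm]
    exact Finset.sum_congr rfl fun i _ => Finset.sum_congr rfl fun j _ => by ring
  have h2 : y ⬝ᵥ (C *ᵥ y') = ∑ i, ∑ j, y i * y' j * C i j := by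
    simp only [dotProduct, Matrix.mulVec, Finset.mul_sum]
    exact Finset.sum_congr rfl fun i _ => Finset.sum_congr rfl fun j _ => by ring
  have h3 : f.B (∑ i, y i • v i) (∑ i, y' i • v i) =
      ∑ i, ∑ j, y i * y' j * f.B (v i) (v j) := by
    simp only [map_sum, map_smul, LinearMap.sum_apply, LinearMap.smul_apply, smul_eq_mul,
      Finset.mul_sum]
    rw [Finset.sum_comm]
    exact Finset.sum_congr rfl fun i _ => Finset.sum_congr rfl fun j _ => by ring
  rw [h1, h2, h3, Finset.mul_sum, ← Finset.sum_add_distrib, ← Finset.sum_add_distrib]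
  refine Finset.sum_eq_zero fun i _ => ?_
  rw [Finset.mul_sum, ← Finset.sum_add_distrib, ← Finset.sum_add_distrib]
  exact Finset.sum_eq_zero fun j _ => by linear_combination y i * y' j * h.hB i j

omit [Finite F] [Finite V] in
theorem UD.dotQ {v : ι → V} {C : Matrix ι ι F} (h : f.UD v C) (y : ι → F) :
    kap F sy * ((C *ᵥ y) ⬝ᵥ y) + f.Q (∑ i, y i • v i) = 0 := by
  have := Q_sum_eq_zero (f := f.hyp ι) (w := fun i => (fun a => C a i, Pi.single i 1, v i))
    (fun i => by simpa [hyp_Q] using h.hQ i) (fun i l => by simpa [hyp_B] using h.hB i l) y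
  have h1 : (∑ i, y i • ((fun a => C a i, Pi.single i 1, v i) : (ι → F) × (ι → F) × V)) =
      (C *ᵥ y, y, ∑ i, y i • v i) := by
    refine Prod.ext ?_ (Prod.ext ?_ ?_)
    · ext a; simp [Prod.fst_sum, Matrix.mulVec, dotProduct, mul_comm]
    · ext a; simp [Prod.fst_sum, Prod.snd_sum, Pi.single_apply]
    · simp [Prod.snd_sum]
  rwa [h1] at this

omit [Finite F] [Finite V] [DecidableEq ι] in
theorem dot_B (f : Fm sy F V) (v : ι → V) (z : V) (y : ι → F) :
    (fun i => f.B z (v i)) ⬝ᵥ y = f.B z (∑ i, y i • v i) := by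
  simp [dotProduct, mul_comm]
theorem exists_uni {v : ι → V} {C : Matrix ι ι F} (h : f.UD v C) : ∃ u, f.IsUni u v C := by
  let φ : ((ι → F) × (ι → F) × V) →ₗ[F] ((ι → F) × (ι → F) × V) :=
    { toFun := fun a => (a.1 + C *ᵥ a.2.1 - fun i => f.B a.2.2 (v i), a.2.1,
        a.2.2 + ∑ i, a.2.1 i • v i)
      map_add' := fun a b => by
        refine Prod.ext ?_ (Prod.ext rfl ?_)
        · ext i; simp [Matrix.mulVec_add]; ring
        · simp [add_smul, Finset.sum_add_distrib]; abel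
      map_smul' := fun c a => by
        refine Prod.ext ?_ (Prod.ext rfl ?_)
        · ext i; simp [Matrix.mulVec_smul]; ring
        · simp [Finset.smul_sum, smul_smul] }
  refine (mkO (f := f.hyp ι) φ (fun a => ?_) (fun a b => ?_)).imp (fun u hu x y z => hu _)
  · simp only [φ, LinearMap.coe_mk, AddHom.coe_mk, hyp_Q, add_dotProduct, sub_dotProduct, dot_B,
      f.add]
    linear_combination h.dotQ a.2.1
  · simp only [φ, LinearMap.coe_mk, AddHom.coe_mk, hyp_B, add_dotProduct, sub_dotProduct, dot_B,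
      dotProduct_add, dotProduct_sub, map_add f.B, LinearMap.add_apply, map_add (f.B _),
      dotProduct_comm a.2.1 (fun i => f.B b.2.2 (v i)), f.symm b.2.2 (∑ i, a.2.1 i • v i)]
    linear_combination h.dot a.2.1 b.2.1

theorem IsUni.mem {u : (f.hyp ι).O} {v : ι → V} {C : Matrix ι ι F} (h : f.IsUni u v C) :
    u ∈ f.UU ι := by
  exact ⟨fun x => by rw [h]; simp; rfl, fun z => ⟨_, by rw [h]; simp; rfl⟩⟩

omit [Finite F] [Finite V] in
theorem ud_of_sing {j : (ι → F) →ₗ[F] ((ι → F) × (ι → F) × V)}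
    (hQ : ∀ x, (f.hyp ι).Q (j x) = 0) (hB : ∀ x y, (f.hyp ι).B (j x) (j y) = 0)
    (h : ∀ y, (j y).2.1 = y) : ∃ v C, f.UD v C ∧ ∀ y, j y = (C *ᵥ y, y, ∑ i, y i • v i) := by
  refine ⟨fun i => (j (Pi.single i 1)).2.2, fun a i => (j (Pi.single i 1)).1 a,
    ⟨fun i l => by simpa [hyp_B, h] using hB (Pi.single i 1) (Pi.single l 1),
      fun i => by simpa [hyp_Q, h] using hQ (Pi.single i 1)⟩, fun y => ?_⟩
  have h1 : j y = ∑ i, y i • j (Pi.single i 1) := by
    conv_lhs => rw [pi_eq_sum_univ' y]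
    simp
  refine Prod.ext ?_ (Prod.ext (h y) ?_)
  · ext a; rw [h1]; simp [Prod.fst_sum, Matrix.mulVec, dotProduct, mul_comm]
  · rw [h1]; simp [Prod.snd_sum]
theorem uni_of_mem {u : (f.hyp ι).O} (h : u ∈ f.UU ι) : ∃ v C, f.UD v C ∧ f.IsUni u v C := by
  have h1 : ∀ y, (u.1 (0, y, 0)).2.1 = y := fun y => by
    rw [← sub_eq_zero]
    refine dotProduct_eq_zero_iff.mp (fun x => ?_)
    have := u.2.2 (x, 0, 0) (0, y, 0)
    rw [h.1] at this
    simp only [hyp_B, zero_dotProduct, map_zero, LinearMap.zero_apply, add_zero, mul_zero] at this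
    rw [sub_dotProduct, dotProduct_comm, this, dotProduct_comm, sub_self]
  obtain ⟨v, C, h2, h3⟩ := ud_of_sing (f := f) (j := u.1.toLinearMap.comp
    ((LinearMap.inr F _ _).comp (LinearMap.inl F _ _)))
    (fun x => (u.2.1 _).trans (by simp [hyp_Q, Q_zero]))
    (fun x y => (u.2.2 _ _).trans (by simp [hyp_B])) h1
  refine ⟨v, C, h2, fun x y z => ?_⟩
  obtain ⟨x', hx'⟩ := h.2 z
  have h4 : ∀ y, u.1 (0, y, 0) = (C *ᵥ y, y, ∑ i, y i • v i) := h3
  have h5 : x' = -fun i => f.B z (v i) := by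
    ext i
    have := u.2.2 (0, 0, z) (0, Pi.single i 1, 0)
    rw [hx', h4] at this
    simp [hyp_B, Pi.single_apply] at this
    simpa [eq_neg_iff_add_eq_zero] using this
  have e : ((x, y, z) : (ι → F) × (ι → F) × V) = (x, 0, 0) + (0, y, 0) + (0, 0, z) := by simp
  rw [e, map_add, map_add, h.1, h4, hx', h5]
  simp [sub_eq_add_neg, add_comm]

theorem exists_UD (v : ι → V) : ∃ C, f.UD v C := by
  obtain ⟨C, h1, h2⟩ := f.exists_C v
  exact ⟨C, h1, h2⟩

omit [Finite F] [Finite V] in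
theorem IsUni.eq {u u' : (f.hyp ι).O} {v : ι → V} {C : Matrix ι ι F} (h : f.IsUni u v C)
    (h' : f.IsUni u' v C) : u = u' := O_ext fun ⟨x, y, z⟩ => (h x y z).trans (h' x y z).symm

omit [Finite F] [Finite V] in
theorem IsUni.inj {u : (f.hyp ι).O} {v v' : ι → V} {C C' : Matrix ι ι F} (h : f.IsUni u v C)
    (h' : f.IsUni u v' C') : v = v' ∧ C = C' := by
  have h1 := fun i => (h 0 (Pi.single i 1) 0).symm.trans (h' 0 (Pi.single i 1) 0)
  refine ⟨funext fun i => by simpa [Pi.single_apply] using congrArg (fun t => t.2.2) (h1 i), ?_⟩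
  ext a i
  simpa using congrArg (fun t => t.1 a) (h1 i)

theorem card_UU_UD :
    Nat.card (f.UU ι) = Nat.card {p : (ι → V) × Matrix ι ι F // f.UD p.1 p.2} := by
  choose u hu using fun p : {p : (ι → V) × Matrix ι ι F // f.UD p.1 p.2} => exists_uni p.2
  refine (Nat.card_eq_of_bijective (fun p => (⟨u p, (hu p).mem⟩ : f.UU ι)) ⟨fun p p' e => ?_,
    fun g => ?_⟩).symm
  · have e1 : u p = u p' := congrArg Subtype.val e
    have := (hu p).inj (e1 ▸ hu p')
    exact Subtype.ext (Prod.ext this.1 this.2)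
  · obtain ⟨v, C, h1, h2⟩ := uni_of_mem g.2
    exact ⟨⟨(v, C), h1⟩, Subtype.ext ((hu _).eq h2)⟩
theorem card_UU : Nat.card (f.UU ι) = (Nat.card V * if sy then Nat.card F else 1) ^
    Fintype.card ι * Nat.card F ^ (Fintype.card ι * (Fintype.card ι - 1) / 2) := by
  let e := Fintype.equivFin ι
  have h1 : Nat.card {p : (ι → V) × Matrix ι ι F // f.UD p.1 p.2} = Nat.card ((ι → V) ×
      (ι → {d : F // kap F sy * d = 0}) × ({p : ι × ι // e p.1 < e p.2} → F)) := by
    refine Nat.card_eq_of_bijective (fun p => (p.1.1, fun i => ⟨p.1.2 i i + f.Q (p.1.1 i), by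
      rw [mul_add, kap_Q]; exact p.2.hQ i⟩, fun a => p.1.2 a.1.1 a.1.2)) ⟨?_, ?_⟩
    · rintro ⟨⟨v, C⟩, h⟩ ⟨⟨v', C'⟩, h'⟩ e1
      simp only [Prod.mk.injEq] at e1
      obtain ⟨rfl, e2, e3⟩ := e1
      refine Subtype.ext (Prod.ext rfl ?_)
      ext a b
      rcases lt_trichotomy (e a) (e b) with h1 | h1 | h1
      · exact congrFun e3 ⟨(a, b), h1⟩
      · obtain rfl := e.injective h1
        simpa using congrFun e2 a
      · have h2 : C b a = C' b a := congrFun e3 ⟨(b, a), h1⟩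
        have h3 := h.hB b a
        have h4 := h'.hB b a
        simp only at h3 h4 ⊢
        rw [h2] at h3
        linear_combination h3 - h4
    · rintro ⟨v, d, c⟩
      refine ⟨⟨(v, fun a b => if h : e a < e b then c ⟨(a, b), h⟩ else if h' : e b < e a then
        -(eps F sy * c ⟨(b, a), h'⟩) - f.B (v b) (v a) else (d a).1 - f.Q (v a)), fun i j => ?_,
        fun i => ?_⟩, ?_⟩
      · rcases lt_trichotomy (e i) (e j) with h1 | h1 | h1
        · simp only [h1, h1.not_gt, dite_true, dite_false]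
          ring
        · obtain rfl := e.injective h1
          simp only [lt_self_iff_false, dite_false, f.self]
          linear_combination ((d i).1 - f.Q (v i)) * one_add_eps (F := F) (sy := sy) +
            2 * (d i).2 - 2 * f.kap_Q (v i)
        · simp only [h1, h1.not_gt, dite_true, dite_false, f.symm (v j) (v i)]
          linear_combination -(c ⟨(j, i), h1⟩) * eps_mul_eps (F := F) (sy := sy)
      · simp only [lt_self_iff_false, dite_false]
        linear_combination (d i).2 - f.kap_Q (v i)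
      · refine Prod.ext rfl (Prod.ext ?_ ?_)
        · ext i; simp
        · ext a; simp [a.2]
  have h2 : Nat.card {d : F // kap F sy * d = 0} = if sy then Nat.card F else 1 := by
    cases sy <;> simp [kap]
  have h3 : Nat.card {p : ι × ι // e p.1 < e p.2} =
      Fintype.card ι * (Fintype.card ι - 1) / 2 := by
    rw [Nat.card_congr ((e.prodCongr e).subtypeEquiv (p := fun p => e p.1 < e p.2)
      (q := fun p => p.1 < p.2) (fun _ => Iff.rfl)),
      Nat.card_eq_fintype_card, Fintype.card_subtype, Fintype.card_product_filter_lt,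
      Fintype.card_fin, Nat.choose_two_right]
  rw [card_UU_UD, h1, Nat.card_prod, Nat.card_prod, Nat.card_fun, Nat.card_fun, Nat.card_fun, h2,
    h3, Nat.card_eq_fintype_card (α := ι), mul_pow, mul_assoc]

theorem exists_wey (ι : Type) [Fintype ι] [DecidableEq ι] (f : Fm sy F V) :
    ∃ w : (f.hyp ι).O, ∀ x y z, w.1 (x, y, z) = ((eps F sy : F) • y, x, z) := by
  obtain ⟨w, hw⟩ := mkO (f := f.hyp ι) (LinearMap.prod
    ((eps F sy : F) • (LinearMap.fst F _ _).comp (LinearMap.snd F _ _))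
    ((LinearMap.id : (ι → F) →ₗ[F] (ι → F)).prodMap (LinearMap.snd F (ι → F) V)))
    (fun a => by
      simp [hyp_Q, ← mul_assoc, kap_mul_eps, dotProduct_comm a.2.1]) (fun a b => by
      simp [hyp_B, ← mul_assoc, eps_mul_eps, add_comm])
  exact ⟨w, fun x y z => by rw [hw]; simp⟩

/-- the Weyl element -/
noncomputable def wey (ι : Type) [Fintype ι] [DecidableEq ι] (f : Fm sy F V) : (f.hyp ι).O :=
  (exists_wey ι f).choose

theorem wey_apply (x y : ι → F) (z : V) :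
    (f.wey ι).1 (x, y, z) = ((eps F sy : F) • y, x, z) := (exists_wey ι f).choose_spec x y z

theorem wey_lev (a : GL ι F) (h : f.O) :
    f.wey ι * f.lev ι (a, h) * (f.wey ι)⁻¹ = f.lev ι (itr a, h) := by
  rw [mul_inv_eq_iff_eq_mul]
  refine O_ext (fun ⟨x, y, z⟩ => ?_)
  simp [mul_app, wey_apply, lev_apply, itr_itr, Matrix.mulVec_smul]

omit [Finite F] in
theorem itr_scal (c : Fˣ) : itr (scal ι c) = scal ι c⁻¹ := by
  refine Units.ext ?_
  rw [itr_val, ← map_inv]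
  change (Matrix.scalar ι _)ᵀ = Matrix.scalar ι _
  simp [Matrix.scalar_apply]

omit [Finite F] in
theorem eps_inv : (eps F sy)⁻¹ = eps F sy := by cases sy <;> simp [eps]
theorem wey_sq : f.wey ι * f.wey ι = f.lev ι (scal ι (eps F sy), 1) := by
  refine O_ext (fun ⟨x, y, z⟩ => ?_)
  simp [mul_app, wey_apply, lev_apply, itr_scal, eps_inv, scal_mulVec]

theorem wey_not_mem [Nonempty ι] : f.wey ι ∉ f.P ι := by
  rintro ⟨a, ha⟩
  have := congrArg (fun t => t.2.1 (Classical.arbitrary ι)) ((wey_apply 1 0 0).symm.trans (ha 1))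
  simp at this

theorem dec_P {g : (f.hyp ι).O} (h : g ∈ f.P ι) :
    (f.lev ι (f.pr ι ⟨g, h⟩))⁻¹ * g ∈ f.UU ι := by
  refine (pr_eq_one_iff (⟨_, lev_mem (f.pr ι ⟨g, h⟩)⟩⁻¹ * ⟨g, h⟩)).mp ?_
  rw [map_mul, map_inv, pr_lev, inv_mul_cancel]

theorem opp_U {u : (f.hyp ι).O} (h : u ∈ f.UU ι) (h' : f.wey ι * u * (f.wey ι)⁻¹ ∈ f.P ι) :
    u = 1 := by
  obtain ⟨v, C, -, h2⟩ := uni_of_mem h
  obtain ⟨a, ha⟩ := h'
  have h3 : ∀ y, C *ᵥ y = 0 ∧ ∑ i, y i • v i = 0 := fun y => by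
    have h4 := ha ((eps F sy : F) • y)
    rw [mul_app, mul_app, ← wey_apply 0 y 0, inv_app, h2, wey_apply] at h4
    simp only [Prod.mk.injEq, map_zero, LinearMap.zero_apply, zero_add] at h4
    exact ⟨sub_eq_zero.mp h4.2.1, h4.2.2⟩
  have h4 : ∀ i, v i = 0 := fun i => by simpa [Pi.single_apply] using (h3 (Pi.single i 1)).2
  refine O_ext (fun ⟨x, y, z⟩ => ?_)
  rw [h2, (h3 y).1]
  simp [h4]
  rfl
/-- the intersection of the parabolic subgroup with its opposite is the Levi factor -/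
theorem mem_lev_of_opp {g : (f.hyp ι).O} (h : g ∈ f.P ι)
    (h' : f.wey ι * g * (f.wey ι)⁻¹ ∈ f.P ι) : g ∈ (f.lev ι).range := by
  have h1 := opp_U (dec_P h) (by
    have h2 := mul_mem (inv_mem (lev_mem (f := f) (itr (f.pr ι ⟨g, h⟩).1, (f.pr ι ⟨g, h⟩).2))) h'
    rw [← wey_lev] at h2
    convert h2 using 1
    group)
  exact ⟨_, inv_mul_eq_one.mp h1⟩

/-- the big cell -/
theorem mem_cell {g : (f.hyp ι).O} (h : ∀ x, (g.1 (x, 0, 0)).2.1 = 0 → x = 0) :
    ∃ u ∈ f.UU ι, ∃ p ∈ f.P ι, g = u * f.wey ι * p := by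
  obtain ⟨a, ha⟩ := exists_gl ((LinearMap.fst F _ _).comp ((LinearMap.snd F _ _).comp
    (g.1.toLinearMap.comp (LinearMap.inl F _ _)))) ((injective_iff_map_eq_zero _).mpr h)
  obtain ⟨v, C, h2, h3⟩ := ud_of_sing (f := f) (j := g.1.toLinearMap.comp
    ((LinearMap.inl F _ _).comp (Matrix.toLin' ((a⁻¹ : GL ι F) : Matrix ι ι F))))
    (fun x => (g.2.1 _).trans (by simp [hyp_Q, Q_zero]))
    (fun x y => (g.2.2 _ _).trans (by simp [hyp_B])) (fun y => (ha _).symm.trans (by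
      rw [Matrix.toLin'_apply, Matrix.mulVec_mulVec, Units.mul_inv, Matrix.one_mulVec]))
  obtain ⟨u, hu⟩ := exists_uni h2
  refine ⟨u, hu.mem, (u * f.wey ι)⁻¹ * g, ⟨a, fun x => ?_⟩, by group⟩
  have h4 : g.1 (x, 0, 0) = (u * f.wey ι).1 ((a : Matrix ι ι F) *ᵥ x, 0, 0) := by
    have h5 := h3 ((a : Matrix ι ι F) *ᵥ x)
    simp only [LinearMap.comp_apply, Matrix.toLin'_apply, Matrix.mulVec_mulVec, Units.inv_mul,
      Matrix.one_mulVec] at h5
    rw [mul_app, wey_apply, hu]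
    refine h5.trans ?_
    simp
    exact (sub_zero _).symm
  rw [mul_app, h4, inv_app]

theorem P_snd {g : (f.hyp ι).O} (hg : g ∈ f.P ι) {t : (ι → F) × (ι → F) × V}
    (h : (g.1 t).2.1 = 0) : t.2.1 = 0 := by
  obtain ⟨a, ha⟩ := inv_mem hg
  have := snd_zero ha (g.1 t).1 (g.1 t).2.2
  have e : ((g.1 t).1, 0, (g.1 t).2.2) = g.1 t := by rw [← h]
  rwa [e, inv_app] at this
theorem cell_prop {u p : (f.hyp ι).O} (hu : u ∈ f.P ι) (hp : p ∈ f.P ι) (x : ι → F)
    (h : ((u * f.wey ι * p).1 (x, 0, 0)).2.1 = 0) : x = 0 := by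
  obtain ⟨a, ha⟩ := hp
  rw [mul_app, mul_app, ha, wey_apply] at h
  have h1 : (a : Matrix ι ι F) *ᵥ x = 0 := P_snd hu h
  rw [← Matrix.one_mulVec x, ← a.inv_mul, ← Matrix.mulVec_mulVec, h1, Matrix.mulVec_zero]

theorem neg1_hyp : (f.hyp ι).neg1 = f.lev ι (scal ι (-1), f.neg1) := by
  refine O_ext (fun ⟨x, y, z⟩ => ?_)
  simp [neg1_apply, lev_apply, itr_scal, scal_mulVec]

/-- the inflated character of the parabolic subgroup -/
noncomputable def sig (f : Fm sy F V) (π : GL ι F → ℂ) (ρ : f.O → ℂ) : f.P ι → ℂ :=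
  fun g => π (f.pr ι g).1 * ρ (f.pr ι g).2

/-- Harish-Chandra induction -/
noncomputable def hc (f : Fm sy F V) (π : GL ι F → ℂ) (ρ : f.O → ℂ) : (f.hyp ι).O → ℂ :=
  ind (f.P ι) (f.sig π ρ)

theorem sig_char {π : GL ι F → ℂ} {ρ : f.O → ℂ} (hπ : IsCharacter _ π) (hρ : IsCharacter _ ρ) :
    IsCharacter _ (f.sig π ρ) := by
  exact H3.IsCharacter_comp (f.pr ι) (H4.isCharacter_prod hπ hρ)

theorem sig_irr {π : GL ι F → ℂ} {ρ : f.O → ℂ} (hπ : IsIrrCharacter _ π)
    (hρ : IsIrrCharacter _ ρ) : IsIrrCharacter _ (f.sig π ρ) := by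
  exact H3.IsIrrCharacter_comp_of_surjective (f.pr ι) pr_surjective (H4.isIrr_prod hπ hρ)

theorem hc_char {π : GL ι F → ℂ} {ρ : f.O → ℂ} (hπ : IsCharacter _ π) (hρ : IsCharacter _ ρ) :
    IsCharacter _ (f.hc π ρ) := by
  exact isChar_ind _ (sig_char hπ hρ)

theorem hc_deg {π : GL ι F → ℂ} {ρ : f.O → ℂ} (hπ : IsCharacter _ π) (hρ : IsCharacter _ ρ) :
    charDegree (f.hc π ρ) = (f.P ι).index * (charDegree π * charDegree ρ) := by
  refine H4.charDegree_eq_of_apply_one ?_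
  rw [hc, ind_one]
  simp [sig, H4.charDegree_cast hπ, H4.charDegree_cast hρ]

theorem hc_sg {π : GL ι F → ℂ} {ρ : f.O → ℂ} {s s' : ℂ} (h : π (scal ι (-1)) = s * π 1)
    (h' : f.Sg ρ s') : (f.hyp ι).Sg (f.hc π ρ) (s * s') := by
  have h1 := ind_central (f.P ι) (f.sig π ρ) ⟨_, lev_mem (scal ι (-1), f.neg1)⟩ (fun g => by
    change g * f.lev ι _ = f.lev ι _ * g
    rw [← neg1_hyp]; exact neg1_comm _ g)
  rw [Sg, neg1_hyp, hc, h1, ind_one, sig, pr_lev, h, h']
  simp [sig]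
  ring

theorem hd [Nonempty ι] (lam : GL ι F →* ℂˣ) (h1 : ∀ g, lam (itr g) = lam g)
    (h2 : lam (scal ι (eps F sy)) = 1) {ρ : f.O → ℂ} (hρ : IsIrrCharacter _ ρ) :
    HD (f.P ι) (f.UU ι) (f.lev ι).range (f.wey ι) (f.sig (fun g => lam g) ρ) := by
  refine ⟨sig_irr (H3.isIrrCharacter_linear lam) hρ, UU_le, ?_, fun p hp => ?_,
    fun p hp u hu => ?_, ?_, ?_, ⟨_, wey_sq.symm⟩, fun u => opp_U, wey_not_mem, fun p hp => ?_,
    ?_, fun p hp => ?_⟩
  · rintro _ ⟨l, rfl⟩; exact lev_mem l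
  · exact ⟨_, ⟨_, rfl⟩, _, dec_P hp, (mul_inv_cancel_left _ _).symm⟩
  · refine (pr_eq_one_iff (⟨p, hp⟩ * ⟨u, UU_le hu⟩ * ⟨p, hp⟩⁻¹)).mp ?_
    rw [map_mul, map_mul, (pr_eq_one_iff ⟨u, UU_le hu⟩).mpr hu, mul_one, map_inv, mul_inv_cancel]
  · rw [card_P, ← Nat.card_prod, Nat.card_congr (MonoidHom.ofInjective lev_injective).toEquiv]
  · rintro _ ⟨l, rfl⟩; exact ⟨_, (wey_lev l.1 l.2).symm⟩
  · simp only [sig, (pr_eq_one_iff p).mpr hp, map_one]
  · rintro p ⟨_, ⟨⟨a, h⟩, rfl⟩, hp⟩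
    rw [wey_lev, ← map_inv, ← map_mul] at hp
    have : p = ⟨_, lev_mem _⟩ := Subtype.ext hp
    rw [this]
    simp [sig, pr_lev, h1]
  · rw [wey_sq] at hp
    have : p = ⟨_, lev_mem _⟩ := Subtype.ext hp
    rw [this]
    simp [sig, pr_lev, h2]

omit [Finite F] [Finite V] in
theorem inv_mul_app {a b : f.O} {s t : V} (h : b.1 s = a.1 t) : (a⁻¹ * b).1 s = t := by
  rw [mul_app, h, inv_app]

omit [Finite F] [Finite V] in
theorem ud_one {v : V} {c : F} (h : kap F sy * c + f.Q v = 0) :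
    f.UD (fun _ : Fin 1 => v) (fun _ _ => c) :=
  ⟨fun _ _ => by
    rw [f.self]; linear_combination c * one_add_eps (F := F) (sy := sy) + 2 * h, fun _ => h⟩
/-- the sum of `tau` in rank one -/
theorem tau_sum {π : GL (Fin 1) F → ℂ} {ρ : f.O → ℂ}
    (h : HD (f.P (Fin 1)) (f.UU (Fin 1)) (f.lev (Fin 1)).range (f.wey (Fin 1)) (f.sig π ρ)) :
    ∑ᶠ u : f.UU (Fin 1), tau (f.P (Fin 1)) (f.UU (Fin 1)) (f.wey (Fin 1)) (f.sig π ρ)
        (f.wey (Fin 1) * u * f.wey (Fin 1)) =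
      ∑ᶠ c : Fˣ, ∑ᶠ v : {v : V // kap F sy * c + f.Q v = 0},
        π (scal (Fin 1) c) * ρ (f.tvel v (c⁻¹ : Fˣ)) := by
  classical
  have := Fintype.ofFinite F
  have := Fintype.ofFinite V
  have := Fintype.ofFinite (f.UU (Fin 1))
  choose u hu using fun y : Σ c : Fˣ, {v : V // kap F sy * c + f.Q v = 0} =>
    exists_uni (ud_one y.2.2)
  simp only [finsum_eq_sum_of_fintype]
  rw [← Fintype.sum_sigma' (fun (c : Fˣ) (v : {v : V // kap F sy * c + f.Q v = 0}) =>
    π (scal (Fin 1) c) * ρ (f.tvel v (c⁻¹ : Fˣ)))]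
  refine (Fintype.sum_of_injective (fun y => (⟨u y, (hu y).mem⟩ : f.UU (Fin 1))) ?_ _ _ ?_ ?_).symm
  · rintro ⟨c, v, hv⟩ ⟨c', v', hv'⟩ e
    have e1 : u _ = u _ := congrArg Subtype.val e
    have := (hu _).inj (e1 ▸ hu _)
    obtain rfl : c = c' := Units.ext (congrFun (congrFun this.2 0) 0).symm
    obtain rfl : v = v' := (congrFun this.1 0).symm
    rfl
  · intro g hg
    obtain ⟨v, C, h1, h2⟩ := uni_of_mem g.2
    by_cases hC : C 0 0 = 0
    · refine tau_of_not (fun p hp u' hu' e => ?_)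
      have h3 := cell_prop (UU_le hu') hp 1 (by
        rw [← e, mul_app, mul_app, wey_apply, h2, wey_apply]
        ext i
        simp [Matrix.mulVec, dotProduct, Subsingleton.elim i 0, hC])
      simpa using congrFun h3 0
    · refine absurd ⟨⟨Units.mk0 _ hC, v 0, h1.hQ 0⟩, Subtype.ext ((hu _).eq ?_)⟩ hg
      have e1 : v = fun _ => v 0 := funext fun i => by rw [Subsingleton.elim i 0]
      have e2 : C = fun _ _ => C 0 0 := by
        ext i j; rw [Subsingleton.elim i 0, Subsingleton.elim j 0]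
      rw [e1, e2] at h2
      exact h2
  · rintro ⟨c, v, hv⟩
    have hc := c.ne_zero
    obtain ⟨u', hu'⟩ := exists_uni (ud_one (f := f) (v := (c : F)⁻¹ • v)
      (c := eps F sy * (c : F)⁻¹) (by
        rw [f.smul, ← mul_assoc, kap_mul_eps]
        field_simp
        linear_combination hv))
    have h1 := tvel_spec (f := f) (v := v) (c := (c⁻¹ : Fˣ)) (by
      rw [Units.val_inv_eq_inv_val]
      field_simp
      linear_combination hv)
    let p := (u' * f.wey (Fin 1))⁻¹ * (f.wey (Fin 1) * u ⟨c, v, hv⟩ * f.wey (Fin 1))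
    have h2 : f.PrS p (scal (Fin 1) c, f.tvel v (c⁻¹ : Fˣ)) := by
      refine ⟨fun x => ?_, fun z => ⟨fun _ => -f.B z v, ?_⟩⟩
      · refine inv_mul_app ?_
        simp only [mul_app, wey_apply, hu _ _ _ _, hu' _ _ _, scal_mulVec]
        refine Prod.ext (funext fun i => ?_) (Prod.ext (funext fun i => ?_) ?_)
        · simp [Matrix.mulVec, dotProduct, Subsingleton.elim i 0]; field_simp
        · simp [Matrix.mulVec, dotProduct, Subsingleton.elim i 0]
        · simp [smul_smul, mul_comm (c : F), mul_assoc, hc]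
      · refine inv_mul_app ?_
        simp only [mul_app, wey_apply, hu _ _ _ _, hu' _ _ _, h1 z]
        refine Prod.ext (funext fun i => ?_) (Prod.ext (funext fun i => ?_) ?_)
        · simp [Matrix.mulVec, dotProduct, f.self]
          field_simp
          linear_combination c * f.B z v * one_add_eps (F := F) (sy := sy) + 2 * f.B z v * hv
        · simp [Matrix.mulVec]
        · simp [smul_smul, mul_comm]
    have h3 : p ∈ f.P (Fin 1) := ⟨_, h2.1⟩
    have h4 := h.tau_eq hu'.mem ⟨p, h3⟩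
    simp only [p, mul_inv_cancel_left] at h4
    rw [h4, sig, pr_eq h2.1 h2.2]

theorem isRefl_lev {r : f.O} (h : f.IsRefl r) : (f.hyp ι).IsRefl (f.lev ι (1, r)) := by
  obtain ⟨a, ha, h⟩ := h
  have h1 : (f.hyp ι).Q (0, 0, a) = f.Q a := by simp [hyp_Q]
  refine ⟨(0, 0, a), by rwa [h1], fun ⟨x, y, z⟩ => ?_⟩
  rw [lev_apply, h, h1]
  simp [hyp_B]

theorem isSieg_lev {g : f.O} {u v : V} (h : f.IsSieg g u v) :
    (f.hyp ι).IsSieg (f.lev ι (1, g)) (0, 0, u) (0, 0, v) := by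
  refine ⟨by simpa [hyp_Q] using h.1, by simpa [hyp_B] using h.2.1, fun ⟨x, y, z⟩ => ?_⟩
  rw [lev_apply, h.2.2]
  simp [hyp_B, hyp_Q]

theorem SL.on_UU {V : Type} [AddCommGroup V] [Module F V] [Finite V] {f : Fm false F V}
    {μ : (f.hyp ι).O →* ℂˣ} (hμ : (f.hyp ι).SL μ) {u : (f.hyp ι).O}
    (hu : u ∈ f.UU ι) : μ u = 1 := by
  have key : ∀ s : Finset ι, ∀ u ∈ f.UU ι,
      (∀ i ∉ s, u.1 (0, Pi.single i 1, 0) = (0, Pi.single i 1, 0)) → μ u = 1 := by
    intro s
    refine Finset.induction_on s (fun u hu h => ?_) (fun i s hi ih u hu h => ?_)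
    · obtain ⟨v, C, -, h2⟩ := uni_of_mem hu
      have h3 := fun i => (h2 _ _ _).symm.trans (h i (by simp))
      have h4 : v = 0 := funext fun i => by
        simpa [Pi.single_apply] using congrArg (fun t => t.2.2) (h3 i)
      have h5 : C = 0 := by
        ext a i
        simpa using congrArg (fun t => t.1 a) (h3 i)
      rw [h2.eq (u' := 1) (fun x y z => by simp [h4, h5]; exact (sub_zero _).symm), map_one]
    · obtain ⟨v, C, h1, h2⟩ := uni_of_mem hu
      obtain ⟨g, hg⟩ := exists_sieg (f := f.hyp ι) (u := (Pi.single i 1, 0, 0))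
        (v := (fun a => C a i, 0, v i)) (by simp [hyp_Q, Q_zero])
        (by simp [hyp_B])
      have h3 : g ∈ f.UU ι := ⟨fun x => by rw [hg.2.2]; simp [hyp_B],
        fun z => ⟨_, by rw [hg.2.2]; simp [hyp_B]; rfl⟩⟩
      have h4 := ih (g * u) (mul_mem h3 hu) (fun l hl => ?_)
      · rwa [map_mul, hμ _ _ _ hg, one_mul] at h4
      by_cases hl' : l = i
      · subst hl'
        rw [mul_app, h2, hg.2.2]
        have e1 : C l l + f.Q (v l) = 0 := by simpa [kap] using h1.hQ l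
        refine Prod.ext (funext fun a => ?_) ?_
        · simp [hyp_B, hyp_Q, Pi.single_apply, f.self, eps]
          split_ifs with h5
          · linear_combination e1
          · ring
        · simp [hyp_B, hyp_Q, Pi.single_apply, eps]
      · have h5 := h l (by simp [hl, hl'])
        have h6 := u.2.2 (0, Pi.single i 1, 0) (0, Pi.single l 1, 0)
        rw [h5, h2] at h6
        have h7 : C l i = 0 := by simpa [hyp_B] using h6
        rw [mul_app, h5, hg.2.2]
        simp [hyp_B, h7, Ne.symm hl', hl']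
  exact key Finset.univ u hu (by simp)
/-- over the field with two elements a linear character trivial on Siegel transformations factors
through the second Levi component on the parabolic subgroup -/
theorem SL.on_P {V : Type} [AddCommGroup V] [Module F V] [Finite V] {f : Fm false F V}
    (hq : Nat.card F = 2) {μ : (f.hyp ι).O →* ℂˣ} (hμ : (f.hyp ι).SL μ) (p : f.P ι) :
    μ p = μ (f.lev ι (1, (f.pr ι p).2)) := by
  have h1 : ∀ p : f.P ι, μ p = μ (f.lev ι (f.pr ι p)) := fun p => by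
    have := hμ.on_UU (dec_P p.2)
    rw [map_mul, map_inv, inv_mul_eq_one] at this
    exact this.symm
  have h2 : ∀ a : GL ι F, μ (f.lev ι (a, 1)) = 1 := fun a => by
    refine Matrix.diagonal_transvection_induction_of_det_ne_zero
      (fun M => ∀ a : GL ι F, (a : Matrix ι ι F) = M → μ (f.lev ι (a, 1)) = 1) a
      (Matrix.GeneralLinearGroup.det_ne_zero a) (fun D hD a ha => ?_) (fun t a ha => ?_)
      (fun A B hA hB h3 h4 a ha => ?_) a rfl
    · obtain ⟨y, -, hy⟩ := (Nat.card_eq_two_iff' (0 : F)).mp hq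
      have : D = fun _ => 1 := funext fun i => (hy _ (fun h => hD (by
        rw [Matrix.det_diagonal]; exact Finset.prod_eq_zero (Finset.mem_univ i) h))).trans
          (hy _ one_ne_zero).symm
      have h5 : a = 1 := Units.ext (by rw [ha, this]; simp)
      rw [h5, ← Prod.one_eq_mk, map_one, map_one]
    · obtain ⟨g, hg⟩ := exists_sieg (f := f.hyp ι) (u := (Pi.single t.i 1, 0, 0))
        (v := (0, Pi.single t.j t.c, 0)) (by simp [hyp_Q, Q_zero]) (by simp [hyp_B, t.hij.symm])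
      have h5 : f.PrS g (a, 1) := ⟨fun x => by
        rw [hg.2.2, ha]
        simp [hyp_B, Matrix.TransvectionStruct.toMatrix, Matrix.transvection, Matrix.add_mulVec,
          Matrix.single_mulVec, mul_comm]
        ext i; simp [Pi.single_apply, Function.update_apply],
        fun z => ⟨0, by rw [hg.2.2]; simp [hyp_B]⟩⟩
      rw [← pr_eq (g := ⟨g, _, h5.1⟩) h5.1 h5.2, ← h1]
      exact hμ _ _ _ hg
    · have : a = Matrix.GeneralLinearGroup.mkOfDetNeZero A hA *
          Matrix.GeneralLinearGroup.mkOfDetNeZero B hB := Units.ext ha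
      rw [this, ← mul_one (1 : f.O), ← Prod.mk_mul_mk, map_mul, map_mul, h3 _ rfl, h4 _ rfl,
        mul_one]
  rw [h1, ← one_mul (μ (f.lev ι (1, _))), ← h2 (f.pr ι p).1, ← map_mul, ← map_mul]
  simp

end Cfsg.Agent.DG.Fm
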