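import Cfsg.Agent.Lib.DG.Ch

/-!
# Cuspidal characters of rank one groups; Fourier multiplicities
-/

set_option autoImplicit false

open scoped ComplexConjugate
open Cfsg

namespace Cfsg.Agent.DG

variable {G : Type*} [Group G] [Finite G]

theorem sum_le_of_char {K : Type*} [Group K] [Fintype K] {ξ : K → ℂ} (hξ : IsCharacter K ξ) :
    ∃ m : ℕ, ∑ u, ξ u = Nat.card K * m ∧ m ≤ charDegree ξ := by
  refine ⟨H4.mult ξ (fun _ => 1), ?_, ?_⟩
  · rw [H4.mult_cast hξ H3.isCharacter_one, classInner]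
    have := H3.card_ne_zero_complex K
    field_simp
    simp
  · simpa [charDegree] using H4.mult_mul_charDegree_le hξ H3.isIrrCharacter_one

theorem rk1_bound {P U : Subgroup G} [Fintype U] (hUP : U ≤ P)
    (nU : ∀ p ∈ P, ∀ u ∈ U, p * u * p⁻¹ ∈ U) (hidx : P.index = Nat.card U + 1)
    (hti : ∀ x, ∀ u ∈ U, u ≠ 1 → x * u * x⁻¹ ∈ P → x ∈ P) {χ : G → ℂ} (hχ : IsIrrCharacter G χ)
    {m : ℕ} (hm : ∑ u : U, χ u = Nat.card U * m) (h0 : m ≠ 0) :
    charDegree χ ≤ Nat.card U * m := by
  classical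
  have := Fintype.ofFinite G
  have := Fintype.ofFinite P
  have hU := H3.card_ne_zero_complex U
  have hP := H3.card_ne_zero_complex P
  have hχ' := H3.IsIrrCharacter_isCharacter hχ
  obtain ⟨σ, h1, h2⟩ := H4.exists_intermediate_const hUP (H3.IsCharacter_isClassFunction hχ')
    (θ := fun _ => 1) (by simp [classInner, hm, hU, h0])
  have hσ' := H3.IsIrrCharacter_isCharacter σ.2
  have hN : (U.subgroupOf P).Normal := ⟨fun u hu p => nU p p.2 u hu⟩
  have h3 : ∀ u : P, (u : G) ∈ U → (σ : P → ℂ) u = (σ : P → ℂ) 1 := by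
    intro u hu
    by_contra h4
    have := Fintype.ofFinite (U.subgroupOf P)
    refine h2 ?_
    rw [← H4.classInner_res_one_eq_zero (U.subgroupOf P) σ.2 ⟨u, hu, h4⟩,
      ← H4.classInner_comp_equiv (Subgroup.subgroupOfEquivOfLe hUP).toEquiv]
    rfl
  obtain ⟨s, hs⟩ := H3.IsCharacter_apply_one hσ'
  have h4 : ∀ u : U, u ≠ 1 → indFun P σ u = s := by
    intro u hu
    rw [H4.indFun_apply']
    have : ∀ x : G, extendByZero P σ (x * u * x⁻¹) = extendByZero P (fun _ => (s : ℂ)) x := by
      intro x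
      by_cases hx : x ∈ P
      · rw [H4.extendByZero_of_mem _ _ hx, H4.extendByZero_of_mem _ _ (hUP (nU x hx u u.2)),
          h3 _ (nU x hx u u.2), hs]
      · rw [H4.extendByZero_of_notMem _ _ hx, H4.extendByZero_of_notMem _ _
          (fun h => hx (hti x u u.2 (fun h => hu (Subtype.ext h)) h))]
    simp only [this, H4.sum_extendByZero, Finset.sum_const, Finset.card_univ, nsmul_eq_mul,
      ← Nat.card_eq_fintype_card]
    field_simp
  have h5 : ∑ u : U, indFun P σ u = Nat.card U * (2 * s) := by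
    rw [← Finset.add_sum_erase _ _ (Finset.mem_univ 1), Finset.sum_congr rfl
      (fun u hu => h4 u (Finset.ne_of_mem_erase hu)), Finset.sum_const,
      Finset.card_erase_of_mem (Finset.mem_univ _), Finset.card_univ, ← Nat.card_eq_fintype_card,
      OneMemClass.coe_one, H4.indFun_one, hidx, hs, nsmul_eq_mul, Nat.cast_sub Nat.card_pos]
    push_cast
    ring
  have hR := H4.isCharacter_indFun P hσ'
  have h6 := H4.isCharacter_sub_const hR hχ (by
    rw [H4.frobenius_reciprocity P _ (H3.IsCharacter_isClassFunction hχ'),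
      H3.IsCharacter_classInner_comm hσ' (H3.IsCharacter_restrict P hχ')]
    exact h1)
  obtain ⟨a, ha, ha'⟩ := sum_le_of_char (H3.IsCharacter_restrict U h6)
  obtain ⟨b, hb, -⟩ := sum_le_of_char (H3.IsCharacter_comp (Subgroup.inclusion hUP)
    (H4.isCharacter_sub_const (H3.IsCharacter_restrict P hχ') σ.2 h1))
  simp only [Pi.sub_apply, Finset.sum_sub_distrib, h5, hm] at ha
  have hb' : ∑ u : U, (σ : P → ℂ) (Subgroup.inclusion hUP u) = Nat.card U * s := by
    rw [Finset.sum_congr rfl (fun u _ => (h3 _ u.2).trans hs)]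
    simp
  simp only [Pi.sub_apply, Finset.sum_sub_distrib, hb', Subgroup.coe_inclusion, hm] at hb
  have e1 : 2 * s = m + a := by
    have : ((2 * s : ℕ) : ℂ) = (m + a : ℕ) := mul_left_cancel₀ hU (by
      push_cast
      linear_combination ha)
    exact_mod_cast this
  have e2 : m = s + b := by
    have : (m : ℂ) = (s + b : ℕ) := mul_left_cancel₀ hU (by
      push_cast
      linear_combination hb)
    exact_mod_cast this
  have e3 : charDegree (fun u : U => (indFun P σ - χ) u) + charDegree χ = (Nat.card U + 1) * s := by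
    have : ((charDegree (fun u : U => (indFun P σ - χ) u) + charDegree χ : ℕ) : ℂ) =
        ((Nat.card U + 1) * s : ℕ) := by
      rw [Nat.cast_add, H4.charDegree_cast (H3.IsCharacter_restrict U h6), H4.charDegree_cast hχ']
      simp [H4.indFun_one, hidx, hs]
    exact_mod_cast this
  have e4 : 0 < Nat.card U := Nat.card_pos
  nlinarith

theorem exists_cusp_rk1 {P U : Subgroup G} (hUP : U ≤ P)
    (nU : ∀ p ∈ P, ∀ u ∈ U, p * u * p⁻¹ ∈ U) (hidx : P.index = Nat.card U + 1)
    (hU : 1 < Nat.card U) (hti : ∀ x, ∀ u ∈ U, u ≠ 1 → x * u * x⁻¹ ∈ P → x ∈ P) {z : G}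
    (hz2 : z * z = 1) (hc : ∀ g, g * z = z * g) (hzU : z ∈ U → z = 1) :
    ∃ χ, IsIrrCharacter G χ ∧ χ z = 1 * χ 1 ∧ ∑ᶠ u : U, χ u = 0 := by
  classical
  have := Fintype.ofFinite G
  have := Fintype.ofFinite U
  have hU0 := H3.card_ne_zero_complex U
  by_contra h
  push Not at h
  simp only [finsum_eq_sum_of_fintype] at h
  choose m hm _ using fun χ : IrrCharacter G =>
    sum_le_of_char (H3.IsCharacter_restrict U (H4.irr_isChar χ))
  let ε : IrrCharacter G → ℕ := fun χ => if (χ : G → ℂ) z = 1 * (χ : G → ℂ) 1 then 2 else 0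
  have hε : ∀ χ : IrrCharacter G, (χ : G → ℂ) 1 + (χ : G → ℂ) z = ε χ * charDegree (χ : G → ℂ) := by
    intro χ
    rw [H3.irr_charDegree]
    simp only [ε]
    split_ifs with h1
    · rw [h1]; push_cast; ring
    · rw [(irr_sign hz2 hc χ.2).resolve_left h1]; simp
  have h1 : ∑ χ : IrrCharacter G, (χ : G → ℂ) 1 * ((χ : G → ℂ) 1 + (χ : G → ℂ) z) =
      ∑ χ : IrrCharacter G, (Nat.card U * m χ) * ((χ : G → ℂ) 1 + (χ : G → ℂ) z) := by
    simp only [← hm, Finset.sum_mul, mul_add, Finset.sum_add_distrib, H3.sum_degree_mul_irr]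
    rw [Finset.sum_comm, Finset.sum_comm (s := Finset.univ (α := IrrCharacter G))]
    simp only [mul_comm _ ((_ : G → ℂ) 1), H3.sum_degree_mul_irr]
    have e : ∀ u : U, ∑ χ : IrrCharacter G, (χ : G → ℂ) u * (χ : G → ℂ) z =
        if u = 1 then (if z = 1 then (Nat.card G : ℂ) else 0) else 0 := by
      intro u
      have e1 : ∀ χ : IrrCharacter G, (χ : G → ℂ) z = conj ((χ : G → ℂ) z) := fun χ => by
        rw [← H3.irr_apply_inv, inv_eq_of_mul_eq_one_right hz2]
      split_ifs with h2 h3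
      · subst h2
        simp [h3, H3.sum_degree_mul_irr]
      · subst h2
        simp [h3, H3.sum_degree_mul_irr]
      · rw [Finset.sum_congr rfl (fun χ _ => by rw [e1 χ])]
        refine H3.column_orthogonality_of_not_isConj (fun h4 => h2 ?_)
        obtain ⟨c, h5⟩ := isConj_iff.mp h4.symm
        rw [hc, mul_inv_cancel_right] at h5
        exact Subtype.ext (h5 ▸ hzU (h5 ▸ u.2))
    simp [e]
  simp only [hε] at h1
  simp only [← H3.irr_charDegree] at h1
  have h2 : ∑ χ : IrrCharacter G, charDegree (χ : G → ℂ) * (ε χ * charDegree (χ : G → ℂ)) =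
      ∑ χ : IrrCharacter G, (Nat.card U * m χ) * (ε χ * charDegree (χ : G → ℂ)) := by
    exact_mod_cast h1
  refine (Finset.sum_lt_sum (fun χ _ => ?_) ⟨H3.trivChar G, Finset.mem_univ _, ?_⟩).ne h2
  · simp only [ε]
    split_ifs with h3
    · refine Nat.mul_le_mul_right _ (rk1_bound hUP nU hidx hti χ.2 (hm χ) (fun h4 => ?_))
      exact h χ χ.2 h3 (by rw [hm, h4]; simp)
    · simp
  · have h3 := hm (H3.trivChar G)
    simp only [H3.trivChar_apply, Finset.sum_const, Finset.card_univ, nsmul_eq_mul, mul_one,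
      ← Nat.card_eq_fintype_card] at h3
    have h4 : m (H3.trivChar G) = 1 := by
      have : (1 : ℂ) = m (H3.trivChar G) := mul_left_cancel₀ hU0 (by rw [mul_one]; exact h3)
      exact_mod_cast this.symm
    simpa [ε, h4, charDegree] using hU

theorem card_dvd_sum {A : Type*} [Group A] [Fintype A] (H : Subgroup A) (m : A → ℕ)
    (hm : ∀ a, ∀ h ∈ H, m (a * h) = m a) : Nat.card H ∣ ∑ a, m a := by
  classical
  have := Fintype.ofFinite H
  have := Fintype.ofFinite (A ⧸ H)
  rw [← Finset.sum_fiberwise (s := Finset.univ) (g := fun a : A => (a : A ⧸ H))]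
  refine Finset.dvd_sum (fun c _ => ?_)
  obtain ⟨a, rfl⟩ := QuotientGroup.mk_surjective c
  rw [Finset.sum_congr rfl (g := fun _ => m a) (fun b hb => by
    have h1 := QuotientGroup.eq.mp (Finset.mem_filter.mp hb).2.symm
    rw [← hm a _ h1, mul_inv_cancel_left]), Finset.sum_const, smul_eq_mul]
  refine Dvd.dvd.mul_right (dvd_of_eq ?_) _
  rw [Nat.card_eq_fintype_card, ← Finset.card_univ]
  refine Finset.card_bij (fun h _ => a * h) (fun h _ => by simp) (fun h _ h' _ e => by simpa using e)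
    (fun b hb => ⟨⟨_, QuotientGroup.eq.mp (Finset.mem_filter.mp hb).2.symm⟩, Finset.mem_univ _,
      by simp⟩)

/-- Fourier multiplicities of a character of the additive group of a finite field -/
theorem fourier_sq {F : Type} [Field F] [Finite F] {φ : F → ℂ}
    (hφ : IsCharacter (Multiplicative F) (fun c => φ c.toAdd)) (h0 : ∑ᶠ c, φ c = 0)
    (hsq : ∀ (t : Fˣ) c, φ (t ^ 2 * c) = φ c) {d : ℕ} (hd : φ 0 = d) :
    Nat.card F - 1 ∣ 2 * d ∧ (Even (Nat.card F) → Nat.card F - 1 ∣ d) := by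
  classical
  have := Fintype.ofFinite F
  rw [finsum_eq_sum_of_fintype] at h0
  have hq := H3.card_ne_zero_complex (Multiplicative F)
  have hq' : Nat.card (Multiplicative F) = Nat.card F := rfl
  let ψ := AddChar.FiniteField.primitiveChar_to_Complex F
  have hψ : ψ.IsPrimitive := AddChar.FiniteField.primitiveChar_to_Complex_isPrimitive F
  have h1 : ∀ a : F, ∃ n : ℕ, ∑ c, φ c * conj (ψ (a * c)) = Nat.card F * n := fun a => by
    obtain ⟨n, hn⟩ := H3.IsCharacter_classInner hφ
      (H4.isCharacter_linear (ψ.mulShift a).toMonoidHom.toHomUnits)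
    refine ⟨n, ?_⟩
    rw [← hn, classInner, hq', ← mul_assoc, mul_inv_cancel₀ (hq' ▸ hq), one_mul]
    exact Fintype.sum_equiv Multiplicative.ofAdd _ _ (fun _ => rfl)
  choose m hm using h1
  have h2 : ∑ a, m a = d := by
    have : (Nat.card F : ℂ) * (∑ a, m a : ℕ) = Nat.card F * d := by
      simp only [Nat.cast_sum, Finset.mul_sum, ← hm]
      rw [Finset.sum_comm]
      simp only [← Finset.mul_sum, ← map_sum, AddChar.sum_mulShift _ hψ]
      simp [hd, mul_comm, apply_ite]
    exact_mod_cast mul_left_cancel₀ (hq' ▸ hq) this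
  have h3 : m 0 = 0 := by
    have := hm 0
    simp only [zero_mul, AddChar.map_zero_eq_one, map_one, mul_one, h0] at this
    exact_mod_cast (mul_eq_zero.mp this.symm).resolve_left (hq' ▸ hq)
  have h4 : ∑ a : Fˣ, m a = d := by
    rw [← h2, ← Finset.add_sum_erase _ m (Finset.mem_univ (0 : F)), h3, zero_add]
    refine Finset.sum_bij (fun a _ => (a : F)) (fun a _ => by simp) (fun a _ b _ e => Units.ext e)
      (fun b hb => ⟨Units.mk0 b (Finset.ne_of_mem_erase hb), Finset.mem_univ _, rfl⟩)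
      (fun _ _ => rfl)
  have h5 := card_dvd_sum (powMonoidHom 2 : Fˣ →* Fˣ).range (fun a => m a) (by
    rintro a _ ⟨t, rfl⟩
    have : (Nat.card F : ℂ) * m (a * powMonoidHom 2 t : Fˣ) = Nat.card F * m a := by
      rw [← hm, ← hm, ← Equiv.sum_comp (Units.mulLeft (t ^ 2)) (fun c => φ c * conj (ψ (a * c)))]
      simp [hsq, mul_assoc]
    exact_mod_cast mul_left_cancel₀ (hq' ▸ hq) this)
  rw [h4] at h5
  have h6 : Nat.card F - 1 = Nat.card (powMonoidHom 2 : Fˣ →* Fˣ).ker *
      Nat.card (powMonoidHom 2 : Fˣ →* Fˣ).range := by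
    rw [← Nat.card_units, ← Subgroup.index_ker, Subgroup.card_mul_index]
  have h7 : (powMonoidHom 2 : Fˣ →* Fˣ).ker ≤ Subgroup.zpowers (-1) := fun x hx => by
    have h8 : (x : F) ^ 2 = 1 := by simpa using congrArg Units.val hx
    rcases sq_eq_one_iff.mp h8 with h9 | h9
    · rw [show x = 1 from Units.ext h9]; exact one_mem _
    · rw [show x = -1 from Units.ext h9]; exact Subgroup.mem_zpowers _
  have h8 := Subgroup.card_dvd_of_le h7
  rw [Nat.card_zpowers] at h8
  rw [h6]
  refine ⟨Nat.mul_dvd_mul (h8.trans (orderOf_dvd_of_pow_eq_one (by simp))) h5, fun h9 => ?_⟩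
  have h10 : (-1 : Fˣ) = 1 := by
    have hc : ringChar F = 2 := by
      by_contra hc
      have := FiniteField.odd_card_of_char_ne_two hc
      rw [Nat.card_eq_fintype_card, Nat.even_iff] at h9
      omega
    have h11 : ((2 : ℕ) : F) = 0 := (ringChar.spec F 2).mpr (by rw [hc])
    refine Units.ext ?_
    push_cast at h11 ⊢
    linear_combination -h11
  rw [h10, orderOf_one, Nat.dvd_one] at h8
  rwa [h8, one_mul]

end Cfsg.Agent.DG
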