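import Cfsg.Agent.Lib.DG.T2
import Cfsg.Agent.Lib.DG.Aniso
import Cfsg.Agent.Lib.DG.CuspEx
import Cfsg.Agent.Lib.DG.Gen
import Cfsg.Agent.Lib.DG.Rk1

/-!
# Special characters of small symplectic groups (row DG-SpS, see notes/DG.md)
-/

set_option autoImplicit false

open scoped ComplexConjugate Matrix
open Module Cfsg

namespace Cfsg.Agent.DG.Fm

variable {F : Type} [Field F] [Finite F]

section aux

variable {V : Type} [AddCommGroup V] [Module F V] [Finite V]

theorem mem_P_or_cell {sy : Bool} {f : Fm sy F V} (ha : f.Aniso) (g : (f.hyp (Fin 1)).O) :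
    g ∈ f.P (Fin 1) ∨ ∃ u ∈ f.UU (Fin 1), ∃ p ∈ f.P (Fin 1), g = u * f.wey (Fin 1) * p := by
  refine or_iff_not_imp_left.mpr (fun h => mem_cell (fun x hx => ?_))
  by_contra h0
  have hx0 : x 0 ≠ 0 := fun h1 => h0 (funext fun i => by rw [Subsingleton.elim i 0]; exact h1)
  have h1 : (g.1 (x, 0, 0)).2.2 = 0 := by
    have := g.2.1 (x, 0, 0)
    rw [hyp_Q, hx, hyp_Q] at this
    exact ha _ (by simpa [Q_zero] using this)
  have h2 : (g.1 (x, 0, 0)).1 0 ≠ 0 := fun h2 => by
    have : g.1 (x, 0, 0) = 0 := Prod.ext (funext fun i => by rw [Subsingleton.elim i 0]; exact h2)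
      (Prod.ext hx h1)
    exact h0 (congrArg Prod.fst (g.1.map_eq_zero_iff.mp this))
  refine h ⟨scal (Fin 1) (Units.mk0 _ (div_ne_zero h2 hx0)), fun y => ?_⟩
  have e : ((y, 0, 0) : (Fin 1 → F) × (Fin 1 → F) × V) = (y 0 / x 0) • (x, 0, 0) :=
    Prod.ext (funext fun i => by rw [Subsingleton.elim i 0]; simp [hx0]) (by simp)
  rw [e, map_smul, scal_mulVec]
  refine Prod.ext (funext fun i => ?_) (Prod.ext (by simp [hx]) (by simp [h1]))
  rw [Subsingleton.elim i 0]
  simp
  ring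

theorem tv_sp (f : Fm true F V) (v : V) (c : F) : f.IsTv (f.tvel v c) v c :=
  tvel_spec (by simp [kap, f.qz rfl])

theorem tv_mem_UU {ι : Type} [Fintype ι] [DecidableEq ι] (f : Fm true F V) (x : ι → F) (c : F) :
    (f.hyp ι).tvel (x, 0, 0) c ∈ f.UU ι :=
  ⟨fun y => by rw [tv_sp]; simp [hyp_B], fun z => ⟨0, by rw [tv_sp]; simp [hyp_B]⟩⟩

theorem tv_zero (f : Fm true F V) (v : V) : f.tvel v 0 = 1 :=
  (tv_sp f v 0).unique (fun z => by simp)

theorem tv_zero' (f : Fm true F V) (c : F) : f.tvel 0 c = 1 :=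
  (tv_sp f 0 c).unique (fun z => by simp)

theorem tv_conj (f : Fm true F V) (v : V) (c : F) (g : f.O) :
    f.tvel (g.1 v) c = g * f.tvel v c * g⁻¹ := (tv_sp f _ c).unique ((tv_sp f v c).conj g)

theorem tv_smul (f : Fm true F V) (v : V) (t c : F) : f.tvel (t • v) c = f.tvel v (t ^ 2 * c) :=
  (tv_sp f _ c).unique (fun z => by
    rw [tv_sp, map_smul, smul_smul, smul_eq_mul]
    congr 2
    ring)

theorem tv_add (f : Fm true F V) (v : V) (c d : F) :
    f.tvel v (c + d) = f.tvel v c * f.tvel v d :=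
  (tv_sp f _ _).unique (fun z => by
    change (f.tvel v c).1 ((f.tvel v d).1 z) = _
    rw [tv_sp, tv_sp, map_add, map_smul, LinearMap.add_apply, LinearMap.smul_apply, f.self,
      f.qz rfl]
    module)

theorem dirC0 {f : Fm true F V} {n : ℕ} (h : St f n (zeroFm true F)) {χ : f.O → ℂ}
    (hχ : IsIrrCharacter _ χ) (hs : f.Sg χ 1) :
    IsDeg (PS ((zeroFm true F).hyp (Fin n)).O) (charDegree χ) := by
  obtain ⟨e⟩ := h.grp (St.refl _ n)
  obtain ⟨e'⟩ := ps_equiv e
  exact isDeg_of_equiv e' (isDeg_sp hχ hs)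

theorem finsum_units (φ : F → ℂ) : ∑ᶠ c : Fˣ, φ (c⁻¹ : Fˣ) = ∑ᶠ c, φ c - φ 0 := by
  classical
  have := Fintype.ofFinite F
  refine (finsum_comp_equiv (Equiv.inv Fˣ) (f := fun c : Fˣ => φ c)).trans ?_
  rw [finsum_eq_sum_of_fintype,
    finsum_eq_sum_of_fintype, ← Finset.add_sum_erase _ φ (Finset.mem_univ (0 : F)),
    add_sub_cancel_left]
  exact Finset.sum_bij (fun a _ => (a : F)) (fun a _ => by simp) (fun a _ b _ e => Units.ext e)
    (fun b hb => ⟨Units.mk0 b (Finset.ne_of_mem_erase hb), Finset.mem_univ _, rfl⟩)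
    (fun _ _ => rfl)

/-- a sum over all vectors of a function that is constant on nonzero vectors -/
theorem finsum_vec (f : Fm true F V) (c : Fˣ) (φ : V → ℂ) :
    ∑ᶠ v : {v : V // kap F true * c + f.Q v = 0}, φ v = ∑ᶠ v, φ v :=
  finsum_comp_equiv (Equiv.subtypeUnivEquiv (fun v => by simp [kap, f.qz rfl])) (f := φ)

theorem finsum_comm' {A B : Type*} [Finite A] [Finite B] (φ : A → B → ℂ) :
    ∑ᶠ a, ∑ᶠ b, φ a b = ∑ᶠ b, ∑ᶠ a, φ a b := by
  have := Fintype.ofFinite A
  have := Fintype.ofFinite B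
  simp only [finsum_eq_sum_of_fintype]
  exact Finset.sum_comm

theorem finsum_const_ne (φ : V → ℂ) {a : ℂ} (h : ∀ v, v ≠ 0 → φ v = a) :
    ∑ᶠ v, φ v = φ 0 + (Nat.card V - 1) * a := by
  classical
  have := Fintype.ofFinite V
  rw [finsum_eq_sum_of_fintype, ← Finset.add_sum_erase _ φ (Finset.mem_univ 0),
    Finset.sum_congr rfl (fun v hv => h v (Finset.ne_of_mem_erase hv)), Finset.sum_const,
    Finset.card_erase_of_mem (Finset.mem_univ _), Finset.card_univ, ← Nat.card_eq_fintype_card,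
    nsmul_eq_mul, Nat.cast_sub Nat.card_pos, Nat.cast_one]

end aux
/-- an even cuspidal character of `Sp₂(q)` -/
theorem sp2_cusp : ∃ ρ : ((zeroFm true F).hyp (Fin 1)).O → ℂ, IsIrrCharacter _ ρ ∧
    ((zeroFm true F).hyp (Fin 1)).Sg ρ 1 ∧
    ((zeroFm true F).hyp (Fin 1)).Free (fun _ : GL (Fin 1) F => 1) ρ ∧
    Nat.card F - 1 ∣ 2 * charDegree ρ ∧ (Even (Nat.card F) → Nat.card F - 1 ∣ charDegree ρ) ∧
    ∀ v, v ≠ 0 → ∑ᶠ c : Fˣ, ρ (((zeroFm true F).hyp (Fin 1)).tvel v (c⁻¹ : Fˣ)) = -ρ 1 := by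
  have hq : 1 < Nat.card F := Finite.one_lt_card
  have H := hd (f := zeroFm true F) (1 : GL (Fin 1) F →* ℂˣ) (fun _ => rfl) rfl
    H3.isIrrCharacter_one
  have hU : Nat.card ((zeroFm true F).UU (Fin 1)) = Nat.card F := by simp [card_UU]
  have hi : ((zeroFm true F).P (Fin 1)).index = Nat.card ((zeroFm true F).UU (Fin 1)) + 1 := by
    have := index_P (zero_aniso (F := F) true) (St.zero _) 1
    simp only [gl, pp, zero_tp_true, Finset.range_one, Finset.prod_singleton, zero_add, pow_one,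
      pow_zero, one_mul] at this
    rw [hU]
    exact Nat.eq_of_mul_eq_mul_right (m := Nat.card F - 1) (by omega) (by rw [this, mul_comm])
  obtain ⟨ρ, h1, h2, h3⟩ := exists_cusp_rk1 H.hU H.nU hi (hU ▸ hq) (fun x u hu hu1 hx => by
      rcases mem_P_or_cell (zero_aniso true) x⁻¹ with h | ⟨u', hu', p, hp, h⟩
      · exact inv_mem_iff.mp h
      · exfalso
        rw [inv_eq_iff_eq_inv] at h
        have h4 := H.opp (u'⁻¹ * u * u') (mul_mem (mul_mem (inv_mem hu') hu) hu') (by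
          have h5 := H.hL H.w2
          have h6 := mul_mem (mul_mem (mul_mem h5 hp) hx) (inv_mem (mul_mem h5 hp))
          rw [h] at h6
          convert h6 using 1
          group)
        exact hu1 (by
          calc u = u' * (u'⁻¹ * u * u') * u'⁻¹ := by group
            _ = 1 := by rw [h4]; group))
    (neg1_sq _) (neg1_comm _) (fun h => H.opp _ h (by
      rw [neg1_comm, mul_inv_cancel_right]; exact H.hU h))
  have hρ := H3.IsIrrCharacter_isCharacter h1
  have hcl := H3.IsCharacter_isClassFunction hρ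
  let f := (zeroFm true F).hyp (Fin 1)
  have he : ((1, 0, 0) : (Fin 1 → F) × (Fin 1 → F) × (Fin 0 → F)) ≠ 0 := by simp
  have h4 : ∑ᶠ c, ρ (f.tvel (1, 0, 0) c) = 0 := by
    rw [← h3]
    refine finsum_eq_of_bijective (fun c => ⟨_, tv_mem_UU (zeroFm true F) 1 c⟩) ?_ (fun _ => rfl)
    refine (Nat.bijective_iff_injective_and_card _).mpr ⟨fun c d e => ?_, hU.symm⟩
    have e1 : (f.tvel (1, 0, 0) c).1 (0, 1, 0) = (f.tvel (1, 0, 0) d).1 (0, 1, 0) := by
      rw [show f.tvel (1, 0, 0) c = f.tvel (1, 0, 0) d from congrArg Subtype.val e]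
    rw [tv_sp, tv_sp] at e1
    simpa [f, hyp_B, eps, zeroFm] using congrFun (congrArg Prod.fst e1) 0
  obtain ⟨h5, h6⟩ := fourier_sq (φ := fun c => ρ (f.tvel (1, 0, 0) c)) (H3.IsCharacter_comp
    (MonoidHom.mk' (fun c : Multiplicative F => f.tvel (1, 0, 0) c.toAdd)
      (fun c d => tv_add _ _ _ _)) hρ) h4 (fun t c => by
      have e := tv_conj f (1, 0, 0) c ((zeroFm true F).lev (Fin 1) (scal (Fin 1) t, 1))
      rw [lev_apply, scal_mulVec] at e
      rw [← tv_smul, ← hcl (f.tvel (1, 0, 0) c) ((zeroFm true F).lev (Fin 1) (scal (Fin 1) t, 1)),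
        ← e]
      congr 2
      exact Prod.ext (by simp) (Prod.ext (by simp) (Subsingleton.elim _ _)))
    (d := charDegree ρ) (by simp only [tv_zero, H4.charDegree_cast hρ])
  refine ⟨ρ, h1, h2, fun j hj => ?_, h5, h6, fun v hv => ?_⟩
  · obtain ⟨g, hg⟩ := trans_sing (f := f) he (u' := j 1)
      (by rw [← map_zero j]; exact hj.inj.ne one_ne_zero) (f.qz rfl _) (f.qz rfl _)
    have h7 : ∀ c, f.tvel (j 1) c ∈ KJ hj := fun c =>
      ⟨fun x => ⟨x, by rw [tv_sp, hj.hB]; simp⟩, fun x => ⟨x, by rw [tv_sp, hj.hB]; simp⟩,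
        fun v _ => ⟨_, by rw [tv_sp, ← map_smul]⟩⟩
    refine sum_eq_zero_of_avg _ (fun c : F => Equiv.mulLeft (⟨_, h7 c⟩ : KJ hj)) (fun x => ?_)
    have h8 := sum_hom_mul (H3.IsCharacter_conj hρ)
      (MonoidHom.mk' (fun c : Multiplicative F => f.tvel (j 1) c.toAdd)
        (fun c d => tv_add _ _ _ _)) (by
        have := congrArg conj h4
        rw [map_zero, map_finsum _ (Set.toFinite _)] at this
        rw [← this]
        refine finsum_eq_of_bijective Multiplicative.toAdd Multiplicative.toAdd.bijective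
          (fun c => ?_)
        simp only [MonoidHom.mk'_apply]
        rw [← hg, tv_conj, hcl]) x
    rw [← h8]
    exact finsum_eq_of_bijective Multiplicative.ofAdd Multiplicative.ofAdd.bijective
      (fun c => one_mul _)
  · obtain ⟨g, hg⟩ := trans_sing (f := f) he hv (f.qz rfl _) (f.qz rfl _)
    rw [finsum_units (fun c => ρ (f.tvel v c)), tv_zero, ← hg]
    simp only [tv_conj, hcl _ g, h4, zero_sub]

theorem sp4 : ∃ d, IsDeg (PS ((zeroFm true F).hyp (Fin 2)).O) d ∧ ∀ r : ℕ, r.Prime →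
    r ∣ Nat.card F * (Nat.card F ^ 2 + 1) * (Nat.card F - 1) → r ∣ d := by
  obtain ⟨ρ, r1, r2, r3, r4, r5, r6⟩ := sp2_cusp (F := F)
  have := Fintype.ofFinite F
  have hq : 1 < Nat.card F := Finite.one_lt_card
  obtain ⟨p, hp0, n, hp, hn⟩ := FiniteField.card' F
  rw [← Nat.card_eq_fintype_card] at hn
  obtain ⟨χ₁, χ₂, e, β, i₁, i₂, -, q2, q3, q4, q5, q6, -⟩ := step3one (zero_aniso true)
    (St.refl _ 1) (1 : GL (Fin 1) F →* ℂˣ) (fun _ => rfl) rfl r1 r3 hp (N := 3 * n)
    (by rw [zero_tp_true, hn]; ring)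
  have hβ : β = -(Nat.card F * (Nat.card F - 1)) := by
    refine mul_right_cancel₀ (H3.IsIrrCharacter_apply_one_ne_zero r1) (q6.trans ?_)
    simp only [MonoidHom.one_apply, Units.val_one, one_mul]
    rw [finsum_congr (fun c : Fˣ => finsum_vec _ c
      (fun v => ρ (((zeroFm true F).hyp (Fin 1)).tvel v (c⁻¹ : Fˣ))))]
    rw [finsum_comm', finsum_const_ne _ r6, (St.refl (zeroFm true F) 1).card]
    have := Fintype.ofFinite Fˣ
    simp only [tv_zero', finsum_eq_sum_of_fintype, Finset.sum_const, Finset.card_univ,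
      ← Nat.card_eq_fintype_card, Nat.card_units, nsmul_eq_mul, Nat.cast_sub hq.le]
    simp
    ring
  have he : p ^ e = Nat.card F := by
    obtain ⟨x, hx⟩ : ∃ x, Nat.card F = x + 1 := ⟨Nat.card F - 1, by omega⟩
    obtain ⟨y, hy⟩ : ∃ y, p ^ e = y + 1 := ⟨p ^ e - 1, by have := Nat.one_le_pow e p hp.pos; omega⟩
    have h1 : ((p : ℂ) ^ (3 * n : ℕ)) = (Nat.card F : ℂ) ^ 3 := by rw [hn]; push_cast; ring
    have h2 : (p : ℂ) ^ e = y + 1 := by exact_mod_cast hy
    rw [hβ, h1, h2, hx] at q5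
    have h3 : (x + 1 : ℂ) ≠ 0 := by exact_mod_cast Nat.succ_ne_zero x
    have h4 : x ^ 2 * (y + 1) = (x + 1) * y ^ 2 := by
      have : (x : ℂ) ^ 2 * (y + 1) = (x + 1) * y ^ 2 := mul_left_cancel₀ (pow_ne_zero 2 h3) (by
        push_cast at q5
        linear_combination q5)
      exact_mod_cast this
    have h5 : x = y := by
      have hx0 : 0 < x := by omega
      rcases lt_trichotomy x y with h | h | h
      · nlinarith [Nat.mul_le_mul h.le h.le, Nat.mul_pos hx0 (hx0.trans h)]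
      · exact h
      · nlinarith [Nat.mul_le_mul h.le h.le, Nat.zero_le (x * y)]
    omega
  have h7 := hc_sg (π := fun g : GL (Fin 1) F => ((1 : GL (Fin 1) F →* ℂˣ) g : ℂ)) (s := 1)
    (by simp) r2
  rw [q2, one_mul] at h7
  refine ⟨_, dirC0 ((St.refl _ 1).hyp 1) i₁ (h7.part (H3.IsIrrCharacter_isCharacter i₁)
    (H3.IsIrrCharacter_isCharacter i₂) (Or.inl rfl)), fun r hr h => ?_⟩
  rw [he, zero_tp_true] at q4
  have h8 : charDegree χ₂ = (Nat.card F ^ 2 + 1) * charDegree ρ := by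
    refine Nat.eq_of_mul_eq_mul_left (n := (Nat.card F + 1) * (Nat.card F - 1))
      (Nat.mul_pos (by omega) (by omega)) ?_
    rw [show Nat.card F ^ (1 + 1) - 1 = (Nat.card F + 1) * (Nat.card F - 1) by
      rw [← Nat.sq_sub_sq, one_pow]] at q4
    linear_combination q4
  rw [q3, he, h8, ← mul_assoc]
  rcases (Nat.Prime.dvd_mul hr).mp h with h9 | h9
  · exact h9.mul_right _
  · rcases (Nat.Prime.dvd_mul hr).mp (h9.trans r4) with h10 | h10
    · obtain rfl := (Nat.prime_dvd_prime_iff_eq hr Nat.prime_two).mp h10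
      refine Dvd.dvd.mul_right ?_ _
      rcases Nat.even_or_odd (Nat.card F) with h11 | h11
      · exact h11.two_dvd.mul_right _
      · exact (h11.pow.add_one).two_dvd.mul_left _
    · exact h10.mul_left _

theorem pp_two_odd (m k : ℕ) : Odd (pp 2 2 m k) := by
  refine Finset.prod_induction _ Odd (fun _ _ => Odd.mul) odd_one (fun i _ => Odd.mul ?_ ?_)
  · exact Nat.Even.sub_odd Nat.one_le_two_pow ((Nat.even_pow' (by omega)).mpr even_two) odd_one
  · exact (Even.mul_left even_two _).add_one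

theorem not_seven_dvd (e : ℕ) : ¬ 7 ∣ 2 ^ e + 1 := by
  have : ∀ e : ℕ, 2 ^ e % 7 = 1 ∨ 2 ^ e % 7 = 2 ∨ 2 ^ e % 7 = 4 := fun e => by
    induction e with
    | zero => simp
    | succ n ih => rw [pow_succ]; omega
  have := this e
  omega
theorem sp_even (hq : Nat.card F = 2) {V : Type} [AddCommGroup V] [Module F V] [Finite V]
    {f : Fm true F V} {m : ℕ} (h : St f m (zeroFm true F)) :
    ∃ χ : (f.hyp (Fin 2)).O → ℂ, IsIrrCharacter _ χ ∧
      (f.hyp (Fin 2)).FreeK (fun j => 3 ≤ j) χ ∧ 2 ∣ charDegree χ ∧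
      (7 ∣ pp 2 2 m 2 → 7 ∣ charDegree χ) := by
  obtain ⟨lam, h1, h2, -, h4⟩ := exists_sgn hq
  have hne : (fun g => (lam g : ℂ)) ≠ fun _ => 1 := fun h5 =>
    h4 (MonoidHom.ext fun g => Units.ext (congrFun h5 g))
  obtain ⟨χ₁, χ₂, e, β, i₁, i₂, -, q2, q3, q4, -⟩ := step3 (zero_aniso true) h two_pos lam h1 h2
    (by simp [eps, scal_neg_one_of_even (F := F) (by rw [hq]; exact even_two)])
    H3.isIrrCharacter_one (free_one (H3.isIrrCharacter_linear _) hne) Nat.prime_two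
    (N := 4 * m + 3) (by rw [zero_tp_true, hq, uu]; ring)
  have f2 := hc_freeK two_pos (H4.isCharacter_linear lam) h1 H3.isCharacter_one
    (freeAll_one (f := f)).freeK
  rw [q2] at f2
  have f3 := f2.part (H3.IsIrrCharacter_isCharacter i₁) (H3.IsIrrCharacter_isCharacter i₂)
  rw [zero_tp_true, hq, H4.charDegree_eq_of_apply_one (a := fun _ => (1 : ℂ)) (n := 1) (by simp),
    mul_one, show gl 2 2 = 3 by decide] at q4
  refine ⟨χ₁, i₁, fun j θ hj h5 => f3 j θ hj ⟨by omega, by omega⟩, ?_, fun h5 => ?_⟩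
  · rw [q3]
    refine Dvd.dvd.mul_right (dvd_pow_self 2 ?_) _
    rintro rfl
    obtain ⟨x, hx⟩ := pp_two_odd m 2
    omega
  · rw [← q4] at h5
    rw [q3]
    exact (((Nat.Prime.dvd_mul (by norm_num)).mp (((Nat.Prime.dvd_mul (by norm_num)).mp
      h5).resolve_right (by norm_num))).resolve_left (not_seven_dvd e)).mul_left _

theorem sp6 (hq : Nat.card F = 2) : IsDeg (PS ((zeroFm true F).hyp (Fin 3)).O) 210 := by
  obtain ⟨lam, h1, h2, h3, -⟩ := exists_sgn hq
  have fa := freeK_of_aniso (zero_aniso (F := F) true) (fun _ => (1 : ℂ))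
  have hev : Even (Nat.card F) := by rw [hq]; exact even_two
  obtain ⟨χ₁, ρ, e, β, i₁, i₂, q1, q2, -, q4, -, -, q7⟩ := step3 (zero_aniso true) (St.zero _)
    two_pos lam h1 h2 (by simp [eps, scal_neg_one_of_even hev]) H3.isIrrCharacter_one
    (fa 2 _ two_pos trivial (H3.isIrrCharacter_linear _) h1) Nat.prime_two
    (N := 3) (by rw [zero_tp_true, hq]; decide)
  rw [zero_tp_true, hq, H4.charDegree_eq_of_apply_one (a := fun _ => (1 : ℂ)) (n := 1) (by simp),
    mul_one, show gl 2 2 = 3 by decide, show pp 2 2 0 2 = 45 by decide] at q4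
  obtain ⟨q8, q9⟩ := q7 h3 (fun _ γ => map_one γ)
  have he0 : e ≠ 0 := by
    rintro rfl
    omega
  have d5 : charDegree ρ = 5 := by
    have he : e < 4 := by
      by_contra h4
      have h5 : 2 ^ 4 ≤ 2 ^ e := Nat.pow_le_pow_right (by norm_num) (by omega)
      have := H4.charDegree_pos i₂
      nlinarith
    have := q8 he0
    interval_cases e <;> omega
  have hρ := H3.IsIrrCharacter_isCharacter i₂
  have hrat := (q9 (Or.inl he0)).2
  have f2 := hc_freeK two_pos (H4.isCharacter_linear lam) h1 H3.isCharacter_one fa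
  rw [q2, add_comm] at f2
  have f3 := f2.part hρ (H3.IsIrrCharacter_isCharacter i₁)
  have h5 : ρ 1 = 5 := by rw [← H4.charDegree_cast hρ, d5]; norm_num
  obtain ⟨a, ha⟩ := int_of_ratC hρ (hrat (((zeroFm true F).hyp (Fin 2)).tvel (1, 0, 0) 1))
  have ha5 : a ≠ -5 := by
    rintro rfl
    refine ne_neg_of_const (sig_irr (H3.isIrrCharacter_linear lam) H3.isIrrCharacter_one) i₂ ?_
      ⟨_, UU_le (tv_mem_UU (zeroFm true F) 1 1)⟩ ?_ (by rw [h5]; simpa using ha)
    · have := Fintype.ofFinite ((zeroFm true F).hyp (Fin 2)).O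
      change ip ((zeroFm true F).hc _ _) _ ≠ 0
      rw [q2, ip_eq, H3.classInner_add_left, H3.IsIrrCharacter_classInner_of_ne i₁ i₂ q1,
        H3.IsIrrCharacter_classInner_self i₂]
      norm_num
    · simp only [sig, (pr_eq_one_iff ⟨_, UU_le (tv_mem_UU (zeroFm true F) 1 1)⟩).mpr
        (tv_mem_UU (zeroFm true F) 1 1), map_one]
  obtain ⟨ξ₁, ξ₂, e, β, j₁, j₂, -, -, s3, s4, s5, s6, s7⟩ := step3one (zero_aniso true)
    (St.refl _ 2) (1 : GL (Fin 1) F →* ℂˣ) (fun _ => rfl) rfl i₂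
    (f3 1 _ one_pos ⟨trivial, by norm_num⟩ (H3.isIrrCharacter_linear _) (cusp1 _)) Nat.prime_two
    (N := 5) (by rw [zero_tp_true, hq]; norm_num)
  have hβ : β = 1 + 3 * a := by
    have hu : ∀ c : Fˣ, c = 1 := fun c => by
      have : Nat.card Fˣ = 1 := by rw [Nat.card_units, hq]
      exact (Nat.card_eq_one_iff_unique.mp this).1.elim _ _
    simp only [MonoidHom.one_apply, Units.val_one, one_mul] at s6
    rw [finsum_eq_single _ 1 (fun c hc => absurd (hu c) hc),
      finsum_vec _ 1 (fun v => ρ (((zeroFm true F).hyp (Fin 2)).tvel v ((1 : Fˣ)⁻¹ : Fˣ))),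
      inv_one, Units.val_one, finsum_const_ne _ (a := a) (fun v hv => by
        obtain ⟨g, hg⟩ := trans_sing (f := (zeroFm true F).hyp (Fin 2)) (u := (1, 0, 0))
          (by simp) hv (Fm.qz _ rfl _) (Fm.qz _ rfl _)
        rw [← hg, tv_conj, H3.IsCharacter_isClassFunction hρ, ha]),
      (St.refl (zeroFm true F) 2).card, tv_zero', h5, hq] at s6
    simp at s6
    linear_combination s6 / 5
  rw [zero_tp_true, hq, d5] at s4
  have he1 : e ≠ 0 := by
    rintro rfl
    omega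
  have s8 := (s7 (fun _ => Or.inl rfl) hrat).1 he1
  have he : e < 9 := by
    by_contra h4
    have h6 : 2 ^ 9 ≤ 2 ^ e := Nat.pow_le_pow_right (by norm_num) (by omega)
    have := H4.charDegree_pos j₂
    norm_num at s4
    nlinarith
  have he3 : e ≠ 3 := by
    rintro rfl
    have h6 : ((a + 5) * (3 * a - 13) : ℤ) = 0 := by
      have : ((a : ℂ) + 5) * (3 * a - 13) = 0 := by
        rw [hβ] at s5
        push_cast at s5
        linear_combination s5 / 24
      exact_mod_cast this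
    rcases mul_eq_zero.mp h6 with h7 | h7 <;> omega
  have : charDegree ξ₁ = 210 := by interval_cases e <;> omega
  exact this ▸ dirC0 ((St.refl _ 2).hyp 1) j₁ (sg_of_even hev _)

end Cfsg.Agent.DG.Fm
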