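import Cfsg.Agent.Lib.DG.Mack
import Cfsg.Agent.Lib.DG.Count
import Cfsg.Agent.Lib.DG.Mir

/-!
# The induction steps (row DG-Step, see notes/DG.md)
-/

set_option autoImplicit false

open scoped ComplexConjugate Matrix
open Module Cfsg

namespace Cfsg.Agent.DG.Fm

variable {sy : Bool} {F V V' : Type} [Field F] [Finite F] [AddCommGroup V] [Module F V]
  [Finite V] [AddCommGroup V'] [Module F V'] [Finite V'] {f : Fm sy F V} {a : Fm sy F V'}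
  {k : ℕ}

theorem cusp1 (π : GL (Fin 1) F → ℂ) : Cusp π := by
  intro A h0 h1
  exfalso
  obtain ⟨x, hx, hx0⟩ := A.exists_mem_ne_zero_of_ne_bot h0
  refine h1 (eq_top_iff.mpr fun y _ => ?_)
  have h2 : x 0 ≠ 0 := fun h => hx0 (funext fun i => by rw [Subsingleton.elim i 0]; exact h)
  have : y = (y 0 / x 0) • x := funext fun i => by
    rw [Subsingleton.elim i 0]; simp [h2]
  rw [this]
  exact A.smul_mem _ hx

theorem irr_itr {ι : Type} [Fintype ι] [DecidableEq ι] {π : GL ι F → ℂ}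
    (h : IsIrrCharacter _ π) : IsIrrCharacter _ (fun g => π (itr g)) :=
  H4.isIrr_comp_surjective itr (fun g => ⟨itr g, itr_itr g⟩) h

theorem ip_conj {G : Type*} [Group G] [Finite G] (x y : G → ℂ) : conj (ip x y) = ip y x := by
  have := Fintype.ofFinite G
  rw [ip_eq, ip_eq, H3.conj_classInner]

theorem gl_succ (q k : ℕ) : gl q (k + 1) = gl q k * (q ^ (k + 1) - 1) := Finset.prod_range_succ _ _

theorem ratC_sign {z : ℂˣ} (h : z = 1 ∨ z = -1) : RatC (z : ℂ) := by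
  rcases h with rfl | rfl <;> intro γ <;> simp
theorem hc_irr (hk : 0 < k) {π : GL (Fin k) F → ℂ} {s : ℂ} (hπ : GC π s) {ρ : f.O → ℂ}
    (hρ : IsIrrCharacter _ ρ) (hf : f.Free π ρ) : IsIrrCharacter _ (f.hc π ρ) := by
  have : Nonempty (Fin k) := ⟨⟨0, hk⟩⟩
  have h1 := H3.IsIrrCharacter_isCharacter hπ.irr
  have h2 := H3.IsIrrCharacter_isCharacter hρ
  refine irr_of_norm_one (hc_char h1 h2) ?_
  rw [m1 h1 h1 h2 h2 hπ.cusp hf, ip_self hπ.irr, ip_self hρ, ip_irr (irr_itr hπ.irr) hπ.irr hπ.ne]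
  simp

theorem hc_dvd (ha : a.Aniso) {m : ℕ} (h : St f m a) (hk : 0 < k) {π : GL (Fin k) F → ℂ}
    (hπ : IsCharacter _ π) (hc : Cusp π) {ρ : f.O → ℂ} (hρ : IsCharacter _ ρ) :
    DD (Nat.card F) a.tp m k * charDegree ρ ∣ charDegree (f.hc π ρ) := by
  obtain ⟨k, rfl⟩ : ∃ k', k = k' + 1 := ⟨k - 1, by omega⟩
  have h1 := index_P ha h (k + 1)
  have h2 : 0 < Nat.card F ^ (k + 1) - 1 := by
    have : 1 < Nat.card F ^ (k + 1) := Nat.one_lt_pow (by omega) Finite.one_lt_card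
    omega
  have h3 : DD (Nat.card F) a.tp m (k + 1) = (f.P (Fin (k + 1))).index * gl (Nat.card F) k := by
    rw [DD, ← h1, gl_succ, ← mul_assoc, Nat.mul_div_cancel _ h2]
  rw [hc_deg hπ hρ, h3, mul_assoc]
  exact Nat.mul_dvd_mul_left _ (Nat.mul_dvd_mul_right (gl_dvd_of_cusp hπ hc) _)

theorem hc_freeK (hk : 0 < k) {π : GL (Fin k) F → ℂ} (hπ : IsCharacter _ π) (hc : Cusp π)
    {ρ : f.O → ℂ} (hρ : IsCharacter _ ρ) {S : ℕ → Prop} (hf : f.FreeK S ρ) :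
    (f.hyp (Fin k)).FreeK (fun j => S j ∧ j ≠ k) (f.hc π ρ) := by
  intro j θ hj hS h1 h2
  have : Nonempty (Fin k) := ⟨⟨0, hk⟩⟩
  have : Nonempty (Fin j) := ⟨⟨0, hj⟩⟩
  exact m2 hπ (H3.IsIrrCharacter_isCharacter h1) hρ hc h2 (hf j θ hj hS.1 h1 h2)
    (by simpa using hS.2)

theorem hc_freeAll : (f.hyp (Fin 1)).FreeAll (f.hc (fun _ : GL (Fin 1) F => 1) (fun _ => 1)) := by
  intro j θ hj h1 h2 h3
  have : Nonempty (Fin j) := ⟨⟨0, hj⟩⟩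
  by_cases hj1 : j = 1
  · subst hj1
    exact m2' H3.isCharacter_one (H3.IsIrrCharacter_isCharacter h1) H3.isCharacter_one
      (cusp1 _) h2 (free_one h1 h3) (ip_irr h1 H3.isIrrCharacter_one h3)
      (ip_irr h1 H3.isIrrCharacter_one h3)
  · exact m2 H3.isCharacter_one (H3.IsIrrCharacter_isCharacter h1) H3.isCharacter_one
      (cusp1 _) h2 (free_one h1 h3) (by simpa using hj1)

theorem hc_tf {V : Type} [AddCommGroup V] [Module F V] [Finite V] {f : Fm false F V}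
    (hq : Nat.card F = 2) (hb : ∃ b, f.Q b ≠ 0) (hk : 0 < k) {π : GL (Fin k) F → ℂ}
    (hπ : IsCharacter _ π) (hc : Cusp π) {ρ : f.O → ℂ} (hρ : IsCharacter _ ρ)
    (hf : f.Free π ρ) (ht : f.TF ρ) : (f.hyp (Fin k)).TF (f.hc π ρ) := by
  rintro μ hμ ⟨r, ⟨x, hx, hr⟩, hμr⟩
  have : Nonempty (Fin k) := ⟨⟨0, hk⟩⟩
  have := Fintype.ofFinite (f.hyp (Fin k)).O
  let μ₂ : f.O →* ℂˣ := μ.comp ((f.lev (Fin k)).comp (MonoidHom.inr _ _))
  have e : (fun g => f.hc π ρ g * μ g) = f.hc π (fun g => ρ g * μ₂ g) := by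
    rw [Fm.hc, Fm.hc, ind_eq, ind_eq, ← H4.indFun_mul_res _ _
      (H3.IsCharacter_isClassFunction (H4.isCharacter_linear μ))]
    congr 1
    funext p
    simp only [sig, SL.on_P hq hμ p, mul_assoc]
    rfl
  have one : ∀ c : F, c ≠ 0 → c = 1 := fun c hc => by
    by_contra h1
    have := Fintype.ofFinite F
    have h3 : ({0, 1, c} : Set F).ncard = 3 :=
      Set.ncard_eq_three.mpr ⟨0, 1, c, zero_ne_one, hc.symm, fun h => h1 h.symm, rfl⟩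
    have h4 := Set.ncard_le_card ({0, 1, c} : Set F)
    omega
  obtain ⟨b, hb⟩ := hb
  obtain ⟨r', hr'⟩ := exists_refl hb
  obtain ⟨y, hy, hr2⟩ := isRefl_lev (ι := Fin k) ⟨b, hb, hr'⟩
  have h0 : ip (fun g => ρ g * μ₂ g) ρ = 0 := ht μ₂ (fun g u v h => hμ _ _ _ (isSieg_lev h))
    ⟨r', ⟨b, hb, hr'⟩, by
      change μ (f.lev (Fin k) (1, r')) ≠ 1
      rwa [lin_refl_eq μ hy (by rw [one _ hx, one _ hy]) hr2 hr]⟩
  have hρ' : IsCharacter _ (fun g => ρ g * μ₂ g) :=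
    H3.IsCharacter_mul hρ (H4.isCharacter_linear μ₂)
  rw [e, ← ip_conj, m1 hπ hπ hρ hρ' hc hf, ← ip_conj _ ρ, h0]
  simp

/-- the irreducible step in one statement -/
theorem step1 (ha : a.Aniso) {m : ℕ} (h : St f m a) (hk : 0 < k) {π : GL (Fin k) F → ℂ} {s : ℂ}
    (hπ : GC π s) {ρ : f.O → ℂ} (hρ : IsIrrCharacter _ ρ) (hf : f.Free π ρ) :
    IsIrrCharacter _ (f.hc π ρ) ∧
      DD (Nat.card F) a.tp m k * charDegree ρ ∣ charDegree (f.hc π ρ) ∧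
      ∀ s', f.Sg ρ s' → (f.hyp (Fin k)).Sg (f.hc π ρ) (s * s') := by
  exact ⟨hc_irr hk hπ hρ hf, hc_dvd ha h hk (H3.IsIrrCharacter_isCharacter hπ.irr) hπ.cusp
    (H3.IsIrrCharacter_isCharacter hρ), fun s' hs => hc_sg hπ.sg hs⟩

/-- the splitting step -/
theorem step3 (ha : a.Aniso) {m : ℕ} (h : St f m a) (hk : 0 < k) (lam : GL (Fin k) F →* ℂˣ)
    (hc : Cusp (fun g => (lam g : ℂ))) (h1 : ∀ g, lam (itr g) = lam g)
    (h2 : lam (scal (Fin k) (eps F sy)) = 1) {ρ : f.O → ℂ} (hρ : IsIrrCharacter _ ρ)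
    (hf : f.Free (fun g => (lam g : ℂ)) ρ) {p N : ℕ} (hp : p.Prime)
    (hN : uu (Nat.card F) a.tp m k = p ^ N) :
    ∃ (χ₁ χ₂ : (f.hyp (Fin k)).O → ℂ) (e : ℕ) (β : ℂ), IsIrrCharacter _ χ₁ ∧
      IsIrrCharacter _ χ₂ ∧ χ₁ ≠ χ₂ ∧ f.hc (fun g => (lam g : ℂ)) ρ = χ₁ + χ₂ ∧
      charDegree χ₁ = p ^ e * charDegree χ₂ ∧
      (p ^ e + 1) * charDegree χ₂ * gl (Nat.card F) k =
        pp (Nat.card F) a.tp m k * charDegree ρ ∧
      β ^ 2 * (p : ℂ) ^ e = (p : ℂ) ^ N * ((p : ℂ) ^ e - 1) ^ 2 ∧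
      β * ρ 1 = ∑ᶠ u : f.UU (Fin k), tau (f.P (Fin k)) (f.UU (Fin k)) (f.wey (Fin k))
        (f.sig (fun g => (lam g : ℂ)) ρ) (f.wey (Fin k) * u * f.wey (Fin k)) ∧
      ((∀ g, lam g = 1 ∨ lam g = -1) → RatF ρ →
        (e ≠ 0 → e % 2 = N % 2) ∧ (e ≠ 0 ∨ Even N → RatF χ₁ ∧ RatF χ₂)) := by
  have : Nonempty (Fin k) := ⟨⟨0, hk⟩⟩
  have h3 := H4.isCharacter_linear lam
  have h4 := H3.IsIrrCharacter_isCharacter hρ
  have hn : ip (f.hc (fun g => (lam g : ℂ)) ρ) (f.hc (fun g => (lam g : ℂ)) ρ) = 2 := by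
    rw [m1 h3 h3 h4 h4 hc hf]
    simp only [h1]
    rw [ip_self (H3.isIrrCharacter_linear lam), ip_self hρ]
    norm_num
  obtain ⟨χ₁, χ₂, i₁, i₂, hne, hsum, l₁, l₂, j₁, j₂, hm, hz, hβ, hrat⟩ := (hd lam h1 h2 hρ).two hn
  rw [card_UU_eq h k, hN, Nat.cast_pow] at hm
  rw [← H4.charDegree_irr_cast i₁, ← H4.charDegree_irr_cast i₂] at hz
  obtain ⟨e, he, hb, hpar, hr0⟩ := ratio hp (H4.charDegree_pos i₁) (H4.charDegree_pos i₂) j₁ j₂ hm hz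
  have hs1 : f.sig (fun g => (lam g : ℂ)) ρ 1 = ρ 1 := by simp [sig]
  rw [hs1] at hβ
  have hdeg : (charDegree χ₁ + charDegree χ₂) * gl (Nat.card F) k =
      pp (Nat.card F) a.tp m k * charDegree ρ := by
    rw [← H4.charDegree_add (H3.IsIrrCharacter_isCharacter i₁) (H3.IsIrrCharacter_isCharacter i₂),
      ← hsum]
    change charDegree (f.hc _ _) * _ = _
    rw [hc_deg h3 h4, ← index_P ha h k,
      H4.charDegree_eq_of_apply_one (a := fun g => (lam g : ℂ)) (n := 1) (by simp)]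
    ring
  have hR : (∀ g, lam g = 1 ∨ lam g = -1) → RatF ρ →
      (e ≠ 0 → e % 2 = N % 2) ∧ (e ≠ 0 ∨ Even N → RatF χ₁ ∧ RatF χ₂) := by
    intro q1 q2
    obtain ⟨q3, q4⟩ := hrat (fun g γ => by
      simp only [sig, map_mul, ratC_sign (q1 _) γ, q2 _ γ])
    refine ⟨hpar q3, fun q5 => q4 ?_⟩
    by_cases h0 : e = 0
    · exact Or.inl (hr0 h0 (q5.resolve_left (fun h => h h0)))
    · refine Or.inr (fun q6 => ?_)
      rw [← H4.charDegree_irr_cast i₁, ← H4.charDegree_irr_cast i₂, Nat.cast_inj] at q6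
      have q7 : 1 < p ^ e := Nat.one_lt_pow h0 hp.one_lt
      have q8 := H4.charDegree_pos i₂
      rcases he with he | he <;> rw [q6] at he <;> nlinarith
  rcases he with he | he
  · exact ⟨χ₁, χ₂, e, l₁ + l₂, i₁, i₂, hne, hsum, he, by rw [← hdeg, he]; ring, hb, hβ, hR⟩
  · exact ⟨χ₂, χ₁, e, l₁ + l₂, i₂, i₁, hne.symm, by rw [add_comm]; exact hsum, he,
      by rw [← hdeg, he]; ring, hb, hβ,
      fun q1 q2 => ⟨(hR q1 q2).1, fun q3 => ((hR q1 q2).2 q3).symm⟩⟩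

/-- the splitting step in rank one -/
theorem step3one (ha : a.Aniso) {m : ℕ} (h : St f m a) (lam : GL (Fin 1) F →* ℂˣ)
    (h1 : ∀ g, lam (itr g) = lam g) (h2 : lam (scal (Fin 1) (eps F sy)) = 1) {ρ : f.O → ℂ}
    (hρ : IsIrrCharacter _ ρ) (hf : f.Free (fun g => (lam g : ℂ)) ρ) {p N : ℕ} (hp : p.Prime)
    (hN : Nat.card F ^ (2 * m) * a.tp = p ^ N) :
    ∃ (χ₁ χ₂ : (f.hyp (Fin 1)).O → ℂ) (e : ℕ) (β : ℂ), IsIrrCharacter _ χ₁ ∧
      IsIrrCharacter _ χ₂ ∧ χ₁ ≠ χ₂ ∧ f.hc (fun g => (lam g : ℂ)) ρ = χ₁ + χ₂ ∧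
      charDegree χ₁ = p ^ e * charDegree χ₂ ∧
      (p ^ e + 1) * charDegree χ₂ * (Nat.card F - 1) =
        (Nat.card F ^ (m + 1) - 1) * (Nat.card F ^ m * a.tp + 1) * charDegree ρ ∧
      β ^ 2 * (p : ℂ) ^ e = (p : ℂ) ^ N * ((p : ℂ) ^ e - 1) ^ 2 ∧
      β * ρ 1 = ∑ᶠ c : Fˣ, ∑ᶠ v : {v : V // kap F sy * c + f.Q v = 0},
        (lam (scal (Fin 1) c) : ℂ) * ρ (f.tvel v (c⁻¹ : Fˣ)) ∧
      ((∀ g, lam g = 1 ∨ lam g = -1) → RatF ρ →
        (e ≠ 0 → e % 2 = N % 2) ∧ (e ≠ 0 ∨ Even N → RatF χ₁ ∧ RatF χ₂)) := by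
  obtain ⟨χ₁, χ₂, e, β, i₁, i₂, q1, q2, q3, q4, q5, q6, q7⟩ := step3 ha h one_pos lam (cusp1 _) h1 h2
    hρ hf hp (N := N) (by simpa [uu] using hN)
  rw [tau_sum (hd lam h1 h2 hρ)] at q6
  exact ⟨χ₁, χ₂, e, β, i₁, i₂, q1, q2, q3, by simpa [gl, pp] using q4, q5, q6, q7⟩

end Cfsg.Agent.DG.Fm
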