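import Cfsg.Agent.Lib.DG.SpS
import Cfsg.Agent.Lib.DG.OrS
import Cfsg.Agent.Lib.DG.NT

/-!
# Supply of degrees for the final case analysis
-/

set_option autoImplicit false

open scoped ComplexConjugate Matrix
open Module Cfsg

namespace Cfsg.Agent.DG

theorem cpl_of_all {G : Type*} [Group G] {d : ℕ} (hd : IsDeg G d)
    (h : ∀ r : ℕ, r.Prime → r ∣ Nat.card G → r ∣ d) : Cpl G :=
  fun r s hr hs _ h1 h2 => ⟨d, hd, h r hr h1, h s hs h2⟩

theorem mem_of_dvd_pow {r N e : ℕ} (hr : r.Prime) (L : List ℕ) (hL : ∀ p ∈ L, p.Prime)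
    (hN : N ∣ L.prod ^ e) (h : r ∣ N) : r ∈ L := by
  have h1 : r ∣ L.prod := hr.dvd_of_dvd_pow (h.trans hN)
  obtain ⟨p, hp, h2⟩ := (Prime.dvd_prod_iff hr.prime).mp h1
  rwa [(Nat.prime_dvd_prime_iff_eq hr (hL p hp)).mp h2]

theorem cpl_list {G : Type*} [Group G] (L Ds : List ℕ)
    (hP : ∀ r : ℕ, r.Prime → r ∣ Nat.card G → r ∈ L)
    (hD : ∀ D ∈ Ds, ∃ d, IsDeg G d ∧ D ∣ d)
    (hc : ∀ r ∈ L, ∀ s ∈ L, r ≠ s → ∃ D ∈ Ds, r ∣ D ∧ s ∣ D) : Cpl G := by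
  intro r s hr hs hrs h1 h2
  obtain ⟨D, hD1, h3, h4⟩ := hc r (hP r hr h1) s (hP s hs h2) hrs
  obtain ⟨d, hd, h5⟩ := hD D hD1
  exact ⟨d, hd, h3.trans h5, h4.trans h5⟩

theorem crude {c e d D : ℕ} (he : e ≠ 0) (hc : c ∣ e) (h : e * D ∣ c * d) : D ∣ d := by
  obtain ⟨x, rfl⟩ := hc
  have hc0 : 0 < c := Nat.pos_of_ne_zero (fun h0 => he (by simp [h0]))
  rw [mul_assoc] at h
  exact (Dvd.intro_left x rfl).trans (Nat.dvd_of_mul_dvd_mul_left hc0 h)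

theorem crude_odd {c d D : ℕ} (hc : c ∣ 4) (hD : D.Coprime 4) (h : D ∣ c * d) : D ∣ d :=
  (hD.coprime_dvd_right hc).dvd_of_dvd_mul_left h

theorem card_ps_dvd (G : Type*) [Group G] : Nat.card (PS G) ∣ Nat.card G :=
  Subgroup.card_quotient_dvd_card _

theorem card_po_dvd (G : Type*) [Group G] : Nat.card (PO G) ∣ Nat.card G :=
  (Subgroup.card_quotient_dvd_card _).trans (Subgroup.card_subgroup_dvd_card _)

theorem sub_one_dvd_pp (q t : ℕ) {n : ℕ} (i : ℕ) (hn : i < n) : q ^ (i + 1) - 1 ∣ pp q t 0 n := by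
  refine Dvd.dvd.trans ?_ (Finset.dvd_prod_of_mem _ (Finset.mem_range.mpr hn))
  simp

theorem two_dvd_pp {q : ℕ} (t : ℕ) {n : ℕ} (hn : 0 < n) : 2 ∣ q ∨ 2 ∣ pp q t 0 n := by
  rcases Nat.even_or_odd q with h | h
  · exact Or.inl h.two_dvd
  · refine Or.inr (Dvd.dvd.trans ?_ (sub_one_dvd_pp q t 0 hn))
    obtain ⟨x, rfl⟩ := h
    simp

section field

variable {F : Type} [Field F] [Finite F]

theorem two_le_q : 2 ≤ Nat.card F := Finite.one_lt_card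

theorem q_primePow : IsPrimePow (Nat.card F) := by
  have := Fintype.ofFinite F
  rw [Nat.card_eq_fintype_card]
  exact Fintype.isPrimePow_card_of_field

theorem four_dvd_q (h : Even (Nat.card F)) (h2 : Nat.card F ≠ 2) : 4 ∣ Nat.card F := by
  obtain ⟨p, k, hp, hk, e⟩ := (q_primePow (F := F))
  have hp' := hp.nat_prime
  have : p = 2 := ((Nat.prime_dvd_prime_iff_eq Nat.prime_two hp').mp
    (Nat.prime_two.dvd_of_dvd_pow (e ▸ h.two_dvd))).symm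
  subst this
  rw [← e] at h2 ⊢
  have : 2 ≤ k := by
    by_contra hk2
    obtain rfl : k = 1 := by omega
    simp at h2
  exact pow_dvd_pow 2 this

theorem odd_q_of_two_ne (h : (2 : F) ≠ 0) : Odd (Nat.card F) := by
  have := Fintype.ofFinite F
  rw [Nat.card_eq_fintype_card]
  refine FiniteField.odd_card_of_char_ne_two (fun hc => h ?_) |> Nat.odd_iff.mpr
  exact_mod_cast (ringChar.spec F 2).mpr (by rw [hc])

end field

namespace Fm

variable {F V V' : Type} [Field F] [Finite F] [AddCommGroup V] [Module F V]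
  [Finite V] [AddCommGroup V'] [Module F V'] [Finite V']

theorem dirC {f : Fm true F V} {n : ℕ} (h : St f n (zeroFm true F)) {χ : f.O → ℂ}
    (hχ : IsIrrCharacter _ χ) (hs : f.Sg χ 1) :
    IsDeg (PS ((zeroFm true F).hyp (Fin n)).O) (charDegree χ) := by
  obtain ⟨e⟩ := h.grp (St.refl _ n)
  obtain ⟨e'⟩ := ps_equiv e
  exact isDeg_of_equiv e' (isDeg_sp hχ hs)

theorem supC {f : Fm true F V} {m k n : ℕ} (hn : m + k = n) (h : St f m (zeroFm true F))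
    (hk : 0 < k) {π : GL (Fin k) F → ℂ} {s : ℂ} (hπ : GC π s) {ρ : f.O → ℂ}
    (hρ : IsIrrCharacter _ ρ) (hf : f.Free π ρ) {s' : ℂ} (hs : f.Sg ρ s') (hss : s * s' = 1) :
    ∃ d, IsDeg (PS ((zeroFm true F).hyp (Fin n)).O) d ∧
      DD (Nat.card F) (Nat.card F) m k * charDegree ρ ∣ d := by
  obtain ⟨h1, h2, h3⟩ := step1 (zero_aniso true) h hk hπ hρ hf
  rw [zero_tp_true] at h2
  exact ⟨_, dirC (hn ▸ h.hyp k) h1 (hss ▸ h3 s' hs), h2⟩

theorem dirO {f : Fm false F V} {a : Fm false F V'} {n : ℕ} (h : St f n a) (hn : 3 ≤ n)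
    {χ : f.O → ℂ} (hχ : IsIrrCharacter _ χ) (hs : f.Sg χ 1 ∨ f.neg1 ∉ commutator f.O) :
    ∃ c d, IsDeg (PO (a.hyp (Fin n)).O) d ∧ charDegree χ = c * d ∧ c ∣ 4 ∧
      (Even (Nat.card F) → c ∣ 2) ∧ (f.TF χ → c = 1) := by
  obtain ⟨c, d, h1, h2⟩ := isDeg_om h hn hχ hs
  obtain ⟨e⟩ := h.grp (St.refl _ n)
  obtain ⟨e'⟩ := po_equiv e
  exact ⟨c, d, isDeg_of_equiv e' h1, h2⟩

theorem supO {f : Fm false F V} {a : Fm false F V'} (ha : a.Aniso) {m k n : ℕ} (hn : m + k = n)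
    (h3 : 3 ≤ n) (h : St f m a) (hk : 0 < k) {π : GL (Fin k) F → ℂ} {s : ℂ} (hπ : GC π s)
    {ρ : f.O → ℂ} (hρ : IsIrrCharacter _ ρ) (hf : f.Free π ρ)
    (hs : (s = 1 ∧ f.Sg ρ 1) ∨ (f.hyp (Fin k)).neg1 ∉ commutator (f.hyp (Fin k)).O) :
    ∃ c d, IsDeg (PO (a.hyp (Fin n)).O) d ∧
      DD (Nat.card F) a.tp m k * charDegree ρ ∣ c * d ∧ c ∣ 4 ∧ (Even (Nat.card F) → c ∣ 2) ∧
      (Nat.card F = 2 → 1 ≤ m → f.TF ρ → c = 1) := by
  obtain ⟨h1, h2, h4⟩ := step1 ha h hk hπ hρ hf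
  obtain ⟨c, d, e1, e2, e3, e4, e5⟩ := dirO (hn ▸ h.hyp k) h3 h1
    (hs.imp_left (fun h5 => by simpa [h5.1] using h4 1 h5.2))
  refine ⟨c, d, e1, e2 ▸ h2, e3, e4, fun hq hm ht => e5 ?_⟩
  obtain ⟨b, hb⟩ := h.univ (Or.inl hm) 1 one_ne_zero
  exact hc_tf hq ⟨b, by rw [hb]; exact one_ne_zero⟩ hk (H3.IsIrrCharacter_isCharacter hπ.irr)
    hπ.cusp (H3.IsIrrCharacter_isCharacter hρ) hf ht

theorem irr_one {G : Type*} [Group G] [Finite G] : IsIrrCharacter G (fun _ => 1) :=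
  H3.isIrrCharacter_one

theorem deg_one {G : Type*} [Group G] : charDegree (fun _ : G => (1 : ℂ)) = 1 :=
  H4.charDegree_eq_of_apply_one (by simp)

theorem sg_one {sy : Bool} (f : Fm sy F V) : f.Sg (fun _ => 1) 1 := by simp [Sg]

theorem prC {n r : ℕ} (hr : r.Prime) (h : r ∣ Nat.card (PS ((zeroFm true F).hyp (Fin n)).O)) :
    r ∣ Nat.card F ∨ r ∣ pp (Nat.card F) (Nat.card F) 0 n := by
  have := prime_dvd_card_O (zero_aniso true) (St.refl _ n) hr (h.trans (card_ps_dvd _))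
  rw [zero_card, zero_tp_true] at this
  exact this.resolve_left (fun h1 => hr.one_lt.ne' (Nat.dvd_one.mp h1))

theorem prD {n r : ℕ} (hr : r.Prime) (h : r ∣ Nat.card (PO ((zeroFm false F).hyp (Fin n)).O)) :
    r ∣ Nat.card F ∨ r ∣ pp (Nat.card F) 1 0 n := by
  have := prime_dvd_card_O (zero_aniso false) (St.refl _ n) hr (h.trans (card_po_dvd _))
  rw [zero_card, zero_tp_false] at this
  exact this.resolve_left (fun h1 => hr.one_lt.ne' (Nat.dvd_one.mp h1))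

theorem prB (h2 : (2 : F) ≠ 0) {n r : ℕ} (hn : 0 < n) (hr : r.Prime)
    (h : r ∣ Nat.card (PO ((lineFm h2).hyp (Fin n)).O)) :
    r ∣ Nat.card F ∨ r ∣ pp (Nat.card F) (Nat.card F) 0 n := by
  have := prime_dvd_card_O (line_aniso h2) (St.refl _ n) hr (h.trans (card_po_dvd _))
  rw [line_tp] at this
  rcases this with h1 | h1
  · obtain rfl := (Nat.prime_dvd_prime_iff_eq hr Nat.prime_two).mp (h1.trans (line_card h2))
    exact two_dvd_pp _ hn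
  · exact h1

theorem prE {a b : F} (hab : AnB a b) {n r : ℕ} (hn : 2 ≤ n) (hr : r.Prime)
    (h : r ∣ Nat.card (PO ((planeFm hab).hyp (Fin n)).O)) :
    r ∣ Nat.card F ∨ r ∣ pp (Nat.card F) (Nat.card F ^ 2) 0 n := by
  have := prime_dvd_card_O (plane_aniso hab) (St.refl _ n) hr (h.trans (card_po_dvd _))
  rw [plane_tp] at this
  rcases this with h1 | h1
  · rcases (Nat.Prime.dvd_mul hr).mp (h1.trans (plane_card hab)) with h2 | h2
    · obtain rfl := (Nat.prime_dvd_prime_iff_eq hr Nat.prime_two).mp h2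
      exact two_dvd_pp _ (by omega)
    · refine Or.inr (h2.trans (Dvd.dvd.trans ?_ (sub_one_dvd_pp _ _ 1 (by omega))))
      rw [show 1 + 1 = 2 from rfl, ← one_pow 2, Nat.sq_sub_sq, one_pow]
      exact Dvd.intro _ rfl
  · exact h1

end Fm

end Cfsg.Agent.DG
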