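import Cfsg.Agent.Lib.DG.Step

/-!
# The constituents of the permutation character on singular points (row DG-T2, see notes/DG.md)
-/

set_option autoImplicit false

open scoped ComplexConjugate Matrix
open Module Cfsg

namespace Cfsg.Agent.DG.Fm

variable {sy : Bool} {F V V' : Type} [Field F] [Finite F] [AddCommGroup V] [Module F V]
  [Finite V] [AddCommGroup V'] [Module F V'] [Finite V'] {f : Fm sy F V} {a : Fm sy F V'}

/-- `χ` is invariant under all similarities -/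
def SimInv (f : Fm sy F V) (χ : f.O → ℂ) : Prop :=
  ∀ (s : V ≃ₗ[F] V) (c : Fˣ), (∀ x, f.Q (s x) = c * f.Q x) →
    (∀ x y, f.B (s x) (s y) = c * f.B x y) →
    ∀ g g' : f.O, (∀ x, g'.1 (s x) = s (g.1 x)) → χ g' = χ g

theorem hc_one : f.hc (fun _ : GL (Fin 1) F => 1) (fun _ => 1) =
    ind (f.P (Fin 1)) (fun _ => 1) := by
  rw [hc]; congr 1; funext g; simp [sig]

theorem ip_hc_one : ip (f.hc (fun _ : GL (Fin 1) F => 1) (fun _ => 1)) (fun _ => 1) = 1 := by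
  rw [hc_one, ip_ind _ _ (H3.IsClassFunction_const 1), ip_self H3.isIrrCharacter_one]

theorem hc_one_char : IsCharacter _ (f.hc (fun _ : GL (Fin 1) F => 1) (fun _ => 1)) :=
  hc_char H3.isCharacter_one H3.isCharacter_one

theorem hc_one_sg : (f.hyp (Fin 1)).Sg (f.hc (fun _ : GL (Fin 1) F => 1) (fun _ => 1)) 1 := by
  simpa using hc_sg (f := f) (π := fun _ : GL (Fin 1) F => 1) (ρ := fun _ => 1) (s := 1) (s' := 1)
    (by simp) (by simp [Sg])

theorem memP1 {g : (f.hyp (Fin 1)).O} {x : Fin 1 → F} (h : g.1 (1, 0, 0) = (x, 0, 0)) :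
    g ∈ f.P (Fin 1) :=
  ⟨_, (ts_std f).res_of_stab (g := g) fun y => ⟨y 0 • x, by
    have : ((y, 0, 0) : (Fin 1 → F) × (Fin 1 → F) × V) = y 0 • (1, 0, 0) := by
      simp [funext_iff, Fin.forall_fin_one]
    change g.1 (y, 0, 0) = (y 0 • x, 0, 0)
    rw [this, map_smul, h]
    simp⟩⟩

omit [Finite F] [Finite V] in
theorem e_ne : ((1, 0, 0) : (Fin 1 → F) × (Fin 1 → F) × V) ≠ 0 := by simp

omit [Finite F] [Finite V] in
theorem e_Q : (f.hyp (Fin 1)).Q (1, 0, 0) = 0 := by simp [hyp_Q, Q_zero]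

theorem q_pos : 1 < Nat.card F := Finite.one_lt_card
/-- rank two -/
theorem rank2 (ha : a.Aniso) : ∃ χ : (a.hyp (Fin 1)).O → ℂ, IsIrrCharacter _ χ ∧
    charDegree χ = a.tp ∧ (a.hyp (Fin 1)).Sg χ 1 ∧ (a.hyp (Fin 1)).FreeAll χ := by
  have := Fintype.ofFinite (a.hyp (Fin 1)).O
  have h1 := m1 (f := a) H3.isCharacter_one H3.isCharacter_one H3.isCharacter_one
    H3.isCharacter_one (cusp1 _) (freeK_of_aniso ha _ 1 _ one_pos trivial H3.isIrrCharacter_one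
      (cusp1 _))
  have h2 := ip_hc_one (f := a)
  rw [ip_self H3.isIrrCharacter_one, ip_self H3.isIrrCharacter_one, ip_eq] at h1
  rw [ip_eq] at h2
  have h3 := (norm_sub_const hc_one_char H3.isIrrCharacter_one (by rw [h2]; exact one_ne_zero)
    (n := 2) (by rw [h1]; norm_num) (by norm_num)).2
  have h4 := H3.IsCharacter_sub_irr hc_one_char H3.isIrrCharacter_one
    (by rw [h2]; exact one_ne_zero)
  have h5 := sub_add_cancel (a.hc (fun _ : GL (Fin 1) F => 1) (fun _ => 1)) (fun _ => 1)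
  refine ⟨_, H4.isIrr_of_norm_one h4 (by rw [h3]; norm_num), H4.charDegree_eq_of_apply_one ?_,
    Sg.part h4 H3.isCharacter_one (Or.inl rfl) (by rw [h5]; exact hc_one_sg),
    FreeAll.part h4 H3.isCharacter_one (by rw [h5]; exact hc_freeAll)⟩
  have h6 := index_P ha (St.zero a) 1
  have h7 := q_pos (F := F)
  simp only [gl, pp, Finset.prod_range_one, zero_add, pow_one, pow_zero, one_mul] at h6
  rw [mul_comm] at h6
  rw [Pi.sub_apply, hc_one, ind_one, Nat.eq_of_mul_eq_mul_left (by omega) h6]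
  simp

theorem norm_three (ha : a.Aniso) {m : ℕ} (h : St f m a) (hm : 1 ≤ m) :
    ip (f.hc (fun _ : GL (Fin 1) F => 1) (fun _ => 1))
      (f.hc (fun _ : GL (Fin 1) F => 1) (fun _ => 1)) = 3 := by
  classical
  obtain ⟨v, hv0, hv⟩ := h.exists_sing hm
  obtain ⟨s, hs⟩ := trans_sing (f := f.hyp (Fin 1)) e_ne (u' := (0, 0, v)) (by simp [hv0]) e_Q
    (by simp [hyp_Q, hv])
  have hw := wey_not_mem (f := f) (ι := Fin 1)
  have hs' : s ∉ f.P (Fin 1) := fun ⟨b, hb⟩ => hv0 (congrArg (fun t => t.2.2) (hs.symm.trans (hb 1)))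
  have h1 : ∀ p ∈ f.P (Fin 1), ∀ p' ∈ f.P (Fin 1), s ≠ p * f.wey (Fin 1) * p' :=
    fun p hp p' hp' e => one_ne_zero (cell_prop hp hp' 1 (by rw [← e, hs]))
  have h2 : ∀ g ∉ f.P (Fin 1), ∀ p ∈ f.P (Fin 1), ∀ p' ∈ f.P (Fin 1),
      g ≠ p * 1 * p' ∧ 1 ≠ p * g * p' := fun g hg p hp p' hp' =>
    ⟨fun e => hg (e ▸ mul_mem (mul_mem hp (one_mem _)) hp'), fun e => hg (by
      rw [← mul_mem_cancel_left hp, ← mul_mem_cancel_right hp', ← e]; exact one_mem _)⟩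
  have h3 : ∀ g : (f.hyp (Fin 1)).O, mI (f.P (Fin 1)) (fun _ => 1) (fun _ => 1) g /
      Nat.card {h : f.P (Fin 1) // g * h * g⁻¹ ∈ f.P (Fin 1)} = 1 := fun g => by
    have := Fintype.ofFinite (f.P (Fin 1))
    have : Nonempty {h : f.P (Fin 1) // g * h * g⁻¹ ∈ f.P (Fin 1)} := ⟨⟨1, by simp⟩⟩
    rw [div_eq_one_iff_eq (by exact_mod_cast Nat.card_pos.ne'), mI, finsum_eq_sum_of_fintype,
      Nat.card_eq_fintype_card, Fintype.card_subtype, Finset.card_filter]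
    simp [H4.extendByZero_eq_dite, apply_ite]
  rw [hc_one, mackey (H3.IsClassFunction_const 1) (H3.IsClassFunction_const 1)
    {1, f.wey (Fin 1), s} ?_ ?_]
  · have e1 : (1 : (f.hyp (Fin 1)).O) ≠ f.wey (Fin 1) := fun e => hw (e ▸ one_mem _)
    have e2 : (1 : (f.hyp (Fin 1)).O) ≠ s := fun e => hs' (e ▸ one_mem _)
    have e3 : f.wey (Fin 1) ≠ s := fun e => h1 1 (one_mem _) 1 (one_mem _) (by simp [e])
    rw [Finset.sum_insert (by simp [e1, e2]), Finset.sum_pair e3, h3, h3, h3]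
    norm_num
  · intro x hx x' hx' p hp p' hp' e
    simp only [Finset.mem_insert, Finset.mem_singleton] at hx hx'
    rcases hx with rfl | rfl | rfl <;> rcases hx' with rfl | rfl | rfl
    · rfl
    · exact absurd e (h2 _ hw p hp p' hp').1
    · exact absurd e (h2 _ hs' p hp p' hp').1
    · exact absurd e (h2 _ hw p hp p' hp').2
    · rfl
    · exact absurd e (h1 p hp p' hp')
    · exact absurd e (h2 _ hs' p hp p' hp').2
    · exact absurd (by rw [e]; group) (h1 _ (inv_mem hp) _ (inv_mem hp'))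
    · rfl
  · intro g hg
    exfalso
    by_cases h4 : (g.1 (1, 0, 0)).2.1 = 0
    swap
    · obtain ⟨u, hu, p, hp, e⟩ := mem_cell (g := g) (fun x hx => by
        have : ((x, 0, 0) : (Fin 1 → F) × (Fin 1 → F) × V) = x 0 • (1, 0, 0) := by
          simp [funext_iff, Fin.forall_fin_one]
        rw [this, map_smul] at hx
        exact funext fun i => by
          rw [Subsingleton.elim i 0]; exact (smul_eq_zero.mp hx).resolve_right h4)
      exact hg _ (by simp) u (UU_le hu) p hp e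
    obtain ⟨⟨x, y, z⟩, h5⟩ : ∃ t, g.1 (1, 0, 0) = t := ⟨_, rfl⟩
    obtain rfl : y = 0 := by simpa [h5] using h4
    by_cases hz : z = 0
    · exact hg 1 (by simp) g (memP1 (hz ▸ h5)) 1 (one_mem _) (by simp)
    obtain ⟨k, hk⟩ := trans_sing hv0 hz hv (by simpa [h5, hyp_Q, Q_zero] using g.2.1 (1, 0, 0))
    obtain ⟨b, hb⟩ := not_forall.mp (fun h3 => hz (f.nd z h3))
    obtain ⟨C, hC⟩ := exists_UD (f := f) (fun _ : Fin 1 => (-x 0 / f.B z b) • b)
    obtain ⟨u, hu⟩ := exists_uni hC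
    refine hg s (by simp) (u * f.lev (Fin 1) (1, k)) (mul_mem (UU_le hu.mem) (lev_mem _))
      ((u * f.lev (Fin 1) (1, k) * s)⁻¹ * g) (memP1 (x := 1) (inv_mul_app ?_)) (by group)
    rw [h5, mul_app, mul_app, hs, lev_apply, hu]
    simp [hk, hb, funext_iff, Fin.forall_fin_one]

theorem perm_tf {V V' : Type} [AddCommGroup V] [Module F V] [Finite V] [AddCommGroup V']
    [Module F V'] [Finite V'] {f : Fm false F V} {a : Fm false F V'} {m : ℕ} (h : St f m a)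
    (hm : 2 ≤ m ∨ (1 ≤ m ∧ a.Univ)) :
    (f.hyp (Fin 1)).TF (f.hc (fun _ : GL (Fin 1) F => 1) (fun _ => 1)) := by
  rintro μ - ⟨r, ⟨c, hc, hr⟩, hμ⟩
  have := Fintype.ofFinite (f.hyp (Fin 1)).O
  have hm1 : 1 ≤ m := by omega
  rw [hc_one, ind_eq, ← H4.indFun_mul_res _ _ (H3.IsIrrCharacter_isClassFunction
    (H3.isIrrCharacter_linear μ)), ← ind_eq, ← ind_eq]
  refine mackey_zero fun g => ?_
  obtain ⟨⟨x, y, z⟩, h5⟩ : ∃ t, g⁻¹.1 (1, 0, 0) = t := ⟨_, rfl⟩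
  obtain ⟨x', z', h1, h2⟩ : ∃ (x' : Fin 1 → F) (z' : V), f.Q z' = (f.hyp (Fin 1)).Q c ∧
      y ⬝ᵥ x' + f.B z z' = 0 := by
    obtain ⟨z', hz'⟩ := h.univ (Or.inl hm1) _ hc
    by_cases hy : y 0 = 0
    swap
    · exact ⟨fun _ => -f.B z z' / y 0, z', hz', by simp [dotProduct]; field_simp; ring⟩
    by_cases hz : z = 0
    · exact ⟨0, z', hz', by simp [hz]⟩
    obtain ⟨k, rfl⟩ := Nat.exists_eq_add_of_le' hm1
    obtain ⟨i⟩ := h.split
    obtain ⟨t, ht⟩ := (St.refl a k).univ (hm.imp (by omega) And.right) _ hc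
    obtain ⟨s, hs⟩ := trans_sing (f := (a.hyp (Fin k)).hyp (Fin 1)) e_ne (u' := i.e z)
      (by simpa using hz) e_Q (by
        have h9 := g⁻¹.2.1 (1, 0, 0)
        rw [h5] at h9
        rw [i.hQ]
        simpa [hyp_Q, Q_zero, dotProduct, hy] using h9)
    refine ⟨0, i.e.symm (s.1 (0, 0, t)), ?_, ?_⟩
    · rw [← i.hQ, i.e.apply_symm_apply, s.2.1, ← ht]; simp [hyp_Q]
    · rw [← i.hB, i.e.apply_symm_apply, ← hs, s.2.2]; simp [hyp_B]
  have h3 : (f.hyp (Fin 1)).Q c = (f.hyp (Fin 1)).Q (x', 0, z') := by rw [← h1]; simp [hyp_Q]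
  obtain ⟨r', hr'⟩ := exists_refl (h3 ▸ hc)
  have h4 : r' ∈ f.P (Fin 1) := memP1 (x := 1) (by rw [hr']; simp [hyp_B])
  have h6 : g * r' * g⁻¹ ∈ f.P (Fin 1) := memP1 (x := 1) (by
    rw [mul_app, mul_app, hr', ← app_inv g (1, 0, 0), h5]
    simp [hyp_B, eps, h2])
  have := Fintype.ofFinite (f.P (Fin 1))
  rw [mI, finsum_eq_sum_of_fintype]
  have h7 := Equiv.sum_comp (Equiv.mulLeft (⟨r', h4⟩ : f.P (Fin 1))) (fun h : f.P (Fin 1) =>
    1 * (μ h : ℂ) * conj (extendByZero (f.P (Fin 1)) (fun _ => 1) (g * h * g⁻¹)))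
  have h8 : ∀ h : (f.hyp (Fin 1)).O, extendByZero (f.P (Fin 1)) (fun _ => 1) (g * (r' * h) * g⁻¹) =
      extendByZero (f.P (Fin 1)) (fun _ => 1) (g * h * g⁻¹) := fun h => by
    rw [show g * (r' * h) * g⁻¹ = g * r' * g⁻¹ * (g * h * g⁻¹) by group]
    simp only [H4.extendByZero_eq_dite, dite_eq_ite]
    rw [mul_mem_cancel_left h6]
  simp only [Equiv.coe_mulLeft, Subgroup.coe_mul, h8] at h7
  simp only [map_mul, Units.val_mul, one_mul, mul_assoc,
    ← Finset.mul_sum, ← lin_refl_eq μ hc h3 hr hr'] at h7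
  simp only [one_mul, mul_assoc]
  exact (mul_eq_zero.mp (by linear_combination h7)).resolve_left
    (sub_ne_zero.mpr (fun e : (μ r : ℂ) = 1 => hμ (Units.ext e)))

omit [Finite F] in
theorem exists_simAut (s : V ≃ₗ[F] V) (c : Fˣ) (hQ : ∀ x, f.Q (s x) = c * f.Q x)
    (hB : ∀ x y, f.B (s x) (s y) = c * f.B x y) :
    ∃ φ : f.O ≃* f.O, ∀ g x, (φ g).1 (s x) = s (g.1 x) := by
  let φ : f.O →* f.O :=
    { toFun := fun g => ⟨(s.symm.trans g.1).trans s, fun x => by simp [hQ, g.2.1, ← hQ (s.symm x)],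
        fun x y => by simp [hB, g.2.2, ← hB (s.symm x) (s.symm y)]⟩
      map_one' := by ext x; simp
      map_mul' := fun g h => by ext x; simp }
  have h1 : ∀ g x, (φ g).1 (s x) = s (g.1 x) := fun g x => by simp [φ]
  exact ⟨MulEquiv.ofBijective φ (Finite.injective_iff_bijective.mp fun g g' e =>
    O_ext fun x => s.injective (by rw [← h1, ← h1, e])), h1⟩
theorem perm_sim : (f.hyp (Fin 1)).SimInv (f.hc (fun _ : GL (Fin 1) F => 1) (fun _ => 1)) := by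
  classical
  intro s c hQ hB g g' hg
  have := Fintype.ofFinite (f.hyp (Fin 1)).O
  obtain ⟨t, ht⟩ := trans_sing (f := f.hyp (Fin 1)) (u := s (1, 0, 0)) (by simp) e_ne
    (by rw [hQ, e_Q, mul_zero]) e_Q
  obtain ⟨φ, hφ⟩ := exists_simAut (s.trans t.1) c (fun x => (t.2.1 _).trans (hQ x))
    (fun x y => (t.2.2 _ _).trans (hB x y))
  simp only [LinearEquiv.trans_apply] at hφ
  have h1 : φ g = t * g' * t⁻¹ := O_ext fun x => by
    obtain ⟨y, rfl⟩ := (s.trans t.1).surjective x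
    rw [LinearEquiv.trans_apply, hφ, mul_app, mul_app, inv_app, hg]
  have h2 : ∀ (y : Fin 1 → F), t.1 (s (y, 0, 0)) = (y, 0, 0) := fun y => by
    have : ((y, 0, 0) : (Fin 1 → F) × (Fin 1 → F) × V) = y 0 • (1, 0, 0) := by
      simp [funext_iff, Fin.forall_fin_one]
    rw [this, map_smul, map_smul, ht]
  have h3 : ∀ x, φ x ∈ f.P (Fin 1) ↔ x ∈ f.P (Fin 1) := fun x =>
    ⟨fun ⟨b, hb⟩ => ⟨b, fun y => s.injective (t.1.injective (by rw [← hφ, h2, h2, hb]))⟩,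
      fun ⟨b, hb⟩ => ⟨b, fun y => by rw [← h2 y, hφ, hb, h2]⟩⟩
  rw [← H3.IsCharacter_isClassFunction hc_one_char g' t, ← h1, hc_one, ind_eq,
    H4.indFun_apply', H4.indFun_apply', ← Equiv.sum_comp φ.toEquiv]
  simp [H4.extendByZero_eq_dite, ← h3 (_ * g * _)]

theorem swap_irr {G : Type*} [Group G] [Finite G] {a b c d : G → ℂ} (ha : IsIrrCharacter G a)
    (hb : IsIrrCharacter G b) (hc : IsIrrCharacter G c) (hd : IsIrrCharacter G d)
    (h : a + b = c + d) : a = c ∨ a = d := by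
  have := Fintype.ofFinite G
  by_contra! h1
  have h8 := congrArg (classInner a) h
  rw [H3.classInner_add_right, H3.classInner_add_right,
    H3.IsIrrCharacter_classInner_of_ne ha hc h1.1, H3.IsIrrCharacter_classInner_of_ne ha hd h1.2,
    H3.IsIrrCharacter_classInner_self ha] at h8
  obtain ⟨n, hn⟩ := H3.IsCharacter_classInner (H3.IsIrrCharacter_isCharacter ha)
    (H3.IsIrrCharacter_isCharacter hb)
  rw [hn] at h8
  norm_cast at h8
  omega

theorem sum_units_card : ∑ᶠ c : Fˣ, ∑ᶠ _ : {v : V // kap F sy * c + f.Q v = 0}, (1 : ℂ) * 1 =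
    Nat.card (f.UU (Fin 1)) - f.NQ 0 := by
  classical
  have := Fintype.ofFinite F
  have := Fintype.ofFinite V
  have h1 : ∑ c : F, Nat.card {v : V // kap F sy * c + f.Q v = 0} = Nat.card (f.UU (Fin 1)) := by
    rw [card_UU]
    cases sy
    · rw [← Nat.card_congr (Equiv.sigmaFiberEquiv (fun v => -f.Q v)), Nat.card_sigma]
      simp [kap, neg_eq_iff_add_eq_zero, add_comm]
    · simp [kap, f.qz rfl, mul_comm]
  rw [← h1, Fintype.sum_eq_add_sum_subtype_ne _ 0, ← Equiv.sum_comp unitsEquivNeZero]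
  simp [finsum_eq_sum_of_fintype, NQ]
/-- rank three -/
theorem rank3 (ha : a.Aniso) {m : ℕ} (h : St f m a) (hm : 1 ≤ m) :
    ∃ χ₁ χ₂ : (f.hyp (Fin 1)).O → ℂ, IsIrrCharacter _ χ₁ ∧ IsIrrCharacter _ χ₂ ∧
      IsD1 (Nat.card F) a.tp (m + 1) (charDegree χ₁) ∧
      IsD2 (Nat.card F) a.tp (m + 1) (charDegree χ₂) ∧
      (f.hyp (Fin 1)).Sg χ₁ 1 ∧ (f.hyp (Fin 1)).Sg χ₂ 1 ∧
      (f.hyp (Fin 1)).FreeAll χ₁ ∧ (f.hyp (Fin 1)).FreeAll χ₂ ∧
      ((f.hyp (Fin 1)).TF (f.hc (fun _ : GL (Fin 1) F => 1) (fun _ => 1)) →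
        (f.hyp (Fin 1)).TF χ₁ ∧ (f.hyp (Fin 1)).TF χ₂) ∧
      (charDegree χ₁ ≠ charDegree χ₂ → (f.hyp (Fin 1)).SimInv χ₁) := by
  obtain ⟨k, rfl⟩ := Nat.exists_eq_add_of_le' hm
  have h1 := hd (f := f) (ι := Fin 1) 1 (fun _ => rfl) rfl H3.isIrrCharacter_one
  have h2 := tau_sum h1
  have h3 : f.sig (fun g => ((1 : GL (Fin 1) F →* ℂˣ) g : ℂ)) (fun _ => 1) = fun _ => 1 := by
    funext g; simp [sig]
  rw [h3] at h1 h2
  simp only [MonoidHom.one_apply, Units.val_one] at h2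
  have hq := q_pos (F := F)
  have ht : 0 < a.tp := Nat.mul_pos Nat.card_pos (by split_ifs <;> omega)
  have hp : ∀ n, 1 ≤ Nat.card F ^ n := fun n => Nat.one_le_pow _ _ (by omega)
  have h4 := congrArg (Nat.cast : ℕ → ℂ) (index_P ha h 1)
  have h5 := congrArg (Nat.cast : ℕ → ℂ) (card_UU_eq h 1)
  have h6 := congrArg (Nat.cast : ℕ → ℂ) (card_sing ha h)
  rw [sum_units_card, h6] at h2
  simp only [gl, pp, uu, Finset.prod_range_one, zero_add, add_zero, pow_one, Nat.cast_mul,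
    Nat.cast_sub (hp _), Nat.cast_sub hq.le, Nat.cast_add, Nat.cast_pow, Nat.cast_one,
    add_tsub_cancel_right, tsub_self, mul_zero, Nat.zero_div, pow_zero, mul_one] at h2 h4 h5
  have k1 : (Nat.card F : ℂ) - 1 ≠ 0 := sub_ne_zero.mpr (by exact_mod_cast hq.ne')
  have k2 : (Nat.card F : ℂ) + a.tp ≠ 0 := by exact_mod_cast (by omega)
  have k3 : (Nat.card F : ℂ) ≠ 0 := by exact_mod_cast (by omega)
  have k4 : (a.tp : ℂ) ≠ 0 := by exact_mod_cast ht.ne'
  have k5 : ∀ n, (Nat.card F : ℂ) ^ (n + 1) - 1 ≠ 0 := fun n => sub_ne_zero.mpr (by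
    exact_mod_cast (Nat.one_lt_pow n.succ_ne_zero hq).ne')
  have k6 : ∀ n, (Nat.card F : ℂ) ^ n * a.tp + 1 ≠ 0 := fun n => by
    exact_mod_cast Nat.succ_ne_zero (Nat.card F ^ n * a.tp)
  rw [← eq_div_iff k1] at h4
  obtain ⟨χ₁, χ₂, i1, i2, -, -, -, e, d1, d2⟩ := h1.three (by
      rw [← hc_one]; exact norm_three ha h hm)
    (t₁ := -(Nat.card F : ℂ) ^ (k + 1)) (t₂ := (Nat.card F : ℂ) ^ k * a.tp)
    (e₁ := Nat.card F * a.tp * ((Nat.card F : ℂ) ^ (k + 1 + 1) - 1) *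
      ((Nat.card F : ℂ) ^ k * a.tp + 1) / ((Nat.card F - 1) * (Nat.card F + a.tp)))
    (e₂ := Nat.card F ^ 2 * ((Nat.card F : ℂ) ^ (k + 1) - 1) *
      ((Nat.card F : ℂ) ^ (k + 1) * a.tp + 1) / ((Nat.card F - 1) * (Nat.card F + a.tp)))
    (fun e => mul_ne_zero (pow_ne_zero k k3) k2 (by linear_combination -e))
    (div_ne_zero (mul_ne_zero (mul_ne_zero (mul_ne_zero k3 k4) (k5 _)) (k6 _)) (mul_ne_zero k1 k2))
    (div_ne_zero (mul_ne_zero (mul_ne_zero (pow_ne_zero 2 k3) (k5 _)) (k6 _)) (mul_ne_zero k1 k2))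
    (by rw [h4]; field_simp; ring) (by rw [h5]; field_simp; ring)
    (by rw [h4, h5]; field_simp; ring) (by rw [h2, h4, h5]; field_simp; ring)
  rw [← hc_one] at e
  have c1 := H3.IsIrrCharacter_isCharacter i1
  have c2 := H3.IsIrrCharacter_isCharacter i2
  have c3 := H3.IsCharacter_add H3.isCharacter_one c2
  have c4 := H3.IsCharacter_add H3.isCharacter_one c1
  have e1 : χ₁ + ((fun _ => 1) + χ₂) = f.hc (fun _ : GL (Fin 1) F => 1) (fun _ => 1) := by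
    rw [e]; abel
  have e2 : χ₂ + ((fun _ => 1) + χ₁) = f.hc (fun _ : GL (Fin 1) F => 1) (fun _ => 1) := by
    rw [e]; abel
  rw [← H4.charDegree_cast c1, eq_div_iff (mul_ne_zero k1 k2)] at d1
  rw [← H4.charDegree_cast c2, eq_div_iff (mul_ne_zero k1 k2)] at d2
  refine ⟨χ₁, χ₂, i1, i2, ?_, ?_, Sg.part c1 c3 (Or.inl rfl) (e1 ▸ hc_one_sg),
    Sg.part c2 c4 (Or.inl rfl) (e2 ▸ hc_one_sg), FreeAll.part c1 c3 (e1 ▸ hc_freeAll),
    FreeAll.part c2 c4 (e2 ▸ hc_freeAll),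
    fun h7 => ⟨TF.part c1 c3 (e1 ▸ h7), TF.part c2 c4 (e2 ▸ h7)⟩, fun h7 s c hQ hB g g' hg => ?_⟩
  · refine Nat.cast_injective (R := ℂ) ?_
    push_cast [Nat.cast_sub (hp _), Nat.cast_sub hq.le]
    exact d1
  · refine Nat.cast_injective (R := ℂ) ?_
    push_cast [Nat.cast_sub (hp _), Nat.cast_sub hq.le]
    exact d2
  · obtain ⟨φ, hφ⟩ := exists_simAut s c hQ hB
    obtain rfl : φ g = g' := O_ext fun x => by
      obtain ⟨y, rfl⟩ := s.surjective x
      rw [hφ, hg]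
    have h8 : (fun x => χ₁ (φ x)) + (fun x => χ₂ (φ x)) = χ₁ + χ₂ := funext fun x => by
      have := perm_sim (f := f) s c hQ hB x (φ x) (hφ x)
      simp only [e, Pi.add_apply] at this ⊢
      linear_combination this
    rcases swap_irr (H4.isIrr_comp_equiv φ i1) (H4.isIrr_comp_equiv φ i2) i1 i2 h8 with h9 | h9
    · exact congrFun h9 g
    · exact absurd (by rw [← h9]; simp [charDegree]) h7

end Cfsg.Agent.DG.Fm
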